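import Mathlib

/-!
# Element orders and fusion of powers in the alternating groups of degree six and seven
-/

set_option autoImplicit false
set_option maxRecDepth 100000
set_option linter.style.haveILetI false

namespace CfsgLib.SLThreeResidual.Alt

open Equiv Equiv.Perm

variable {n : ℕ}

/-- Orders of the even permutations of at most seven points. -/
lemma order_cases (hn : n ≤ 7) (x : Perm (Fin n)) (hx : Perm.sign x = 1) :
    x ^ 3 = 1 ∨ x ^ 4 = 1 ∨ x ^ 5 = 1 ∨ (n = 7 ∧ (x ^ 6 = 1 ∨ x ^ 7 = 1)) := by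
  have hsum : x.cycleType.sum ≤ n := by
    rw [Equiv.Perm.sum_cycleType]
    simpa using Finset.card_le_univ x.support
  have hge : ∀ a ∈ x.cycleType, 2 ≤ a := fun a ha => Equiv.Perm.two_le_of_mem_cycleType ha
  have key : ∀ k : ℕ, (∀ a ∈ x.cycleType, a ∣ k) → x ^ k = 1 := fun k hk => by
    rw [← orderOf_dvd_iff_pow_eq_one, ← Equiv.Perm.lcm_cycleType]
    exact Multiset.lcm_dvd.2 hk
  have hs : (-1 : ℤˣ) ^ (x.cycleType.sum + Multiset.card x.cycleType) = 1 := by
    rw [← Equiv.Perm.sign_of_cycleType, hx]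
  have heven : Even (x.cycleType.sum + Multiset.card x.cycleType) := by
    rcases Nat.even_or_odd (x.cycleType.sum + Multiset.card x.cycleType) with h | h
    · exact h
    · rw [h.neg_one_pow] at hs; exact absurd hs (by decide)
  have hcard : Multiset.card x.cycleType • 2 ≤ x.cycleType.sum := Multiset.card_nsmul_le_sum hge
  rw [smul_eq_mul] at hcard
  rcases (show Multiset.card x.cycleType = 0 ∨ Multiset.card x.cycleType = 1 ∨
      Multiset.card x.cycleType = 2 ∨ Multiset.card x.cycleType = 3 by omega) with h | h | h | h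
  · left; apply key; simp [Multiset.card_eq_zero.1 h]
  · obtain ⟨a, ha⟩ := Multiset.card_eq_one.1 h
    rw [ha] at hsum hge heven
    simp only [Multiset.sum_singleton, Multiset.card_singleton, Nat.even_iff] at hsum heven
    have := hge a (Multiset.mem_singleton_self a)
    rcases (show a = 3 ∨ a = 5 ∨ a = 7 by omega) with rfl | rfl | rfl
    · left; apply key; simp [ha]
    · right; right; left; apply key; simp [ha]
    · right; right; right; exact ⟨by omega, Or.inr (key 7 (by simp [ha]))⟩
  · obtain ⟨a, b, hab⟩ := Multiset.card_eq_two.1 h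
    rw [hab] at hsum hge heven
    simp only [Multiset.insert_eq_cons, Multiset.sum_cons, Multiset.sum_singleton, Multiset.card_cons,
      Multiset.card_singleton, Nat.even_iff] at hsum heven
    have h1 := hge a (by simp)
    have h2 := hge b (by simp)
    rcases (show (a = 3 ∧ b = 3) ∨ ((a = 2 ∨ a = 4) ∧ (b = 2 ∨ b = 4)) by omega) with ⟨rfl, rfl⟩ | ⟨ha | ha, hb | hb⟩
    · left; apply key; simp [hab]
    all_goals subst ha; subst hb; right; left; apply key; simp [hab]
  · obtain ⟨a, b, c, habc⟩ := Multiset.card_eq_three.1 h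
    rw [habc] at hsum hge heven
    simp only [Multiset.insert_eq_cons, Multiset.sum_cons, Multiset.sum_singleton, Multiset.card_cons,
      Multiset.card_singleton, Nat.even_iff] at hsum heven
    have h1 := hge a (by simp)
    have h2 := hge b (by simp)
    have h3 := hge c (by simp)
    right; right; right
    refine ⟨by omega, Or.inl (key 6 fun d hd => ?_)⟩
    rw [habc] at hd
    simp only [Multiset.insert_eq_cons, Multiset.mem_cons, Multiset.mem_singleton] at hd
    rcases (show d = 2 ∨ d = 3 by omega) with rfl | rfl <;> norm_num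

/-- An even permutation whose order divides four is inverted by an even permutation. -/
lemma real_two_power (x : alternatingGroup (Fin n)) (h4 : x ^ 4 = 1) :
    ∃ y, y * x * y⁻¹ = x⁻¹ := by
  by_cases h1 : x = 1
  · exact ⟨1, by simp [h1]⟩
  obtain ⟨h, hh⟩ : ∃ h : Perm (Fin n), h * (x : Perm (Fin n)) * h⁻¹ = (x : Perm (Fin n))⁻¹ :=
    isConj_iff.1 ((Equiv.Perm.isConj_iff_cycleType_eq).2 (Equiv.Perm.cycleType_inv _).symm)
  rcases Int.units_eq_one_or (Perm.sign h) with hs | hs
  · exact ⟨⟨h, mem_alternatingGroup.2 hs⟩, Subtype.ext hh⟩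
  -- an even cycle of `x` is an odd permutation commuting with it
  have hx1 : (x : Perm (Fin n)) ≠ 1 := fun e => h1 (Subtype.ext e)
  have hx4 : (x : Perm (Fin n)) ^ 4 = 1 := congrArg Subtype.val h4
  obtain ⟨a, ha⟩ : ∃ a, a ∈ (x : Perm (Fin n)).cycleType :=
    Multiset.exists_mem_of_ne_zero (fun e => hx1 (Equiv.Perm.cycleType_eq_zero.1 e))
  have hdvd : a ∣ 4 := (Equiv.Perm.dvd_of_mem_cycleType ha).trans (orderOf_dvd_of_pow_eq_one hx4)
  have ha2 := Equiv.Perm.two_le_of_mem_cycleType ha
  have haeven : Even a := by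
    have : a ≤ 4 := Nat.le_of_dvd (by norm_num) hdvd
    interval_cases a
    · exact ⟨1, rfl⟩
    · norm_num at hdvd
    · exact ⟨2, rfl⟩
  rw [Equiv.Perm.cycleType_def, Multiset.mem_map] at ha
  obtain ⟨c, hc, hca⟩ := ha
  have hc' : c ∈ (x : Perm (Fin n)).cycleFactorsFinset := hc
  have hcsign : Perm.sign c = -1 := by
    rw [((Equiv.Perm.mem_cycleFactorsFinset_iff.1 hc').1).sign]
    simp only [Function.comp_apply] at hca
    rw [hca, haeven.neg_one_pow]
  have hcomm : Commute c (x : Perm (Fin n)) := Equiv.Perm.self_mem_cycle_factors_commute hc'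
  refine ⟨⟨h * c, mem_alternatingGroup.2 (by rw [map_mul, hs, hcsign]; rfl)⟩, Subtype.ext ?_⟩
  show h * c * (x : Perm (Fin n)) * (h * c)⁻¹ = (x : Perm (Fin n))⁻¹
  rw [← hh, mul_inv_rev, mul_assoc h c, hcomm.eq]
  group

/-- A relation holding for one generator of a Sylow subgroup of prime order holds for all. -/
lemma fusion_of_generator {G : Type*} [Group G] [Finite G] {l : ℕ} [Fact l.Prime]
    (hl : ¬ l ^ 2 ∣ Nat.card G) {x₀ y₀ : G} {m : ℕ} (hx₀ : x₀ ^ l = 1) (hne : x₀ ≠ 1)
    (hy : y₀ * x₀ * y₀⁻¹ = x₀ ^ m) {x : G} (hx : x ^ l = 1) : ∃ y, y * x * y⁻¹ = x ^ m := by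
  by_cases h1 : x = 1
  · exact ⟨1, by simp [h1]⟩
  have hcard : ∀ z : G, z ^ l = 1 → z ≠ 1 → Nat.card (Subgroup.zpowers z) = l ^ (Nat.card G).factorization l := by
    intro z hz hz1
    have ho : orderOf z = l := orderOf_eq_prime hz hz1
    have hdvd : l ∣ Nat.card G := ho ▸ orderOf_dvd_natCard z
    have hf : (Nat.card G).factorization l = 1 := by
      have h0 : 0 < (Nat.card G).factorization l :=
        Nat.Prime.factorization_pos_of_dvd Fact.out Nat.card_pos.ne' hdvd
      have h2 : ¬ 2 ≤ (Nat.card G).factorization l := fun h => hl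
        ((Nat.Prime.pow_dvd_iff_le_factorization Fact.out Nat.card_pos.ne').2 h)
      omega
    rw [hf, pow_one, Nat.card_zpowers, ho]
  obtain ⟨g, hg⟩ := MulAction.exists_smul_eq G (Sylow.ofCard _ (hcard x₀ hx₀ hne)) (Sylow.ofCard _ (hcard x hx h1))
  have hx' : x ∈ ((g • Sylow.ofCard _ (hcard x₀ hx₀ hne) : Sylow l G) : Subgroup G) := by
    rw [hg]; exact Subgroup.mem_zpowers x
  rw [Sylow.coe_subgroup_smul, Subgroup.mem_pointwise_smul_iff_inv_smul_mem] at hx'
  obtain ⟨k, hk⟩ := Subgroup.mem_zpowers_iff.1 hx'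
  refine ⟨g * y₀ * g⁻¹, ?_⟩
  have hxk : x = g * x₀ ^ k * g⁻¹ := by
    simp only [MulAut.smul_def, ← map_inv, MulAut.conj_apply, inv_inv] at hk
    rw [hk]; group
  rw [hxk, conj_pow]
  have h2 : y₀ * x₀ ^ k * y₀⁻¹ = (x₀ ^ k) ^ m := by
    rw [← conj_zpow, hy, ← zpow_natCast, ← zpow_natCast, ← zpow_mul, ← zpow_mul, mul_comm]
  rw [← h2]
  group

theorem card_six : Nat.card (alternatingGroup (Fin 6)) = 360 := by
  have h := two_mul_nat_card_alternatingGroup (α := Fin 6)
  rw [Nat.card_perm, Nat.card_eq_fintype_card (α := Fin 6), Fintype.card_fin,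
    show Nat.factorial 6 = 720 from rfl] at h
  omega

theorem card_seven : Nat.card (alternatingGroup (Fin 7)) = 2520 := by
  have h := two_mul_nat_card_alternatingGroup (α := Fin 7)
  rw [Nat.card_perm, Nat.card_eq_fintype_card (α := Fin 7), Fintype.card_fin,
    show Nat.factorial 7 = 5040 from rfl] at h
  omega

def a6 : alternatingGroup (Fin 6) :=
  ⟨swap 0 1 * swap 1 2 * swap 2 3 * swap 3 4, mem_alternatingGroup.2 (by decide +kernel)⟩

def b6 : alternatingGroup (Fin 6) := ⟨swap 1 4 * swap 2 3, mem_alternatingGroup.2 (by decide +kernel)⟩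

/-- Elements of order five of the alternating group of degree six are inverted. -/
theorem five_six {x : alternatingGroup (Fin 6)} (hx : x ^ 5 = 1) : ∃ y, y * x * y⁻¹ = x ^ 4 := by
  haveI : Fact (5 : ℕ).Prime := ⟨by norm_num⟩
  exact fusion_of_generator (by rw [card_six]; norm_num) (x₀ := a6) (y₀ := b6)
    (by decide +kernel) (by decide +kernel) (by decide +kernel) hx

def a7 : alternatingGroup (Fin 7) :=
  ⟨swap 0 1 * swap 1 2 * swap 2 3 * swap 3 4, mem_alternatingGroup.2 (by decide +kernel)⟩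

def b7 : alternatingGroup (Fin 7) :=
  ⟨swap 1 2 * swap 2 4 * swap 4 3 * swap 5 6, mem_alternatingGroup.2 (by decide +kernel)⟩

/-- Elements of order five of the alternating group of degree seven are fused with their squares. -/
theorem five_seven {x : alternatingGroup (Fin 7)} (hx : x ^ 5 = 1) : ∃ y, y * x * y⁻¹ = x ^ 2 := by
  haveI : Fact (5 : ℕ).Prime := ⟨by norm_num⟩
  exact fusion_of_generator (by rw [card_seven]; norm_num) (x₀ := a7) (y₀ := b7)
    (by decide +kernel) (by decide +kernel) (by decide +kernel) hx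

def c7 : alternatingGroup (Fin 7) :=
  ⟨swap 0 1 * swap 1 2 * swap 2 3 * swap 3 4 * swap 4 5 * swap 5 6, mem_alternatingGroup.2 (by decide +kernel)⟩

def d7 : alternatingGroup (Fin 7) :=
  ⟨swap 1 2 * swap 2 4 * (swap 3 6 * swap 6 5), mem_alternatingGroup.2 (by decide +kernel)⟩

/-- Elements of order seven of the alternating group of degree seven are fused with their squares. -/
theorem seven_seven {x : alternatingGroup (Fin 7)} (hx : x ^ 7 = 1) : ∃ y, y * x * y⁻¹ = x ^ 2 := by
  haveI : Fact (7 : ℕ).Prime := ⟨by norm_num⟩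
  exact fusion_of_generator (by rw [card_seven]; norm_num) (x₀ := c7) (y₀ := d7)
    (by decide +kernel) (by decide +kernel) (by decide +kernel) hx

def u6 : alternatingGroup (Fin 6) := ⟨swap 0 1 * swap 1 2, mem_alternatingGroup.2 (by decide +kernel)⟩

def v6 : alternatingGroup (Fin 6) := ⟨swap 3 4 * swap 4 5, mem_alternatingGroup.2 (by decide +kernel)⟩

def t6 : alternatingGroup (Fin 6) := ⟨swap 1 2 * swap 4 5, mem_alternatingGroup.2 (by decide +kernel)⟩

/-- The three-elements of a Sylow subgroup in degree six. -/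
def three6 (a : Multiplicative (ZMod 3) × Multiplicative (ZMod 3)) : alternatingGroup (Fin 6) :=
  u6 ^ (Multiplicative.toAdd a.1).val * v6 ^ (Multiplicative.toAdd a.2).val

theorem three6_facts :
    (∀ a b, three6 (a * b) = three6 a * three6 b) ∧ (∀ a, three6 a = 1 → a = 1) ∧
      ∀ a, t6 * three6 a * t6⁻¹ = (three6 a)⁻¹ := by
  refine ⟨?_, ?_, ?_⟩ <;> decide +kernel

/-- Elements of order three of the alternating group of degree six are inverted. -/
theorem three_six {x : alternatingGroup (Fin 6)} (hx : x ^ 3 = 1) : ∃ y, y * x * y⁻¹ = x⁻¹ := by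
  haveI : Fact (3 : ℕ).Prime := ⟨Nat.prime_three⟩
  obtain ⟨hmul, hinj, hinv⟩ := three6_facts
  let f : Multiplicative (ZMod 3) × Multiplicative (ZMod 3) →* alternatingGroup (Fin 6) :=
    MonoidHom.mk' three6 hmul
  have hf : Function.Injective f := (injective_iff_map_eq_one f).2 hinj
  have hcard : Nat.card f.range = 3 ^ (Nat.card (alternatingGroup (Fin 6))).factorization 3 := by
    have h9 : (9 * 40 : ℕ).factorization 3 = 2 := by
      rw [show (9 : ℕ) = 3 ^ 2 from rfl, Nat.factorization_mul (by norm_num) (by norm_num),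
        Nat.Prime.factorization_pow Nat.prime_three]
      simp [Nat.factorization_eq_zero_of_not_dvd (show ¬ 3 ∣ 40 by norm_num)]
    rw [← Nat.card_congr (MonoidHom.ofInjective hf).toEquiv, card_six,
      show (360 : ℕ) = 9 * 40 from rfl, h9]
    simp [Nat.card_eq_fintype_card]
  have hpg : IsPGroup 3 (Subgroup.zpowers x) := by
    rintro ⟨z, j, rfl⟩
    refine ⟨1, Subtype.ext ?_⟩
    rw [SubmonoidClass.coe_pow, Subgroup.coe_one, pow_one, ← zpow_natCast, ← zpow_mul, mul_comm,
      zpow_mul, zpow_natCast, hx, one_zpow]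
  obtain ⟨Q, hQ⟩ := hpg.exists_le_sylow
  obtain ⟨g, hg⟩ := MulAction.exists_smul_eq (alternatingGroup (Fin 6)) (Sylow.ofCard _ hcard) Q
  have hx' : x ∈ ((g • Sylow.ofCard _ hcard : Sylow 3 _) : Subgroup (alternatingGroup (Fin 6))) := by
    rw [hg]; exact hQ (Subgroup.mem_zpowers x)
  rw [Sylow.coe_subgroup_smul, Subgroup.mem_pointwise_smul_iff_inv_smul_mem] at hx'
  obtain ⟨a, ha⟩ := (MonoidHom.mem_range (f := f)).1 hx'
  have hxa : x = g * three6 a * g⁻¹ := by
    have ha' : three6 a = g⁻¹ * x * g := by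
      simpa [MulAut.smul_def, f] using ha
    rw [ha']; group
  refine ⟨g * t6 * g⁻¹, ?_⟩
  rw [hxa, show g * t6 * g⁻¹ * (g * three6 a * g⁻¹) * (g * t6 * g⁻¹)⁻¹ =
    g * (t6 * three6 a * t6⁻¹) * g⁻¹ by group, hinv]
  group

end CfsgLib.SLThreeResidual.Alt
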