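import Cfsg.Agent.Lib.Geometric.SLThree.Homology

/-!
# Residual subgroups of the three-dimensional special linear group: common vocabulary
-/

namespace CfsgLib.SLThreeResidual

open Cfsg.Geo Matrix CfsgLib.Geometric

variable {F : Type*} [Field F]

/-- A perfect absolutely irreducible subgroup of `SL₃(F)`, simple modulo scalars. -/
structure Core (P : Subgroup (GL (Fin 3) F)) : Prop where
  le_sl : P ≤ specialLinear (Fin 3) F
  perfect : ⁅P, P⁆ = P
  simple : IsSimpleGroup (P ⧸ (scalars (Fin 3) F).subgroupOf P)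
  nonabelian : ¬ IsMulCommutative (P ⧸ (scalars (Fin 3) F).subgroupOf P)
  absIrred : ActsAbsolutelyIrreducibly (matrixSet P)

/-- `P` modulo its scalars. -/
abbrev Proj (P : Subgroup (GL (Fin 3) F)) : Type _ := P ⧸ (scalars (Fin 3) F).subgroupOf P

lemma core_of_isResidualCore {H P : Subgroup (GL (Fin 3) F)} (hH : H ≤ specialLinear (Fin 3) F)
    (h : IsResidualCore H P) : Core P :=
  ⟨h.le.trans hH, h.perfect, h.simple, h.nonabelian, h.absIrred⟩

/-- `P` is realisable over no proper subfield. -/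
def NoSub (P : Subgroup (GL (Fin 3) F)) : Prop :=
  ∀ F₀ : Subfield F, F₀ ≠ ⊤ → ¬ RealisableOver F₀ (matrixSet P)

/-- `P` fixes a non-degenerate quadratic form. -/
def QuadFix (P : Subgroup (GL (Fin 3) F)) : Prop :=
  ∃ Q : (Fin 3 → F) → F, IsNondegenerateQuadraticForm Q ∧ FixesQuadForm (matrixSet P) Q

/-- `P` fixes a non-degenerate unitary form. -/
def UnitaryFix (P : Subgroup (GL (Fin 3) F)) : Prop :=
  ∃ (σ : F ≃+* F) (f : (Fin 3 → F) → (Fin 3 → F) → F),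
    IsUnitaryForm σ f ∧ FixesForm (matrixSet P) f

/-- All traces are invariant under inversion. -/
def RealTraces (P : Subgroup (GL (Fin 3) F)) : Prop :=
  ∀ g ∈ P, Matrix.trace ((g⁻¹ : GL (Fin 3) F) : Matrix (Fin 3) (Fin 3) F) =
    Matrix.trace (g : Matrix (Fin 3) (Fin 3) F)

/-- No non-trivial transvection lies in `P`. -/
def TvFree (P : Subgroup (GL (Fin 3) F)) : Prop :=
  ∀ (v : Fin 3 → F) (φ : (Fin 3 → F) →ₗ[F] F) (h : φ v = 0),
    tv v φ h ∈ P → v = 0 ∨ φ = 0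

/-- `P` has two different non-trivial transvections with the same centre and axis. -/
def HasRootPair (P : Subgroup (GL (Fin 3) F)) : Prop :=
  ∃ (v : Fin 3 → F) (φ : (Fin 3 → F) →ₗ[F] F) (h : φ v = 0) (c : F) (h' : (c • φ) v = 0),
    v ≠ 0 ∧ φ ≠ 0 ∧ c ≠ 0 ∧ c ≠ 1 ∧ tv v φ h ∈ P ∧ tv v (c • φ) h' ∈ P

/-- In odd characteristic a single transvection gives a root pair. -/
lemma tvFree_or_hasRootPair (h2 : (2 : F) ≠ 0) (P : Subgroup (GL (Fin 3) F)) :
    TvFree P ∨ HasRootPair P := by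
  by_cases hT : TvFree P
  · exact Or.inl hT
  simp only [TvFree, not_forall, not_or] at hT
  obtain ⟨v, φ, h, hm, hv, hφ⟩ := hT
  refine Or.inr ⟨v, φ, h, 2, by simp [h], hv, hφ, h2, fun e => ?_, hm, ?_⟩
  · exact one_ne_zero (α := F) (by linear_combination e)
  · convert mul_mem hm hm using 1
    rw [tv_add]
    exact tv_eq_tv _ _ fun x => by simp [two_mul]

/-- All transvections preserving `f` lie in `P`. -/
def AllFormTv (P : Subgroup (GL (Fin 3) F)) (f : (Fin 3 → F) → (Fin 3 → F) → F) : Prop :=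
  ∀ (v : Fin 3 → F) (φ : (Fin 3 → F) →ₗ[F] F) (h : φ v = 0),
    (∀ x y, f (ap (tv v φ h) x) (ap (tv v φ h) y) = f x y) → tv v φ h ∈ P

/-- Some non-zero multiple of the conjugate of `M` by `B` lies in `P`. -/
def HasProj (P : Subgroup (GL (Fin 3) F)) (B : GL (Fin 3) F) (M : Matrix (Fin 3) (Fin 3) F) :
    Prop :=
  ∃ c : F, ∃ g ∈ P, (g : Matrix (Fin 3) (Fin 3) F) =
    c • ((B : Matrix (Fin 3) (Fin 3) F) * M * ((B⁻¹ : GL (Fin 3) F) : Matrix (Fin 3) (Fin 3) F))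

/-- Properties of the involution with frame `B`: one class of involutions, the traces of the
centraliser on its centre line complement, and the common monomial elements. -/
structure FrameCommon (P : Subgroup (GL (Fin 3) F)) (B t : GL (Fin 3) F) : Prop where
  t_mem : t ∈ P
  t_val : (t : Matrix (Fin 3) (Fin 3) F) =
    (B : Matrix (Fin 3) (Fin 3) F) * !![-1, 0, 0; 0, -1, 0; 0, 0, 1] *
      ((B⁻¹ : GL (Fin 3) F) : Matrix (Fin 3) (Fin 3) F)
  conj : ∀ s ∈ P, s * s = 1 → s ≠ 1 → ∃ h ∈ P, h * s * h⁻¹ = t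
  cent : ∀ g ∈ P, g * t = t * g → ap g (ap B ![0, 0, 1]) = ap B ![0, 0, 1] →
    ∀ x : F, x = Matrix.trace (g : Matrix (Fin 3) (Fin 3) F) - 1 →
      x * (x ^ 2 - 1) * (x ^ 2 - 2) * (x ^ 2 - 4) = 0
  flip : HasProj P B !![1, 0, 0; 0, -1, 0; 0, 0, -1]
  cyc : HasProj P B !![0, 0, 1; 1, 0, 0; 0, 1, 0]
  swap : HasProj P B !![0, 1, 0; 1, 0, 0; 0, 0, -1]

/-- The configuration of a quasi-dihedral Sylow two-subgroup. -/
def SDFrame (P : Subgroup (GL (Fin 3) F)) : Prop :=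
  (3 : F) ≠ 0 ∧ ∃ (B t : GL (Fin 3) F) (a : F), FrameCommon P B t ∧ 2 * a ^ 2 + 1 = 0 ∧
    HasProj P B !![a, a, 0; a, -a, 0; 0, 0, 1] ∧
    HasProj P B !![(2 * a - 1) / 2, 1 / 2, 0; -(1 / 2), (-2 * a - 1) / 2, 0; 0, 0, 1]

/-- The configuration of a wreathed Sylow two-subgroup. -/
def WrFrame (P : Subgroup (GL (Fin 3) F)) : Prop :=
  (3 : F) ≠ 0 ∧ ∃ (B t : GL (Fin 3) F) (i : F), FrameCommon P B t ∧ i ^ 2 + 1 = 0 ∧
    HasProj P B !![i, 0, 0; 0, -i, 0; 0, 0, 1] ∧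
    HasProj P B !![(-1 + i) / 2, (1 + i) / 2, 0; (-1 + i) / 2, (-1 - i) / 2, 0; 0, 0, 1]

end CfsgLib.SLThreeResidual
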