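import Cfsg.Agent.Lib.SLThreeResidual.CongrBase
import Cfsg.Agent.Lib.SLThreeResidual.AltFacts
import Cfsg.Prelude.Def_LieClassical

/-!
# Congruence conditions for the alternating groups of degree six and seven
-/

set_option autoImplicit false
set_option linter.unusedSectionVars false
set_option linter.style.haveILetI false

namespace CfsgLib.SLThreeResidual

open Cfsg.Geo Matrix

variable {F : Type*} [Field F] [Fintype F] {P : Subgroup (GL (Fin 3) F)}

lemma real_of_trivial_scalars (hscal : ∀ z : P, (z : GL (Fin 3) F) ∈ scalars (Fin 3) F → z = 1)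
    (g : P) (hy : ∃ y, y * proj P g * y⁻¹ = (proj P g)⁻¹) :
    tr3 ((g : GL (Fin 3) F))⁻¹ = tr3 (g : GL (Fin 3) F) := by
  obtain ⟨y, hy⟩ := hy
  obtain ⟨h, rfl⟩ := QuotientGroup.mk'_surjective _ y
  obtain ⟨z, hz, e⟩ := exists_scalar_of_proj_eq (g := h * g * h⁻¹) (h := g⁻¹)
    (by rw [map_mul, map_mul, map_inv, map_inv]; exact hy)
  rw [hscal z hz, one_mul] at e
  have e' := congrArg (fun x : P => tr3 (x : GL (Fin 3) F)) e
  simp only [Subgroup.coe_mul, Subgroup.coe_inv, trace_conj] at e'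
  exact e'.symm

lemma conj_transport {A : Type*} [Group A] (e : Proj P ≃* A) {x : Proj P} {m : ℕ}
    (h : ∃ y, y * e x * y⁻¹ = e x ^ m) : ∃ y, y * x * y⁻¹ = x ^ m := by
  obtain ⟨y, hy⟩ := h
  exact ⟨e.symm y, e.injective (by simpa using hy)⟩

lemma inv_eq_pow_pred {G : Type*} [Group G] {x : G} {n : ℕ} (hn : x ^ (n + 1) = 1) : x⁻¹ = x ^ n :=
  inv_eq_of_mul_eq_one_right (by rw [← pow_succ', hn])

/-- Reality of elements of order prime to three. -/
lemma real_of_conj (hC : Core P) (g : P) {n : ℕ} (hn : g ^ (n + 1) = 1) (h3 : (n + 1).Coprime 3)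
    (hy : ∃ y, y * proj P g * y⁻¹ = proj P g ^ n) :
    tr3 ((g : GL (Fin 3) F))⁻¹ = tr3 (g : GL (Fin 3) F) := by
  rw [← trace_pow_of_conj hC g hn h3 hy]
  congr 1
  refine inv_eq_pow_pred ?_
  rw [← SubmonoidClass.coe_pow, hn, Subgroup.coe_one]

lemma tr3_scalar_inv {z g : GL (Fin 3) F} {c : F} (hz : (z : Matrix (Fin 3) (Fin 3) F) = c • 1)
    (h3 : c ^ 3 = 1) : tr3 (z * g)⁻¹ = c ^ 2 * tr3 g⁻¹ := by
  have hs : z ∈ scalars (Fin 3) F := by
    have hc0 : c ≠ 0 := fun h => by rw [h, zero_pow (by norm_num)] at h3; exact zero_ne_one h3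
    exact (mem_scalars_iff z).2 ⟨Units.mk0 c hc0, hz⟩
  have hi : ((z⁻¹ : GL (Fin 3) F) : Matrix (Fin 3) (Fin 3) F) = c ^ 2 • 1 := by
    rw [Matrix.coe_units_inv, hz]
    apply Matrix.inv_eq_right_inv
    rw [Matrix.smul_mul, Matrix.mul_smul, one_mul, smul_smul, ← pow_succ', h3, one_smul]
  rw [scalar_comm hs, _root_.mul_inv_rev, tr3_scalar_mul hi]

lemma cube_root_pow {c : F} (h3 : c ^ 3 = 1) (m : ℕ) : c ^ m = c ^ (m % 3) := by
  conv_lhs => rw [← Nat.mod_add_div m 3, pow_add, pow_mul, h3, one_pow, mul_one]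

lemma pow_cases {G : Type*} [Group G] {x : G} {n m : ℕ} (hx : x ^ n = 1) :
    x ^ m = x ^ (m % n) := by
  conv_lhs => rw [← Nat.mod_add_div m n, pow_add, pow_mul, hx, one_pow, mul_one]

/-- A fourth root of the identity with real trace has trace in the prime field. -/
lemma trace_four (p : ℕ) [hp : Fact p.Prime] [CharP F p] {g : GL (Fin 3) F} (h4 : g ^ 4 = 1)
    (hr : tr3 g⁻¹ = tr3 g) : tr3 g ^ p = tr3 g := by
  rcases hp.out.eq_two_or_odd with rfl | hodd
  · have h : tr3 g ^ 4 = 1 := by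
      have := tr3_pow_char_sq 2 g
      rw [show (2 : ℕ) ^ 2 = 4 from rfl, h4, trace_one_three] at this
      have h2 : (2 : F) = 0 := CharP.cast_eq_zero F 2
      linear_combination h2 - this
    have h2 : (2 : F) = 0 := CharP.cast_eq_zero F 2
    have ht : (tr3 g - 1) ^ 4 = 0 := by
      linear_combination h + (-2 * tr3 g ^ 3 + 3 * tr3 g ^ 2 - 2 * tr3 g + 1) * h2
    rw [sub_eq_zero.1 (pow_eq_zero_iff (by norm_num) |>.1 ht), one_pow]
  · rw [← tr3_pow_char p, pow_cases h4]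
    rcases (show p % 4 = 1 ∨ p % 4 = 3 by omega) with e | e <;> rw [e]
    · rw [pow_one]
    · rw [← inv_eq_pow_pred (n := 3) h4, hr]

lemma five_case (p : ℕ) [hp : Fact p.Prime] [CharP F p] {g : GL (Fin 3) F} (h5 : g ^ 5 = 1)
    (hr : tr3 g⁻¹ = tr3 g) (h : p % 5 = 1 ∨ p % 5 = 4 ∨ p = 5) : tr3 g ^ p = tr3 g := by
  rcases h with e | e | rfl
  · rw [← tr3_pow_char p, pow_cases h5, e, pow_one]
  · rw [← tr3_pow_char p, pow_cases h5, e, ← inv_eq_pow_pred (n := 4) h5, hr]
  · have h3 : tr3 g ^ 5 = 3 := by rw [← tr3_pow_char 5, h5, trace_one_three]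
    have h33 : (3 : F) ^ 5 = 3 := by
      have : (5 : F) = 0 := CharP.cast_eq_zero F 5
      linear_combination (48 : F) * this
    have : tr3 g = 3 := by
      haveI : ExpChar F 5 := ExpChar.prime hp.out
      exact frobenius_inj F 5 (by simp only [frobenius_def, h3, h33])
    rw [h3, this]

lemma five_case_sq (p : ℕ) [hp : Fact p.Prime] [CharP F p] {g : GL (Fin 3) F} (h5 : g ^ 5 = 1)
    (hr : tr3 g⁻¹ = tr3 g) : tr3 g ^ (p ^ 2) = tr3 g := by
  by_cases h : p % 5 = 1 ∨ p % 5 = 4 ∨ p = 5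
  · rw [sq, pow_mul, five_case p h5 hr h, five_case p h5 hr h]
  have h0 : p % 5 ≠ 0 := fun e => h (Or.inr (Or.inr
    ((Nat.prime_dvd_prime_iff_eq (by norm_num) hp.out).1 (Nat.dvd_of_mod_eq_zero e)).symm))
  rw [← tr3_pow_char_sq p, pow_cases h5, Nat.pow_mod]
  rcases (show p % 5 = 2 ∨ p % 5 = 3 by omega) with e | e <;> rw [e] <;>
    rw [show _ % 5 = 4 from rfl, ← inv_eq_pow_pred (n := 4) h5, hr]

/-- Unitary isometries have traces conjugate to those of their inverses. -/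
lemma trace_inv_of_mem_GU (p : ℕ) [hp : Fact p.Prime] [CharP F p] {g : GL (Fin 3) F}
    (hg : g ∈ Cfsg.GU 3 F p) : tr3 g⁻¹ = tr3 g ^ p := by
  haveI : ExpChar F p := ExpChar.prime hp.out
  have hmat : (g : Matrix (Fin 3) (Fin 3) F)ᵀ * (g : Matrix (Fin 3) (Fin 3) F).map (frobenius F p) = 1 := by
    ext i j
    have := hg (Pi.single i 1) (Pi.single j 1)
    simp only [Units.coeHom_apply, Matrix.mulVec_single_one, Cfsg.hermForm, Matrix.col_apply] at this
    simp only [Matrix.mul_apply, Matrix.transpose_apply, Matrix.map_apply, frobenius_def]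
    rw [this]
    simp [Pi.single_apply, Matrix.one_apply, ite_pow, zero_pow hp.out.ne_zero, eq_comm]
  have h1 : (((g⁻¹ : GL (Fin 3) F) : Matrix (Fin 3) (Fin 3) F))ᵀ =
      (g : Matrix (Fin 3) (Fin 3) F).map (frobenius F p) := by
    rw [Matrix.coe_units_inv, Matrix.transpose_nonsing_inv]
    exact Matrix.inv_eq_right_inv hmat
  rw [tr3, ← Matrix.transpose_transpose ((g⁻¹ : GL (Fin 3) F) : Matrix (Fin 3) (Fin 3) F),
    Matrix.trace_transpose, h1, ← frobenius_def]
  exact (AddMonoidHom.map_trace (frobenius F p).toAddMonoidHom _).symm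

/-- Traces conjugate to those of inverses give a unitary form over the quadratic extension. -/
lemma unitaryFix_of_frob (hC : Core P) (p : ℕ) [hp : Fact p.Prime] [CharP F p]
    (hcard : Fintype.card F = p ^ 2) (h : ∀ g : P, tr3 ((g : GL (Fin 3) F))⁻¹ = tr3 (g : GL (Fin 3) F) ^ p) :
    UnitaryFix P := by
  haveI : ExpChar F p := ExpChar.prime hp.out
  let σ : F ≃+* F := RingEquiv.ofBijective (frobenius F p)
    ⟨frobenius_inj F p, Finite.injective_iff_surjective.1 (frobenius_inj F p)⟩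
  have hσ : ∀ x, σ x = x ^ p := fun x => frobenius_def p x
  refine unitaryFix_of_trace hC σ (fun e => ?_) (fun a => ?_) fun g hg => ?_
  · classical
    have hall : ∀ x : F, x ^ p = x := fun x => by rw [← hσ, e]; rfl
    have hle : Fintype.card F ≤ p := by
      have hne := FiniteField.X_pow_card_sub_X_ne_zero F hp.out.one_lt
      calc Fintype.card F = (Finset.univ : Finset F).card := rfl
        _ ≤ (Polynomial.X ^ p - Polynomial.X : Polynomial F).roots.toFinset.card :=
          Finset.card_le_card fun x _ => by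
            rw [Multiset.mem_toFinset, Polynomial.mem_roots hne]; simp [hall x]
        _ ≤ _ := Multiset.toFinset_card_le _
        _ ≤ _ := Polynomial.card_roots' _
        _ = p := FiniteField.X_pow_card_sub_X_natDegree_eq F hp.out.one_lt
    have : p * p ≤ p * 1 := by rw [mul_one, ← sq, ← hcard]; exact hle
    exact absurd (Nat.le_of_mul_le_mul_left this hp.out.pos) (by have := hp.out.two_le; omega)
  · rw [hσ, hσ, ← pow_mul, ← sq, ← hcard, FiniteField.pow_card]
  · rw [hσ]; exact h ⟨g, hg⟩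

theorem false_of_real (hC : Core P) (hQ : ¬ QuadFix P) (h : RealTraces P) : False := by
  by_cases h2 : (2 : F) = 0
  · exact false_of_realTraces_two h2 hC h
  · exact hQ (quadFix_of_realTraces h2 hC h)

/-- The decomposition of an element over a quotient isomorphic to the alternating group of degree
six. -/
lemma six_decomp (hC : Core P) (e : Proj P ≃* alternatingGroup (Fin 6)) (g : P) :
    ∃ (z g₀ : P) (c : F), (z : GL (Fin 3) F).val = c • 1 ∧ c ^ 3 = 1 ∧ g = z * g₀ ∧
      ((g₀ ^ 3 = 1) ∨ (g₀ ^ 4 = 1 ∧ tr3 ((g₀ : GL (Fin 3) F))⁻¹ = tr3 (g₀ : GL (Fin 3) F)) ∨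
        (g₀ ^ 5 = 1 ∧ tr3 ((g₀ : GL (Fin 3) F))⁻¹ = tr3 (g₀ : GL (Fin 3) F))) := by
  have hcard : Nat.card (Proj P) = 360 := (Nat.card_congr e.toEquiv).trans Alt.card_six
  have back : ∀ k : ℕ, e (proj P g) ^ k = 1 → proj P g ^ k = 1 := fun k hk =>
    e.injective (by rw [map_pow, hk, map_one])
  rcases Alt.order_cases (by norm_num) (e (proj P g) : Equiv.Perm (Fin 6))
      (Equiv.Perm.mem_alternatingGroup.1 (e (proj P g)).2) with h | h | h | ⟨h, -⟩
  · refine ⟨1, g, 1, by simp, one_pow 3, (one_mul g).symm, Or.inl ?_⟩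
    exact order_three_lift hC (by rw [hcard]; norm_num) (by rw [hcard]; norm_num) g
      (back 3 (Subtype.ext h))
  · obtain ⟨z, g₀, hz, hg, hn, hp⟩ := lift_coprime hC g (back 4 (Subtype.ext h)) (by norm_num)
    obtain ⟨c, hc, h3⟩ := val_scalar hC z.2 hz
    refine ⟨z, g₀, c, hc, h3, hg, Or.inr (Or.inl ⟨hn, real_of_conj hC g₀ (n := 3) hn (by norm_num) ?_⟩)⟩
    obtain ⟨y, hy⟩ := Alt.real_two_power (e (proj P g)) (Subtype.ext h)
    refine conj_transport e ⟨y, ?_⟩
    rw [hp, hy, inv_eq_pow_pred (n := 3) (x := e (proj P g)) (Subtype.ext h)]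
  · obtain ⟨z, g₀, hz, hg, hn, hp⟩ := lift_coprime hC g (back 5 (Subtype.ext h)) (by norm_num)
    obtain ⟨c, hc, h3⟩ := val_scalar hC z.2 hz
    refine ⟨z, g₀, c, hc, h3, hg, Or.inr (Or.inr ⟨hn, real_of_conj hC g₀ (n := 4) hn (by norm_num) ?_⟩)⟩
    rw [hp]
    exact conj_transport e (Alt.five_six (Subtype.ext h))
  · norm_num at h

lemma six_scalar (hC : Core P) (hQ : ¬ QuadFix P) (e : Proj P ≃* alternatingGroup (Fin 6)) :
    ∃ c : F, c ^ 3 = 1 ∧ c ≠ 1 ∧ ∃ z : P, (z : GL (Fin 3) F).val = c • 1 := by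
  by_contra hall
  push Not at hall
  have hscal : ∀ z : P, (z : GL (Fin 3) F) ∈ scalars (Fin 3) F → z = 1 := fun z hz => by
    obtain ⟨c, hc, h3⟩ := val_scalar hC z.2 hz
    by_contra hz1
    refine hall c h3 (fun hc1 => hz1 ?_) z hc
    exact Subtype.ext (Units.ext (by rw [hc, hc1, one_smul]; rfl))
  refine false_of_real hC hQ fun g hg => ?_
  refine real_of_trivial_scalars hscal ⟨g, hg⟩ ?_
  set x := proj P ⟨g, hg⟩
  obtain ⟨y, hy⟩ : ∃ y, y * e x * y⁻¹ = (e x)⁻¹ := by
    rcases Alt.order_cases (by norm_num) (e x : Equiv.Perm (Fin 6))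
        (Equiv.Perm.mem_alternatingGroup.1 (e x).2) with h | h | h | ⟨h, -⟩
    · exact Alt.three_six (Subtype.ext h)
    · exact Alt.real_two_power _ (Subtype.ext h)
    · obtain ⟨y, hy⟩ := Alt.five_six (x := e x) (Subtype.ext h)
      exact ⟨y, by rw [hy, inv_eq_pow_pred (n := 4) (x := e x) (Subtype.ext h)]⟩
    · norm_num at h
  exact ⟨e.symm y, e.injective (by simpa using hy)⟩

/-- An element of order five in a group over the alternating group of degree six. -/
lemma six_five (hC : Core P) (e : Proj P ≃* alternatingGroup (Fin 6)) :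
    ∃ g : P, g ^ 5 = 1 ∧ g ≠ 1 ∧ tr3 ((g : GL (Fin 3) F))⁻¹ = tr3 (g : GL (Fin 3) F) ∧
      tr3 ((g : GL (Fin 3) F) ^ 3) = tr3 ((g : GL (Fin 3) F) ^ 2) := by
  obtain ⟨g, hg⟩ := QuotientGroup.mk'_surjective _ (e.symm Alt.a6)
  have h5 : proj P g ^ 5 = 1 := by
    rw [show proj P g = e.symm Alt.a6 from hg, ← map_pow, show Alt.a6 ^ 5 = 1 by decide +kernel, map_one]
  obtain ⟨z, g₀, -, -, hn, hp⟩ := lift_coprime hC g h5 (by norm_num)
  have hp' : proj P g₀ = e.symm Alt.a6 := hp.trans hg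
  refine ⟨g₀, hn, ?_, real_of_conj hC g₀ (n := 4) hn (by norm_num) ?_, ?_⟩
  · intro h1
    rw [h1, map_one] at hp'
    exact absurd (e.symm.injective (by rw [← hp', map_one] : e.symm Alt.a6 = e.symm 1)) (by decide +kernel)
  · rw [hp']
    exact conj_transport e (by rw [e.apply_symm_apply]; exact Alt.five_six (by decide +kernel))
  · have h := trace_pow_of_conj hC (g₀ ^ 2) (n := 5) (m := 4) (by rw [← pow_mul, mul_comm, pow_mul, hn, one_pow])
      (by norm_num) (by
        rw [map_pow, hp']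
        exact conj_transport e (by
          rw [map_pow, e.apply_symm_apply]
          exact Alt.five_six (by decide +kernel)))
    rw [SubmonoidClass.coe_pow, ← pow_mul, show 2 * 4 = 5 + 3 from rfl, pow_add,
      show (g₀ : GL (Fin 3) F) ^ 5 = 1 by rw [← SubmonoidClass.coe_pow, hn, Subgroup.coe_one],
      one_mul] at h
    exact h

/-- The congruences for the alternating group of degree six. -/
theorem congr_A6 (hC : Core P) (hK : NoSub P) (hQ : ¬ QuadFix P)
    (e : Nonempty (Proj P ≃* alternatingGroup (Fin 6))) (p : ℕ) [hp : Fact p.Prime] [CharP F p] :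
    (Fintype.card F = p ∧ (p % 15 = 1 ∨ p % 15 = 4)) ∨
    (Fintype.card F = p ^ 2 ∧ (p % 15 = 11 ∨ p % 15 = 14 ∨ p = 5) ∧ UnitaryFix P) ∨
    (Fintype.card F = p ^ 2 ∧ p ≠ 3 ∧ (p % 5 = 2 ∨ p % 5 = 3) ∧ ¬ P ≤ Cfsg.GU 3 F p) := by
  obtain ⟨e⟩ := e
  haveI : ExpChar F p := ExpChar.prime hp.out
  obtain ⟨ω, hω3, hω1, zω, hzω⟩ := six_scalar hC hQ e
  have hp3 : p ≠ 3 := by
    rintro rfl
    have h0 : frobenius F 3 ω = frobenius F 3 1 := by simp only [frobenius_def, hω3, one_pow]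
    exact hω1 (frobenius_inj F 3 h0)
  have hp3' : p % 3 = 1 ∨ p % 3 = 2 := by
    have : p % 3 ≠ 0 := fun h => hp3
      ((Nat.prime_dvd_prime_iff_eq Nat.prime_three hp.out).1 (Nat.dvd_of_mod_eq_zero h)).symm
    omega
  -- the traces are fixed by the square of the Frobenius map
  have hsq : ∀ g : P, tr3 (g : GL (Fin 3) F) ^ (p ^ 2) = tr3 (g : GL (Fin 3) F) := by
    intro g
    obtain ⟨z, g₀, c, hc, h3, rfl, h⟩ := six_decomp hC e g
    rw [Subgroup.coe_mul, tr3_scalar_mul hc, mul_pow, cube_root_pow h3, Nat.pow_mod]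
    have hc1 : c ^ ((p % 3) ^ 2 % 3) = c := by rcases hp3' with e' | e' <;> rw [e'] <;> exact pow_one c
    rw [hc1]
    congr 1
    rcases h with h | ⟨h, hr⟩ | ⟨h, hr⟩
    · have h' : (g₀ : GL (Fin 3) F) ^ 3 = 1 := by rw [← SubmonoidClass.coe_pow, h, Subgroup.coe_one]
      rw [← tr3_pow_char_sq p, pow_cases h', Nat.pow_mod]
      rcases hp3' with e' | e' <;> rw [e'] <;> congr 1 <;> exact pow_one _
    · have h' : (g₀ : GL (Fin 3) F) ^ 4 = 1 := by rw [← SubmonoidClass.coe_pow, h, Subgroup.coe_one]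
      rw [sq, pow_mul, trace_four p h' hr, trace_four p h' hr]
    · have h' : (g₀ : GL (Fin 3) F) ^ 5 = 1 := by rw [← SubmonoidClass.coe_pow, h, Subgroup.coe_one]
      exact five_case_sq p h' hr
  have hcard := card_cases p (field_of_traces hC hK p 2 two_pos hsq).2
  by_cases h5 : p % 5 = 2 ∨ p % 5 = 3
  · -- a five-element with trace outside the prime field
    obtain ⟨g, hg5, hg1, hr, h32⟩ := six_five hC e
    have h5' : (g : GL (Fin 3) F) ^ 5 = 1 := by rw [← SubmonoidClass.coe_pow, hg5, Subgroup.coe_one]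
    have hne : tr3 (g : GL (Fin 3) F) ^ p ≠ tr3 (g : GL (Fin 3) F) := by
      intro ht
      rw [← tr3_pow_char p, pow_cases h5'] at ht
      have ht2 : tr3 ((g : GL (Fin 3) F) ^ 2) = tr3 (g : GL (Fin 3) F) := by
        rcases h5 with e' | e' <;> rw [e'] at ht
        · exact ht
        · rwa [h32] at ht
      refine false_of_five (det_eq_one hC g.2) h5' (fun h => hg1 (Subtype.ext h)) hr ht2 ?_
      intro h50
      have h50' : ((5 : ℕ) : F) = 0 := by exact_mod_cast h50
      have := (CharP.cast_eq_zero_iff F p 5).1 h50'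
      have h := (Nat.prime_dvd_prime_iff_eq hp.out (by norm_num)).1 this
      omega
    rcases hcard with hc | hc
    · exact absurd (by rw [← hc, FiniteField.pow_card]) hne
    · refine Or.inr (Or.inr ⟨hc, hp3, h5, fun hle => hne ?_⟩)
      rw [← trace_inv_of_mem_GU p (hle g.2), hr]
  have h5' : p % 5 = 1 ∨ p % 5 = 4 ∨ p = 5 := by
    by_cases hp5 : p % 5 = 0
    · exact Or.inr (Or.inr ((Nat.prime_dvd_prime_iff_eq (by norm_num) hp.out).1 (Nat.dvd_of_mod_eq_zero hp5)).symm)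
    · omega
  have hfrob : ∀ g : P, ∃ (z g₀ : P) (c : F), (z : GL (Fin 3) F).val = c • 1 ∧ c ^ 3 = 1 ∧ g = z * g₀ ∧
      ((p % 3 = 1 → tr3 (g₀ : GL (Fin 3) F) ^ p = tr3 (g₀ : GL (Fin 3) F)) ∧
        (p % 3 = 2 → tr3 (g₀ : GL (Fin 3) F) ^ p = tr3 ((g₀ : GL (Fin 3) F))⁻¹)) := by
    intro g
    obtain ⟨z, g₀, c, hc, h3, hg, h⟩ := six_decomp hC e g
    refine ⟨z, g₀, c, hc, h3, hg, ?_⟩
    rcases h with h | ⟨h, hr⟩ | ⟨h, hr⟩
    · have h' : (g₀ : GL (Fin 3) F) ^ 3 = 1 := by rw [← SubmonoidClass.coe_pow, h, Subgroup.coe_one]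
      refine ⟨fun e' => ?_, fun e' => ?_⟩ <;> rw [← tr3_pow_char p, pow_cases h', e']
      · rw [pow_one]
      · rw [inv_eq_pow_pred (n := 2) h']
    · have h' : (g₀ : GL (Fin 3) F) ^ 4 = 1 := by rw [← SubmonoidClass.coe_pow, h, Subgroup.coe_one]
      rw [hr]
      exact ⟨fun _ => trace_four p h' hr, fun _ => trace_four p h' hr⟩
    · have h' : (g₀ : GL (Fin 3) F) ^ 5 = 1 := by rw [← SubmonoidClass.coe_pow, h, Subgroup.coe_one]
      rw [hr]
      exact ⟨fun _ => five_case p h' hr h5', fun _ => five_case p h' hr h5'⟩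
  rcases hp3' with hm | hm
  · have hall : ∀ g : P, tr3 (g : GL (Fin 3) F) ^ p ^ 1 = tr3 (g : GL (Fin 3) F) := by
      intro g
      obtain ⟨z, g₀, c, hc, h3, rfl, h, -⟩ := hfrob g
      rw [pow_one, Subgroup.coe_mul, tr3_scalar_mul hc, mul_pow, h hm, cube_root_pow h3, hm, pow_one]
    have hle := (field_of_traces hC hK p 1 one_pos hall).2
    rw [pow_one] at hle
    refine Or.inl ⟨?_, by omega⟩
    rcases hcard with hc | hc
    · exact hc
    · have := hp.out.two_le; nlinarith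
  · have hinv : ∀ g : P, tr3 ((g : GL (Fin 3) F))⁻¹ = tr3 (g : GL (Fin 3) F) ^ p := by
      intro g
      obtain ⟨z, g₀, c, hc, h3, rfl, -, h⟩ := hfrob g
      rw [Subgroup.coe_mul, tr3_scalar_inv hc h3, tr3_scalar_mul hc, mul_pow, h hm,
        cube_root_pow h3 p, hm]
    have hc : Fintype.card F = p ^ 2 := by
      refine hcard.resolve_left fun hc => hω1 ?_
      have h := FiniteField.pow_card ω
      rw [hc, cube_root_pow hω3, hm] at h
      calc ω = ω ^ 2 * ω * ω := by rw [← pow_succ, hω3, one_mul]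
        _ = ω ^ 3 := by rw [h]; ring
        _ = 1 := hω3
    exact Or.inr (Or.inl ⟨hc, by omega, unitaryFix_of_frob hC p hc hinv⟩)

/-- The congruences for the alternating group of degree seven. -/
theorem congr_A7 (hC : Core P) (hK : NoSub P) (hQ : ¬ QuadFix P)
    (e : Nonempty (Proj P ≃* alternatingGroup (Fin 7))) (p : ℕ) [hp : Fact p.Prime] [CharP F p] :
    p = 5 ∧ Fintype.card F = 25 ∧ UnitaryFix P := by
  obtain ⟨e⟩ := e
  haveI : ExpChar F p := ExpChar.prime hp.out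
  have hcardP : Nat.card (Proj P) = 2520 := (Nat.card_congr e.toEquiv).trans Alt.card_seven
  -- a five-element fused with its square
  have hp5 : p = 5 := by
    obtain ⟨g, hg⟩ := QuotientGroup.mk'_surjective _ (e.symm Alt.a7)
    have h5 : proj P g ^ 5 = 1 := by
      rw [show proj P g = e.symm Alt.a7 from hg, ← map_pow, show Alt.a7 ^ 5 = 1 by decide +kernel, map_one]
    obtain ⟨z, g₀, -, -, hn, hpr⟩ := lift_coprime hC g h5 (by norm_num)
    have hp' : proj P g₀ = e.symm Alt.a7 := hpr.trans hg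
    have hne : g₀ ≠ 1 := by
      intro h1
      rw [h1, map_one] at hp'
      exact absurd (e.symm.injective (by rw [← hp', map_one] : e.symm Alt.a7 = e.symm 1)) (by decide +kernel)
    have h2 := trace_pow_of_conj hC g₀ hn (by norm_num) (m := 2) (by
      rw [hp']
      exact conj_transport e (by rw [e.apply_symm_apply]; exact Alt.five_seven (by decide +kernel)))
    have h4 := trace_pow_of_conj hC g₀ hn (by norm_num) (m := 4) (by
      rw [hp']
      refine conj_transport e ?_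
      rw [e.apply_symm_apply]
      obtain ⟨y, hy⟩ := Alt.five_seven (x := Alt.a7) (by decide +kernel)
      refine ⟨y * y, ?_⟩
      rw [show y * y * Alt.a7 * (y * y)⁻¹ = y * (y * Alt.a7 * y⁻¹) * y⁻¹ by group, hy, ← conj_pow, hy,
        ← pow_mul])
    have h5' : (g₀ : GL (Fin 3) F) ^ 5 = 1 := by rw [← SubmonoidClass.coe_pow, hn, Subgroup.coe_one]
    rw [← inv_eq_pow_pred (n := 4) h5'] at h4
    by_contra hne5
    refine false_of_five (det_eq_one hC g₀.2) h5' (fun h => hne (Subtype.ext h)) h4 h2 ?_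
    intro h50
    have h50' : ((5 : ℕ) : F) = 0 := by exact_mod_cast h50
    exact hne5 ((Nat.prime_dvd_prime_iff_eq hp.out (by norm_num)).1 ((CharP.cast_eq_zero_iff F p 5).1 h50'))
  subst hp5
  have hinv : ∀ g : P, tr3 ((g : GL (Fin 3) F))⁻¹ = tr3 (g : GL (Fin 3) F) ^ 5 := by
    intro g
    have back : ∀ k : ℕ, e (proj P g) ^ k = 1 → proj P g ^ k = 1 := fun k hk =>
      e.injective (by rw [map_pow, hk, map_one])
    have six : proj P g ^ 6 = 1 →
        tr3 ((g : GL (Fin 3) F))⁻¹ = tr3 (g : GL (Fin 3) F) ^ 5 := by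
      intro h
      have h' : (g ^ 2) ^ 3 = 1 := order_three_lift hC (by rw [hcardP]; norm_num) (by rw [hcardP]; norm_num)
        (g ^ 2) (by rw [map_pow, ← pow_mul, h])
      have h6 : (g : GL (Fin 3) F) ^ 6 = 1 := by
        rw [← SubmonoidClass.coe_pow, show 6 = 2 * 3 from rfl, pow_mul, h', Subgroup.coe_one]
      rw [← tr3_pow_char 5, inv_eq_pow_pred (n := 5) h6]
    have scaled : ∀ (z g₀ : P), (z : GL (Fin 3) F) ∈ scalars (Fin 3) F → g = z * g₀ →
        tr3 ((g₀ : GL (Fin 3) F))⁻¹ = tr3 (g₀ : GL (Fin 3) F) ^ 5 →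
        tr3 ((g : GL (Fin 3) F))⁻¹ = tr3 (g : GL (Fin 3) F) ^ 5 := by
      intro z g₀ hz hg h
      obtain ⟨c, hc, h3⟩ := val_scalar hC z.2 hz
      rw [hg, Subgroup.coe_mul, tr3_scalar_inv hc h3, tr3_scalar_mul hc, mul_pow, h, cube_root_pow h3 5]
    rcases Alt.order_cases le_rfl (e (proj P g) : Equiv.Perm (Fin 7))
        (Equiv.Perm.mem_alternatingGroup.1 (e (proj P g)).2) with h | h | h | ⟨-, h | h⟩
    · exact six (back 6 (by rw [show 6 = 3 * 2 from rfl, pow_mul, show e (proj P g) ^ 3 = 1 from Subtype.ext h, one_pow]))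
    · obtain ⟨z, g₀, hz, hg, hn, hpr⟩ := lift_coprime hC g (back 4 (Subtype.ext h)) (by norm_num)
      refine scaled z g₀ hz hg ?_
      have h4 : (g₀ : GL (Fin 3) F) ^ 4 = 1 := by rw [← SubmonoidClass.coe_pow, hn, Subgroup.coe_one]
      have hr : tr3 ((g₀ : GL (Fin 3) F))⁻¹ = tr3 (g₀ : GL (Fin 3) F) := by
        refine real_of_conj hC g₀ (n := 3) hn (by norm_num) ?_
        obtain ⟨y, hy⟩ := Alt.real_two_power (e (proj P g)) (Subtype.ext h)
        rw [hpr]
        refine conj_transport e ⟨y, ?_⟩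
        rw [hy, inv_eq_pow_pred (n := 3) (x := e (proj P g)) (Subtype.ext h)]
      rw [trace_four 5 h4 hr, hr]
    · obtain ⟨z, g₀, hz, hg, hn, hpr⟩ := lift_coprime hC g (back 5 (Subtype.ext h)) (by norm_num)
      refine scaled z g₀ hz hg ?_
      have h5 : (g₀ : GL (Fin 3) F) ^ 5 = 1 := by rw [← SubmonoidClass.coe_pow, hn, Subgroup.coe_one]
      obtain ⟨y, hy⟩ := Alt.five_seven (x := e (proj P g)) (Subtype.ext h)
      have hr : tr3 ((g₀ : GL (Fin 3) F))⁻¹ = tr3 (g₀ : GL (Fin 3) F) := by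
        refine real_of_conj hC g₀ (n := 4) hn (by norm_num) ?_
        rw [hpr]
        refine conj_transport e ⟨y * y, ?_⟩
        rw [show y * y * e (proj P g) * (y * y)⁻¹ = y * (y * e (proj P g) * y⁻¹) * y⁻¹ by group, hy,
          ← conj_pow, hy, ← pow_mul]
      rw [five_case 5 h5 hr (Or.inr (Or.inr rfl)), hr]
    · exact six (back 6 (Subtype.ext h))
    · obtain ⟨z, g₀, hz, hg, hn, hpr⟩ := lift_coprime hC g (back 7 (Subtype.ext h)) (by norm_num)
      refine scaled z g₀ hz hg ?_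
      have h7 : (g₀ : GL (Fin 3) F) ^ 7 = 1 := by rw [← SubmonoidClass.coe_pow, hn, Subgroup.coe_one]
      have hn3 : (g₀ ^ 3) ^ 7 = 1 := by rw [← pow_mul, mul_comm, pow_mul, hn, one_pow]
      -- `g₀ ^ 5` is conjugate to `g₀ ^ 6`
      have hfu := trace_pow_of_conj hC (g₀ ^ 3) (n := 7) (m := 4) hn3 (by norm_num) (by
        rw [map_pow, hpr]
        refine conj_transport e ?_
        rw [map_pow]
        obtain ⟨y, hy⟩ := Alt.seven_seven (x := e (proj P g) ^ 3) (by
          rw [← pow_mul, mul_comm, pow_mul, show e (proj P g) ^ 7 = 1 from Subtype.ext h, one_pow])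
        refine ⟨y * y, ?_⟩
        rw [show y * y * e (proj P g) ^ 3 * (y * y)⁻¹ = y * (y * e (proj P g) ^ 3 * y⁻¹) * y⁻¹ by group,
          hy, ← conj_pow, hy, ← pow_mul])
      have hfu2 := trace_pow_of_conj hC (g₀ ^ 3) (n := 7) (m := 2) hn3 (by norm_num) (by
        rw [map_pow, hpr]
        refine conj_transport e ?_
        rw [map_pow]
        exact Alt.seven_seven (by
          rw [← pow_mul, mul_comm, pow_mul, show e (proj P g) ^ 7 = 1 from Subtype.ext h, one_pow]))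
      rw [SubmonoidClass.coe_pow, ← pow_mul, show 3 * 4 = 7 + 5 from rfl, pow_add, h7, one_mul] at hfu
      rw [SubmonoidClass.coe_pow, ← pow_mul, show 3 * 2 = 6 from rfl] at hfu2
      rw [← tr3_pow_char 5, hfu, ← hfu2, inv_eq_pow_pred (n := 6) h7]
  have hsq : ∀ g : P, tr3 (g : GL (Fin 3) F) ^ (5 ^ 2) = tr3 (g : GL (Fin 3) F) := by
    intro g
    rw [sq, pow_mul, ← hinv g]
    have := hinv g⁻¹
    rw [Subgroup.coe_inv, inv_inv] at this
    exact this.symm
  have hc : Fintype.card F = 5 ^ 2 := by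
    refine (card_cases 5 (field_of_traces hC hK 5 2 two_pos hsq).2).resolve_left fun hc => ?_
    refine false_of_real hC hQ fun g hg => ?_
    have hpc : ∀ x : F, x ^ 5 = x := fun x => by rw [← hc]; exact FiniteField.pow_card x
    exact (hinv ⟨g, hg⟩).trans (hpc _)
  exact ⟨rfl, by rw [hc]; norm_num, unitaryFix_of_frob hC 5 hc hinv⟩

end CfsgLib.SLThreeResidual
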