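import Cfsg.Agent.Lib.SLThreeResidual.Traces
import Cfsg.Agent.Lib.PSLCover.DimThreeBasic
import Cfsg.Agent.Lib.SmallDim.Subfield
import Mathlib.GroupTheory.Transfer
import Mathlib.LinearAlgebra.Matrix.CharP

/-!
# Traces of lifted elements, Frobenius on traces, and the field of traces
-/

set_option autoImplicit false
set_option linter.unusedSectionVars false
set_option linter.style.haveILetI false

namespace CfsgLib.SLThreeResidual

open Cfsg.Geo Matrix Polynomial CfsgLib.SmallDim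

variable {F : Type*} [Field F] [Fintype F] {P : Subgroup (GL (Fin 3) F)}

/-- The trace. -/
abbrev tr3 (g : GL (Fin 3) F) : F := Matrix.trace (g : Matrix (Fin 3) (Fin 3) F)

lemma trace_conj (h g : GL (Fin 3) F) : tr3 (h * g * h⁻¹) = tr3 g := by
  rw [tr3, Units.val_mul, Matrix.trace_mul_comm, ← Units.val_mul, ← mul_assoc, inv_mul_cancel,
    one_mul]

lemma trace_one_three : tr3 (1 : GL (Fin 3) F) = 3 := by simp [tr3, Matrix.trace_one]

lemma trace_pow_char (p : ℕ) [hp : Fact p.Prime] [CharP F p] (M : Matrix (Fin 3) (Fin 3) F) :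
    trace (M ^ p) = trace M ^ p := by
  haveI : ExpChar F p := ExpChar.prime hp.out
  have hexp : Polynomial.expand F p (M ^ p).charpoly = M.charpoly ^ p := by
    unfold Matrix.charpoly
    rw [AlgHom.map_det, ← coe_detMonoidHom,
      ← (detMonoidHom : Matrix (Fin 3) (Fin 3) F[X] →* F[X]).map_pow]
    simp only [coe_detMonoidHom]
    apply congr_arg Matrix.det
    refine matPolyEquiv.injective ?_
    rw [map_pow, matPolyEquiv_charmatrix, sub_pow_char_of_commute, ← C_pow]
    · exact (id (matPolyEquiv_eq_X_pow_sub_C p M) :)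
    · exact (C M).commute_X
  have h1 : (M.charpoly ^ p).coeff (2 * p) = (M ^ p).charpoly.coeff 2 := by
    rw [← hexp, coeff_expand_mul hp.out.pos]
  have h2 : (M.charpoly ^ p).coeff (2 * p) = M.charpoly.coeff 2 ^ p := by
    rw [← map_frobenius_expand (p := p), coeff_map, coeff_expand_mul hp.out.pos]
    rfl
  have hneg : (-1 : F) ^ p = -1 := by
    have := sub_pow_char (R := F) (p := p) 0 1
    simpa [zero_pow hp.out.ne_zero] using this
  have e : ∀ N : Matrix (Fin 3) (Fin 3) F, trace N = -N.charpoly.coeff 2 := fun N => by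
    rw [Matrix.trace_eq_neg_charpoly_coeff]
    simp
  rw [e, e, ← h1, h2, neg_pow (M.charpoly.coeff 2), hneg, neg_one_mul]

lemma tr3_pow_char (p : ℕ) [Fact p.Prime] [CharP F p] (g : GL (Fin 3) F) :
    tr3 (g ^ p) = tr3 g ^ p := by
  rw [tr3, Units.val_pow_eq_pow_val, trace_pow_char p]

lemma tr3_pow_char_sq (p : ℕ) [Fact p.Prime] [CharP F p] (g : GL (Fin 3) F) :
    tr3 (g ^ (p ^ 2)) = tr3 g ^ (p ^ 2) := by
  rw [sq, pow_mul, tr3_pow_char p, tr3_pow_char p, ← pow_mul]

lemma det_eq_one (hC : Core P) {g : GL (Fin 3) F} (hg : g ∈ P) :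
    (g : Matrix (Fin 3) (Fin 3) F).det = 1 := by
  have h := hC.le_sl hg
  rw [Cfsg.Geo.specialLinear, MonoidHom.mem_ker] at h
  exact congrArg Units.val h

lemma m2_eq_trace_inv {g : GL (Fin 3) F} (hd : (g : Matrix (Fin 3) (Fin 3) F).det = 1) :
    CfsgLib.PSLCover.Three.m2 (g : Matrix (Fin 3) (Fin 3) F) = tr3 g⁻¹ := by
  have h1 : ((g⁻¹ : GL (Fin 3) F) : Matrix (Fin 3) (Fin 3) F) =
      Matrix.adjugate (g : Matrix (Fin 3) (Fin 3) F) := by
    rw [Matrix.coe_units_inv, Matrix.inv_def, hd]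
    simp
  rw [tr3, h1, Matrix.adjugate_fin_three, Matrix.trace_fin_three]
  simp [CfsgLib.PSLCover.Three.m2]
  ring

lemma trace_sq {g : GL (Fin 3) F} (hd : (g : Matrix (Fin 3) (Fin 3) F).det = 1) :
    tr3 (g ^ 2) = tr3 g ^ 2 - 2 * tr3 g⁻¹ := by
  rw [← m2_eq_trace_inv hd]
  simp only [tr3, sq, Units.val_mul, Matrix.trace_fin_three, Matrix.mul_apply, Fin.sum_univ_three,
    CfsgLib.PSLCover.Three.m2]
  ring

lemma cayley_three {g : GL (Fin 3) F} (hd : (g : Matrix (Fin 3) (Fin 3) F).det = 1) :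
    (g : Matrix (Fin 3) (Fin 3) F) ^ 3 =
      tr3 g • (g : Matrix (Fin 3) (Fin 3) F) ^ 2 - tr3 g⁻¹ • (g : Matrix (Fin 3) (Fin 3) F) + 1 := by
  have h := Matrix.aeval_self_charpoly (g : Matrix (Fin 3) (Fin 3) F)
  rw [CfsgLib.PSLCover.Three.charpoly_three, m2_eq_trace_inv hd, hd] at h
  simp only [map_sub, map_add, map_mul, aeval_C, aeval_X, map_pow, map_one, ← Algebra.smul_def] at h
  linear_combination (norm := module) h

/-- An element of order five has three different traces unless the characteristic is five. -/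
lemma false_of_five {g : GL (Fin 3) F} (hd : (g : Matrix (Fin 3) (Fin 3) F).det = 1)
    (h5 : g ^ 5 = 1) (hg : g ≠ 1) (hinv : tr3 g⁻¹ = tr3 g) (hsq : tr3 (g ^ 2) = tr3 g)
    (hp5 : (5 : F) ≠ 0) : False := by
  have ht : tr3 g * (tr3 g - 3) = 0 := by
    have h := trace_sq hd
    rw [hsq, hinv] at h
    linear_combination -h
  have h5' : (g : Matrix (Fin 3) (Fin 3) F) ^ 5 = 1 := by
    rw [← Units.val_pow_eq_pow_val, h5, Units.val_one]
  refine hg (Units.ext ?_)
  rw [Units.val_one]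
  have hC := cayley_three hd
  rw [hinv] at hC
  set M := (g : Matrix (Fin 3) (Fin 3) F)
  rcases mul_eq_zero.1 ht with h0 | h0
  · rw [h0, zero_smul, zero_smul, sub_zero, zero_add] at hC
    calc M = M ^ 3 * M ^ 3 * M ^ 0 * M * (M ^ 5) ^ 0 := by rw [hC]; simp
      _ = M ^ 7 := by rw [pow_zero, pow_zero, mul_one, mul_one, ← pow_add, ← pow_succ]
      _ = M ^ 2 := by rw [show (7 : ℕ) = 5 + 2 from rfl, pow_add, h5', one_mul]
      _ = M ^ 2 * M ^ 3 := by rw [hC, mul_one]
      _ = 1 := by rw [← pow_add, h5']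
  · rw [sub_eq_zero] at h0
    rw [h0] at hC
    set N := M - 1 with hN
    have hM : M = N + 1 := by rw [hN, sub_add_cancel]
    have hN3 : N ^ 3 = 0 := by
      have h0' : N ^ 3 = M ^ 3 - (3 : F) • M ^ 2 + (3 : F) • M - 1 := by
        simp only [hN, pow_succ, pow_zero, one_mul, sub_mul, mul_sub, mul_one]
        module
      rw [h0', hC]
      abel
    have hN5 : (5 : F) • N + (10 : F) • N ^ 2 = 0 := by
      have h1 : M ^ 5 = 1 + (5 : F) • N + (10 : F) • N ^ 2 := by
        have h4 : N ^ 4 = 0 := by rw [pow_succ, hN3, zero_mul]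
        rw [hM]
        simp only [pow_succ, pow_zero, one_mul, add_mul, mul_add, mul_one] at hN3 h4 ⊢
        simp only [hN3, zero_mul, add_zero, zero_add]
        module
      rw [h5', add_assoc] at h1
      exact add_eq_left.1 h1.symm
    have hN2 : N ^ 2 = 0 := by
      have h := congrArg (· * N) hN5
      simp only [add_mul, Matrix.smul_mul, zero_mul, ← pow_succ, hN3, smul_zero, add_zero, ← sq] at h
      exact (smul_eq_zero.1 h).resolve_left hp5
    rw [hN2, smul_zero, add_zero] at hN5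
    rw [hM, (smul_eq_zero.1 hN5).resolve_left hp5, zero_add]

lemma val_scalar {z : GL (Fin 3) F} (hC : Core P) (hz : z ∈ P) (hs : z ∈ scalars (Fin 3) F) :
    ∃ c : F, (z : Matrix (Fin 3) (Fin 3) F) = c • 1 ∧ c ^ 3 = 1 := by
  obtain ⟨c, hc⟩ := (mem_scalars_iff z).1 hs
  refine ⟨c, hc, ?_⟩
  have h := det_eq_one hC hz
  rwa [hc, Matrix.det_smul, Matrix.det_one, mul_one, Fintype.card_fin] at h

lemma scalar_comm {z : GL (Fin 3) F} (hs : z ∈ scalars (Fin 3) F) (x : GL (Fin 3) F) :
    z * x = x * z := by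
  obtain ⟨c, hc⟩ := (mem_scalars_iff z).1 hs
  apply Units.ext
  rw [Units.val_mul, Units.val_mul, hc]
  simp

lemma scalar_cube {z : GL (Fin 3) F} (hC : Core P) (hz : z ∈ P) (hs : z ∈ scalars (Fin 3) F) :
    z ^ 3 = 1 := by
  obtain ⟨c, hc, h3⟩ := val_scalar hC hz hs
  apply Units.ext
  rw [Units.val_pow_eq_pow_val, hc, _root_.smul_pow, one_pow, h3, one_smul, Units.val_one]

lemma tr3_scalar_mul {z g : GL (Fin 3) F} {c : F} (hz : (z : Matrix (Fin 3) (Fin 3) F) = c • 1) :
    tr3 (z * g) = c * tr3 g := by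
  rw [tr3, Units.val_mul, hz, Matrix.smul_mul, one_mul, Matrix.trace_smul, smul_eq_mul]

/-- The projection onto `P` modulo scalars. -/
abbrev proj (P : Subgroup (GL (Fin 3) F)) : P →* Proj P := QuotientGroup.mk' _

lemma proj_eq_one_iff (g : P) : proj P g = 1 ↔ (g : GL (Fin 3) F) ∈ scalars (Fin 3) F := by
  rw [QuotientGroup.mk'_apply, QuotientGroup.eq_one_iff, Subgroup.mem_subgroupOf]

lemma exists_scalar_of_proj_eq {g h : P} (e : proj P g = proj P h) :
    ∃ z : P, (z : GL (Fin 3) F) ∈ scalars (Fin 3) F ∧ g = z * h :=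
  ⟨g * h⁻¹, (proj_eq_one_iff _).1 (by rw [map_mul, map_inv, e, mul_inv_cancel]),
    by rw [inv_mul_cancel_right]⟩

/-- An element whose image has order prime to three is a scalar times an element of that order. -/
lemma lift_coprime (hC : Core P) (g : P) {n : ℕ} (hn : proj P g ^ n = 1) (h3 : n.Coprime 3) :
    ∃ z g₀ : P, (z : GL (Fin 3) F) ∈ scalars (Fin 3) F ∧ g = z * g₀ ∧ g₀ ^ n = 1 ∧
      proj P g₀ = proj P g := by
  have hs : ((g ^ n : P) : GL (Fin 3) F) ∈ scalars (Fin 3) F := (proj_eq_one_iff _).1 (by rw [map_pow, hn])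
  have hc : (g ^ n) ^ 3 = 1 := Subtype.ext (by
    rw [SubmonoidClass.coe_pow]
    exact scalar_cube hC (g ^ n).2 hs)
  obtain ⟨m, hm⟩ : ∃ m, n * m % 3 = 1 := by
    have : n % 3 ≠ 0 := fun h => by
      have := Nat.dvd_gcd (Nat.dvd_of_mod_eq_zero h) (dvd_refl 3)
      rw [h3] at this
      omega
    exact ⟨n, by rw [Nat.mul_mod]; rcases (show n % 3 = 1 ∨ n % 3 = 2 by omega) with h | h <;> rw [h]⟩
  have hzs : ((((g ^ n) ^ m : P)) : GL (Fin 3) F) ∈ scalars (Fin 3) F := by
    rw [SubmonoidClass.coe_pow]; exact Subgroup.pow_mem _ hs _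
  refine ⟨(g ^ n) ^ m, ((g ^ n) ^ m)⁻¹ * g, hzs, by rw [mul_inv_cancel_left], ?_, ?_⟩
  · have hcm : Commute (((g ^ n) ^ m)⁻¹) g := (((Commute.refl g).pow_left n).pow_left m).inv_left
    rw [hcm.mul_pow, inv_pow, ← pow_mul, inv_mul_eq_one]
    obtain ⟨k, hk⟩ : ∃ k, m * n = 3 * k + 1 := ⟨m * n / 3, by
      rw [mul_comm n m] at hm; omega⟩
    rw [hk, pow_succ, pow_mul, hc, one_pow, one_mul]
  · rw [map_mul, map_inv, (proj_eq_one_iff _).2 hzs, inv_one, one_mul]

/-- Conjugacy to a power in the quotient lifts exactly to elements of order prime to three. -/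
lemma trace_pow_of_conj (hC : Core P) (g : P) {n m : ℕ} (hn : g ^ n = 1) (h3 : n.Coprime 3)
    (hconj : ∃ y, y * proj P g * y⁻¹ = proj P g ^ m) :
    tr3 ((g : GL (Fin 3) F) ^ m) = tr3 (g : GL (Fin 3) F) := by
  obtain ⟨y, hy⟩ := hconj
  obtain ⟨h, rfl⟩ := QuotientGroup.mk'_surjective _ y
  obtain ⟨z, hz, e⟩ := exists_scalar_of_proj_eq (g := h * g * h⁻¹) (h := g ^ m)
    (by rw [map_mul, map_mul, map_inv, map_pow]; exact hy)
  have hz3 : z ^ 3 = 1 := Subtype.ext (by
    rw [SubmonoidClass.coe_pow]; exact scalar_cube hC z.2 hz)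
  have hzn : z ^ n = 1 := by
    have hcomm : Commute z (g ^ m) := Subtype.ext (scalar_comm hz _)
    have h1 : (h * g * h⁻¹) ^ n = 1 := by rw [conj_pow, hn, mul_one, mul_inv_cancel]
    rw [e, hcomm.mul_pow, ← pow_mul, mul_comm m n, pow_mul, hn, one_pow, mul_one] at h1
    exact h1
  have hz1 : z = 1 := by
    have := pow_gcd_eq_one.2 ⟨hzn, hz3⟩
    rwa [h3, pow_one] at this
  rw [hz1, one_mul] at e
  have e' := congrArg (fun x : P => tr3 (x : GL (Fin 3) F)) e
  simp only [Subgroup.coe_mul, Subgroup.coe_inv, SubmonoidClass.coe_pow, trace_conj] at e'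
  exact e'.symm

lemma not_proj_eq_one_of_ne {g : P} (hC : Core P) {n : ℕ} (hn : g ^ n = 1) (h3 : n.Coprime 3)
    (hg : g ≠ 1) : proj P g ≠ 1 := fun e => hg (Subtype.ext (by
  have h1 := scalar_cube hC g.2 ((proj_eq_one_iff g).1 e)
  have h2 : (g : GL (Fin 3) F) ^ n = 1 := by rw [← SubmonoidClass.coe_pow, hn, Subgroup.coe_one]
  have := pow_gcd_eq_one.2 ⟨h2, h1⟩
  rwa [h3, pow_one] at this))

/-- Homomorphisms of a perfect group to abelian groups are trivial. -/
lemma hom_eq_one (hC : Core P) {A : Type*} [CommGroup A] (f : P →* A) (g : P) : f g = 1 := by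
  have h : commutator P = ⊤ := by
    apply Subgroup.map_injective P.subtype_injective
    rw [commutator_def, Subgroup.map_commutator, ← MonoidHom.range_eq_map, Subgroup.range_subtype]
    exact hC.perfect
  have hle := Abelianization.commutator_subset_ker f
  rw [h] at hle
  exact MonoidHom.mem_ker.1 (hle (Subgroup.mem_top g))

/-- An abelian Sylow three-subgroup forces trivial scalars. -/
lemma scalar_eq_one_of_sylow_comm (hC : Core P) (Q : Sylow 3 P)
    (hQ : ∀ a b : (Q : Subgroup P), a * b = b * a) (z : P)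
    (hz : (z : GL (Fin 3) F) ∈ scalars (Fin 3) F) : z = 1 := by
  letI : CommGroup (Q : Subgroup P) := { (inferInstance : Group (Q : Subgroup P)) with mul_comm := hQ }
  have hz3 : z ^ 3 = 1 := Subtype.ext (by
    rw [SubmonoidClass.coe_pow]; exact scalar_cube hC z.2 hz)
  have key : ∀ (k : ℕ) (g₀ : P), g₀⁻¹ * z ^ k * g₀ ∈ (Q : Subgroup P) → g₀⁻¹ * z ^ k * g₀ = z ^ k := by
    intro k g₀ _
    have hc : Commute z g₀ := Subtype.ext (scalar_comm hz _)
    rw [mul_assoc, (hc.pow_left k).eq, inv_mul_cancel_left]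
  have h := MonoidHom.transfer_eq_pow (MonoidHom.id (Q : Subgroup P)) z key
  rw [hom_eq_one hC] at h
  have h1 : z ^ (Q : Subgroup P).index = 1 := (congrArg Subtype.val h).symm
  have h2 : Nat.gcd (Q : Subgroup P).index 3 = 1 :=
    ((Nat.Prime.coprime_iff_not_dvd Nat.prime_three).2
      (haveI : Fact (3 : ℕ).Prime := ⟨Nat.prime_three⟩; Q.not_dvd_index)).symm
  have := pow_gcd_eq_one.2 ⟨h1, hz3⟩
  rwa [h2, pow_one] at this

lemma card_scalars_dvd (hC : Core P) :
    Nat.card ((scalars (Fin 3) F).subgroupOf P) = 1 ∨ Nat.card ((scalars (Fin 3) F).subgroupOf P) = 3 := by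
  classical
  let f : ((scalars (Fin 3) F).subgroupOf P) → {c : F // c ^ 3 = 1} := fun z =>
    ⟨((z : P) : GL (Fin 3) F).val 0 0, by
      obtain ⟨c, hc, h3⟩ := val_scalar hC (z : P).2 z.2
      rw [hc]; simpa using h3⟩
  have hf : Function.Injective f := by
    intro a b e
    obtain ⟨c, hc, -⟩ := val_scalar hC (a : P).2 a.2
    obtain ⟨d, hd, -⟩ := val_scalar hC (b : P).2 b.2
    have e' : ((a : P) : GL (Fin 3) F).val 0 0 = ((b : P) : GL (Fin 3) F).val 0 0 := congrArg Subtype.val e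
    rw [hc, hd] at e'
    simp only [Matrix.smul_apply, Matrix.one_apply_eq, smul_eq_mul, mul_one] at e'
    exact Subtype.ext (Subtype.ext (Units.ext (by rw [hc, hd, e'])))
  have hle : Nat.card {c : F // c ^ 3 = 1} ≤ 3 := by
    rw [Nat.card_eq_fintype_card, Fintype.card_subtype]
    calc (Finset.univ.filter fun c : F => c ^ 3 = 1).card
        ≤ (Polynomial.nthRoots 3 (1 : F)).toFinset.card :=
          Finset.card_le_card fun c hc => by
            simp only [Finset.mem_filter] at hc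
            simp [Polynomial.mem_nthRoots, hc.2]
      _ ≤ Multiset.card (Polynomial.nthRoots 3 (1 : F)) := Multiset.toFinset_card_le _
      _ ≤ 3 := Polynomial.card_nthRoots 3 _
  have hn := (Nat.card_le_card_of_injective f hf).trans hle
  have hexp : ∀ z : ((scalars (Fin 3) F).subgroupOf P), z ^ 3 = 1 := fun z => by
    apply Subtype.ext; apply Subtype.ext
    rw [SubmonoidClass.coe_pow, SubmonoidClass.coe_pow]
    exact scalar_cube hC (z : P).2 z.2
  have hpg : IsPGroup 3 ((scalars (Fin 3) F).subgroupOf P) := fun z => ⟨1, by rw [pow_one]; exact hexp z⟩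
  haveI : Fact (3 : ℕ).Prime := ⟨Nat.prime_three⟩
  obtain ⟨k, hk⟩ := (IsPGroup.iff_card).1 hpg
  rw [hk] at hn ⊢
  rcases k with _ | _ | k
  · simp
  · simp
  · exfalso
    have : 3 ^ 2 ≤ 3 ^ (k + 2) := Nat.pow_le_pow_right (by norm_num) (by omega)
    have hn' : 3 ^ (k + 2) ≤ 3 := hn
    exact absurd (this.trans hn') (by norm_num)

/-- Lifts of the elements of order three, when nine divides the order of the quotient exactly. -/
theorem order_three_lift (hC : Core P) (h9 : 9 ∣ Nat.card (Proj P)) (h27 : ¬ 27 ∣ Nat.card (Proj P))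
    (g : P) (h3 : proj P g ^ 3 = 1) : g ^ 3 = 1 := by
  haveI : Fact (3 : ℕ).Prime := ⟨Nat.prime_three⟩
  set Z := (scalars (Fin 3) F).subgroupOf P with hZ
  by_cases htriv : ∀ z : P, (z : GL (Fin 3) F) ∈ scalars (Fin 3) F → z = 1
  · exact htriv _ ((proj_eq_one_iff _).1 (by rw [map_pow, h3]))
  have hg9 : g ^ 9 = 1 := by
    have hs : ((g ^ 3 : P) : GL (Fin 3) F) ∈ scalars (Fin 3) F := (proj_eq_one_iff _).1 (by rw [map_pow, h3])
    rw [show (9 : ℕ) = 3 * 3 from rfl, pow_mul]
    exact Subtype.ext (by rw [SubmonoidClass.coe_pow]; exact scalar_cube hC (g ^ 3).2 hs)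
  by_cases hgs : proj P g = 1
  · exact Subtype.ext (by
      rw [SubmonoidClass.coe_pow]; exact scalar_cube hC g.2 ((proj_eq_one_iff g).1 hgs))
  have hpg : IsPGroup 3 (Subgroup.zpowers g) := by
    rintro ⟨x, hx⟩
    obtain ⟨j, rfl⟩ := hx
    refine ⟨2, Subtype.ext ?_⟩
    rw [SubmonoidClass.coe_pow, Subgroup.coe_one, ← zpow_natCast, ← _root_.zpow_mul, mul_comm, _root_.zpow_mul,
      zpow_natCast, show (3 : ℕ) ^ 2 = 9 from rfl, hg9, _root_.one_zpow]
  obtain ⟨Q, hQ⟩ := hpg.exists_le_sylow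
  have hgQ : g ∈ (Q : Subgroup P) := hQ (Subgroup.mem_zpowers g)
  have hnc : ¬ ∀ a b : (Q : Subgroup P), a * b = b * a := fun h =>
    htriv fun z hz => scalar_eq_one_of_sylow_comm hC Q h z hz
  have hZ3 : Nat.card Z = 3 := by
    rcases card_scalars_dvd hC with h | h
    · refine absurd (fun z hz => ?_) htriv
      have := Nat.card_eq_one_iff_unique.1 h
      exact congrArg Subtype.val (this.1.elim (⟨z, hz⟩ : Z) 1)
    · exact h
  have hcard : Nat.card (Q : Subgroup P) = 27 := by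
    rw [Q.card_eq_multiplicity]
    have hP : Nat.card P = Nat.card (Proj P) * 3 := by
      rw [Subgroup.card_eq_card_quotient_mul_card_subgroup Z, hZ3]
    obtain ⟨k, hk⟩ := h9
    have hk3 : ¬ 3 ∣ k := fun h => h27 (by rw [hk]; exact mul_dvd_mul_left 9 h)
    rw [hP, hk, show 9 * k * 3 = 3 ^ 3 * k by ring, Nat.factorization_mul (by norm_num) (by
      rintro rfl; exact hk3 (dvd_zero 3)), Nat.Prime.factorization_pow Nat.prime_three]
    simp [Nat.factorization_eq_zero_of_not_dvd hk3]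
  have hcen : Nat.card (Subgroup.center (Q : Subgroup P)) = 3 := by
    obtain ⟨k, -, hk⟩ := (Nat.dvd_prime_pow Nat.prime_three).1
      (show Nat.card (Subgroup.center (Q : Subgroup P)) ∣ 3 ^ 3 by
        rw [show (3 : ℕ) ^ 3 = 27 from rfl, ← hcard]; exact Subgroup.card_subgroup_dvd_card _)
    have hnt : Nontrivial (Q : Subgroup P) := Finite.one_lt_card_iff_nontrivial.1 (by omega)
    have h0 : 1 < Nat.card (Subgroup.center (Q : Subgroup P)) :=
      Finite.one_lt_card_iff_nontrivial.2 Q.isPGroup'.center_nontrivial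
    have hmul := Subgroup.card_eq_card_quotient_mul_card_subgroup (Subgroup.center (Q : Subgroup P))
    rw [hcard, hk] at hmul
    rw [hk] at h0 ⊢
    rcases k with _ | _ | k
    · simp at h0
    · rfl
    · exfalso
      refine hnc ?_
      have hcyc : IsCyclic ((Q : Subgroup P) ⧸ Subgroup.center (Q : Subgroup P)) := by
        rcases k with _ | k
        · exact isCyclic_of_prime_card (p := 3) (by norm_num at hmul; omega)
        · haveI : Subsingleton ((Q : Subgroup P) ⧸ Subgroup.center (Q : Subgroup P)) := by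
            refine (Nat.card_eq_one_iff_unique.1 ?_).1
            have : 3 ^ 3 ≤ 3 ^ (k + 3) := Nat.pow_le_pow_right (by norm_num) (by omega)
            have hpos : 0 < Nat.card ((Q : Subgroup P) ⧸ Subgroup.center (Q : Subgroup P)) := Nat.card_pos
            nlinarith
          exact isCyclic_of_subsingleton
      exact commutative_of_cyclic_center_quotient (QuotientGroup.mk' (Subgroup.center (Q : Subgroup P))) (by rw [QuotientGroup.ker_mk'])
  -- the scalars are the centre of `Q`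
  have hZQ : Z ≤ (Q : Subgroup P) := by
    have hZn : IsPGroup 3 Z := IsPGroup.of_card (n := 1) (by rw [hZ3, pow_one])
    have hsup : IsPGroup 3 (Z ⊔ (Q : Subgroup P) : Subgroup P) :=
      IsPGroup.to_sup_of_normal_left hZn Q.isPGroup'
    exact le_sup_left.trans (le_of_eq (Q.is_maximal' hsup le_sup_right))
  have hcZ : (Z.subgroupOf (Q : Subgroup P)) = Subgroup.center (Q : Subgroup P) := by
    refine Subgroup.eq_of_le_of_card_ge ?_ ?_
    · intro x hx
      rw [Subgroup.mem_center_iff]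
      intro y
      exact Subtype.ext (Subtype.ext (scalar_comm (Subgroup.mem_subgroupOf.1 (Subgroup.mem_subgroupOf.1 hx)) _).symm)
    · rw [hcen, Nat.card_congr (Subgroup.subgroupOfEquivOfLe hZQ).toEquiv, hZ3]
  -- the image of `Q` is abelian
  have hgc : (⟨g, hgQ⟩ : (Q : Subgroup P)) ∉ Subgroup.center (Q : Subgroup P) := by
    rw [← hcZ, Subgroup.mem_subgroupOf]
    exact fun h => hgs ((proj_eq_one_iff g).2 (Subgroup.mem_subgroupOf.1 h))
  rw [Subgroup.mem_center_iff] at hgc
  push Not at hgc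
  obtain ⟨⟨h, hh⟩, hne⟩ := hgc
  have hqcomm : proj P h * proj P g = proj P g * proj P h := by
    have hq : Nat.card ((Q : Subgroup P) ⧸ Subgroup.center (Q : Subgroup P)) = 3 ^ 2 := by
      have hmul := Subgroup.card_eq_card_quotient_mul_card_subgroup (Subgroup.center (Q : Subgroup P))
      rw [hcard, hcen] at hmul
      omega
    have hc := (IsPGroup.commGroupOfCardEqPrimeSq hq).mul_comm
      (QuotientGroup.mk (⟨h, hh⟩ : (Q : Subgroup P))) (QuotientGroup.mk (⟨g, hgQ⟩ : (Q : Subgroup P)))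
    have hc2 := QuotientGroup.eq.1 hc
    rw [← hcZ, Subgroup.mem_subgroupOf] at hc2
    have hc3 := (proj_eq_one_iff _).2 (Subgroup.mem_subgroupOf.1 hc2)
    simp only [Subgroup.coe_mul, Subgroup.coe_inv, map_mul, map_inv] at hc3
    exact inv_mul_eq_one.1 hc3
  obtain ⟨z, hz, e⟩ := exists_scalar_of_proj_eq (g := h * g * h⁻¹) (h := g)
    (by rw [map_mul, map_mul, map_inv, hqcomm, mul_inv_cancel_right])
  obtain ⟨c, hc, -⟩ := val_scalar hC z.2 hz
  have hc1 : c ≠ 1 := fun h1 => hne (Subtype.ext (by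
    have hz1 : z = 1 := Subtype.ext (Units.ext (by rw [hc, h1, one_smul]; rfl))
    rw [hz1, one_mul, mul_inv_eq_iff_eq_mul] at e
    exact e))
  have htr : ∀ x : P, h * x * h⁻¹ = z * x → tr3 (x : GL (Fin 3) F) = 0 := by
    intro x hx
    have h1 := congrArg (fun y : P => tr3 (y : GL (Fin 3) F)) hx
    simp only [Subgroup.coe_mul, Subgroup.coe_inv, trace_conj, tr3_scalar_mul hc] at h1
    have h2 : (c - 1) * tr3 (x : GL (Fin 3) F) = 0 := by linear_combination -h1
    exact (mul_eq_zero.1 h2).resolve_left (sub_ne_zero.2 hc1)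
  have t0 := htr g e
  have t1 : tr3 ((g : GL (Fin 3) F))⁻¹ = 0 := by
    have e' : h * g⁻¹ * h⁻¹ = z⁻¹ * g⁻¹ := by
      have hzg : z * g = g * z := Subtype.ext (scalar_comm hz _)
      rw [show h * g⁻¹ * h⁻¹ = (h * g * h⁻¹)⁻¹ by group, e, hzg, _root_.mul_inv_rev]
    have h1 := congrArg (fun y : P => tr3 (y : GL (Fin 3) F)) e'
    have hcinv : ((z⁻¹ : P) : GL (Fin 3) F).val = c⁻¹ • 1 := by
      rw [Subgroup.coe_inv, Matrix.coe_units_inv, hc]
      apply Matrix.inv_eq_right_inv
      rw [Matrix.smul_mul, Matrix.mul_smul, one_mul, smul_smul, mul_inv_cancel₀, one_smul]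
      intro h0
      exact Units.ne_zero (z : GL (Fin 3) F) (by rw [hc, h0, zero_smul])
    simp only [Subgroup.coe_mul, Subgroup.coe_inv, trace_conj] at h1
    rw [← Subgroup.coe_inv P z, tr3_scalar_mul hcinv] at h1
    have h2 : (c⁻¹ - 1) * tr3 ((g : GL (Fin 3) F))⁻¹ = 0 := by linear_combination -h1
    exact (mul_eq_zero.1 h2).resolve_left (sub_ne_zero.2 (by simpa using hc1))
  refine Subtype.ext (Units.ext ?_)
  rw [SubmonoidClass.coe_pow, Units.val_pow_eq_pow_val, Subgroup.coe_one, Units.val_one,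
    cayley_three (det_eq_one hC g.2), t0, t1, zero_smul, zero_smul, sub_zero, zero_add]

/-- All traces in the fixed field of `x ↦ x ^ q` bound the field, for a group over no subfield. -/
theorem field_of_traces (hC : Core P) (hK : NoSub P) (p k : ℕ) [hp : Fact p.Prime] [CharP F p]
    (hk : 0 < k) (h : ∀ g : P, tr3 (g : GL (Fin 3) F) ^ p ^ k = tr3 (g : GL (Fin 3) F)) :
    (∀ x : F, x ^ p ^ k = x) ∧ Fintype.card F ≤ p ^ k := by
  classical
  haveI : ExpChar F p := ExpChar.prime hp.out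
  have htop : fixedField (F := F) p k = ⊤ := by
    by_contra hne
    exact hK _ hne (realisableOver_of_trace hC.absIrred fun g hg => mem_fixedField.2 (h ⟨g, hg⟩))
  have hall : ∀ x : F, x ^ p ^ k = x := fun x => mem_fixedField.1 (htop ▸ trivial)
  refine ⟨hall, ?_⟩
  have hne : (X ^ p ^ k - X : F[X]) ≠ 0 :=
    FiniteField.X_pow_card_sub_X_ne_zero F (Nat.one_lt_pow (by omega) hp.out.one_lt)
  calc Fintype.card F = (Finset.univ : Finset F).card := rfl
    _ ≤ (X ^ p ^ k - X : F[X]).roots.toFinset.card := Finset.card_le_card fun x _ => by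
        rw [Multiset.mem_toFinset, mem_roots hne]; simp [hall x]
    _ ≤ Multiset.card (X ^ p ^ k - X : F[X]).roots := Multiset.toFinset_card_le _
    _ ≤ (X ^ p ^ k - X : F[X]).natDegree := card_roots' _
    _ = p ^ k := FiniteField.X_pow_card_sub_X_natDegree_eq F (Nat.one_lt_pow (by omega) hp.out.one_lt)

lemma card_cases (p : ℕ) [hp : Fact p.Prime] [CharP F p] (h : Fintype.card F ≤ p ^ 2) :
    Fintype.card F = p ∨ Fintype.card F = p ^ 2 := by
  obtain ⟨n, -, hn⟩ := FiniteField.card F p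
  rcases (show (n : ℕ) = 1 ∨ (n : ℕ) = 2 ∨ 3 ≤ (n : ℕ) by have := n.pos; omega) with e | e | e
  · left; rw [hn, e, pow_one]
  · right; rw [hn, e]
  · have h1 : p ^ 3 ≤ p ^ (n : ℕ) := Nat.pow_le_pow_right hp.out.pos e
    have h2 : p ^ 2 < p ^ 3 := Nat.pow_lt_pow_right hp.out.one_lt (by norm_num)
    omega

end CfsgLib.SLThreeResidual
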