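import Cfsg.Agent.Lib.SLThreeResidual.Basic

/-!
# The trace function of the three-dimensional representations of `SL₃(2)`
-/

namespace CfsgLib.SLThreeResidual

variable {F : Type*} [Field F]

/-- The trace of an element of `SL₃(2)` in a three-dimensional representation whose value at one
class of elements of order seven is `α`. -/
def l32Tr (α : F) (g : Matrix.SpecialLinearGroup (Fin 3) (ZMod 2)) : F :=
  if g = 1 then 3 else if g * g = 1 then -1 else if g ^ 4 = 1 then 1 else if g ^ 3 = 1 then 0
  else if Matrix.trace (g : Matrix (Fin 3) (Fin 3) (ZMod 2)) = 0 then α else -1 - α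

end CfsgLib.SLThreeResidual
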