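import Cfsg.Agent.Lib.SLThreeResidual.Traces
import Cfsg.Agent.Lib.SLThreeResidual.L32Table
import Cfsg.Agent.Lib.InvChar.AEight.Quotient
import Cfsg.Agent.OT4376.L27

/-!
# Congruences for a residual subgroup isomorphic to `L₃(2)`

The scalars of `P` are trivial (transfer), so `P` is `L₃(2)`: an element of order seven is conjugate
to its square and every other element to its inverse.  The Cayley-Hamilton theorem then gives
`α² + α + 2 = 0` for the trace `α` of an element of order seven and puts every other trace in the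
prime field, so the field of traces is generated by `α` and its size is read off from `p` modulo
seven.
-/

set_option autoImplicit false
set_option synthInstance.maxSize 2048
set_option maxRecDepth 20000
set_option linter.style.haveILetI false

namespace CfsgLib.SLThreeResidual.Seven

open Cfsg.Geo Matrix Polynomial CfsgOT4376
open scoped IsMulCommutative

/-- Candidates for conjugating elements. -/
def cands : List T27 :=
  [((0, 0, 1), (0, 1, 0), (1, 0, 0)), ((0, 1, 0), (1, 0, 0), (0, 0, 1)),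
    ((1, 0, 0), (0, 0, 1), (0, 1, 0)), ((1, 0, 0), (0, 1, 0), (0, 1, 1)),
    ((1, 0, 0), (0, 1, 1), (0, 0, 1)), ((0, 0, 1), (1, 1, 1), (1, 0, 0)),
    ((0, 1, 0), (1, 0, 0), (1, 1, 1)), ((0, 0, 1), (0, 1, 0), (1, 0, 1)),
    ((0, 0, 1), (0, 1, 0), (1, 1, 1)), ((0, 0, 1), (0, 1, 1), (1, 0, 1)),
    ((0, 0, 1), (1, 0, 0), (0, 1, 0)), ((0, 0, 1), (1, 0, 1), (1, 1, 0)),
    ((0, 0, 1), (1, 1, 0), (1, 0, 1)), ((0, 0, 1), (1, 1, 1), (0, 1, 1)),
    ((0, 0, 1), (1, 1, 1), (1, 0, 1)), ((0, 1, 1), (0, 1, 0), (1, 1, 0)),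
    ((0, 1, 1), (1, 0, 1), (0, 0, 1)), ((1, 0, 0), (0, 1, 0), (1, 0, 1)),
    ((1, 0, 0), (1, 0, 1), (1, 1, 0)), ((1, 0, 0), (1, 1, 0), (0, 0, 1))]

theorem cands_det : ∀ h ∈ cands, detT h = 1 := by decide +kernel

/-- The classes of `SL₃(2)` on tuples. -/
theorem classes_tuple : ∀ t : T27, detT t = 1 →
    ((mulT t)^[7] oneT = oneT ∧ cands.any (fun h => mulT h t == mulT (mulT t t) h) = true) ∨
    (((mulT t)^[4] oneT = oneT ∨ (mulT t)^[3] oneT = oneT) ∧
      cands.any (fun h => mulT (mulT t h) t == h) = true) := by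
  decide +kernel

/-- An element of order seven of `SL₃(2)` is conjugate to its square, the others to their inverses. -/
theorem classes_L27 (A : L27) :
    (A ^ 7 = 1 ∧ ∃ h, h * A = A * A * h) ∨ ((A ^ 4 = 1 ∨ A ^ 3 = 1) ∧ ∃ h, A * h * A = h) := by
  have inj : ∀ B C : L27, enc B.1 = enc C.1 → B = C := fun B C h =>
    Subtype.ext (((dec_enc _).symm.trans (congrArg dec h)).trans (dec_enc _))
  have hpow : ∀ n, (mulT (enc A.1))^[n] oneT = oneT → A ^ n = 1 := fun n h => inj _ _ (by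
    rw [enc_pow, h]; rfl)
  have hcand : ∀ t ∈ cands, ∃ h : L27, enc h.1 = t := fun t ht =>
    ⟨⟨dec t, by rw [det_dec]; exact cands_det t ht⟩, enc_dec t⟩
  rcases classes_tuple (enc A.1) (by rw [← det_dec, dec_enc]; exact A.2) with ⟨h7, hc⟩ | ⟨ho, hc⟩
  · obtain ⟨t, ht, he⟩ := List.any_eq_true.1 hc
    obtain ⟨h, rfl⟩ := hcand t ht
    refine Or.inl ⟨hpow _ h7, h, inj _ _ ?_⟩
    simp only [Matrix.SpecialLinearGroup.coe_mul, enc_mul]
    exact eq_of_beq he
  · obtain ⟨t, ht, he⟩ := List.any_eq_true.1 hc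
    obtain ⟨h, rfl⟩ := hcand t ht
    refine Or.inr ⟨ho.imp (hpow _) (hpow _), h, inj _ _ ?_⟩
    simp only [Matrix.SpecialLinearGroup.coe_mul, enc_mul]
    exact eq_of_beq he

/-- Candidates for conjugating elements of order seven. -/
def cands7 : List T27 :=
  [((0, 0, 1), (0, 1, 0), (1, 0, 0)), ((0, 0, 1), (0, 1, 0), (1, 0, 1)), ((0, 0, 1), (0, 1, 0), (1, 1, 0)),
    ((0, 0, 1), (0, 1, 0), (1, 1, 1)), ((0, 0, 1), (0, 1, 1), (1, 0, 0)), ((0, 0, 1), (0, 1, 1), (1, 0, 1)),
    ((0, 0, 1), (0, 1, 1), (1, 1, 0)), ((0, 0, 1), (0, 1, 1), (1, 1, 1)), ((0, 0, 1), (1, 0, 0), (0, 1, 0)),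
    ((0, 0, 1), (1, 0, 0), (0, 1, 1)), ((0, 0, 1), (1, 0, 0), (1, 1, 0)), ((0, 0, 1), (1, 0, 0), (1, 1, 1)),
    ((0, 0, 1), (1, 0, 1), (0, 1, 0)), ((0, 0, 1), (1, 0, 1), (0, 1, 1)), ((0, 0, 1), (1, 0, 1), (1, 1, 0)),
    ((0, 0, 1), (1, 0, 1), (1, 1, 1)), ((0, 0, 1), (1, 1, 0), (0, 1, 0)), ((0, 0, 1), (1, 1, 0), (0, 1, 1)),
    ((0, 0, 1), (1, 1, 0), (1, 0, 0)), ((0, 0, 1), (1, 1, 0), (1, 0, 1)), ((0, 0, 1), (1, 1, 1), (0, 1, 0)),
    ((0, 0, 1), (1, 1, 1), (0, 1, 1)), ((0, 0, 1), (1, 1, 1), (1, 0, 0)), ((0, 0, 1), (1, 1, 1), (1, 0, 1))]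

theorem cands7_det : ∀ h ∈ cands7, detT h = 1 := by decide +kernel

/-- A representative of the elements of order seven of trace zero. -/
def rep0 : T27 := ((0, 0, 1), (0, 1, 1), (1, 1, 1))

/-- The inverse of `rep0`. -/
def rep1 : T27 := ((0, 1, 1), (1, 1, 0), (1, 0, 0))

theorem sevens_tuple : ∀ t : T27, detT t = 1 → (mulT t)^[7] oneT = oneT → t ≠ oneT →
    if t.1.1 + t.2.1.2.1 + t.2.2.2.2 = 0 then cands7.any (fun h => mulT h t == mulT rep0 h) = true
    else cands7.any (fun h => mulT h t == mulT rep1 h) = true := by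
  decide +kernel

/-- The elements of order seven of `SL₃(2)` fall into two classes, told apart by their trace. -/
theorem sevens_L27 : ∃ A₀ : L27, A₀ ≠ 1 ∧ A₀ ^ 7 = 1 ∧ ∀ A : L27, A ^ 7 = 1 → A ≠ 1 →
    if Matrix.trace (A : Matrix (Fin 3) (Fin 3) (ZMod 2)) = 0 then ∃ h, h * A = A₀ * h
    else ∃ h, h * A = A₀⁻¹ * h := by
  have inj : ∀ B C : L27, enc B.1 = enc C.1 → B = C := fun B C h =>
    Subtype.ext (((dec_enc _).symm.trans (congrArg dec h)).trans (dec_enc _))
  let A₀ : L27 := ⟨dec rep0, by rw [det_dec]; decide +kernel⟩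
  let A₁ : L27 := ⟨dec rep1, by rw [det_dec]; decide +kernel⟩
  have e0 : enc A₀.1 = rep0 := enc_dec rep0
  have e1 : enc A₁.1 = rep1 := enc_dec rep1
  have hinv : A₁ = A₀⁻¹ := by
    refine eq_inv_of_mul_eq_one_left (inj _ _ ?_)
    rw [Matrix.SpecialLinearGroup.coe_mul, enc_mul, e0, e1]
    decide +kernel
  refine ⟨A₀, fun h => ?_, inj _ _ ?_, fun A h7 h1 => ?_⟩
  · have h' : rep0 = enc (1 : L27).1 := by rw [← e0, h]
    revert h'
    decide +kernel
  · rw [enc_pow, e0]
    decide +kernel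
  have h7' : (mulT (enc A.1))^[7] oneT = oneT := by rw [← enc_pow, h7]; rfl
  have h := sevens_tuple (enc A.1) (by rw [← det_dec, dec_enc]; exact A.2) h7'
    (fun h => h1 (inj _ _ h))
  have hcand : ∀ t ∈ cands7, ∃ h : L27, enc h.1 = t := fun t ht =>
    ⟨⟨dec t, by rw [det_dec]; exact cands7_det t ht⟩, enc_dec t⟩
  have htr : Matrix.trace (A : Matrix (Fin 3) (Fin 3) (ZMod 2)) =
      (enc A.1).1.1 + (enc A.1).2.1.2.1 + (enc A.1).2.2.2.2 := Matrix.trace_fin_three _
  by_cases ht : Matrix.trace (A : Matrix (Fin 3) (Fin 3) (ZMod 2)) = 0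
  · rw [if_pos (htr ▸ ht)] at h
    obtain ⟨t, htm, he⟩ := List.any_eq_true.1 h
    obtain ⟨k, rfl⟩ := hcand t htm
    rw [if_pos ht]
    refine ⟨k, inj _ _ ?_⟩
    simp only [Matrix.SpecialLinearGroup.coe_mul, enc_mul, e0]
    exact eq_of_beq he
  · rw [if_neg (htr ▸ ht)] at h
    obtain ⟨t, htm, he⟩ := List.any_eq_true.1 h
    obtain ⟨k, rfl⟩ := hcand t htm
    rw [if_neg ht, ← hinv]
    refine ⟨k, inj _ _ ?_⟩
    simp only [Matrix.SpecialLinearGroup.coe_mul, enc_mul, e1]
    exact eq_of_beq he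

theorem classes_PSL (A : Matrix.ProjectiveSpecialLinearGroup (Fin 3) (ZMod 2)) :
    (A ^ 7 = 1 ∧ ∃ h, h * A = A * A * h) ∨ ((A ^ 4 = 1 ∨ A ^ 3 = 1) ∧ ∃ h, A * h * A = h) := by
  obtain ⟨B, rfl⟩ := QuotientGroup.mk_surjective A
  rcases classes_L27 B with ⟨h7, h, hh⟩ | ⟨ho, h, hh⟩
  · exact Or.inl ⟨by rw [← QuotientGroup.mk_pow, h7, QuotientGroup.mk_one], QuotientGroup.mk h,
      by rw [← QuotientGroup.mk_mul, hh]; rfl⟩
  · refine Or.inr ⟨ho.imp (fun h1 => ?_) (fun h1 => ?_), QuotientGroup.mk h, ?_⟩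
    · rw [← QuotientGroup.mk_pow, h1, QuotientGroup.mk_one]
    · rw [← QuotientGroup.mk_pow, h1, QuotientGroup.mk_one]
    · rw [← QuotientGroup.mk_mul, ← QuotientGroup.mk_mul, hh]

theorem card_PSL : Nat.card (Matrix.ProjectiveSpecialLinearGroup (Fin 3) (ZMod 2)) = 168 := by
  obtain ⟨e⟩ := CfsgLib.InvChar.AEight.gl_three_two_psl
  rw [← Nat.card_congr e.toEquiv, Matrix.card_GL_field, ZMod.card, Fin.prod_univ_three]
  rfl

/-- Transfer: in a perfect group a central element in an abelian subgroup is killed by the index. -/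
theorem central_pow_index {G : Type*} [Group G] [Finite G] (hperf : commutator G = ⊤) (S : Subgroup G)
    [IsMulCommutative S] (z : G) (hz : ∀ g, g * z = z * g) : z ^ S.index = 1 := by
  have key : ∀ (k : ℕ) (g₀ : G), g₀⁻¹ * z ^ k * g₀ ∈ S → g₀⁻¹ * z ^ k * g₀ = z ^ k := by
    intro k g₀ _
    have hc : Commute (z ^ k) g₀ := Commute.pow_left (show Commute z g₀ from (hz g₀).symm) k
    rw [mul_assoc, hc.eq, inv_mul_cancel_left]
  have hker : MonoidHom.transfer (MonoidHom.id S) z = 1 :=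
    (Abelianization.commutator_subset_ker _ (by rw [hperf]; trivial) : _)
  rw [MonoidHom.transfer_eq_pow _ z key] at hker
  exact congrArg Subtype.val hker

variable {F : Type*} [Field F] {P : Subgroup (GL (Fin 3) F)}

theorem det_one (hC : Core P) (g : P) :
    ((g : GL (Fin 3) F) : Matrix (Fin 3) (Fin 3) F).det = 1 := by
  have h : Matrix.GeneralLinearGroup.det (g : GL (Fin 3) F) = 1 := hC.le_sl g.2
  rw [← Matrix.GeneralLinearGroup.val_det_apply, h, Units.val_one]

/-- The scalars in a residual core with quotient `L₃(2)` are trivial. -/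
theorem scalars_trivial [Finite F] (hC : Core P)
    (e : Proj P ≃* Matrix.ProjectiveSpecialLinearGroup (Fin 3) (ZMod 2))
    (z : P) (hz : z ∈ (scalars (Fin 3) F).subgroupOf P) : z = 1 := by
  classical
  have hcent : ∀ {z : P}, z ∈ (scalars (Fin 3) F).subgroupOf P → ∀ g : P, g * z = z * g := by
    intro z hz g
    obtain ⟨c, hc⟩ := (mem_scalars_iff _).1 (Subgroup.mem_subgroupOf.1 hz)
    refine Subtype.ext (Units.ext ?_)
    simp [hc]
  have hperf : commutator P = ⊤ := by
    apply Subgroup.map_injective P.subtype_injective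
    rw [Subgroup.map_subtype_commutator, hC.perfect, ← MonoidHom.range_eq_map,
      Subgroup.range_subtype]
  have hz3 : z ^ 3 = 1 := by
    obtain ⟨c, hc⟩ := (mem_scalars_iff _).1 (Subgroup.mem_subgroupOf.1 hz)
    have hdet := det_one hC z
    rw [hc, Matrix.det_smul, Matrix.det_one, mul_one, Fintype.card_fin] at hdet
    refine Subtype.ext (Units.ext ?_)
    simp [hc, _root_.smul_pow, hdet]
  haveI : Fact (Nat.Prime 3) := ⟨Nat.prime_three⟩
  have h168 : Nat.card (Proj P) = 168 := by rw [Nat.card_congr e.toEquiv, card_PSL]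
  obtain ⟨a, ha⟩ := exists_prime_orderOf_dvd_card' (G := Proj P) 3 (by rw [h168]; norm_num)
  let S : Subgroup P := (Subgroup.zpowers a).comap (QuotientGroup.mk' _)
  have hSi : S.index = 56 := by
    rw [Subgroup.index_comap_of_surjective _ (QuotientGroup.mk'_surjective _)]
    have := (Subgroup.zpowers a).card_mul_index
    rw [Nat.card_zpowers, ha, h168] at this
    omega
  obtain ⟨b, hb⟩ := QuotientGroup.mk'_surjective ((scalars (Fin 3) F).subgroupOf P) a
  haveI : IsMulCommutative S := by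
    refine ⟨⟨fun x y => ?_⟩⟩
    have hdec : ∀ x : S, ∃ (i : ℤ) (n : P), (∀ g, g * n = n * g) ∧ (x : P) = b ^ i * n := by
      intro x
      obtain ⟨i, hi⟩ := Subgroup.mem_zpowers_iff.1 (Subgroup.mem_comap.1 x.2)
      refine ⟨i, (b ^ i)⁻¹ * x, hcent ?_, by group⟩
      rw [← QuotientGroup.eq_one_iff]
      have : QuotientGroup.mk' ((scalars (Fin 3) F).subgroupOf P) ((b ^ i)⁻¹ * (x : P)) = 1 := by
        rw [map_mul, map_inv, map_zpow, hb, hi, inv_mul_cancel]
      exact this
    obtain ⟨i, n, hn, hx⟩ := hdec x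
    obtain ⟨j, m, hm, hy⟩ := hdec y
    refine Subtype.ext ?_
    show (x : P) * y = y * x
    have hbn : ∀ k : ℤ, Commute (b ^ k) n := fun k => hn _
    have hbm : ∀ k : ℤ, Commute (b ^ k) m := fun k => hm _
    have hnm : Commute n m := hm _
    rw [hx, hy]
    exact ((Commute.zpow_zpow_self b i j).mul_right (hbm i)).mul_left
      ((hbn j).symm.mul_right hnm)
  have h56 := central_pow_index hperf S z (hcent hz)
  rw [hSi] at h56
  have h : z ^ 57 = 1 := by rw [show (57 : ℕ) = 3 * 19 from rfl, pow_mul, hz3, one_pow]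
  rw [pow_succ, h56, one_mul] at h
  exact h

/-- The class structure of `L₃(2)` inside `P`. -/
theorem classes [Finite F] (hC : Core P)
    (e : Proj P ≃* Matrix.ProjectiveSpecialLinearGroup (Fin 3) (ZMod 2)) (x : P) :
    (x ^ 7 = 1 ∧ ∃ h, h * x * h⁻¹ = x * x) ∨ ((x ^ 4 = 1 ∨ x ^ 3 = 1) ∧ ∃ h, h * x * h⁻¹ = x⁻¹) := by
  let f : P →* Matrix.ProjectiveSpecialLinearGroup (Fin 3) (ZMod 2) :=
    e.toMonoidHom.comp (QuotientGroup.mk' _)
  have hsurj : Function.Surjective f := e.surjective.comp (QuotientGroup.mk'_surjective _)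
  have hinj : Function.Injective f := by
    refine (injective_iff_map_eq_one f).2 fun y hy => scalars_trivial hC e y ?_
    rw [← QuotientGroup.eq_one_iff]
    exact e.injective (hy.trans (map_one e).symm)
  rcases classes_PSL (f x) with ⟨h7, h, hh⟩ | ⟨ho, h, hh⟩
  · obtain ⟨k, rfl⟩ := hsurj h
    refine Or.inl ⟨hinj (by rw [map_pow, h7, map_one]), k, ?_⟩
    rw [mul_inv_eq_iff_eq_mul]
    exact hinj (by rw [map_mul, map_mul, map_mul, hh])
  · obtain ⟨k, rfl⟩ := hsurj h
    refine Or.inr ⟨ho.imp (fun h1 => hinj (by rw [map_pow, h1, map_one]))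
      (fun h1 => hinj (by rw [map_pow, h1, map_one])), k, ?_⟩
    rw [mul_inv_eq_iff_eq_mul, eq_inv_mul_iff_mul_eq, ← mul_assoc]
    exact hinj (by rw [map_mul, map_mul, hh])

/-- Cayley-Hamilton in dimension three. -/
theorem cube_eq (M : Matrix (Fin 3) (Fin 3) F) :
    M ^ 3 = M.trace • M ^ 2 - M.adjugate.trace • M + M.det • (1 : Matrix (Fin 3) (Fin 3) F) := by
  ext i j
  fin_cases i <;> fin_cases j <;>
    simp [pow_succ, Matrix.mul_apply, Fin.sum_univ_three, Matrix.trace_fin_three,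
      Matrix.adjugate_fin_three, Matrix.det_fin_three, Matrix.smul_apply] <;> ring

theorem eq_one_of_seven {G : Type*} [Group G] {x : G} (h7 : x ^ 7 = 1) (ho : x ^ 4 = 1 ∨ x ^ 3 = 1) :
    x = 1 := by
  rw [← orderOf_eq_one_iff]
  have h7' := orderOf_dvd_of_pow_eq_one h7
  rcases ho with h4 | h3
  · exact Nat.eq_one_of_dvd_coprimes (by norm_num : Nat.Coprime 7 4) h7'
      (orderOf_dvd_of_pow_eq_one h4)
  · exact Nat.eq_one_of_dvd_coprimes (by norm_num : Nat.Coprime 7 3) h7'
      (orderOf_dvd_of_pow_eq_one h3)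

/-- The trace of an element. -/
abbrev tr (g : P) : F := trace ((g : GL (Fin 3) F) : Matrix (Fin 3) (Fin 3) F)

theorem tr_one : tr (1 : P) = (3 : F) := by
  simp [tr]

theorem tr_conj (g h : P) : tr (h * g * h⁻¹) = tr g := by
  simp only [tr, Subgroup.coe_mul, Subgroup.coe_inv, Units.val_mul]
  exact Matrix.trace_units_conj _ _

theorem tr_inv (hC : Core P) (g : P) :
    tr g⁻¹ = trace (((g : GL (Fin 3) F) : Matrix (Fin 3) (Fin 3) F)).adjugate := by
  have h := det_one hC g
  simp only [tr, Subgroup.coe_inv, Matrix.coe_units_inv, Matrix.inv_def, h, Ring.inverse_one,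
    one_smul]

theorem tr_sq (hC : Core P) (g : P) : tr (g * g) = tr g ^ 2 - 2 * tr g⁻¹ := by
  rw [tr_inv hC]
  simp only [tr, Subgroup.coe_mul, Units.val_mul]
  simp [Matrix.trace_fin_three, Matrix.mul_apply, Fin.sum_univ_three, Matrix.adjugate_fin_three]
  ring

/-- The trace of an element of order seven conjugate to its square is a root of `X² + X + 2`. -/
theorem alpha_eq (hC : Core P) (g : P) (h7 : g ^ 7 = 1) (h1 : g ≠ 1) (hgg : tr (g * g) = tr g)
    (hii : tr (g⁻¹ * g⁻¹) = tr g⁻¹) :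
    tr g ^ 2 + tr g + 2 = 0 ∧ tr g⁻¹ = -1 - tr g := by
  have e1 : tr g = tr g ^ 2 - 2 * tr g⁻¹ := hgg.symm.trans (tr_sq hC g)
  have e2 : tr g⁻¹ = tr g⁻¹ ^ 2 - 2 * tr g := by
    have h := tr_sq hC g⁻¹
    rw [inv_inv] at h
    exact hii.symm.trans h
  have hch : ∀ s t : F, tr g = s → tr g⁻¹ = t →
      ((g : GL (Fin 3) F) : Matrix (Fin 3) (Fin 3) F) ^ 3 =
        s • ((g : GL (Fin 3) F) : Matrix (Fin 3) (Fin 3) F) ^ 2 -
          t • ((g : GL (Fin 3) F) : Matrix (Fin 3) (Fin 3) F) + 1 := by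
    intro s t hs ht
    have hd := det_one hC g
    rw [cube_eq, ← tr_inv hC, ht, hd, one_smul, show trace _ = s from hs]
  have hval : ∀ n : ℕ, ((g : GL (Fin 3) F) : Matrix (Fin 3) (Fin 3) F) ^ n = 1 → g ^ n = 1 := fun n h =>
    Subtype.ext (Units.ext (by simpa using h))
  have hord : ∀ n : ℕ, 0 < n → n < 7 → g ^ n ≠ 1 := by
    intro n hn hn7 hg
    haveI : Fact (Nat.Prime 7) := ⟨by norm_num⟩
    have := orderOf_eq_prime h7 h1
    have := orderOf_dvd_of_pow_eq_one hg
    have := Nat.le_of_dvd hn this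
    omega
  set α := tr g with hα
  set β := tr g⁻¹ with hβ
  -- the exceptional values of the pair
  have h00 : ¬ (α = 0 ∧ β = 0) := fun ⟨ha, hb⟩ => hord 3 (by norm_num) (by norm_num) (hval 3 (by
    rw [hch 0 0 ha hb, zero_smul, zero_smul, sub_zero, zero_add]))
  have h33 : α = 3 → β = 3 → (7 : F) = 0 := by
    intro ha hb
    set M : Matrix (Fin 3) (Fin 3) F := ((g : GL (Fin 3) F) : Matrix (Fin 3) (Fin 3) F) with hM
    have h3 := hch 3 3 ha hb
    set N := M - 1 with hN
    have hMN : M = N + 1 := by rw [hN, sub_add_cancel]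
    have hN3 : N ^ 3 = 0 := by
      have : N ^ 3 = M ^ 3 - ((3 : F) • M ^ 2 - (3 : F) • M + 1) := by
        rw [hN]
        simp only [show (3 : F) = 1 + 1 + 1 by norm_num, add_smul, one_smul]
        noncomm_ring
      rw [this, h3, sub_self]
    have hN0 : N ≠ 0 := fun h => h1 (by
      have hh : M = 1 := by rw [hMN, h, zero_add]
      exact Subtype.ext (Units.ext hh))
    have h7' : M ^ 7 = 1 := by
      have := congrArg (fun x : P => ((x : GL (Fin 3) F) : Matrix (Fin 3) (Fin 3) F)) h7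
      simpa using this
    have hexp : (7 : F) • N + (21 : F) • N ^ 2 = 0 := by
      have h4 : ∀ k, 3 ≤ k → N ^ k = 0 := fun k hk => pow_eq_zero_of_le hk hN3
      rw [hMN, (Commute.one_right N).add_pow] at h7'
      simp [Finset.sum_range_succ, h4, Nat.choose] at h7'
      rw [Algebra.smul_def, Algebra.smul_def, map_ofNat, map_ofNat]
      linear_combination (norm := noncomm_ring) h7'
    by_contra h70
    have hmul := congrArg (· * N) hexp
    simp only [add_mul, zero_mul, smul_mul_assoc, ← pow_succ, hN3, smul_zero, add_zero,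
      ← pow_two] at hmul
    rcases smul_eq_zero.1 hmul with h | h
    · exact h70 h
    rw [h, smul_zero, add_zero] at hexp
    rcases smul_eq_zero.1 hexp with h' | h'
    · exact h70 h'
    · exact hN0 h'
  have hq : α ^ 2 + α + 2 = 0 := by
    by_cases h2 : (2 : F) = 0
    · rcases mul_eq_zero.1 (show α * (α - 1) = 0 by linear_combination -e1 + β * h2) with ha | ha
      · rw [ha]; linear_combination h2
      · linear_combination (α + 2) * ha + 2 * h2
    · have hfac : α * (α - 3) * (α ^ 2 + α + 2) = 0 := by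
        linear_combination (2 + α - α ^ 2 - 2 * β) * e1 + (-4) * e2
      rcases mul_eq_zero.1 hfac with hh | hh
      · rcases mul_eq_zero.1 hh with ha | ha
        · refine absurd ⟨ha, ?_⟩ h00
          refine (mul_eq_zero.1 (show 2 * β = 0 from ?_)).resolve_left h2
          linear_combination e1 + (α - 1) * ha
        · have ha' : α = 3 := sub_eq_zero.1 ha
          have hb : β = 3 := by
            refine sub_eq_zero.1 ((mul_eq_zero.1 (show (2 : F) * (β - 3) = 0 from ?_)).resolve_left h2)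
            linear_combination e1 + (α + 2) * ha
          linear_combination (α + 4) * ha + 2 * h33 ha' hb
      · exact hh
  refine ⟨hq, ?_⟩
  by_cases h2 : (2 : F) = 0
  · rcases mul_eq_zero.1 (show β * (β - 1) = 0 by linear_combination -e2 + α * h2) with hb | hb <;>
      rcases mul_eq_zero.1 (show α * (α - 1) = 0 by linear_combination -e1 + β * h2) with ha | ha
    · exact absurd ⟨ha, hb⟩ h00
    · linear_combination hb + ha + h2
    · linear_combination hb + ha + h2
    · exfalso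
      refine hord 4 (by norm_num) (by norm_num) (hval 4 ?_)
      have h3 := hch 1 1 (sub_eq_zero.1 ha) (sub_eq_zero.1 hb)
      rw [pow_succ' _ 3, h3]
      simp only [one_smul, mul_add, mul_sub, mul_one, ← pow_succ', ← pow_two, h3]
      abel
  · refine sub_eq_zero.1 ((mul_eq_zero.1 (show (2 : F) * (β - (-1 - α)) = 0 from ?_)).resolve_left h2)
    linear_combination e1 + hq

/-- An element equal to its inverse up to conjugacy, of order dividing four or three, has rational
trace. -/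
theorem real_trace (hC : Core P) (g : P) (ho : g ^ 4 = 1 ∨ g ^ 3 = 1) (hr : tr g⁻¹ = tr g) :
    tr g = 0 ∨ tr g = 1 ∨ tr g = -1 ∨ tr g = 3 := by
  have h := tr_sq hC g
  rw [hr] at h
  rcases ho with h4 | h3
  · have hinv : (g * g)⁻¹ = g * g :=
      inv_eq_of_mul_eq_one_right (by rw [← h4]; simp [pow_succ, mul_assoc])
    have h' := tr_sq hC (g * g)
    rw [hinv, show g * g * (g * g) = 1 by rw [← h4]; simp [pow_succ, mul_assoc], tr_one] at h'
    rcases mul_eq_zero.1 (show (tr (g * g) - 3) * (tr (g * g) + 1) = 0 by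
      linear_combination -h') with hs | hs
    · rcases mul_eq_zero.1 (show (tr g - 3) * (tr g + 1) = 0 by linear_combination -h + hs) with
        ht | ht
      · exact Or.inr (Or.inr (Or.inr (sub_eq_zero.1 ht)))
      · exact Or.inr (Or.inr (Or.inl (eq_neg_of_add_eq_zero_left ht)))
    · rcases mul_eq_zero.1 (show (tr g - 1) * (tr g - 1) = 0 by linear_combination -h + hs) with
        ht | ht <;> exact Or.inr (Or.inl (sub_eq_zero.1 ht))
  · have hinv : g * g = g⁻¹ := eq_inv_of_mul_eq_one_left (by rw [← h3]; simp [pow_succ, mul_assoc])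
    rw [hinv, hr] at h
    rcases mul_eq_zero.1 (show tr g * (tr g - 3) = 0 by linear_combination -h) with ht | ht
    · exact Or.inl ht
    · exact Or.inr (Or.inr (Or.inr (sub_eq_zero.1 ht)))

/-- An element of order seven and its trace. -/
theorem alpha_of_seven [Finite F] (hC : Core P)
    (e : Proj P ≃* Matrix.ProjectiveSpecialLinearGroup (Fin 3) (ZMod 2)) (x : P) (h7 : x ^ 7 = 1)
    (h1 : x ≠ 1) : tr x ^ 2 + tr x + 2 = 0 ∧ tr x⁻¹ = -1 - tr x := by
  have hsq : ∀ y : P, y ^ 7 = 1 → tr (y * y) = tr y := by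
    intro y hy
    rcases classes hC e y with ⟨-, h, hh⟩ | ⟨ho, -⟩
    · rw [← hh, tr_conj]
    · rw [eq_one_of_seven hy ho, mul_one]
  exact alpha_eq hC x h7 h1 (hsq x h7) (hsq _ (by rw [inv_pow, h7, inv_one]))

/-- An involution has trace `-1`. -/
theorem tr_involution (hC : Core P) (g : P) (h2 : g * g = 1) (h1 : g ≠ 1) : tr g = -1 := by
  have hinv : g⁻¹ = g := inv_eq_of_mul_eq_one_right h2
  have h := tr_sq hC g
  rw [h2, hinv, tr_one] at h
  rcases mul_eq_zero.1 (show (tr g - 3) * (tr g + 1) = 0 by linear_combination -h) with ht | ht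
  · by_cases hc : (4 : F) = 0
    · linear_combination ht + hc
    exfalso
    set M : Matrix (Fin 3) (Fin 3) F := ((g : GL (Fin 3) F) : Matrix (Fin 3) (Fin 3) F) with hM
    have hsq : M * M = 1 := by
      rw [hM, ← Units.val_mul, ← Subgroup.coe_mul, h2]; rfl
    have h3 := cube_eq M
    rw [det_one hC g, one_smul, hM, ← tr_inv hC, hinv, show trace _ = tr g from rfl,
      sub_eq_zero.1 ht, pow_three, pow_two, ← hM, hsq, mul_one] at h3
    have h4 : (4 : F) • M = (4 : F) • 1 := by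
      simp only [show (4 : F) = 3 + 1 by norm_num, add_smul, one_smul]
      conv_lhs => arg 2; rw [h3]
      abel
    refine h1 (Subtype.ext (Units.ext ?_))
    exact smul_right_injective _ hc h4
  · exact eq_neg_of_add_eq_zero_left ht

/-- An element of order four has trace `1`. -/
theorem tr_four (hC : Core P) (g : P) (h4 : g ^ 4 = 1) (h2 : g * g ≠ 1) (hr : tr g⁻¹ = tr g) :
    tr g = 1 := by
  have h := tr_sq hC g
  rw [hr, tr_involution hC (g * g) (by rw [← h4]; simp [pow_succ, mul_assoc]) h2] at h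
  rcases mul_eq_zero.1 (show (tr g - 1) * (tr g - 1) = 0 by linear_combination -h) with ht | ht <;>
    exact sub_eq_zero.1 ht

/-- An element of order three has trace `0`. -/
theorem tr_three (hC : Core P) (g : P) (h3 : g ^ 3 = 1) (h1 : g ≠ 1) (hr : tr g⁻¹ = tr g) :
    tr g = 0 := by
  have hinv : g * g = g⁻¹ := eq_inv_of_mul_eq_one_left (by rw [← h3]; simp [pow_succ, mul_assoc])
  have h := tr_sq hC g
  rw [hinv, hr] at h
  rcases mul_eq_zero.1 (show tr g * (tr g - 3) = 0 by linear_combination -h) with ht | ht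
  · exact ht
  by_cases hc : (3 : F) = 0
  · linear_combination ht + hc
  exfalso
  set M : Matrix (Fin 3) (Fin 3) F := ((g : GL (Fin 3) F) : Matrix (Fin 3) (Fin 3) F) with hM
  have hcube : M ^ 3 = 1 := by
    rw [hM, ← Units.val_pow_eq_pow_val, ← Subgroup.coe_pow, h3]; rfl
  have h4 := cube_eq M
  rw [det_one hC g, one_smul, hM, ← tr_inv hC, hr, show trace _ = tr g from rfl,
    sub_eq_zero.1 ht, ← hM, hcube] at h4
  have h5 : M * M = M := by
    refine smul_right_injective _ hc (sub_eq_zero.1 ?_)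
    show (3 : F) • (M * M) - (3 : F) • M = 0
    rw [← pow_two]
    conv_lhs => rw [← add_sub_cancel_right ((3 : F) • M ^ 2 - (3 : F) • M) 1, ← h4, sub_self]
  refine h1 (Subtype.ext (Units.ext ?_))
  show M = 1
  rw [← hcube, pow_three, h5, h5]

/-- In characteristic `p` the trace commutes with the `p`-th power. -/
theorem trace_pow_char {K : Type*} [Field K] (p : ℕ) [Fact p.Prime] [CharP K p] {n : Type*}
    [Fintype n] [DecidableEq n] [Nonempty n] (M : Matrix n n K) : trace (M ^ p) = trace M ^ p := by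
  have hp : p.Prime := Fact.out
  have key : M.charpoly ^ p =
      (Matrix.scalar n ((X : K[X]) ^ p) - (C : K →+* K[X]).mapMatrix (M ^ p)).det := by
    haveI : CharP (Matrix n n K[X]) p := by infer_instance
    rw [Matrix.charpoly, Matrix.charmatrix, ← Matrix.det_pow,
      sub_pow_char_of_commute p (Matrix.scalar_commute _ (fun r => Commute.all _ r) _),
      ← map_pow, ← map_pow]
  have hexp : expand K p (M ^ p).charpoly =
      (Matrix.scalar n ((X : K[X]) ^ p) - (C : K →+* K[X]).mapMatrix (M ^ p)).det := by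
    rw [Matrix.charpoly, AlgHom.map_det]
    congr 1
    ext i j
    rcases eq_or_ne i j with rfl | hij
    · simp
    · simp [hij]
  have hmap : (M ^ p).charpoly = M.charpoly.map (frobenius K p) := by
    apply expand_injective hp.pos
    rw [hexp, ← key, ← map_expand, map_frobenius_expand]
  rw [Matrix.trace_eq_neg_charpoly_coeff, Matrix.trace_eq_neg_charpoly_coeff, hmap,
    Polynomial.coeff_map, ← frobenius_def, map_neg]

end CfsgLib.SLThreeResidual.Seven

namespace CfsgLib.SLThreeResidual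

open Cfsg.Geo Matrix Seven

variable {F : Type*} [Field F] [Fintype F] {P : Subgroup (GL (Fin 3) F)}

/-- The field and the unitary form of a residual subgroup with quotient `L₃(2)`. -/
theorem congr_L32 (hC : Core P) (hK : NoSub P) (hQ : ¬ QuadFix P)
    (e : Nonempty (Proj P ≃* Matrix.ProjectiveSpecialLinearGroup (Fin 3) (ZMod 2))) (p : ℕ)
    [Fact p.Prime] [CharP F p] :
    (Fintype.card F = p ∧ (p % 7 = 1 ∨ p % 7 = 2 ∨ p % 7 = 4)) ∨
    (Fintype.card F = p ^ 2 ∧ (p % 7 = 3 ∨ p % 7 = 5 ∨ p % 7 = 6) ∧ UnitaryFix P) := by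
  classical
  obtain ⟨e⟩ := e
  have hp : p.Prime := Fact.out
  -- elements of order seven
  have hsq : ∀ x : P, x ^ 7 = 1 → tr (x * x) = tr x := by
    intro x h7
    rcases classes hC e x with ⟨-, h, hh⟩ | ⟨ho, -⟩
    · rw [← hh, tr_conj]
    · rw [eq_one_of_seven h7 ho, mul_one]
  have halpha : ∀ x : P, x ^ 7 = 1 → x ≠ 1 →
      tr x ^ 2 + tr x + 2 = 0 ∧ tr x⁻¹ = -1 - tr x := fun x h7 h1 =>
    alpha_eq hC x h7 h1 (hsq x h7) (hsq _ (by rw [inv_pow, h7, inv_one]))
  -- the traces of all elements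
  have hall : ∀ x : P, (tr x ^ 2 + tr x + 2 = 0 ∧ tr x⁻¹ = -1 - tr x) ∨
      (tr x⁻¹ = tr x ∧ (tr x = 0 ∨ tr x = 1 ∨ tr x = -1 ∨ tr x = 3)) := by
    intro x
    rcases eq_or_ne x 1 with rfl | h1
    · exact Or.inr ⟨by rw [inv_one], Or.inr (Or.inr (Or.inr tr_one))⟩
    rcases classes hC e x with ⟨h7, -⟩ | ⟨ho, h, hh⟩
    · exact Or.inl (halpha x h7 h1)
    · have hr : tr x⁻¹ = tr x := by rw [← hh, tr_conj]
      exact Or.inr ⟨hr, real_trace hC x ho hr⟩
  -- a root which is not real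
  obtain ⟨g, h7, hg1, hne⟩ : ∃ g : P, g ^ 7 = 1 ∧ g ≠ 1 ∧ (-1 - tr g : F) ≠ tr g := by
    by_contra hall'
    push Not at hall'
    have hR : RealTraces P := by
      intro a ha
      show tr (⟨a, ha⟩ : P)⁻¹ = tr (⟨a, ha⟩ : P)
      rcases eq_or_ne (⟨a, ha⟩ : P) 1 with h1 | h1
      · rw [h1, inv_one]
      rcases classes hC e ⟨a, ha⟩ with ⟨h7, -⟩ | ⟨-, h, hh⟩
      · rw [(halpha _ h7 h1).2, hall' _ h7 h1]
      · rw [← hh, tr_conj]
    by_cases h2 : (2 : F) = 0
    · exact false_of_realTraces_two h2 hC hR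
    · exact hQ (quadFix_of_realTraces h2 hC hR)
  obtain ⟨hq, hgi⟩ := halpha g h7 hg1
  set α := tr g with hαdef
  -- roots of the quadratic
  have hroot : ∀ t : F, t ^ 2 + t + 2 = 0 → t = α ∨ t = -1 - α := by
    intro t ht
    rcases mul_eq_zero.1 (show (t - α) * (t - (-1 - α)) = 0 by linear_combination ht - hq) with h | h
    · exact Or.inl (sub_eq_zero.1 h)
    · exact Or.inr (sub_eq_zero.1 h)
  -- the Frobenius map
  let φ : F →+* F := frobenius F p
  have hφn : ∀ t : F, t = 0 ∨ t = 1 ∨ t = -1 ∨ t = 3 → φ t = t := by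
    rintro t (rfl | rfl | rfl | rfl)
    · exact map_zero φ
    · exact map_one φ
    · rw [map_neg, map_one]
    · exact map_ofNat φ 3
  have hφα : φ α = α ∨ φ α = -1 - α := hroot _ (by
    rw [← map_pow, ← map_add, show (2 : F) = φ 2 from (map_ofNat φ 2).symm, ← map_add, hq, map_zero])
  -- traces of the powers of `g`
  have hsq' : ∀ x : P, x ^ 7 = 1 → tr (x * x * (x * x)) = tr x := fun x h => by
    rw [hsq (x * x) (by rw [← pow_two, ← pow_mul, mul_comm, pow_mul, h, one_pow]), hsq x h]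
  have hi7 : g⁻¹ ^ 7 = 1 := by rw [inv_pow, h7, inv_one]
  have hg2 : tr (g ^ 2) = α := by rw [pow_two, hsq g h7]
  have hg4 : tr (g ^ 4) = α := by
    rw [show g ^ 4 = g * g * (g * g) by simp [pow_succ, mul_assoc], hsq' g h7]
  have hg6 : tr (g ^ 6) = -1 - α := by
    rw [show g ^ 6 = g⁻¹ from eq_inv_of_mul_eq_one_left (by rw [← pow_succ, h7]), hgi]
  have hg5 : tr (g ^ 5) = -1 - α := by
    rw [show g ^ 5 = g⁻¹ * g⁻¹ from by
      rw [← _root_.mul_inv_rev]; exact eq_inv_of_mul_eq_one_left (by rw [← pow_two, ← pow_add, h7]),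
      hsq _ hi7, hgi]
  have hg3 : tr (g ^ 3) = -1 - α := by
    rw [show g ^ 3 = g⁻¹ * g⁻¹ * (g⁻¹ * g⁻¹) from by
      rw [show g⁻¹ * g⁻¹ * (g⁻¹ * g⁻¹) = (g ^ 4)⁻¹ by simp [pow_succ, mul_assoc]]
      exact eq_inv_of_mul_eq_one_left (by rw [← pow_add, h7]),
      hsq' _ hi7, hgi]
  have hp7 : p % 7 ≠ 0 := by
    intro h
    have h7p : 7 = p := (Nat.prime_dvd_prime_iff_eq (by norm_num) hp).1 (Nat.dvd_of_mod_eq_zero h)
    have h70 : (7 : F) = 0 := by
      rw [show (7 : F) = ((p : ℕ) : F) by rw [← h7p]; norm_num]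
      exact CharP.cast_eq_zero F p
    refine hne ?_
    have h0 : (2 * α + 1) ^ 2 = 0 := by linear_combination 4 * hq - h70
    linear_combination -(pow_eq_zero_iff two_ne_zero).1 h0
  have hgp : φ α = tr (g ^ (p % 7)) := by
    rw [show g ^ (p % 7) = g ^ p from (pow_eq_pow_mod p h7).symm, frobenius_def, hαdef]
    simp only [tr, Subgroup.coe_pow, Units.val_pow_eq_pow_val]
    exact (trace_pow_char p _).symm
  -- subfields containing all traces
  have hsub : ∀ ψ : F →+* F, ψ α = α → (∀ t : F, φ t = t → ψ t = t) → ∀ x, ψ x = x := by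
    intro ψ hψα hψφ
    by_contra hnot
    push Not at hnot
    obtain ⟨x, hx⟩ := hnot
    refine hK (ψ.eqLocusField (RingHom.id F)) (fun htop => hx ?_)
      (CfsgLib.SmallDim.realisableOver_of_trace hC.absIrred fun a ha => ?_)
    · have : x ∈ ψ.eqLocusField (RingHom.id F) := htop ▸ Subfield.mem_top x
      exact this
    · show ψ (tr (⟨a, ha⟩ : P)) = tr (⟨a, ha⟩ : P)
      rcases hall ⟨a, ha⟩ with ⟨hr, -⟩ | ⟨-, hr⟩
      · rcases hroot _ hr with h | h <;> rw [h]
        · exact hψα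
        · rw [map_sub, map_neg, map_one, hψα]
      · exact hψφ _ (hφn _ hr)
  have hdvd : ∀ k : ℕ, (∀ x : F, x ^ p ^ k = x) → Fintype.card F - 1 ∣ p ^ k - 1 := by
    intro k hk
    rw [← FiniteField.forall_pow_eq_one_iff]
    intro u
    have h := hk (u : F)
    rw [← Nat.sub_add_cancel (Nat.one_le_pow k p hp.pos), pow_succ] at h
    refine Units.ext ?_
    rw [Units.val_pow_eq_pow_val, Units.val_one]
    exact mul_right_cancel₀ u.ne_zero (h.trans (one_mul _).symm)
  obtain ⟨n, -, hn⟩ := FiniteField.card F p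
  have hcard : ∀ k : ℕ, 0 < k → (∀ x : F, x ^ p ^ k = x) → (n : ℕ) ≤ k := by
    intro k hk h
    have h1 := hdvd k h
    have h2 : 1 < p ^ k := Nat.one_lt_pow hk.ne' hp.one_lt
    have h3 := Nat.le_of_dvd (by omega) h1
    rw [hn] at h3
    by_contra hlt
    push Not at hlt
    have h4 : p ^ k < p ^ (n : ℕ) := Nat.pow_lt_pow_right hp.one_lt hlt
    omega
  rcases hφα with hφ | hφ
  · -- all traces in the prime field
    have hid : ∀ x : F, φ x = x := hsub φ hφ fun t ht => ht
    have hn1 : (n : ℕ) = 1 := le_antisymm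
      (hcard 1 one_pos fun x => by rw [pow_one]; exact hid x) n.pos
    refine Or.inl ⟨by rw [hn, hn1, pow_one], ?_⟩
    by_contra hc
    rw [hφ] at hgp
    have hlt : p % 7 < 7 := Nat.mod_lt _ (by norm_num)
    have hcases : p % 7 = 3 ∨ p % 7 = 5 ∨ p % 7 = 6 := by omega
    rcases hcases with h | h | h <;> rw [h] at hgp
    · exact hne (by rw [← hg3, ← hgp])
    · exact hne (by rw [← hg5, ← hgp])
    · exact hne (by rw [← hg6, ← hgp])
  · -- a quadratic extension
    have hφ2 : φ (φ α) = α := by rw [hφ, map_sub, map_neg, map_one, hφ]; ring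
    have hid : ∀ x : F, φ (φ x) = x :=
      hsub (φ.comp φ) hφ2 fun t ht => by rw [RingHom.comp_apply, ht, ht]
    have hn2 : (n : ℕ) = 2 := by
      have h1 : (n : ℕ) ≤ 2 := hcard 2 two_pos fun x => by
        rw [pow_two p, pow_mul]
        exact hid x
      have hne1 : (n : ℕ) ≠ 1 := by
        intro h
        refine hne ?_
        rw [← hφ, frobenius_def]
        conv_rhs => rw [← FiniteField.pow_card α, hn, h, pow_one]
      have := n.pos
      omega
    refine Or.inr ⟨by rw [hn, hn2], ?_, ?_⟩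
    · by_contra hc
      rw [hφ] at hgp
      have hlt : p % 7 < 7 := Nat.mod_lt _ (by norm_num)
      have hcases : p % 7 = 1 ∨ p % 7 = 2 ∨ p % 7 = 4 := by omega
      rcases hcases with h | h | h <;> rw [h] at hgp
      · exact hne (by rw [hgp, pow_one])
      · exact hne (by rw [hgp, hg2])
      · exact hne (by rw [hgp, hg4])
    · let σ : F ≃+* F := RingEquiv.ofBijective φ (Finite.injective_iff_bijective.1 φ.injective)
      refine unitaryFix_of_trace hC σ (fun hσ => hne ?_) hid fun a ha => ?_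
      · rw [← hφ]
        exact RingEquiv.congr_fun hσ α
      · show tr (⟨a, ha⟩ : P)⁻¹ = φ (tr (⟨a, ha⟩ : P))
        rcases hall ⟨a, ha⟩ with ⟨hr, hi⟩ | ⟨hi, hr⟩
        · rw [hi]
          rcases hroot _ hr with h | h <;> rw [h]
          · exact hφ.symm
          · rw [map_sub, map_neg, map_one, hφ]
        · rw [hi, hφn _ hr]

/-- The traces of a residual subgroup with quotient `L₃(2)`. -/
theorem exists_traces_L32 (hC : Core P) (_hQ : ¬ QuadFix P)
    (e : Nonempty (Proj P ≃* Matrix.ProjectiveSpecialLinearGroup (Fin 3) (ZMod 2))) :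
    ∃ (f : P ≃* Matrix.SpecialLinearGroup (Fin 3) (ZMod 2)) (α : F), α ^ 2 + α + 2 = 0 ∧
      ∀ g : P, trace (g : GL (Fin 3) F).val = l32Tr α (f g) := by
  classical
  obtain ⟨e⟩ := e
  have hN : (scalars (Fin 3) F).subgroupOf P = ⊥ :=
    (Subgroup.eq_bot_iff_forall _).2 fun z hz => scalars_trivial hC e z hz
  have hc : Subgroup.center (Matrix.SpecialLinearGroup (Fin 3) (ZMod 2)) = ⊥ := by
    have hone : ∀ u : (ZMod 2)ˣ, u = 1 := by decide
    rw [← Subgroup.card_eq_one,
      Nat.card_congr (Matrix.SpecialLinearGroup.center_equiv_rootsOfUnity).toEquiv]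
    exact Nat.card_eq_one_iff_unique.mpr
      ⟨⟨fun a b => Subtype.ext ((hone a.1).trans (hone b.1).symm)⟩, ⟨1⟩⟩
  let f : P ≃* Matrix.SpecialLinearGroup (Fin 3) (ZMod 2) :=
    (((QuotientGroup.quotientMulEquivOfEq hN).trans QuotientGroup.quotientBot).symm.trans e).trans
      ((QuotientGroup.quotientMulEquivOfEq hc).trans QuotientGroup.quotientBot)
  obtain ⟨A₀, hA1, hA7, hA⟩ := sevens_L27
  have h07 : f.symm A₀ ^ 7 = 1 := by rw [← map_pow, hA7, map_one]
  have h01 : f.symm A₀ ≠ 1 := fun h => hA1 (by rw [← f.apply_symm_apply A₀, h, map_one])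
  obtain ⟨hq, hi⟩ := alpha_of_seven hC e _ h07 h01
  refine ⟨f, tr (f.symm A₀), hq, fun g => ?_⟩
  show tr g = _
  have hf : ∀ x : P, f x = 1 ↔ x = 1 := fun x => f.map_eq_one_iff
  unfold l32Tr
  by_cases h1 : g = 1
  · rw [if_pos ((hf g).2 h1), h1, tr_one]
  rw [if_neg (mt (hf g).1 h1)]
  by_cases h2 : g * g = 1
  · rw [if_pos (by rw [← map_mul, h2, map_one]), tr_involution hC g h2 h1]
  rw [if_neg (fun h => h2 ((hf _).1 (by rw [map_mul, h])))]
  rcases classes hC e g with ⟨h7, -⟩ | ⟨ho, h, hh⟩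
  · rw [if_neg fun h => h1 (eq_one_of_seven h7 (Or.inl ((hf _).1 (by rw [map_pow, h])))),
      if_neg fun h => h1 (eq_one_of_seven h7 (Or.inr ((hf _).1 (by rw [map_pow, h]))))]
    have hAg := hA (f g) (by rw [← map_pow, h7, map_one]) (mt (hf g).1 h1)
    by_cases ht : Matrix.trace (f g : Matrix (Fin 3) (Fin 3) (ZMod 2)) = 0
    · rw [if_pos ht] at hAg ⊢
      obtain ⟨k, hk⟩ := hAg
      rw [show f.symm A₀ = f.symm k * g * (f.symm k)⁻¹ from f.injective (by simp [hk]), tr_conj]
    · rw [if_neg ht] at hAg ⊢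
      obtain ⟨k, hk⟩ := hAg
      rw [← hi, show (f.symm A₀)⁻¹ = f.symm k * g * (f.symm k)⁻¹ from f.injective (by simp [hk]),
        tr_conj]
  · have hr : tr g⁻¹ = tr g := by rw [← hh, tr_conj]
    by_cases h4 : g ^ 4 = 1
    · rw [if_pos (by rw [← map_pow, h4, map_one]), tr_four hC g h4 h2 hr]
    · have h3 := ho.resolve_left h4
      rw [if_neg (fun h => h4 ((hf _).1 (by rw [map_pow, h]))),
        if_pos (by rw [← map_pow, h3, map_one]), tr_three hC g h3 h1 hr]


end CfsgLib.SLThreeResidual
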