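import Cfsg.Agent.Lib.SLThreeResidual.Basic
import Cfsg.Agent.Lib.SL2.Normalizer
import Cfsg.Agent.S0205

/-!
# Certificates against the frame configurations

An element of `P` is obtained from a word in the frame generators. Two non-commuting elements fixing a
non-degenerate point and its polar line give the homology there, which restricts their traces; a word
reducing to a multiple of a transvection contradicts `TvFree`.
-/

set_option linter.unusedSectionVars false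

namespace CfsgLib.SLThreeResidual

open Cfsg.Geo Matrix CfsgLib.Geometric CfsgLib.SL2
open scoped MatrixGroups commutatorElement

/-- Three by three matrices, entry by entry. -/
structure M3 (R : Type*) where
  a : R
  b : R
  c : R
  d : R
  e : R
  f : R
  g : R
  h : R
  i : R
  deriving DecidableEq

namespace M3

variable {R S : Type*} [CommRing R] [CommRing S]

/-- The product. -/
def mul (x y : M3 R) : M3 R where
  a := x.a * y.a + x.b * y.d + x.c * y.g
  b := x.a * y.b + x.b * y.e + x.c * y.h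
  c := x.a * y.c + x.b * y.f + x.c * y.i
  d := x.d * y.a + x.e * y.d + x.f * y.g
  e := x.d * y.b + x.e * y.e + x.f * y.h
  f := x.d * y.c + x.e * y.f + x.f * y.i
  g := x.g * y.a + x.h * y.d + x.i * y.g
  h := x.g * y.b + x.h * y.e + x.i * y.h
  i := x.g * y.c + x.h * y.f + x.i * y.i

/-- A scalar matrix. -/
def scl (r : R) : M3 R := ⟨r, 0, 0, 0, r, 0, 0, 0, r⟩

/-- The matrix, mapped along a ring homomorphism. -/
def toMat (φ : R →+* S) (x : M3 R) : Matrix (Fin 3) (Fin 3) S :=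
  !![φ x.a, φ x.b, φ x.c; φ x.d, φ x.e, φ x.f; φ x.g, φ x.h, φ x.i]

lemma toMat_mul (φ : R →+* S) (x y : M3 R) : toMat φ (x.mul y) = toMat φ x * toMat φ y := by
  ext i j
  fin_cases i <;> fin_cases j <;> simp [toMat, mul, Matrix.mul_apply, Fin.sum_univ_three]

lemma toMat_scl (φ : R →+* S) (r : R) : toMat φ (scl r) = φ r • (1 : Matrix (Fin 3) (Fin 3) S) := by
  ext i j
  fin_cases i <;> fin_cases j <;> simp [toMat, scl]

/-- The action on a column. -/
def mulVec (x : M3 R) (v : R × R × R) : R × R × R :=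
  (x.a * v.1 + x.b * v.2.1 + x.c * v.2.2, x.d * v.1 + x.e * v.2.1 + x.f * v.2.2,
    x.g * v.1 + x.h * v.2.1 + x.i * v.2.2)

/-- The action on a row. -/
def vecMul (v : R × R × R) (x : M3 R) : R × R × R :=
  (v.1 * x.a + v.2.1 * x.d + v.2.2 * x.g, v.1 * x.b + v.2.1 * x.e + v.2.2 * x.h,
    v.1 * x.c + v.2.1 * x.f + v.2.2 * x.i)

/-- A multiple of a rank-one perturbation of the identity. -/
def pert (l : R) (u v : R × R × R) : M3 R :=
  ⟨l * (1 + u.1 * v.1), l * (u.1 * v.2.1), l * (u.1 * v.2.2),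
    l * (u.2.1 * v.1), l * (1 + u.2.1 * v.2.1), l * (u.2.1 * v.2.2),
    l * (u.2.2 * v.1), l * (u.2.2 * v.2.1), l * (1 + u.2.2 * v.2.2)⟩

/-- A triple as a vector. -/
def toVec (φ : R →+* S) (v : R × R × R) : Fin 3 → S := ![φ v.1, φ v.2.1, φ v.2.2]

/-- Scaling of a triple. -/
def smulVec (r : R) (v : R × R × R) : R × R × R := (r * v.1, r * v.2.1, r * v.2.2)

lemma toVec_mulVec (φ : R →+* S) (x : M3 R) (v : R × R × R) :
    toVec φ (x.mulVec v) = toMat φ x *ᵥ toVec φ v := by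
  funext i; fin_cases i <;> simp [toVec, toMat, mulVec, Matrix.mulVec, dotProduct, Fin.sum_univ_three]

lemma toVec_vecMul (φ : R →+* S) (x : M3 R) (v : R × R × R) :
    toVec φ (vecMul v x) = toVec φ v ᵥ* toMat φ x := by
  funext i; fin_cases i <;> simp [toVec, toMat, vecMul, Matrix.vecMul, dotProduct, Fin.sum_univ_three]

lemma toVec_smul (φ : R →+* S) (r : R) (v : R × R × R) : toVec φ (smulVec r v) = φ r • toVec φ v := by
  funext i; fin_cases i <;> simp [toVec, smulVec]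

end M3

variable {F : Type*} [Field F] {P : Subgroup (GL (Fin 3) F)} {B : GL (Fin 3) F}

/-! ### Elements of `P` in frame coordinates -/

/-- The conjugate of `M` by `B` lies in `P`. -/
def InP (P : Subgroup (GL (Fin 3) F)) (B : GL (Fin 3) F) (M : Matrix (Fin 3) (Fin 3) F) : Prop :=
  ∃ g ∈ P, (g : Matrix (Fin 3) (Fin 3) F) =
    (B : Matrix (Fin 3) (Fin 3) F) * M * ((B⁻¹ : GL (Fin 3) F) : Matrix (Fin 3) (Fin 3) F)

lemma hasProj_one (P : Subgroup (GL (Fin 3) F)) (B : GL (Fin 3) F) : HasProj P B 1 :=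
  ⟨1, 1, one_mem _, by simp⟩

lemma conj_mat_mul (B : GL (Fin 3) F) (M N : Matrix (Fin 3) (Fin 3) F) :
    ((B : Matrix (Fin 3) (Fin 3) F) * M * ((B⁻¹ : GL (Fin 3) F) : Matrix (Fin 3) (Fin 3) F)) *
      ((B : Matrix (Fin 3) (Fin 3) F) * N * ((B⁻¹ : GL (Fin 3) F) : Matrix (Fin 3) (Fin 3) F)) =
    (B : Matrix (Fin 3) (Fin 3) F) * (M * N) * ((B⁻¹ : GL (Fin 3) F) : Matrix (Fin 3) (Fin 3) F) := by
  simp only [Matrix.mul_assoc, Units.inv_mul_cancel_left]

lemma hasProj_mul {M N : Matrix (Fin 3) (Fin 3) F} (hM : HasProj P B M) (hN : HasProj P B N) :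
    HasProj P B (M * N) := by
  obtain ⟨c, g, hg, eg⟩ := hM
  obtain ⟨c', g', hg', eg'⟩ := hN
  exact ⟨c * c', g * g', mul_mem hg hg', by rw [Units.val_mul, eg, eg', smul_mul_smul_comm, conj_mat_mul]⟩

lemma hasProj_inv {M M' : Matrix (Fin 3) (Fin 3) F} (hMM : M * M' = 1) (hM : HasProj P B M) :
    HasProj P B M' := by
  obtain ⟨c, g, hg, eg⟩ := hM
  have hc : c ≠ 0 := fun h => g.ne_zero (by rw [eg, h, zero_smul])
  refine ⟨c⁻¹, g⁻¹, inv_mem hg, ?_⟩
  refine Units.inv_eq_of_mul_eq_one_right ?_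
  rw [eg, smul_mul_smul_comm, conj_mat_mul, hMM, mul_inv_cancel₀ hc, one_smul, Matrix.mul_one, Units.mul_inv]

lemma inP_comm {M M' N N' : Matrix (Fin 3) (Fin 3) F} (hMM : M * M' = 1) (hNN : N * N' = 1)
    (hM : HasProj P B M) (hN : HasProj P B N) : InP P B (M * N * M' * N') := by
  obtain ⟨c, g, hg, eg⟩ := hM
  obtain ⟨d, h, hh, eh⟩ := hN
  have hc : c ≠ 0 := fun e => g.ne_zero (by rw [eg, e, zero_smul])
  have hd : d ≠ 0 := fun e => h.ne_zero (by rw [eh, e, zero_smul])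
  have eg' : ((g⁻¹ : GL (Fin 3) F) : Matrix (Fin 3) (Fin 3) F) = c⁻¹ • ((B : Matrix (Fin 3) (Fin 3) F) * M' *
      ((B⁻¹ : GL (Fin 3) F) : Matrix (Fin 3) (Fin 3) F)) := by
    refine Units.inv_eq_of_mul_eq_one_right ?_
    rw [eg, smul_mul_smul_comm, conj_mat_mul, hMM, mul_inv_cancel₀ hc, one_smul, Matrix.mul_one, Units.mul_inv]
  have eh' : ((h⁻¹ : GL (Fin 3) F) : Matrix (Fin 3) (Fin 3) F) = d⁻¹ • ((B : Matrix (Fin 3) (Fin 3) F) * N' *
      ((B⁻¹ : GL (Fin 3) F) : Matrix (Fin 3) (Fin 3) F)) := by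
    refine Units.inv_eq_of_mul_eq_one_right ?_
    rw [eh, smul_mul_smul_comm, conj_mat_mul, hNN, mul_inv_cancel₀ hd, one_smul, Matrix.mul_one, Units.mul_inv]
  refine ⟨g * h * g⁻¹ * h⁻¹, mul_mem (mul_mem (mul_mem hg hh) (inv_mem hg)) (inv_mem hh), ?_⟩
  rw [Units.val_mul, Units.val_mul, Units.val_mul, eg, eh, eg', eh', smul_mul_smul_comm, conj_mat_mul,
    smul_mul_smul_comm, conj_mat_mul, smul_mul_smul_comm, conj_mat_mul]
  rw [show c * d * c⁻¹ * d⁻¹ = 1 by field_simp, one_smul]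

lemma det_one_add_vecMul (u ψ : Fin 3 → F) :
    (1 + vecMulVec u ψ).det = 1 + ψ ⬝ᵥ u := by
  rw [Matrix.det_fin_three, dotProduct, Fin.sum_univ_three]
  simp [vecMulVec_apply, Matrix.one_apply]
  ring

/-- A multiple of a transvection in frame coordinates contradicts `TvFree`. -/
lemma false_of_hasProj_pert (h3 : (3 : F) ≠ 0) (hle : P ≤ specialLinear (Fin 3) F) (hT : TvFree P)
    {lam : F} {u ψ : Fin 3 → F} (h : ψ ⬝ᵥ u = 0) (hu : u ≠ 0) (hψ : ψ ≠ 0)
    (hM : HasProj P B (lam • (1 + vecMulVec u ψ))) : False := by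
  obtain ⟨c, g, hg, eg⟩ := hM
  rw [Matrix.mul_smul, Matrix.smul_mul, smul_smul] at eg
  let φ : (Fin 3 → F) →ₗ[F] F :=
    { toFun := fun x => 3 * (ψ ⬝ᵥ x)
      map_add' := fun x y => by rw [dotProduct_add]; ring
      map_smul' := fun a x => by rw [dotProduct_smul, RingHom.id_apply, smul_eq_mul, smul_eq_mul]; ring }
  have hφ : φ u = 0 := by
    show 3 * (ψ ⬝ᵥ u) = 0
    rw [h, mul_zero]
  have hdet : (c * lam) ^ 3 = 1 := by
    have hd := (mem_specialLinear_iff g).1 (hle hg)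
    rw [eg, Matrix.det_smul, Matrix.det_mul, Matrix.det_mul, det_one_add_vecMul, h, add_zero, mul_one,
      ← Matrix.det_mul, Units.mul_inv, Matrix.det_one, mul_one, Fintype.card_fin] at hd
    exact hd
  have hsq : (1 + vecMulVec u ψ) * (1 + vecMulVec u ψ) * (1 + vecMulVec u ψ) =
      1 + (3 : F) • vecMulVec u ψ := by
    have hX : vecMulVec u ψ * vecMulVec u ψ = 0 := by
      ext i j
      simp only [Matrix.mul_apply, vecMulVec_apply, Matrix.zero_apply]
      rw [dotProduct] at h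
      calc ∑ k, u i * ψ k * (u k * ψ j) = u i * (∑ k, ψ k * u k) * ψ j := by
            rw [Finset.mul_sum, Finset.sum_mul]; exact Finset.sum_congr rfl fun k _ => by ring
        _ = 0 := by rw [h]; ring
    simp only [add_mul, mul_add, one_mul, mul_one, hX, Matrix.zero_mul, add_zero, Matrix.mul_zero]
    module
  have hg3 : g * g * g = B * tv u φ hφ * B⁻¹ := by
    refine Units.ext ?_
    have htv : ((tv u φ hφ : GL (Fin 3) F) : Matrix (Fin 3) (Fin 3) F) = 1 + (3 : F) • vecMulVec u ψ := by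
      refine Matrix.ext_of_mulVec_single fun i => ?_
      show ap (tv u φ hφ) _ = _
      rw [ap_tv, Matrix.add_mulVec, Matrix.one_mulVec, Matrix.smul_mulVec, vecMulVec_mulVec]
      show _ + (3 * (ψ ⬝ᵥ Pi.single i 1)) • u = _
      simp [smul_smul]
    simp only [Units.val_mul, eg, htv, smul_mul_smul_comm, conj_mat_mul, hsq]
    rw [show c * lam * (c * lam) * (c * lam) = (c * lam) ^ 3 by ring, hdet, one_smul]
  have hm : B * tv u φ hφ * B⁻¹ ∈ P := hg3 ▸ mul_mem (mul_mem hg hg) hg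
  rw [conj_tv] at hm
  rcases hT _ _ _ hm with e | e
  · exact hu (ap_injective B (e.trans (ap_zero B).symm))
  · refine hψ (funext fun i => ?_)
    have e' := congrArg (fun f => f (ap B (Pi.single i 1))) e
    simp [φ, ap_inv_ap, h3] at e'
    exact e'

/-! ### Odd subgroups of `SL₂` without unipotent elements -/

lemma even_card_of_not_comm [Finite F] (h2 : (2 : F) ≠ 0) (K : Subgroup SL(2, F))
    (hu : ∀ x ∈ K, tr x = 2 → x = 1) {a b : SL(2, F)} (ha : a ∈ K) (hb : b ∈ K) (hab : a * b ≠ b * a) :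
    (-1 : SL(2, F)) ∈ K := by
  by_contra hneg
  have hodd : Odd (Nat.card K) := by
    rw [← Nat.not_even_iff_odd]
    intro he
    obtain ⟨x, hx⟩ := exists_prime_orderOf_dvd_card' (G := K) 2 (even_iff_two_dvd.1 he)
    refine hneg ?_
    have hx2 : (x : SL(2, F)) ^ 2 = 1 := by
      have h' := pow_orderOf_eq_one x
      rw [hx] at h'
      rw [← Subgroup.coe_pow, h', Subgroup.coe_one]
    have hx1 : (x : SL(2, F)) ≠ 1 := fun e => by
      rw [orderOf_eq_one_iff.2 (Subtype.ext e : x = 1)] at hx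
      omega
    rw [← eq_neg_one_of_sq_eq_one h2 hx2 hx1]
    exact x.2
  have hsolv := Cfsg.Agent.S0205.result hodd
  have hpow : ∀ x : K, x * x = 1 → x = 1 := fun x hx => by
    have h1 : orderOf x ∣ 2 := orderOf_dvd_of_pow_eq_one (by rw [pow_two, hx])
    rcases (Nat.dvd_prime Nat.prime_two).1 h1 with e | e
    · exact orderOf_eq_one_iff.1 e
    · exact absurd (e ▸ orderOf_dvd_natCard x) (by rw [← even_iff_two_dvd]; exact Nat.not_even_iff_odd.2 hodd)
  have htr : ∀ x : K, x ≠ 1 → tr (x : SL(2, F)) ^ 2 ≠ 4 := by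
    intro x hx h4
    have h22 : (tr (x : SL(2, F)) - 2) * (tr (x : SL(2, F)) + 2) = 0 := by linear_combination h4
    rcases mul_eq_zero.1 h22 with e | e
    · exact hx (Subtype.ext (hu _ x.2 (sub_eq_zero.1 e)))
    · refine hx (hpow x (Subtype.ext (hu _ (mul_mem x.2 x.2) ?_)))
      have hd := det_eq (x : SL(2, F))
      have hsq : tr ((x : SL(2, F)) * (x : SL(2, F))) = tr (x : SL(2, F)) ^ 2 - 2 := by
        simp only [tr, Matrix.SpecialLinearGroup.coe_mul, Matrix.mul_apply, Fin.sum_univ_two]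
        linear_combination -2 * hd
      show tr ((x : SL(2, F)) * (x : SL(2, F))) = 2
      rw [hsq, eq_neg_of_add_eq_zero_left e]
      ring
  haveI : Nontrivial K := ⟨⟨⟨a, ha⟩, 1, fun e => hab (by rw [show a = 1 from congrArg Subtype.val e]; simp)⟩⟩
  obtain ⟨n, hn⟩ := hsolv.solvable
  obtain ⟨j, hj0, hj1⟩ : ∃ j, derivedSeries K j ≠ ⊥ ∧ derivedSeries K (j + 1) = ⊥ := by
    classical
    have hex : ∃ n, derivedSeries K n = ⊥ := ⟨n, hn⟩
    obtain ⟨j, hj⟩ : ∃ j, Nat.find hex = j + 1 := ⟨Nat.find hex - 1, by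
      have : Nat.find hex ≠ 0 := fun e => by
        have := Nat.find_spec hex
        rw [e, derivedSeries_zero] at this
        exact top_ne_bot this
      omega⟩
    exact ⟨j, Nat.find_min hex (by omega), hj ▸ Nat.find_spec hex⟩
  obtain ⟨x, hxA, hx1⟩ := (Subgroup.ne_bot_iff_exists_ne_one.1 hj0).elim fun x hx =>
    (⟨x.1, x.2, fun e => hx (Subtype.ext e)⟩ : ∃ y : K, y ∈ derivedSeries K j ∧ y ≠ 1)
  have hnorm : ∀ h : K, h * x * h⁻¹ ∈ derivedSeries K j := fun h =>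
    (derivedSeries_normal K j).conj_mem x hxA h
  have hcomA : ∀ y ∈ derivedSeries K j, y * x = x * y := fun y hy => by
    have : ⁅y, x⁆ ∈ derivedSeries K (j + 1) := Subgroup.commutator_mem_commutator hy hxA
    rw [hj1, Subgroup.mem_bot, commutatorElement_eq_one_iff_mul_comm] at this
    exact this
  have hcent : ∀ h : K, h * x = x * h := by
    intro h
    have hh : ((h * x * h⁻¹ : K) : SL(2, F)) ∈ Subgroup.centralizer ({(x : SL(2, F))} : Set SL(2, F)) :=
      Subgroup.mem_centralizer_singleton_iff.2 (congrArg Subtype.val (hcomA _ (hnorm h)))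
    rcases eq_or_eq_inv (htr x hx1) hh (by simp [tr_conj]) with e | e
    · exact mul_inv_eq_iff_eq_mul.1 (Subtype.ext e)
    · have e1 : h * x * h⁻¹ = x⁻¹ := Subtype.ext e
      have e2 : h * h * x = x * (h * h) := by
        refine mul_inv_eq_iff_eq_mul.1 ?_
        calc h * h * x * (h * h)⁻¹ = h * (h * x * h⁻¹) * h⁻¹ := by group
          _ = (h * x * h⁻¹)⁻¹ := by conv_lhs => rw [e1]
                                    group
          _ = x := by rw [e1, inv_inv]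
      obtain ⟨k, hk⟩ := hodd
      have e3 : (h * h) ^ (k + 1) = h := by
        rw [← pow_two, ← pow_mul, show 2 * (k + 1) = Nat.card K + 1 by omega, pow_succ, pow_card_eq_one', one_mul]
      rw [← e3]
      exact (Commute.pow_left e2 _).eq
  refine hab ?_
  have mem : ∀ y : K, (y : SL(2, F)) ∈ Subgroup.centralizer ({(x : SL(2, F))} : Set SL(2, F)) := fun y =>
    Subgroup.mem_centralizer_singleton_iff.2 (congrArg Subtype.val (hcent y))
  exact centralizer_mulComm (notMem_center_of_tr (htr x hx1)) (mem ⟨a, ha⟩) (mem ⟨b, hb⟩)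

/-! ### The stabiliser of a point and a line -/

/-- The third coordinate vector. -/
def e3 (F : Type*) [Field F] : Fin 3 → F := ![0, 0, 1]

/-- The elements of `P` which in the coordinates `D` fix the third point and its opposite line. -/
def blockGrp (P : Subgroup (GL (Fin 3) F)) (D : GL (Fin 3) F) : Subgroup (GL (Fin 3) F) where
  carrier := {g | g ∈ P ∧ ((D⁻¹ * g * D : GL (Fin 3) F) : Matrix (Fin 3) (Fin 3) F) *ᵥ e3 F = e3 F ∧
    e3 F ᵥ* ((D⁻¹ * g * D : GL (Fin 3) F) : Matrix (Fin 3) (Fin 3) F) = e3 F}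
  mul_mem' := by
    rintro a b ⟨ha, ha1, ha2⟩ ⟨hb, hb1, hb2⟩
    refine ⟨mul_mem ha hb, ?_, ?_⟩ <;>
      rw [show D⁻¹ * (a * b) * D = D⁻¹ * a * D * (D⁻¹ * b * D) by group, Units.val_mul]
    · rw [← Matrix.mulVec_mulVec, hb1, ha1]
    · rw [← Matrix.vecMul_vecMul, ha2, hb2]
  one_mem' := ⟨one_mem _, by simp, by simp⟩
  inv_mem' := by
    rintro a ⟨ha, ha1, ha2⟩
    refine ⟨inv_mem ha, ?_, ?_⟩ <;> rw [show D⁻¹ * a⁻¹ * D = (D⁻¹ * a * D)⁻¹ by group]
    · conv_lhs => rw [← ha1]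
      rw [Matrix.mulVec_mulVec, Units.inv_mul, Matrix.one_mulVec]
    · conv_lhs => rw [← ha2]
      rw [Matrix.vecMul_vecMul, Units.mul_inv, Matrix.vecMul_one]

lemma block_entries {D g : GL (Fin 3) F} (hg : g ∈ blockGrp P D) :
    let L : Matrix (Fin 3) (Fin 3) F := ((D⁻¹ * g * D : GL (Fin 3) F) : Matrix (Fin 3) (Fin 3) F)
    L 0 2 = 0 ∧ L 1 2 = 0 ∧ L 2 0 = 0 ∧ L 2 1 = 0 ∧ L 2 2 = 1 := by
  obtain ⟨-, h1, h2⟩ := hg
  intro L
  have a0 : L 0 2 = 0 := by simpa [L, Matrix.mulVec, dotProduct, Fin.sum_univ_three, e3] using congrFun h1 0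
  have a1 : L 1 2 = 0 := by simpa [L, Matrix.mulVec, dotProduct, Fin.sum_univ_three, e3] using congrFun h1 1
  have a2 : L 2 2 = 1 := by simpa [L, Matrix.mulVec, dotProduct, Fin.sum_univ_three, e3] using congrFun h1 2
  have b0 : L 2 0 = 0 := by simpa [L, Matrix.vecMul, dotProduct, Fin.sum_univ_three, e3] using congrFun h2 0
  have b1 : L 2 1 = 0 := by simpa [L, Matrix.vecMul, dotProduct, Fin.sum_univ_three, e3] using congrFun h2 1
  exact ⟨a0, a1, b0, b1, a2⟩

variable {D : GL (Fin 3) F} (hle : P ≤ specialLinear (Fin 3) F)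

/-- The action on the line. -/
def blockVal (D g : GL (Fin 3) F) : Matrix (Fin 2) (Fin 2) F :=
  let L : Matrix (Fin 3) (Fin 3) F := ((D⁻¹ * g * D : GL (Fin 3) F) : Matrix (Fin 3) (Fin 3) F)
  !![L 0 0, L 0 1; L 1 0, L 1 1]

lemma blockVal_mul {g h : GL (Fin 3) F} (hg : g ∈ blockGrp P D) :
    blockVal D (g * h) = blockVal D g * blockVal D h := by
  obtain ⟨a0, a1, -, -, -⟩ := block_entries hg
  have e : ((D⁻¹ * (g * h) * D : GL (Fin 3) F) : Matrix (Fin 3) (Fin 3) F) =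
      ((D⁻¹ * g * D : GL (Fin 3) F) : Matrix (Fin 3) (Fin 3) F) *
        ((D⁻¹ * h * D : GL (Fin 3) F) : Matrix (Fin 3) (Fin 3) F) := by
    rw [← Units.val_mul, show D⁻¹ * (g * h) * D = D⁻¹ * g * D * (D⁻¹ * h * D) by group]
  unfold blockVal
  simp only [e]
  generalize ((D⁻¹ * g * D : GL (Fin 3) F) : Matrix (Fin 3) (Fin 3) F) = L at a0 a1 ⊢
  generalize ((D⁻¹ * h * D : GL (Fin 3) F) : Matrix (Fin 3) (Fin 3) F) = M
  ext i j
  fin_cases i <;> fin_cases j <;>
    simp [Matrix.mul_apply, Fin.sum_univ_three, Fin.sum_univ_two, a0, a1]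

/-- The homomorphism to `SL₂`. -/
def blockHom (D : GL (Fin 3) F) (hle : P ≤ specialLinear (Fin 3) F) : blockGrp P D →* SL(2, F) where
  toFun g := ⟨blockVal D g.1, by
    obtain ⟨a0, a1, b0, b1, a2⟩ := block_entries g.2
    have hd : ((D⁻¹ * g.1 * D : GL (Fin 3) F) : Matrix (Fin 3) (Fin 3) F).det = 1 := by
      rw [Units.val_mul, Units.val_mul, Matrix.det_mul, Matrix.det_mul, (mem_specialLinear_iff _).1 (hle g.2.1),
        mul_one, ← Matrix.det_mul, Units.inv_mul, Matrix.det_one]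
    rw [Matrix.det_fin_three, a0, a1, b0, b1, a2] at hd
    rw [blockVal, Matrix.det_fin_two_of]
    linear_combination hd⟩
  map_one' := Subtype.ext (by
    show blockVal D (1 : GL (Fin 3) F) = 1
    unfold blockVal
    rw [show D⁻¹ * 1 * D = (1 : GL (Fin 3) F) by group]
    ext i j
    fin_cases i <;> fin_cases j <;> simp)
  map_mul' g h := Subtype.ext (blockVal_mul g.2)

lemma blockHom_coe (g : blockGrp P D) :
    ((blockHom D hle g : SL(2, F)) : Matrix (Fin 2) (Fin 2) F) = blockVal D g.1 := rfl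

lemma eq_of_blockHom {g h : blockGrp P D} (e : blockHom D hle g = blockHom D hle h) : g = h := by
  obtain ⟨a0, a1, b0, b1, a2⟩ := block_entries g.2
  obtain ⟨c0, c1, d0, d1, c2⟩ := block_entries h.2
  have e' : blockVal D g.1 = blockVal D h.1 := by rw [← blockHom_coe hle g, e, blockHom_coe]
  simp only [blockVal] at e'
  have e00 := congrFun (congrFun e' 0) 0
  have e01 := congrFun (congrFun e' 0) 1
  have e10 := congrFun (congrFun e' 1) 0
  have e11 := congrFun (congrFun e' 1) 1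
  have hL : (D⁻¹ * g.1 * D : GL (Fin 3) F) = D⁻¹ * h.1 * D := by
    refine Units.ext ?_
    generalize ((D⁻¹ * g.1 * D : GL (Fin 3) F) : Matrix (Fin 3) (Fin 3) F) = L at *
    generalize ((D⁻¹ * h.1 * D : GL (Fin 3) F) : Matrix (Fin 3) (Fin 3) F) = M at *
    ext i j
    fin_cases i <;> fin_cases j <;>
      first
        | exact e00 | exact e01 | exact e10 | exact e11
        | exact a0.trans c0.symm | exact a1.trans c1.symm | exact a2.trans c2.symm
        | exact b0.trans d0.symm | exact b1.trans d1.symm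
  exact Subtype.ext (mul_left_cancel (mul_right_cancel hL))

lemma eq_one_of_tr_two (hT : TvFree P) (g : blockGrp P D) (ht : tr (blockHom D hle g) = 2) :
    blockHom D hle g = 1 := by
  by_contra hne
  obtain ⟨a0, a1, b0, b1, a2⟩ := block_entries g.2
  set L : Matrix (Fin 3) (Fin 3) F := ((D⁻¹ * g.1 * D : GL (Fin 3) F) : Matrix (Fin 3) (Fin 3) F) with hL
  have htr : L 0 0 + L 1 1 = 2 := by
    exact ht
  have hdet : L 0 0 * L 1 1 - L 0 1 * L 1 0 = 1 := by
    have := (blockHom D hle g).det_coe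
    rwa [blockHom_coe, blockVal, Matrix.det_fin_two_of] at this
  have key : ∀ (u0 u1 p0 p1 : F), (p0, p1) ≠ (0, 0) → (u0, u1) ≠ (0, 0) → p0 * u0 + p1 * u1 = 0 →
      L 0 0 = 1 + u0 * p0 → L 0 1 = u0 * p1 → L 1 0 = u1 * p0 → L 1 1 = 1 + u1 * p1 → False := by
    intro u0 u1 p0 p1 hp hu h0 e00 e01 e10 e11
    let φ : (Fin 3 → F) →ₗ[F] F :=
      { toFun := fun x => p0 * x 0 + p1 * x 1
        map_add' := fun x y => by simp only [Pi.add_apply]; ring
        map_smul' := fun a x => by simp only [Pi.smul_apply, smul_eq_mul, RingHom.id_apply]; ring }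
    have hφ : φ ![u0, u1, 0] = 0 := by simpa [φ] using h0
    have hg : g.1 = D * tv ![u0, u1, 0] φ hφ * D⁻¹ := by
      rw [eq_mul_inv_iff_mul_eq, ← inv_mul_eq_iff_eq_mul, ← mul_assoc]
      refine gl_ext fun x => ?_
      rw [ap_tv, ap_def, ← hL]
      funext i
      fin_cases i <;>
        simp [φ, Matrix.mulVec, dotProduct, Fin.sum_univ_three, e00, e01, e10, e11, a0, a1, b0, b1, a2] <;> ring
    have hm := g.2.1
    rw [hg, conj_tv] at hm
    rcases hT _ _ _ hm with e | e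
    · have := ap_injective D (e.trans (ap_zero D).symm)
      exact hu (Prod.ext (by simpa using congrFun this 0) (by simpa using congrFun this 1))
    · have h' := fun i : Fin 3 => congrArg (fun f => f (ap D (Pi.single i 1))) e
      have p0' := h' 0
      have p1' := h' 1
      simp [φ, ap_inv_ap] at p0' p1'
      exact hp (Prod.ext p0' p1')
  by_cases hb : L 0 1 = 0
  · have hsq : (L 0 0 - 1) ^ 2 = 0 := by linear_combination L 0 0 * htr - hdet - L 1 0 * hb
    have e00 : L 0 0 = 1 := sub_eq_zero.1 (pow_eq_zero_iff (two_ne_zero) |>.1 hsq)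
    have e11 : L 1 1 = 1 := by linear_combination htr - e00
    by_cases hc : L 1 0 = 0
    · refine hne (Subtype.ext ?_)
      rw [blockHom_coe, blockVal]
      ext i j
      fin_cases i <;> fin_cases j <;> simp [-Units.val_mul, ← hL, e00, e11, hb, hc]
    · exact key 0 (L 1 0) 1 0 (by simp) (by simp [hc]) (by ring) (by linear_combination e00)
        (by linear_combination hb) (by ring) (by linear_combination e11)
  · refine key (L 0 1) (L 1 1 - 1) ((L 0 0 - 1) / L 0 1) 1 (by simp) (by simp [hb]) ?_ ?_ (by ring) ?_ (by ring)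
    · field_simp; linear_combination htr
    · field_simp; ring
    · field_simp
      linear_combination htr - hdet

/-- The trace condition on the elements fixing a point and a line of a homology. -/
lemma poly_of_block [Finite F] (h2 : (2 : F) ≠ 0) (hC : Core P) (hT : TvFree P) {t : GL (Fin 3) F}
    (hF : FrameCommon P B t) {k k' m : GL (Fin 3) F} (hk : k ∈ blockGrp P D) (hk' : k' ∈ blockGrp P D)
    (hm : m ∈ blockGrp P D) (hne : k * k' ≠ k' * k) :
    ∀ x : F, x = Matrix.trace (m : Matrix (Fin 3) (Fin 3) F) - 1 →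
      x * (x ^ 2 - 1) * (x ^ 2 - 2) * (x ^ 2 - 4) = 0 := by
  obtain ⟨s, hs⟩ : ∃ s : blockGrp P D, blockHom D hC.le_sl s = -1 := by
    have h := even_card_of_not_comm h2 (blockHom D hC.le_sl).range
      (by rintro _ ⟨g, rfl⟩ ht; exact eq_one_of_tr_two hC.le_sl hT g ht)
      ⟨⟨k, hk⟩, rfl⟩ ⟨⟨k', hk'⟩, rfl⟩
      (fun e => hne (congrArg Subtype.val (eq_of_blockHom hC.le_sl (g := ⟨k, hk⟩ * ⟨k', hk'⟩) (h := ⟨k', hk'⟩ * ⟨k, hk⟩)
        (by rw [map_mul, map_mul, e]))))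
    exact h
  have hs2 : s * s = 1 := eq_of_blockHom hC.le_sl (by rw [map_mul, map_one, hs, neg_mul_neg, one_mul])
  have hs1 : s ≠ 1 := fun e => by
    rw [e, map_one] at hs
    exact neg_one_ne_one h2 hs.symm
  have hsm : s * ⟨m, hm⟩ = ⟨m, hm⟩ * s :=
    eq_of_blockHom hC.le_sl (by rw [map_mul, map_mul, hs, neg_one_mul, mul_neg_one])
  obtain ⟨h, hhP, hh⟩ := hF.conj s.1 s.2.1 (congrArg Subtype.val hs2) (fun e => hs1 (Subtype.ext e))
  have hfix : ∀ g ∈ blockGrp P D, ap g (ap D (e3 F)) = ap D (e3 F) := by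
    intro g hg
    have := hg.2.1
    rw [← ap_def, ap_mul, ap_mul] at this
    exact (ap_ap_inv D _).symm.trans (congrArg (ap D) this)
  intro x hx
  refine hF.cent (h * m * h⁻¹) (mul_mem (mul_mem hhP hm.1) (inv_mem hhP)) ?_ ?_ x ?_
  · have := congrArg Subtype.val hsm
    calc h * m * h⁻¹ * t = h * (m * s.1) * h⁻¹ := by rw [← hh]; group
      _ = h * (s.1 * m) * h⁻¹ := by rw [show m * s.1 = s.1 * m from this.symm]
      _ = t * (h * m * h⁻¹) := by rw [← hh]; group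
  · set y := ap B⁻¹ (ap h (ap D (e3 F))) with hy
    have hty : ap t (ap h (ap D (e3 F))) = ap h (ap D (e3 F)) := by
      rw [← hh, ap_mul, ap_mul, ap_inv_ap, hfix _ s.2]
    have hy' : !![-1, 0, 0; 0, -1, 0; 0, 0, 1] *ᵥ y = y := by
      rw [hy, ap_def B⁻¹, Matrix.mulVec_mulVec]
      have e : !![-1, 0, 0; 0, -1, 0; 0, 0, 1] * ((B⁻¹ : GL (Fin 3) F) : Matrix (Fin 3) (Fin 3) F) =
          ((B⁻¹ : GL (Fin 3) F) : Matrix (Fin 3) (Fin 3) F) * (t : Matrix (Fin 3) (Fin 3) F) := by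
        rw [hF.t_val, Matrix.mul_assoc (B : Matrix (Fin 3) (Fin 3) F), Units.inv_mul_cancel_left]
      rw [e, ← Matrix.mulVec_mulVec]
      exact congrArg _ hty
    have y0 : y 0 = 0 := (mul_eq_zero.1 (show (2 : F) * y 0 = 0 by
      have := congrFun hy' 0
      simp [Matrix.mulVec, dotProduct, Fin.sum_univ_three] at this
      linear_combination -this)).resolve_left h2
    have y1 : y 1 = 0 := (mul_eq_zero.1 (show (2 : F) * y 1 = 0 by
      have := congrFun hy' 1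
      simp [Matrix.mulVec, dotProduct, Fin.sum_univ_three] at this
      linear_combination -this)).resolve_left h2
    have hye : y = y 2 • (![0, 0, 1] : Fin 3 → F) := by
      funext i; fin_cases i <;> simp [y0, y1]
    have hy2 : y 2 ≠ 0 := fun e => by
      refine ap_ne_zero B⁻¹ (ap_ne_zero h (ap_ne_zero D (x := e3 F) ?_)) (by rw [← hy, hye, e, zero_smul])
      intro e'
      simpa [e3] using congrFun e' 2
    have hB : ap h (ap D (e3 F)) = y 2 • ap B ![0, 0, 1] := by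
      rw [← ap_smul, ← hye, hy, ap_ap_inv]
    have := show ap (h * m * h⁻¹) (ap h (ap D (e3 F))) = ap h (ap D (e3 F)) by
      rw [ap_mul, ap_mul, ap_inv_ap, hfix _ hm]
    rw [hB, ap_smul] at this
    exact smul_right_injective _ hy2 this
  · rw [hx, Units.val_mul, Units.val_mul, Matrix.trace_mul_comm, ← Matrix.mul_assoc, Units.inv_mul,
      Matrix.one_mul]

/-- The version for elements given in frame coordinates. -/
theorem poly_of_fixed [Finite F] (h2 : (2 : F) ≠ 0) (hC : Core P) (hT : TvFree P) {t : GL (Fin 3) F}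
    (hF : FrameCommon P B t) (C : Matrix (Fin 3) (Fin 3) F) (hdet : C.det ≠ 0) {v ψ : Fin 3 → F} {n : F}
    (hn : n ≠ 0) (hv : C *ᵥ e3 F = v) (hψ : ψ ᵥ* C = n • e3 F) {K K' M : Matrix (Fin 3) (Fin 3) F}
    (hK : InP P B K) (hK' : InP P B K') (hM : InP P B M) (hKv : K *ᵥ v = v ∧ ψ ᵥ* K = ψ)
    (hK'v : K' *ᵥ v = v ∧ ψ ᵥ* K' = ψ) (hMv : M *ᵥ v = v ∧ ψ ᵥ* M = ψ) (hne : K * K' ≠ K' * K) :
    ∀ x : F, x = Matrix.trace M - 1 → x * (x ^ 2 - 1) * (x ^ 2 - 2) * (x ^ 2 - 4) = 0 := by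
  let Cu : GL (Fin 3) F := Matrix.GeneralLinearGroup.mkOfDetNeZero C hdet
  have hCu : (Cu : Matrix (Fin 3) (Fin 3) F) = C := rfl
  have mem : ∀ {N : Matrix (Fin 3) (Fin 3) F} {g : GL (Fin 3) F}, g ∈ P →
      (g : Matrix (Fin 3) (Fin 3) F) = (B : Matrix (Fin 3) (Fin 3) F) * N *
        ((B⁻¹ : GL (Fin 3) F) : Matrix (Fin 3) (Fin 3) F) →
      N *ᵥ v = v → ψ ᵥ* N = ψ → g ∈ blockGrp P (B * Cu) := by
    intro N g hg eg h1 h2
    have e : (((B * Cu)⁻¹ * g * (B * Cu) : GL (Fin 3) F) : Matrix (Fin 3) (Fin 3) F) =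
        ((Cu⁻¹ : GL (Fin 3) F) : Matrix (Fin 3) (Fin 3) F) * N * C := by
      rw [_root_.mul_inv_rev]
      simp only [Units.val_mul, eg, hCu, Matrix.mul_assoc, Units.inv_mul_cancel_left]
    have hrow : e3 F ᵥ* ((Cu⁻¹ : GL (Fin 3) F) : Matrix (Fin 3) (Fin 3) F) = n⁻¹ • ψ := by
      conv_lhs => rw [show e3 F = n⁻¹ • (ψ ᵥ* C) by rw [hψ, smul_smul, inv_mul_cancel₀ hn, one_smul]]
      rw [Matrix.smul_vecMul, Matrix.vecMul_vecMul, ← hCu, Units.mul_inv, Matrix.vecMul_one]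
    refine ⟨hg, ?_, ?_⟩ <;> rw [e]
    · rw [← Matrix.mulVec_mulVec, hv, ← Matrix.mulVec_mulVec, h1, ← hv, Matrix.mulVec_mulVec, ← hCu,
        Units.inv_mul, Matrix.one_mulVec]
    · rw [← Matrix.vecMul_vecMul, ← Matrix.vecMul_vecMul, hrow, Matrix.smul_vecMul, h2, Matrix.smul_vecMul, hψ,
        smul_smul, inv_mul_cancel₀ hn, one_smul]
  obtain ⟨k, hk, ek⟩ := hK
  obtain ⟨k', hk', ek'⟩ := hK'
  obtain ⟨m, hm, em⟩ := hM
  intro x hx
  refine poly_of_block h2 hC hT hF (mem hk ek hKv.1 hKv.2) (mem hk' ek' hK'v.1 hK'v.2)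
    (mem hm em hMv.1 hMv.2) (fun e => hne ?_) x ?_
  · have e' := congrArg (fun z : GL (Fin 3) F => (z : Matrix (Fin 3) (Fin 3) F)) e
    simp only [Units.val_mul, ek, ek', conj_mat_mul] at e'
    have := congrArg (fun z => ((B⁻¹ : GL (Fin 3) F) : Matrix (Fin 3) (Fin 3) F) * z * (B : Matrix (Fin 3) (Fin 3) F)) e'
    simpa [Matrix.mul_assoc] using this
  · rw [hx, em, Matrix.trace_mul_comm, ← Matrix.mul_assoc, Units.inv_mul, Matrix.one_mul]

/-! ### Words over `ℤ[√d]` -/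

variable {d : ℤ}

/-- The value of a word: numerator and exponent of two in the denominator. -/
def evalW (gen : ℕ → M3 (ℤ√d) × ℕ) : List ℕ → M3 (ℤ√d) × ℕ
  | [] => (M3.scl 1, 0)
  | i :: w => ((gen i).1.mul (evalW gen w).1, (gen i).2 + (evalW gen w).2)

/-- The value of a word in `F`. -/
noncomputable def valW (φ : ℤ√d →+* F) (x : M3 (ℤ√d) × ℕ) : Matrix (Fin 3) (Fin 3) F :=
  ((2 : F) ^ x.2)⁻¹ • M3.toMat φ x.1

lemma valW_mul (φ : ℤ√d →+* F) (x y : M3 (ℤ√d) × ℕ) :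
    valW φ (x.1.mul y.1, x.2 + y.2) = valW φ x * valW φ y := by
  rw [valW, valW, valW, M3.toMat_mul, smul_mul_smul_comm, pow_add, _root_.mul_inv]

lemma valW_evalW_append (φ : ℤ√d →+* F) (gen : ℕ → M3 (ℤ√d) × ℕ) (w w' : List ℕ) :
    valW φ (evalW gen (w ++ w')) = valW φ (evalW gen w) * valW φ (evalW gen w') := by
  induction w with
  | nil => simp [evalW, valW, M3.toMat_scl]
  | cons i w ih => rw [List.cons_append, evalW, evalW, valW_mul, valW_mul, ih, Matrix.mul_assoc]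

/-- The inverse word. -/
def invW (w : List ℕ) : List ℕ := (w.map fun i => (i + 5) % 10).reverse

/-- The commutator word. -/
def commW (a b : List ℕ) : List ℕ := a ++ b ++ invW a ++ invW b

/-- The generators and their inverses are in `P` up to scalars. -/
def GenOK (P : Subgroup (GL (Fin 3) F)) (B : GL (Fin 3) F) (φ : ℤ√d →+* F)
    (gen : ℕ → M3 (ℤ√d) × ℕ) : Prop :=
  ∀ i, i < 10 → HasProj P B (valW φ (gen i))

variable {φ : ℤ√d →+* F} {gen : ℕ → M3 (ℤ√d) × ℕ}

lemma genOK_of_five (h2 : (2 : F) ≠ 0) (h5 : ∀ i, i < 5 → HasProj P B (valW φ (gen i)))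
    (hinv : ∀ i, i < 5 → (gen i).1.mul (gen (i + 5)).1 = M3.scl (2 ^ ((gen i).2 + (gen (i + 5)).2))) :
    GenOK P B φ gen := by
  intro i hi
  by_cases h : i < 5
  · exact h5 i h
  · obtain ⟨j, hj, rfl⟩ : ∃ j, j < 5 ∧ i = j + 5 := ⟨i - 5, by omega, by omega⟩
    refine hasProj_inv ?_ (h5 j hj)
    rw [← valW_mul, valW, hinv j hj, M3.toMat_scl, map_pow, map_ofNat, smul_smul,
      inv_mul_cancel₀ (pow_ne_zero _ h2), one_smul]

lemma hasProj_evalW (hG : GenOK P B φ gen) {w : List ℕ} (hw : ∀ i ∈ w, i < 10) :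
    HasProj P B (valW φ (evalW gen w)) := by
  induction w with
  | nil => simpa [evalW, valW, M3.toMat_scl] using hasProj_one P B
  | cons i w ih =>
    rw [evalW, valW_mul]
    exact hasProj_mul (hG i (hw i List.mem_cons_self)) (ih fun j hj => hw j (List.mem_cons_of_mem _ hj))

/-- A word is inverted by `invW`. -/
def InvOK (gen : ℕ → M3 (ℤ√d) × ℕ) (w : List ℕ) : Prop :=
  (∀ i ∈ w, i < 10) ∧ (evalW gen (w ++ invW w)).1 = M3.scl (2 ^ (evalW gen (w ++ invW w)).2)

lemma inP_commW (h2 : (2 : F) ≠ 0) (hG : GenOK P B φ gen) {a b : List ℕ} (ha : InvOK gen a) (hb : InvOK gen b) :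
    InP P B (valW φ (evalW gen (commW a b))) := by
  have e : ∀ {w : List ℕ}, InvOK gen w → valW φ (evalW gen w) * valW φ (evalW gen (invW w)) = 1 := by
    intro w hw
    rw [← valW_evalW_append, valW, hw.2, M3.toMat_scl, map_pow, map_ofNat, smul_smul,
      inv_mul_cancel₀ (pow_ne_zero _ h2), one_smul]
  simp only [commW, valW_evalW_append]
  exact inP_comm (e ha) (e hb) (hasProj_evalW hG ha.1) (hasProj_evalW hG hb.1)

/-- The value fixes the column and the row. -/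
def FixOK (x : M3 (ℤ√d) × ℕ) (v ψ : ℤ√d × ℤ√d × ℤ√d) : Prop :=
  x.1.mulVec v = M3.smulVec (2 ^ x.2) v ∧ M3.vecMul ψ x.1 = M3.smulVec (2 ^ x.2) ψ

lemma fix_valW (h2 : (2 : F) ≠ 0) {x : M3 (ℤ√d) × ℕ} {v ψ : ℤ√d × ℤ√d × ℤ√d} (h : FixOK x v ψ) :
    valW φ x *ᵥ M3.toVec φ v = M3.toVec φ v ∧ M3.toVec φ ψ ᵥ* valW φ x = M3.toVec φ ψ := by
  constructor
  · rw [valW, Matrix.smul_mulVec, ← M3.toVec_mulVec, h.1, M3.toVec_smul, map_pow, map_ofNat, smul_smul,
      inv_mul_cancel₀ (pow_ne_zero _ h2), one_smul]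
  · rw [valW, Matrix.vecMul_smul, ← M3.toVec_vecMul, h.2, M3.toVec_smul, map_pow, map_ofNat, smul_smul,
      inv_mul_cancel₀ (pow_ne_zero _ h2), one_smul]

/-- The numerator of the polynomial at the trace. -/
def polyNum (T : ℤ) (k : ℕ) : ℤ :=
  (T - 2 ^ k) * ((T - 2 ^ k) ^ 2 - 4 ^ k) * ((T - 2 ^ k) ^ 2 - 2 * 4 ^ k) *
    ((T - 2 ^ k) ^ 2 - 4 * 4 ^ k)

lemma polyNum_eq_zero (h2 : (2 : F) ≠ 0) {x : M3 (ℤ√d) × ℕ} {T : ℤ}
    (hT : x.1.a + x.1.e + x.1.i = (T : ℤ√d))
    (h : ∀ y : F, y = Matrix.trace (valW φ x) - 1 → y * (y ^ 2 - 1) * (y ^ 2 - 2) * (y ^ 2 - 4) = 0) :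
    (polyNum T x.2 : F) = 0 := by
  have ht : Matrix.trace (M3.toMat φ x.1) = (T : F) := by
    have e : φ (x.1.a + x.1.e + x.1.i) = (T : F) := by rw [hT, map_intCast]
    rw [map_add, map_add] at e
    simpa [Matrix.trace_fin_three, M3.toMat] using e
  have h' := h _ rfl
  rw [valW, Matrix.trace_smul, ht, smul_eq_mul] at h'
  have hp : (2 : F) ^ x.2 ≠ 0 := pow_ne_zero _ h2
  have h4 : (4 : F) ^ x.2 = ((2 : F) ^ x.2) ^ 2 := by rw [← pow_mul, mul_comm, pow_mul]; norm_num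
  unfold polyNum
  push_cast
  rw [h4]
  field_simp at h'
  linear_combination h'

/-- A word reducing to a multiple of a transvection modulo a prime. -/
def TvOK (p : ℤ) (x : M3 (ℤ√d) × ℕ) (l : ℤ√d) (u ψ : ℤ√d × ℤ√d × ℤ√d) : Prop :=
  let y := M3.pert l u ψ
  (∀ z ∈ [x.1.a - y.a, x.1.b - y.b, x.1.c - y.c, x.1.d - y.d, x.1.e - y.e, x.1.f - y.f, x.1.g - y.g,
      x.1.h - y.h, x.1.i - y.i, ψ.1 * u.1 + ψ.2.1 * u.2.1 + ψ.2.2 * u.2.2], z.re % p = 0 ∧ z.im % p = 0) ∧
    (∃ z ∈ [u.1, u.2.1, u.2.2], Int.gcd z.norm p = 1) ∧ ∃ z ∈ [ψ.1, ψ.2.1, ψ.2.2], Int.gcd z.norm p = 1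

lemma map_eq_zero_of_dvd {p : ℤ} (hp : (p : F) = 0) {z : ℤ√d} (h : z.re % p = 0 ∧ z.im % p = 0) :
    φ z = 0 := by
  obtain ⟨a, ha⟩ := Int.dvd_of_emod_eq_zero h.1
  obtain ⟨b, hb⟩ := Int.dvd_of_emod_eq_zero h.2
  have e : z = (p : ℤ√d) * ⟨a, b⟩ := by ext <;> simp [ha, hb]
  rw [e, map_mul, map_intCast, hp, zero_mul]

lemma map_ne_zero_of_gcd {p : ℤ} (hp : (p : F) = 0) {z : ℤ√d} (h : Int.gcd z.norm p = 1) : φ z ≠ 0 := by
  intro hz
  have hn : (z.norm : F) = 0 := by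
    rw [← map_intCast φ, Zsqrtd.norm_eq_mul_conj, map_mul, hz, zero_mul]
  have e := congrArg (fun n : ℤ => (n : F)) (Int.gcd_eq_gcd_ab z.norm p)
  simp [h, hn, hp] at e

lemma false_of_tvOK (h3 : (3 : F) ≠ 0) (hle : P ≤ specialLinear (Fin 3) F) (hT : TvFree P)
    (hG : GenOK P B φ gen) {p : ℤ} (hp : (p : F) = 0) {w : List ℕ} (hw : ∀ i ∈ w, i < 10) {l : ℤ√d}
    {u ψ : ℤ√d × ℤ√d × ℤ√d} (h : TvOK p (evalW gen w) l u ψ) : False := by
  obtain ⟨h1, ⟨z, hz, hzu⟩, ⟨z', hz', hzψ⟩⟩ := h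
  have e : ∀ {a b : ℤ√d}, a - b ∈ ([(evalW gen w).1.a - (M3.pert l u ψ).a, (evalW gen w).1.b - (M3.pert l u ψ).b,
      (evalW gen w).1.c - (M3.pert l u ψ).c, (evalW gen w).1.d - (M3.pert l u ψ).d,
      (evalW gen w).1.e - (M3.pert l u ψ).e, (evalW gen w).1.f - (M3.pert l u ψ).f,
      (evalW gen w).1.g - (M3.pert l u ψ).g, (evalW gen w).1.h - (M3.pert l u ψ).h,
      (evalW gen w).1.i - (M3.pert l u ψ).i, ψ.1 * u.1 + ψ.2.1 * u.2.1 + ψ.2.2 * u.2.2] : List (ℤ√d)) →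
      φ a = φ b := fun hab => by
    have := map_eq_zero_of_dvd (φ := φ) hp (h1 _ hab)
    rwa [map_sub, sub_eq_zero] at this
  refine false_of_hasProj_pert h3 hle hT (u := M3.toVec φ u) (ψ := M3.toVec φ ψ)
    (lam := ((2 : F) ^ (evalW gen w).2)⁻¹ * φ l) ?_ ?_ ?_ ?_ (B := B)
  · have := map_eq_zero_of_dvd (φ := φ) hp (h1 _ (by simp : ψ.1 * u.1 + ψ.2.1 * u.2.1 + ψ.2.2 * u.2.2 ∈ _))
    simpa [M3.toVec, dotProduct, Fin.sum_univ_three] using this
  · intro hu
    refine map_ne_zero_of_gcd (φ := φ) hp hzu ?_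
    fin_cases hz
    · simpa [M3.toVec] using congrFun hu 0
    · simpa [M3.toVec] using congrFun hu 1
    · simpa [M3.toVec] using congrFun hu 2
  · intro hψ
    refine map_ne_zero_of_gcd (φ := φ) hp hzψ ?_
    fin_cases hz'
    · simpa [M3.toVec] using congrFun hψ 0
    · simpa [M3.toVec] using congrFun hψ 1
    · simpa [M3.toVec] using congrFun hψ 2
  · have hN : M3.toMat φ (evalW gen w).1 = φ l • (1 + vecMulVec (M3.toVec φ u) (M3.toVec φ ψ)) := by
      have e' : M3.toMat φ (evalW gen w).1 = M3.toMat φ (M3.pert l u ψ) := by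
        unfold M3.toMat
        rw [e (a := (evalW gen w).1.a) (b := (M3.pert l u ψ).a) (by simp), e (a := (evalW gen w).1.b) (b := (M3.pert l u ψ).b) (by simp),
          e (a := (evalW gen w).1.c) (b := (M3.pert l u ψ).c) (by simp), e (a := (evalW gen w).1.d) (b := (M3.pert l u ψ).d) (by simp),
          e (a := (evalW gen w).1.e) (b := (M3.pert l u ψ).e) (by simp), e (a := (evalW gen w).1.f) (b := (M3.pert l u ψ).f) (by simp),
          e (a := (evalW gen w).1.g) (b := (M3.pert l u ψ).g) (by simp), e (a := (evalW gen w).1.h) (b := (M3.pert l u ψ).h) (by simp),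
          e (a := (evalW gen w).1.i) (b := (M3.pert l u ψ).i) (by simp)]
      rw [e']
      ext i j
      fin_cases i <;> fin_cases j <;> simp [M3.toMat, M3.pert, M3.toVec, vecMulVec_apply, mul_comm]
    have := hasProj_evalW hG hw
    rwa [valW, hN, smul_smul] at this

/-- The two products differ in the upper left entry, whose norm is a power of two. -/
def NeOK (x y : M3 (ℤ√d) × ℕ) (j : ℕ) : Prop :=
  x.2 = y.2 ∧ Int.natAbs (x.1.a - y.1.a).norm = 2 ^ j

lemma ne_of_neOK (h2 : (2 : F) ≠ 0) {x y : M3 (ℤ√d) × ℕ} {j : ℕ} (h : NeOK x y j) : valW φ x ≠ valW φ y := by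
  intro e
  have e00 := congrFun (congrFun e 0) 0
  simp [valW, M3.toMat, h.1, pow_ne_zero _ h2] at e00
  have hn : ((x.1.a - y.1.a).norm : F) = 0 := by
    rw [← map_intCast φ, Zsqrtd.norm_eq_mul_conj, map_mul, map_sub, e00, sub_self, zero_mul]
  rcases Int.natAbs_eq (x.1.a - y.1.a).norm with e' | e' <;> rw [e', h.2] at hn <;>
    simp [h2] at hn

end CfsgLib.SLThreeResidual
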