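import Cfsg.Agent.Lib.SLThreeResidual.FrameEngine

/-!
# The quasi-dihedral frame is impossible
-/

set_option maxRecDepth 100000

namespace CfsgLib.SLThreeResidual

open Cfsg.Geo Matrix CfsgLib.Geometric

namespace SD

local notation "R" => ℤ√(-2)

/-- The frame generators (`f`, `c`, `s`, `h`, `k`) and their inverses, over `ℤ[√-2, 1/2]`. -/
def gen : ℕ → M3 R × ℕ
  | 0 | 5 => (⟨1, 0, 0, 0, -1, 0, 0, 0, -1⟩, 0)
  | 1 => (⟨0, 0, 1, 1, 0, 0, 0, 1, 0⟩, 0)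
  | 6 => (⟨0, 1, 0, 0, 0, 1, 1, 0, 0⟩, 0)
  | 2 | 7 => (⟨0, 1, 0, 1, 0, 0, 0, 0, -1⟩, 0)
  | 3 => (⟨⟨0, -1⟩, ⟨0, -1⟩, 0, ⟨0, -1⟩, ⟨0, 1⟩, 0, 0, 0, 2⟩, 1)
  | 8 => (⟨⟨0, 1⟩, ⟨0, 1⟩, 0, ⟨0, 1⟩, ⟨0, -1⟩, 0, 0, 0, 2⟩, 1)
  | 4 => (⟨⟨-1, -1⟩, 1, 0, -1, ⟨-1, 1⟩, 0, 0, 0, 2⟩, 1)
  | 9 => (⟨⟨-1, 1⟩, -1, 0, 1, ⟨-1, -1⟩, 0, 0, 0, 2⟩, 1)
  | _ => (M3.scl 1, 0)

theorem gen_inv : ∀ i, i < 5 →
    (gen i).1.mul (gen (i + 5)).1 = M3.scl (2 ^ ((gen i).2 + (gen (i + 5)).2)) := by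
  decide +kernel

def a₁ : List ℕ := [5, 2, 0]
def b₁ : List ℕ := [6, 9, 3, 6]
def a₂ : List ℕ := [5, 2, 0]
def b₂ : List ℕ := [1, 4, 1, 8, 1]
def a₃ : List ℕ := [6, 9, 3, 6]
def b₃ : List ℕ := [5, 6, 3, 1, 4, 1]
def v : R × R × R := (1, 1, ⟨1, 1⟩)
def ψ : R × R × R := (1, 1, ⟨1, -1⟩)

theorem inv_ok : InvOK gen a₁ ∧ InvOK gen b₁ ∧ InvOK gen b₂ ∧ InvOK gen b₃ := by
  unfold InvOK
  decide +kernel

theorem fix_ok : FixOK (evalW gen (commW a₁ b₁)) v ψ ∧ FixOK (evalW gen (commW a₂ b₂)) v ψ ∧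
    FixOK (evalW gen (commW a₃ b₃)) v ψ := by
  unfold FixOK
  decide +kernel

theorem ne_ok : ∃ j, j < 80 ∧ NeOK (evalW gen (commW a₁ b₁ ++ commW a₂ b₂))
    (evalW gen (commW a₂ b₂ ++ commW a₁ b₁)) j := by
  unfold NeOK
  decide +kernel

def tr3 (x : M3 R × ℕ) : R := x.1.a + x.1.e + x.1.i

theorem tr_ok : tr3 (evalW gen (commW a₁ b₁)) = ((tr3 (evalW gen (commW a₁ b₁))).re : R) ∧
    tr3 (evalW gen (commW a₂ b₂)) = ((tr3 (evalW gen (commW a₂ b₂))).re : R) ∧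
    tr3 (evalW gen (commW a₃ b₃)) = ((tr3 (evalW gen (commW a₃ b₃))).re : R) := by
  decide +kernel

/-- The three numerators. -/
def num (a b : List ℕ) : ℤ :=
  polyNum (tr3 (evalW gen (commW a b))).re (evalW gen (commW a b)).2

theorem gcd_ok : ∃ j, j < 250 ∧ ∃ i, i < 10 ∧
    Int.gcd (num a₁ b₁) (Int.gcd (num a₂ b₂) (num a₃ b₃) : ℤ) ∣ 2 ^ j * (3 ^ i * (5 ^ i * 7 ^ i)) := by
  decide +kernel

theorem tv_five : TvOK 5 (evalW gen [1, 2, 4, 6, 4, 1, 4]) ⟨1, 3⟩ (⟨0, 4⟩, ⟨3, 4⟩, ⟨3, 3⟩)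
    (⟨1, 0⟩, ⟨1, 1⟩, ⟨2, 1⟩) := by
  unfold TvOK
  decide +kernel

theorem tv_seven : TvOK 7 (evalW gen [1, 3, 1, 8, 1, 4, 1, 9, 6, 9]) ⟨4, 0⟩ (⟨0, 2⟩, ⟨3, 0⟩, ⟨3, 6⟩)
    (⟨1, 0⟩, ⟨0, 6⟩, ⟨3, 6⟩) := by
  unfold TvOK
  decide +kernel

end SD

open SD in
theorem sdFrame_false {F : Type*} [Field F] [Fintype F] {P : Subgroup (GL (Fin 3) F)} (h2 : (2 : F) ≠ 0)
    (hC : Core P) (hT : TvFree P) (h : SDFrame P) : False := by
  obtain ⟨h3, B, t, a, hF, ha, hh, hk⟩ := h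
  have hr : (-2 * a) * (-2 * a) = ((-2 : ℤ) : F) := by
    push_cast
    linear_combination 2 * ha
  let φ : ℤ√(-2) →+* F := Zsqrtd.lift ⟨-2 * a, hr⟩
  have φe : ∀ x y : ℤ, φ ⟨x, y⟩ = (x : F) + (y : F) * (-2 * a) := fun x y => rfl
  have hG : GenOK P B φ gen := by
    refine genOK_of_five h2 (fun i hi => ?_) gen_inv
    interval_cases i
    · convert hF.flip using 1
      ext i j; fin_cases i <;> fin_cases j <;> simp [valW, gen, M3.toMat]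
    · convert hF.cyc using 1
      ext i j; fin_cases i <;> fin_cases j <;> simp [valW, gen, M3.toMat]
    · convert hF.swap using 1
      ext i j; fin_cases i <;> fin_cases j <;> simp [valW, gen, M3.toMat]
    · convert hh using 1
      ext i j; fin_cases i <;> fin_cases j <;> simp [valW, gen, M3.toMat, φe, h2]
    · convert hk using 1
      ext i j; fin_cases i <;> fin_cases j <;> simp [valW, gen, M3.toMat, φe, h2] <;> field_simp <;> ring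
  by_cases h5 : (5 : F) = 0
  · exact false_of_tvOK h3 hC.le_sl hT hG (p := 5) (by exact_mod_cast h5) (by decide) tv_five
  by_cases h7 : (7 : F) = 0
  · exact false_of_tvOK h3 hC.le_sl hT hG (p := 7) (by exact_mod_cast h7) (by decide) tv_seven
  let C : Matrix (Fin 3) (Fin 3) F := !![1, φ ⟨-1, 1⟩, 1; -1, 0, 1; 0, 1, φ ⟨1, 1⟩]
  have hψ : M3.toVec φ ψ ᵥ* C = (5 : F) • e3 F := by
    funext i
    fin_cases i <;>
      simp [M3.toVec, ψ, C, e3, Matrix.vecMul, dotProduct, Fin.sum_univ_three, φe] <;>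
      first | ring1 | linear_combination 2 * ha | linear_combination -2 * ha
  have hdet : C.det ≠ 0 := by
    intro hd
    simp [Matrix.det_fin_three, C, φe] at hd
    refine h5 ?_
    linear_combination -hd + 2 * ha
  have hv : C *ᵥ e3 F = M3.toVec φ v := by
    funext i
    fin_cases i <;> simp [M3.toVec, v, C, e3, Matrix.mulVec, dotProduct, Fin.sum_univ_three]
  obtain ⟨i1, i2, i4, i6⟩ := inv_ok
  obtain ⟨f1, f2, f3⟩ := fix_ok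
  obtain ⟨j, -, hne⟩ := ne_ok
  have hne' : valW φ (evalW gen (commW a₁ b₁)) * valW φ (evalW gen (commW a₂ b₂)) ≠
      valW φ (evalW gen (commW a₂ b₂)) * valW φ (evalW gen (commW a₁ b₁)) := by
    rw [← valW_evalW_append, ← valW_evalW_append]
    exact ne_of_neOK h2 hne
  have key : ∀ a b : List ℕ, InvOK gen a → InvOK gen b → FixOK (evalW gen (commW a b)) v ψ →
      tr3 (evalW gen (commW a b)) = ((tr3 (evalW gen (commW a b))).re : ℤ√(-2)) → (num a b : F) = 0 :=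
    fun a b ia ib fa ht => polyNum_eq_zero h2 (φ := φ) ht
      (poly_of_fixed h2 hC hT hF C hdet h5 hv hψ (inP_commW h2 hG i1 i2) (inP_commW h2 hG i1 i4)
        (inP_commW h2 hG ia ib) (fix_valW h2 f1) (fix_valW h2 f2) (fix_valW h2 fa) hne')
  obtain ⟨t1, t2, t3⟩ := tr_ok
  have n1 := key _ _ i1 i2 f1 t1
  have n2 := key a₂ b₂ i1 i4 f2 t2
  have n3 := key a₃ b₃ i2 i6 f3 t3
  obtain ⟨j, -, i, -, hdvd⟩ := gcd_ok
  have g23 : ((Int.gcd (num a₂ b₂) (num a₃ b₃) : ℤ) : F) = 0 := by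
    rw [Int.gcd_eq_gcd_ab, Int.cast_add, Int.cast_mul, Int.cast_mul, n2, n3]; simp
  have g : ((Int.gcd (num a₁ b₁) (Int.gcd (num a₂ b₂) (num a₃ b₃) : ℤ) : ℤ) : F) = 0 := by
    rw [Int.gcd_eq_gcd_ab, Int.cast_add, Int.cast_mul, Int.cast_mul, n1, g23]; simp
  obtain ⟨m, hm⟩ := hdvd
  have : ((2 ^ j * (3 ^ i * (5 ^ i * 7 ^ i)) : ℕ) : F) = 0 := by
    rw [hm, Nat.cast_mul]
    have e : ((Int.gcd (num a₁ b₁) (Int.gcd (num a₂ b₂) (num a₃ b₃) : ℤ) : ℕ) : F) = 0 := by exact_mod_cast g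
    rw [e, zero_mul]
  push_cast at this
  simp [h2, h3, h5, h7] at this

end CfsgLib.SLThreeResidual
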