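import Cfsg.Agent.Lib.SLThreeResidual.RootData

/-!
# Roots without incidences: the group is unitary and contains all unitary transvections
-/

set_option autoImplicit false
set_option linter.style.haveILetI false
set_option linter.unusedSimpArgs false

namespace CfsgLib.SLThreeResidual

open Cfsg.Geo Matrix CfsgLib.Geometric
open scoped commutatorElement

variable {F : Type*} [Field F] {P : Subgroup (GL (Fin 3) F)} {K : Subfield F} {R : Set (Root F)}

namespace NoInc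

/-! ### Generation -/

lemma tv_not_scalar {v : Fin 3 → F} {φ : (Fin 3 → F) →ₗ[F] F} (h : φ v = 0) (hv : v ≠ 0)
    (hφ : φ ≠ 0) : tv v φ h ∉ scalars (Fin 3) F := by
  rw [mem_scalars_iff]
  rintro ⟨c, hc⟩
  have hx : ∀ x, x + φ x • v = (c : F) • x := fun x => by
    rw [← ap_tv v φ h x, ap_def, hc, Matrix.smul_mulVec, Matrix.one_mulVec]
  have h1 : (c : F) = 1 := smul_left_injective F hv
    (show (c : F) • v = (1 : F) • v by rw [← hx v, h, zero_smul, add_zero, one_smul])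
  refine hφ (LinearMap.ext fun x => ?_)
  have h2 := hx x
  rw [h1, one_smul] at h2
  have h3 : φ x • v = 0 := by simpa using h2
  simpa using (smul_eq_zero.mp h3).resolve_right hv

lemma root_mem (D : RootData P K R) {r : Root F} (hr : r ∈ R) :
    tv r.1 r.2 (D.isRoot r hr) ∈ P := by
  convert D.mem r hr 1 K.one_mem (by simp [D.isRoot r hr]) using 1
  exact tv_eq_tv _ _ (by simp)

/-- The root transvections generate. -/
lemma le_of_root (hC : Core P) (D : RootData P K R) (M : Subgroup (GL (Fin 3) F))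
    (hM : ∀ (r : Root F) (hr : r ∈ R), tv r.1 r.2 (D.isRoot r hr) ∈ M) : P ≤ M := by
  let S : Set (GL (Fin 3) F) := {g | ∃ (r : Root F) (hr : r ∈ R), g = tv r.1 r.2 (D.isRoot r hr)}
  let N := Subgroup.closure S
  have hNM : N ≤ M := (Subgroup.closure_le _).mpr (by rintro g ⟨r, hr, rfl⟩; exact hM r hr)
  have hNP : N ≤ P := (Subgroup.closure_le _).mpr (by rintro g ⟨r, hr, rfl⟩; exact root_mem D hr)
  have hconj : ∀ g ∈ P, ∀ n ∈ N, g * n * g⁻¹ ∈ N := by
    intro g hg n hn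
    have hle : N ≤ N.comap (MulAut.conj g).toMonoidHom := by
      refine (Subgroup.closure_le _).mpr ?_
      rintro x ⟨r, hr, rfl⟩
      refine Subgroup.subset_closure ⟨_, D.conj g hg r hr, ?_⟩
      simp [conj_tv]
    simpa using hle hn
  let Z := (scalars (Fin 3) F).subgroupOf P
  let N' := N.subgroupOf P
  haveI hN' : N'.Normal :=
    ⟨fun n hn g => hconj g g.2 n hn⟩
  haveI := hC.simple
  obtain ⟨r, hr⟩ := D.nonempty
  have htop : N'.map (QuotientGroup.mk' Z) = ⊤ := by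
    rcases (hN'.map _ (QuotientGroup.mk'_surjective Z)).eq_bot_or_eq_top with h | h
    · exfalso
      have hm : (⟨_, root_mem D hr⟩ : P) ∈ N' := Subgroup.subset_closure ⟨r, hr, rfl⟩
      have := Subgroup.mem_map_of_mem (QuotientGroup.mk' Z) hm
      rw [h, Subgroup.mem_bot, QuotientGroup.mk'_apply, QuotientGroup.eq_one_iff] at this
      exact tv_not_scalar _ (D.centre_ne r hr) (D.axis_ne r hr) this
    · exact h
  have hdec : ∀ g ∈ P, ∃ n ∈ N, n⁻¹ * g ∈ scalars (Fin 3) F := by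
    intro g hg
    have hm : QuotientGroup.mk' Z ⟨g, hg⟩ ∈ N'.map (QuotientGroup.mk' Z) := htop ▸ Subgroup.mem_top _
    obtain ⟨n, hn, he⟩ := hm
    rw [QuotientGroup.mk'_apply, QuotientGroup.mk'_apply, QuotientGroup.eq] at he
    exact ⟨n, hn, he⟩
  have hcen : ∀ z ∈ scalars (Fin 3) F, ∀ x : GL (Fin 3) F, z * x = x * z := by
    intro z hz x
    obtain ⟨c, hc⟩ := (mem_scalars_iff z).mp hz
    apply Units.ext
    simp [hc]
  refine (le_of_eq hC.perfect.symm).trans ((Subgroup.commutator_le.mpr fun a ha b hb => ?_).trans hNM)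
  obtain ⟨n, hn, hz⟩ := hdec a ha
  obtain ⟨m, hm, hw⟩ := hdec b hb
  have hkey : ⁅a, b⁆ = ⁅n, m⁆ := by
    set z := n⁻¹ * a with hz'
    set w := m⁻¹ * b with hw'
    have ea : a = n * z := by rw [hz', mul_inv_cancel_left]
    have eb : b = m * w := by rw [hw', mul_inv_cancel_left]
    have c1 : ∀ x, z * x = x * z := hcen z hz
    have c2 : ∀ x, w * x = x * w := hcen w hw
    rw [ea, eb, commutatorElement_def, commutatorElement_def, _root_.mul_inv_rev, _root_.mul_inv_rev]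
    calc n * z * (m * w) * (z⁻¹ * n⁻¹) * (w⁻¹ * m⁻¹)
        = n * (z * (m * w)) * (z⁻¹ * n⁻¹) * (w⁻¹ * m⁻¹) := by group
      _ = n * m * (w * n⁻¹) * (w⁻¹ * m⁻¹) := by rw [c1]; group
      _ = n * m * n⁻¹ * m⁻¹ := by rw [c2]; group
  rw [hkey, commutatorElement_def]
  exact mul_mem (mul_mem (mul_mem hn hm) (inv_mem hn)) (inv_mem hm)

/-! ### The basic configuration -/

/-- Roots closed under rescaling, without incidences, with an endomorphism fixing exactly `K`. -/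
structure Setting (P : Subgroup (GL (Fin 3) F)) (K : Subfield F) (R : Set (Root F))
    (σ : F →+* F) : Prop where
  data : RootData P K R
  noInc : NoIncidence R
  smul : ∀ r ∈ R, ∀ c : F, c ≠ 0 → ((c • r.1, c⁻¹ • r.2) : Root F) ∈ R
  fix : ∀ x, x ∈ K ↔ σ x = x

/-- The roots with all rescalings added. -/
def scaled (R : Set (Root F)) : Set (Root F) :=
  {s | ∃ r ∈ R, ∃ c : F, c ≠ 0 ∧ s = (c • r.1, c⁻¹ • r.2)}

lemma scaled_setting (D : RootData P K R) (hN : NoIncidence R) {σ : F →+* F}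
    (hσ : ∀ x, x ∈ K ↔ σ x = x) : Setting P K (scaled R) σ := by
  refine ⟨⟨?_, ?_, ?_, ?_, ?_, ?_, ?_⟩, ?_, ?_, hσ⟩
  · obtain ⟨r, hr⟩ := D.nonempty
    exact ⟨_, r, hr, 1, one_ne_zero, rfl⟩
  · rintro _ ⟨r, hr, c, hc, rfl⟩
    exact smul_ne_zero hc (D.centre_ne r hr)
  · rintro _ ⟨r, hr, c, hc, rfl⟩
    exact smul_ne_zero (inv_ne_zero hc) (D.axis_ne r hr)
  · rintro _ ⟨r, hr, c, hc, rfl⟩
    simp [D.isRoot r hr]
  · rintro _ ⟨r, hr, c, hc, rfl⟩ k hk h
    convert D.mem r hr k hk (by simp [D.isRoot r hr]) using 1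
    refine tv_eq_tv _ _ fun x => ?_
    simp only [LinearMap.smul_apply, smul_eq_mul, smul_smul]
    congr 1
    field_simp
  · rintro _ ⟨r, hr, c, hc, rfl⟩ _ ⟨s, hs, d, hd, rfl⟩
    convert D.inv r hr s hs using 1
    simp only [LinearMap.smul_apply, smul_eq_mul, map_smul]
    field_simp
  · rintro g hg _ ⟨r, hr, c, hc, rfl⟩
    refine ⟨_, D.conj g hg r hr, c, hc, ?_⟩
    simp [ap_smul, LinearMap.smul_comp]
  · rintro _ ⟨r, hr, c, hc, rfl⟩ _ ⟨s, hs, d, hd, rfl⟩ h
    simp only [LinearMap.smul_apply, map_smul, smul_eq_mul, mul_eq_zero, inv_eq_zero, hc, hd,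
      false_or] at h
    rw [Submodule.span_singleton_smul_eq (IsUnit.mk0 c hc)]
    exact Submodule.smul_mem _ _ (hN r hr s hs h)
  · rintro _ ⟨r, hr, c, hc, rfl⟩ d hd
    refine ⟨r, hr, d * c, mul_ne_zero hd hc, ?_⟩
    simp [smul_smul, mul_inv, mul_comm]

variable {σ : F →+* F}

lemma apEquiv_inv_tv (v : Fin 3 → F) (φ : (Fin 3 → F) →ₗ[F] F) (h : φ v = 0) (x : Fin 3 → F) :
    ap (tv v φ h)⁻¹ x = x - φ x • v := by
  rw [tv_inv, ap_tv, LinearMap.neg_apply, neg_smul, sub_eq_add_neg]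

/-- Moving a centre by a root transvection. -/
lemma moved (S : Setting P K R σ) {r s : Root F} (hr : r ∈ R) (hs : s ∈ R) {k : F} (hk : k ∈ K) :
    ((r.1 + (k * s.2 r.1) • s.1, r.2 - (k * r.2 s.1) • s.2) : Root F) ∈ R := by
  have h0 : (k • s.2) s.1 = 0 := by simp [S.data.isRoot s hs]
  have h := S.data.conj _ (S.data.mem s hs k hk h0) r hr
  convert h using 1
  refine Prod.ext ?_ ?_
  · simp [smul_smul]
  · refine LinearMap.ext fun x => ?_
    simp [apEquiv_inv_tv]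
    ring

/-- The secant through two roots. -/
lemma secant (S : Setting P K R σ) {r s : Root F} (hr : r ∈ R) (hs : s ∈ R)
    (hab : r.2 s.1 * s.2 r.1 ≠ 0) {α β : F} (hα : α ∈ K) (hβ : β ∈ K) (hβ0 : β ≠ 0) :
    ((α • r.1 + (β * s.2 r.1) • s.1, α • r.2 - (r.2 s.1 * β) • s.2) : Root F) ∈ R := by
  have h1 := moved S hr hs hβ
  set j := (α - 1) / (β * (r.2 s.1 * s.2 r.1)) with hj
  have hjK : j ∈ K :=
    K.div_mem (K.sub_mem hα K.one_mem) (K.mul_mem hβ (S.data.inv r hr s hs))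
  have h2 := moved S h1 hr hjK
  have hr0 := S.data.isRoot r hr
  have hd : β * (r.2 s.1 * s.2 r.1) ≠ 0 := mul_ne_zero hβ0 hab
  have e1 : j * r.2 (r.1 + (β * s.2 r.1) • s.1) = α - 1 := by
    rw [map_add, hr0, zero_add, map_smul, smul_eq_mul, hj,
      show β * s.2 r.1 * r.2 s.1 = β * (r.2 s.1 * s.2 r.1) by ring, div_mul_cancel₀ _ hd]
  have e2 : j * (r.2 - (β * r.2 s.1) • s.2) r.1 = -(α - 1) := by
    rw [LinearMap.sub_apply, hr0, zero_sub, LinearMap.smul_apply, smul_eq_mul, mul_neg, hj,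
      show β * r.2 s.1 * s.2 r.1 = β * (r.2 s.1 * s.2 r.1) by ring, div_mul_cancel₀ _ hd]
  convert h2 using 1
  refine Prod.ext ?_ ?_
  · simp only [e1]
    module
  · simp only [e2]
    module

lemma apply_ne_zero (S : Setting P K R σ) {r s : Root F} (hr : r ∈ R) (hs : s ∈ R)
    (h : s.1 ∉ Submodule.span F {r.1}) : r.2 s.1 ≠ 0 :=
  fun e => h (S.noInc r hr s hs e)

lemma notMem_span_comm {x y : Fin 3 → F} (hy : x ≠ 0) (h : y ∉ Submodule.span F {x}) :
    x ∉ Submodule.span F {y} := by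
  intro h'
  obtain ⟨c, rfl⟩ := Submodule.mem_span_singleton.mp h'
  have hc : c ≠ 0 := fun e => hy (by rw [e, zero_smul])
  exact h (Submodule.mem_span_singleton.mpr ⟨c⁻¹, by rw [smul_smul, inv_mul_cancel₀ hc, one_smul]⟩)

lemma apply_ne_zero' (S : Setting P K R σ) {r s : Root F} (hr : r ∈ R) (hs : s ∈ R)
    (h : s.1 ∉ Submodule.span F {r.1}) : s.2 r.1 ≠ 0 :=
  apply_ne_zero S hs hr (notMem_span_comm (S.data.centre_ne r hr) h)

/-- Three roots with independent centres: the two triangle invariants. -/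
lemma triangle (S : Setting P K R σ) {r s t : Root F} (hr : r ∈ R) (hs : s ∈ R) (ht : t ∈ R)
    (hsr : s.1 ∉ Submodule.span F {r.1}) (htrs : t.1 ∉ Submodule.span F {r.1, s.1}) :
    σ (r.2 s.1 * s.2 t.1 * t.2 r.1) = -(r.2 t.1 * t.2 s.1 * s.2 r.1) ∧
      σ (r.2 t.1 * t.2 s.1 * s.2 r.1) = -(r.2 s.1 * s.2 t.1 * t.2 r.1) ∧
      σ (r.2 s.1 * s.2 t.1 * t.2 r.1) ≠ r.2 s.1 * s.2 t.1 * t.2 r.1 := by
  have htr : t.1 ∉ Submodule.span F {r.1} := fun h =>
    htrs (Submodule.span_mono (by simp) h)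
  have hts : t.1 ∉ Submodule.span F {s.1} := fun h =>
    htrs (Submodule.span_mono (by simp) h)
  have ha12 := apply_ne_zero S hr hs hsr
  have ha21 := apply_ne_zero' S hr hs hsr
  have ha13 := apply_ne_zero S hr ht htr
  have ha31 := apply_ne_zero' S hr ht htr
  set a := r.2 s.1 with ha
  set b := s.2 r.1 with hb
  set T := a * s.2 t.1 * t.2 r.1 with hT
  set T' := r.2 t.1 * t.2 s.1 * b with hT'
  have hprod : T * T' ∈ K := by
    convert K.mul_mem (K.mul_mem (S.data.inv r hr s hs) (S.data.inv s hs t ht)) (S.data.inv r hr t ht)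
      using 1
    simp only [hT, hT', ha, hb]
    ring
  have hsum : T' - T ∈ K := by
    have h := S.data.inv _ (secant S hr hs (mul_ne_zero ha12 ha21) K.one_mem K.one_mem one_ne_zero)
      t ht
    have h' := K.sub_mem h (K.sub_mem (S.data.inv r hr t ht)
      (K.mul_mem (S.data.inv r hr s hs) (S.data.inv s hs t ht)))
    convert h' using 1
    simp only [hT, hT', ha, hb, one_smul, one_mul, mul_one, LinearMap.sub_apply,
      LinearMap.smul_apply, map_add, map_smul, smul_eq_mul]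
    ring
  have hnot : σ T ≠ T := by
    intro h
    have hk := S.data.inv r hr t ht
    have h13 : r.2 t.1 * t.2 r.1 ≠ 0 := mul_ne_zero ha13 ha31
    have hm := secant S hr hs (mul_ne_zero ha12 ha21) ((S.fix T).mpr h) hk h13
    have h0 : (T • r.2 - (r.2 s.1 * (r.2 t.1 * t.2 r.1)) • s.2) t.1 = 0 := by
      simp only [hT, ha, LinearMap.sub_apply, LinearMap.smul_apply, smul_eq_mul]
      ring
    obtain ⟨c, hc⟩ := Submodule.mem_span_singleton.mp (S.noInc _ hm t ht h0)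
    refine htrs (Submodule.mem_span_pair.mpr ⟨c * T, c * (r.2 t.1 * t.2 r.1 * b), ?_⟩)
    simp only [smul_add, smul_smul] at hc
    exact hc
  have h1 : σ T = -T' := by
    have e : σ (-T) * σ (-T) - σ (T' - T) * σ (-T) - σ (T * T') = 0 := by
      rw [← map_mul, ← map_mul, ← map_sub, ← map_sub, ← map_zero σ]
      congr 1
      ring
    rw [(S.fix _).mp hsum, (S.fix _).mp hprod, map_neg] at e
    have : (σ T + T') * (σ T - T) = 0 := by linear_combination e
    exact eq_neg_of_add_eq_zero_left ((mul_eq_zero.mp this).resolve_right (sub_ne_zero.mpr hnot))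
  refine ⟨h1, ?_, hnot⟩
  have := (S.fix _).mp hsum
  rw [map_sub, h1] at this
  linear_combination this

lemma sq_fix_mul (S : Setting P K R σ) {r s t : Root F} (hr : r ∈ R) (hs : s ∈ R) (ht : t ∈ R)
    (hsr : s.1 ∉ Submodule.span F {r.1}) (htrs : t.1 ∉ Submodule.span F {r.1, s.1}) :
    σ (σ (r.2 s.1 * s.2 t.1 * t.2 r.1)) = r.2 s.1 * s.2 t.1 * t.2 r.1 := by
  obtain ⟨h1, h2, -⟩ := triangle S hr hs ht hsr htrs
  rw [h1, map_neg, h2, neg_neg]

/-- A normalised frame of three roots. -/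
structure Frame (R : Set (Root F)) where
  e : Fin 3 → Root F
  mem : ∀ i, e i ∈ R
  li : LinearIndependent F fun i => (e i).1
  norm1 : (e 0).2 (e 1).1 = 1
  norm2 : (e 0).2 (e 2).1 = 1

lemma exists_frame (hC : Core P) (S : Setting P K R σ) : Nonempty (Frame R) := by
  classical
  obtain ⟨r, hr⟩ := S.data.nonempty
  let W := Submodule.span F (Prod.fst '' R)
  have hW : W = ⊤ := by
    refine ((hC.absIrred.1 W ?_).resolve_left fun h => S.data.centre_ne r hr ?_)
    · rintro _ ⟨g, hg, rfl⟩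
      rw [Submodule.map_span, Submodule.span_le]
      rintro _ ⟨_, ⟨s, hs, rfl⟩, rfl⟩
      exact Submodule.subset_span ⟨_, S.data.conj g hg s hs, by simp [ap_def]⟩
    · have : r.1 ∈ W := Submodule.subset_span ⟨r, hr, rfl⟩
      rwa [h, Submodule.mem_bot] at this
  have hex : ∀ U : Submodule F (Fin 3 → F), U ≠ ⊤ → ∃ s ∈ R, s.1 ∉ U := by
    intro U hU
    by_contra hne
    push Not at hne
    refine hU (top_unique (hW ▸ Submodule.span_le.mpr ?_))
    rintro _ ⟨s, hs, rfl⟩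
    exact hne s hs
  have hne : ∀ (n : ℕ) (v : Fin n → (Fin 3 → F)), n < 3 → Submodule.span F (Set.range v) ≠ ⊤ := by
    intro n v hn h
    have h' := finrank_range_le_card (R := F) v
    rw [Set.finrank, h, finrank_top, Module.finrank_fin_fun, Fintype.card_fin] at h'
    omega
  obtain ⟨s, hs, hs'⟩ := hex (Submodule.span F {r.1})
    (by simpa using hne 1 ![r.1] (by norm_num))
  obtain ⟨t, ht, ht'⟩ := hex (Submodule.span F {r.1, s.1})
    (by simpa [Set.pair_comm] using hne 2 ![r.1, s.1] (by norm_num))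
  have htr : t.1 ∉ Submodule.span F {r.1} := fun h => ht' (Submodule.span_mono (by simp) h)
  have ha := apply_ne_zero S hr hs hs'
  have hb := apply_ne_zero S hr ht htr
  have hli : LinearIndependent F ![r.1, (r.2 s.1)⁻¹ • s.1, (r.2 t.1)⁻¹ • t.1] := by
    rw [Fintype.linearIndependent_iff]
    intro g hg
    simp only [Fin.sum_univ_three, Matrix.cons_val_zero, Matrix.cons_val_one,
      Matrix.cons_val_two, Matrix.tail_cons, Matrix.head_cons, smul_smul] at hg
    have h2 : g 2 = 0 := by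
      by_contra h2
      refine ht' (Submodule.mem_span_pair.mpr
        ⟨-(r.2 t.1 / g 2) * g 0, -(r.2 t.1 / g 2) * (g 1 * (r.2 s.1)⁻¹), ?_⟩)
      have := congrArg ((r.2 t.1 / g 2) • ·) hg
      simp only [smul_add, smul_smul, smul_zero] at this
      rw [show r.2 t.1 / g 2 * (g 2 * (r.2 t.1)⁻¹) = 1 by field_simp, one_smul] at this
      linear_combination (norm := module) -this
    rw [h2, zero_mul, zero_smul, add_zero] at hg
    have h1 : g 1 = 0 := by
      by_contra h1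
      refine hs' (Submodule.mem_span_singleton.mpr ⟨-(r.2 s.1 / g 1) * g 0, ?_⟩)
      have := congrArg ((r.2 s.1 / g 1) • ·) hg
      simp only [smul_add, smul_smul, smul_zero] at this
      rw [show r.2 s.1 / g 1 * (g 1 * (r.2 s.1)⁻¹) = 1 by field_simp, one_smul] at this
      linear_combination (norm := module) -this
    rw [h1, zero_mul, zero_smul, add_zero] at hg
    have h0 : g 0 = 0 := (smul_eq_zero.mp hg).resolve_right (S.data.centre_ne r hr)
    intro i
    fin_cases i <;> assumption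
  refine ⟨{ e := ![r, ((r.2 s.1)⁻¹ • s.1, r.2 s.1 • s.2), ((r.2 t.1)⁻¹ • t.1, r.2 t.1 • t.2)]
            mem := ?_, li := ?_, norm1 := ?_, norm2 := ?_ }⟩
  · intro i
    fin_cases i
    · exact hr
    · simpa using S.smul s hs _ (inv_ne_zero ha)
    · simpa using S.smul t ht _ (inv_ne_zero hb)
  · convert hli using 1
    funext i
    fin_cases i <;> rfl
  · simp [ha]
  · simp [hb]

/-! ### Coordinates in a frame -/

lemma exists_third : ∀ i j : Fin 3, ∃ k : Fin 3, k ≠ i ∧ k ≠ j := by decide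

namespace Frame

variable (Φ : Frame R)

/-- The centres as a basis. -/
noncomputable def basis : Module.Basis (Fin 3) F (Fin 3 → F) :=
  basisOfLinearIndependentOfCardEqFinrank Φ.li (by simp)

lemma basis_apply (i : Fin 3) : Φ.basis i = (Φ.e i).1 := by
  rw [basis, coe_basisOfLinearIndependentOfCardEqFinrank]

/-- The coordinates in the frame. -/
noncomputable def co (x : Fin 3 → F) (i : Fin 3) : F := Φ.basis.repr x i

lemma co_e (l i : Fin 3) : Φ.co (Φ.e l).1 i = if l = i then 1 else 0 := by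
  rw [co, ← basis_apply, Module.Basis.repr_self, Finsupp.single_apply]

lemma co_add (x y : Fin 3 → F) (i : Fin 3) : Φ.co (x + y) i = Φ.co x i + Φ.co y i := by
  simp [co]

lemma co_smul (c : F) (x : Fin 3 → F) (i : Fin 3) : Φ.co (c • x) i = c * Φ.co x i := by
  simp [co]

lemma expand (x : Fin 3 → F) : ∑ i, Φ.co x i • (Φ.e i).1 = x := by
  simp only [← basis_apply]
  exact Φ.basis.sum_repr x

lemma apply_eq (ψ : (Fin 3 → F) →ₗ[F] F) (x : Fin 3 → F) :
    ψ x = ∑ i, Φ.co x i * ψ (Φ.e i).1 := by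
  conv_lhs => rw [← Φ.expand x]
  simp [map_sum]

/-- The value of the `i`th functional on the `j`th centre. -/
def a (i j : Fin 3) : F := (Φ.e i).2 (Φ.e j).1

lemma a_def (i j : Fin 3) : Φ.a i j = (Φ.e i).2 (Φ.e j).1 := rfl

lemma e_notMem_one {i j : Fin 3} (h : i ≠ j) : (Φ.e j).1 ∉ Submodule.span F {(Φ.e i).1} := by
  intro hm
  obtain ⟨c, hc⟩ := Submodule.mem_span_singleton.mp hm
  have := congrArg (Φ.co · j) hc
  simp [co_smul, co_e, h] at this

lemma e_notMem_two {i j k : Fin 3} (hi : k ≠ i) (hj : k ≠ j) :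
    (Φ.e k).1 ∉ Submodule.span F {(Φ.e i).1, (Φ.e j).1} := by
  intro hm
  obtain ⟨c, d, hc⟩ := Submodule.mem_span_pair.mp hm
  have := congrArg (Φ.co · k) hc
  simp [co_add, co_smul, co_e, hi.symm, hj.symm] at this

lemma a_self (S : Setting P K R σ) (i : Fin 3) : Φ.a i i = 0 := S.data.isRoot _ (Φ.mem i)

lemma a_ne (S : Setting P K R σ) {i j : Fin 3} (h : i ≠ j) : Φ.a i j ≠ 0 :=
  apply_ne_zero S (Φ.mem i) (Φ.mem j) (Φ.e_notMem_one h)

lemma a10_mem (S : Setting P K R σ) : Φ.a 1 0 ∈ K := by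
  simpa [a, Φ.norm1] using S.data.inv _ (Φ.mem 0) _ (Φ.mem 1)

lemma a20_mem (S : Setting P K R σ) : Φ.a 2 0 ∈ K := by
  simpa [a, Φ.norm2] using S.data.inv _ (Φ.mem 0) _ (Φ.mem 2)

lemma frame_triangle (S : Setting P K R σ) :
    σ (Φ.a 1 2) * Φ.a 2 0 = -(Φ.a 2 1 * Φ.a 1 0) ∧
      σ (Φ.a 2 1) * Φ.a 1 0 = -(Φ.a 1 2 * Φ.a 2 0) ∧
      σ (Φ.a 1 2) ≠ Φ.a 1 2 := by
  obtain ⟨h1, h2, h3⟩ := triangle S (Φ.mem 0) (Φ.mem 1) (Φ.mem 2)
    (Φ.e_notMem_one (by decide)) (Φ.e_notMem_two (by decide) (by decide))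
  rw [Φ.norm1, Φ.norm2, one_mul, one_mul] at h1
  rw [Φ.norm1, Φ.norm2, one_mul, one_mul] at h2
  rw [Φ.norm1, one_mul] at h3
  simp only [← a_def] at h1 h2 h3
  simp only [map_mul, (S.fix _).mp (Φ.a10_mem S), (S.fix _).mp (Φ.a20_mem S)] at h1 h2 h3
  exact ⟨h1, h2, fun e => h3 (by rw [e])⟩

lemma a_fix (S : Setting P K R σ) (i j : Fin 3) : σ (σ (Φ.a i j)) = Φ.a i j := by
  obtain ⟨h1, h2, -⟩ := Φ.frame_triangle S
  have k1 := (S.fix _).mp (Φ.a10_mem S)
  have k2 := (S.fix _).mp (Φ.a20_mem S)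
  have n1 := Φ.a_ne S (show (1 : Fin 3) ≠ 0 by decide)
  have n2 := Φ.a_ne S (show (2 : Fin 3) ≠ 0 by decide)
  have e1 := congrArg σ h1
  have e2 := congrArg σ h2
  simp only [map_mul, map_neg, k1, k2] at e1 e2
  fin_cases i <;> fin_cases j <;> simp only [Fin.zero_eta, Fin.mk_one, Fin.reduceFinMk]
  · simp [Φ.a_self S]
  · simp [a, Φ.norm1]
  · simp [a, Φ.norm2]
  · rw [k1, k1]
  · simp [Φ.a_self S]
  · exact mul_right_cancel₀ n2 (by linear_combination e1 - h2)
  · rw [k2, k2]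
  · exact mul_right_cancel₀ n1 (by linear_combination e2 - h1)
  · simp [Φ.a_self S]

lemma det_ne (S : Setting P K R σ) : (Matrix.of Φ.a).det ≠ 0 := by
  obtain ⟨h1, -, h3⟩ := Φ.frame_triangle S
  have k2 := Φ.a_ne S (show (2 : Fin 3) ≠ 0 by decide)
  intro h
  rw [Matrix.det_fin_three] at h
  simp only [Matrix.of_apply, Φ.a_self S] at h
  simp only [a, Φ.norm1, Φ.norm2] at h
  simp only [← a_def] at h
  exact h3 (mul_right_cancel₀ k2 (by linear_combination h1 - h))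

end Frame

/-- A vector on one side of the triangle is on no other. -/
lemma other_side (Φ : Frame R) {v : Fin 3 → F} {i j k : Fin 3} (hij : i ≠ j) (hjk : j ≠ k)
    (h : v ∈ Submodule.span F {(Φ.e i).1, (Φ.e j).1}) (hi : v ∉ Submodule.span F {(Φ.e i).1}) :
    v ∉ Submodule.span F {(Φ.e i).1, (Φ.e k).1} := by
  intro h'
  obtain ⟨c, d, rfl⟩ := Submodule.mem_span_pair.mp h
  obtain ⟨c', d', hc⟩ := Submodule.mem_span_pair.mp h'
  have := congrArg (Φ.co · j) hc
  simp [Frame.co_add, Frame.co_smul, Frame.co_e, hij, hjk.symm] at this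
  exact hi (Submodule.mem_span_singleton.mpr ⟨c, by simp [← this]⟩)

lemma notMem_of_apply_ne {r s : Root F} (hs : r.2 r.1 = 0) (h : r.2 s.1 ≠ 0) :
    s.1 ∉ Submodule.span F {r.1} := by
  intro hm
  obtain ⟨c, hc⟩ := Submodule.mem_span_singleton.mp hm
  exact h (by rw [← hc, map_smul, hs, smul_zero])

lemma prod_fix (S : Setting P K R σ) (Φ : Frame R) {r : Root F} (hr : r ∈ R) (i j : Fin 3) :
    σ (σ ((Φ.e j).2 r.1 * r.2 (Φ.e i).1)) = (Φ.e j).2 r.1 * r.2 (Φ.e i).1 := by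
  by_cases hz : (Φ.e j).2 r.1 * r.2 (Φ.e i).1 = 0
  · rw [hz, map_zero, map_zero]
  rw [mul_eq_zero, not_or] at hz
  rcases eq_or_ne i j with rfl | hij
  · rw [(S.fix _).mp (S.data.inv _ (Φ.mem i) _ hr), (S.fix _).mp (S.data.inv _ (Φ.mem i) _ hr)]
  have main : ∀ i j : Fin 3, i ≠ j → r.1 ∉ Submodule.span F {(Φ.e i).1, (Φ.e j).1} →
      σ (σ ((Φ.e j).2 r.1 * r.2 (Φ.e i).1)) = (Φ.e j).2 r.1 * r.2 (Φ.e i).1 := by
    intro i j hij h
    have := sq_fix_mul S (Φ.mem i) (Φ.mem j) hr (Φ.e_notMem_one hij) h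
    rw [← Frame.a_def, mul_assoc, map_mul, map_mul, Φ.a_fix S] at this
    exact mul_left_cancel₀ (Φ.a_ne S hij) this
  by_cases hv : r.1 ∈ Submodule.span F {(Φ.e i).1, (Φ.e j).1}
  · obtain ⟨k, hki, hkj⟩ := exists_third i j
    have hj : r.1 ∉ Submodule.span F {(Φ.e j).1} :=
      notMem_of_apply_ne (S.data.isRoot _ (Φ.mem j)) hz.1
    have hi : r.1 ∉ Submodule.span F {(Φ.e i).1} :=
      notMem_span_comm (S.data.centre_ne _ (hr)) (notMem_of_apply_ne (S.data.isRoot _ hr) hz.2)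
    have h1 : r.1 ∉ Submodule.span F {(Φ.e i).1, (Φ.e k).1} := other_side Φ hij hkj.symm hv hi
    have h2 : r.1 ∉ Submodule.span F {(Φ.e k).1, (Φ.e j).1} := by
      rw [Set.pair_comm]
      exact other_side Φ hij.symm hki.symm (Set.pair_comm _ _ ▸ hv) hj
    have hk : r.1 ∉ Submodule.span F {(Φ.e k).1} := fun h =>
      h1 (Submodule.span_mono (by simp) h)
    have hkk : (Φ.e k).2 r.1 * r.2 (Φ.e k).1 ≠ 0 :=
      mul_ne_zero (apply_ne_zero S (Φ.mem k) hr hk) (apply_ne_zero' S (Φ.mem k) hr hk)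
    have e : (Φ.e j).2 r.1 * r.2 (Φ.e i).1 = ((Φ.e j).2 r.1 * r.2 (Φ.e k).1) *
        ((Φ.e k).2 r.1 * r.2 (Φ.e i).1) / ((Φ.e k).2 r.1 * r.2 (Φ.e k).1) := by
      rw [eq_div_iff hkk]
      ring
    rw [e, map_div₀, map_div₀, map_mul σ ((Φ.e j).2 r.1 * r.2 (Φ.e k).1),
      map_mul σ (σ ((Φ.e j).2 r.1 * r.2 (Φ.e k).1))]
    rw [main k j hkj h2, main i k hki.symm h1, (S.fix _).mp (S.data.inv _ (Φ.mem k) _ hr),
      (S.fix _).mp (S.data.inv _ (Φ.mem k) _ hr)]
  · exact main i j hij hv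

lemma co_prod_fix (S : Setting P K R σ) (Φ : Frame R) {r : Root F} (hr : r ∈ R) (i l : Fin 3) :
    σ (σ (Φ.co r.1 i * r.2 (Φ.e l).1)) = Φ.co r.1 i * r.2 (Φ.e l).1 := by
  classical
  set A := Matrix.of Φ.a with hA
  have hinj : Function.Injective A.mulVec :=
    Matrix.mulVec_injective_iff_isUnit.mpr ((Matrix.isUnit_iff_isUnit_det A).mpr
      (IsUnit.mk0 _ (Φ.det_ne S)))
  have hv : ∀ j, ∑ i, Φ.a j i * (Φ.co r.1 i * r.2 (Φ.e l).1) =
      (Φ.e j).2 r.1 * r.2 (Φ.e l).1 := by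
    intro j
    rw [Φ.apply_eq (Φ.e j).2 r.1, Finset.sum_mul]
    exact Finset.sum_congr rfl fun i _ => by rw [Frame.a]; ring
  have h : (fun i => σ (σ (Φ.co r.1 i * r.2 (Φ.e l).1))) =
      fun i => Φ.co r.1 i * r.2 (Φ.e l).1 := by
    apply hinj
    funext j
    simp only [Matrix.mulVec, dotProduct, hA, Matrix.of_apply]
    rw [hv j]
    conv_rhs => rw [← prod_fix S Φ hr l j, ← hv j, map_sum, map_sum]
    exact Finset.sum_congr rfl fun i _ => by
      rw [map_mul σ (Φ.a j i), map_mul σ (σ (Φ.a j i)), Φ.a_fix S]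
  exact congrFun h i

/-- Without a smaller field of definition, `σ` is an involution. -/
lemma sq_eq_id [Finite F] (hC : Core P) (hK : NoSub P) (S : Setting P K R σ) (Φ : Frame R)
    (x : F) : σ (σ x) = x := by
  classical
  let T : Submonoid (GL (Fin 3) F) :=
    { carrier := {g | ∀ l i, σ (σ (Φ.co (ap g (Φ.e l).1) i)) = Φ.co (ap g (Φ.e l).1) i}
      one_mem' := fun l i => by
        rw [ap_one, Φ.co_e]
        split <;> simp
      mul_mem' := by
        intro g h hg hh l i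
        have e : Φ.co (ap (g * h) (Φ.e l).1) i =
            ∑ m, Φ.co (ap h (Φ.e l).1) m * Φ.co (ap g (Φ.e m).1) i := by
          rw [ap_mul]
          conv_lhs => rw [← Φ.expand (ap h (Φ.e l).1)]
          simp [Fin.sum_univ_three, ap_add, ap_smul, Frame.co_add, Frame.co_smul]
        rw [e, map_sum, map_sum]
        exact Finset.sum_congr rfl fun m _ => by rw [map_mul σ, map_mul σ, hh l m, hg m i] }
  let M : Subgroup (GL (Fin 3) F) :=
    { T with
      inv_mem' := fun {g} hg => by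
        have e : g⁻¹ = g ^ (orderOf g - 1) := by
          refine inv_eq_of_mul_eq_one_right ?_
          rw [← pow_succ', Nat.sub_add_cancel (orderOf_pos g), pow_orderOf_eq_one]
        show g⁻¹ ∈ T
        rw [e]
        exact T.pow_mem hg _ }
  have hPM : P ≤ M := by
    refine le_of_root hC S.data M fun r hr l i => ?_
    rw [ap_tv, Frame.co_add, Frame.co_smul, map_add, map_add, mul_comm (r.2 _),
      co_prod_fix S Φ hr i l, Φ.co_e]
    split <;> simp
  let F₂ := (σ.comp σ).eqLocusField (RingHom.id F)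
  by_cases htop : F₂ = ⊤
  · have : x ∈ F₂ := htop ▸ Subfield.mem_top x
    exact this
  refine absurd ⟨ofEquiv Φ.basis.equivFun, ?_⟩ (hK F₂ htop)
  rintro _ ⟨g, hg, rfl⟩ i l
  set B := ofEquiv Φ.basis.equivFun with hB
  have hl : ap B⁻¹ (Pi.single l 1) = (Φ.e l).1 := by
    apply ap_injective B
    rw [ap_ap_inv, hB, ap_ofEquiv]
    funext m
    rw [Module.Basis.equivFun_apply, ← Frame.co, Φ.co_e, Pi.single_apply]
    simp [eq_comm]
  have hgl : ((B : Matrix (Fin 3) (Fin 3) F) * g * ((B⁻¹ : GL (Fin 3) F) : Matrix (Fin 3) (Fin 3) F)) i l =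
      Φ.co (ap g (Φ.e l).1) i := by
    rw [← Units.val_mul, ← Units.val_mul]
    have := congrFun (show ap (B * g * B⁻¹) (Pi.single l 1) = ap B (ap g (Φ.e l).1) by
      rw [ap_mul, ap_mul, hl]) i
    rw [hB, ap_ofEquiv, Module.Basis.equivFun_apply] at this
    rw [ap_def] at this
    simpa [Frame.co, hB] using this
  show σ (σ _) = _
  rw [hgl]
  exact hPM hg l i

/-! ### The form -/

namespace Frame

variable (Φ : Frame R) (σ)

/-- The parameter of the form. -/
noncomputable def u : F := -(Φ.a 2 1 / Φ.a 2 0)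

/-- The skew-hermitian form of the frame. -/
noncomputable def form (x y : Fin 3 → F) : F :=
  -(Φ.co x 0 * σ (Φ.co y 1)) - Φ.co x 0 * σ (Φ.co y 2) + Φ.co x 1 * σ (Φ.co y 0) +
    Φ.co x 2 * σ (Φ.co y 0) + Φ.u * Φ.co x 1 * σ (Φ.co y 2) - σ Φ.u * Φ.co x 2 * σ (Φ.co y 1)

/-- The ratios between the functionals of the frame and the form. -/
noncomputable def lam : Fin 3 → F := ![1, -Φ.a 1 0, -Φ.a 2 0]

lemma form_add_left (x x' y : Fin 3 → F) :
    Φ.form σ (x + x') y = Φ.form σ x y + Φ.form σ x' y := by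
  simp only [form, co_add]; ring

lemma form_smul_left (c : F) (x y : Fin 3 → F) : Φ.form σ (c • x) y = c * Φ.form σ x y := by
  simp only [form, co_smul]; ring

lemma form_add_right (x y y' : Fin 3 → F) :
    Φ.form σ x (y + y') = Φ.form σ x y + Φ.form σ x y' := by
  simp only [form, co_add, map_add]; ring

lemma form_smul_right (c : F) (x y : Fin 3 → F) :
    Φ.form σ x (c • y) = σ c * Φ.form σ x y := by
  simp only [form, co_smul, map_mul]; ring

/-- The form with second argument fixed. -/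
noncomputable def formLin (y : Fin 3 → F) : (Fin 3 → F) →ₗ[F] F where
  toFun x := Φ.form σ x y
  map_add' x x' := Φ.form_add_left σ x x' y
  map_smul' c x := Φ.form_smul_left σ c x y

@[simp] lemma formLin_apply (x y : Fin 3 → F) : Φ.formLin σ y x = Φ.form σ x y := rfl

variable {σ}

lemma sigma_u (S : Setting P K R σ) : σ Φ.u = Φ.a 1 2 / Φ.a 1 0 := by
  obtain ⟨-, h2, -⟩ := Φ.frame_triangle S
  rw [u, map_neg, map_div₀, (S.fix _).mp (Φ.a20_mem S), eq_div_iff (Φ.a_ne S (by decide)),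
    neg_mul, div_mul_eq_mul_div, h2, neg_div, neg_neg,
    mul_div_cancel_right₀ _ (Φ.a_ne S (by decide))]

lemma sigma_u_ne (S : Setting P K R σ) : σ Φ.u ≠ Φ.u := by
  obtain ⟨h1, -, h3⟩ := Φ.frame_triangle S
  intro h
  have n1 := Φ.a_ne S (show (1 : Fin 3) ≠ 0 by decide)
  have n2 := Φ.a_ne S (show (2 : Fin 3) ≠ 0 by decide)
  rw [Φ.sigma_u S, u, ← neg_div, div_eq_div_iff n1 n2] at h
  exact h3 (mul_right_cancel₀ n2 (by linear_combination h1 - h))

lemma lam_mem (S : Setting P K R σ) (i : Fin 3) : Φ.lam i ∈ K ∧ Φ.lam i ≠ 0 := by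
  fin_cases i
  · exact ⟨K.one_mem, one_ne_zero⟩
  · exact ⟨K.neg_mem (Φ.a10_mem S), neg_ne_zero.mpr (Φ.a_ne S (by decide))⟩
  · exact ⟨K.neg_mem (Φ.a20_mem S), neg_ne_zero.mpr (Φ.a_ne S (by decide))⟩

lemma apply_e (S : Setting P K R σ) (i : Fin 3) (x : Fin 3 → F) :
    (Φ.e i).2 x = Φ.lam i * Φ.form σ x (Φ.e i).1 := by
  have n1 := Φ.a_ne S (show (1 : Fin 3) ≠ 0 by decide)
  have n2 := Φ.a_ne S (show (2 : Fin 3) ≠ 0 by decide)
  rw [Φ.apply_eq (Φ.e i).2 x, Fin.sum_univ_three]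
  simp only [← a_def]
  rw [form, Φ.sigma_u S, u]
  fin_cases i <;> simp [lam, Φ.a_self S, co_e] <;>
    first
      | (simp [a, Φ.norm1, Φ.norm2]; done)
      | (field_simp; ring)

variable (hsq : ∀ x, σ (σ x) = x)
include hsq

lemma form_skew (x y : Fin 3 → F) : Φ.form σ x y = -σ (Φ.form σ y x) := by
  simp only [form, map_add, map_sub, map_neg, map_mul, hsq]
  ring

omit hsq in
lemma eq_zero_of_form (S : Setting P K R σ) (x : Fin 3 → F)
    (h : ∀ y, Φ.form σ x y = 0) : x = 0 := by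
  have h0 := h (Φ.e 0).1
  have h1 := h (Φ.e 1).1
  have h2 := h (Φ.e 2).1
  simp [form, co_e] at h0 h1 h2
  have hx2 : Φ.co x 2 = 0 := by
    have : (σ Φ.u - Φ.u) * Φ.co x 2 = 0 := by linear_combination h2 - h1 - Φ.u * h0
    exact (mul_eq_zero.mp this).resolve_left (sub_ne_zero.mpr (Φ.sigma_u_ne S))
  have hx1 : Φ.co x 1 = 0 := by linear_combination h0 - hx2
  have hx0 : Φ.co x 0 = 0 := by linear_combination -h1 - σ Φ.u * hx2
  rw [← Φ.expand x, Fin.sum_univ_three, hx0, hx1, hx2]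
  simp

/-- Every root is a root of the form. -/
lemma root_form (S : Setting P K R σ) {r : Root F} (hr : r ∈ R) :
    ∃ L ∈ K, L ≠ 0 ∧ ∀ x, r.2 x = L * Φ.form σ x r.1 := by
  set q : Fin 3 → F := fun i => Φ.lam i * r.2 (Φ.e i).1 with hq
  set s : Fin 3 → F := fun i => σ ((Φ.e i).2 r.1) with hs
  have hrel : ∀ i j, σ (Φ.a i j) * Φ.lam j = -(Φ.a j i * Φ.lam i) := by
    intro i j
    rw [a_def, a_def, Φ.apply_e S i, Φ.apply_e S j, map_mul, (S.fix _).mp (Φ.lam_mem S i).1,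
      Φ.form_skew hsq (Φ.e i).1 (Φ.e j).1]
    ring
  have main : ∀ i j, i ≠ j → r.1 ∉ Submodule.span F {(Φ.e i).1, (Φ.e j).1} →
      q i * s j = q j * s i := by
    intro i j hij h
    obtain ⟨h1, -, -⟩ := triangle S (Φ.mem i) (Φ.mem j) hr (Φ.e_notMem_one hij) h
    have hk := (S.fix _).mp (S.data.inv _ (Φ.mem i) _ hr)
    have hi : (Φ.e i).2 r.1 ≠ 0 :=
      apply_ne_zero S (Φ.mem i) hr fun h' => h (Submodule.span_mono (by simp) h')
    have hj := Φ.a_ne S hij.symm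
    have hrel' := hrel i j
    simp only [← a_def, map_mul] at h1 hk
    apply mul_left_cancel₀ (mul_ne_zero hi hj)
    simp only [hq, hs]
    linear_combination (-(σ ((Φ.e i).2 r.1)) * Φ.lam j) * h1 +
      (σ ((Φ.e i).2 r.1) * σ ((Φ.e j).2 r.1) * σ (r.2 (Φ.e i).1)) * hrel' -
      (Φ.lam i * σ ((Φ.e j).2 r.1) * Φ.a j i) * hk
  have hzero : ∀ i, r.1 ∈ Submodule.span F {(Φ.e i).1} → q i = 0 ∧ s i = 0 := by
    intro i h
    obtain ⟨c, hc⟩ := Submodule.mem_span_singleton.mp h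
    have hc0 : c ≠ 0 := fun e => S.data.centre_ne r hr (by rw [← hc, e, zero_smul])
    have h1 : (Φ.e i).2 r.1 = 0 := by rw [← hc, map_smul, S.data.isRoot _ (Φ.mem i), smul_zero]
    have h2 : r.2 (Φ.e i).1 = 0 := by
      have := S.data.isRoot r hr
      rw [← hc, map_smul, smul_eq_zero] at this
      exact this.resolve_left hc0
    exact ⟨by simp [hq, h2], by simp [hs, h1]⟩
  have hall : ∀ i j, q i * s j = q j * s i := by
    intro i j
    by_cases hij : i = j
    · rw [hij]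
    by_cases hi : r.1 ∈ Submodule.span F {(Φ.e i).1}
    · rw [(hzero i hi).1, (hzero i hi).2, zero_mul, mul_zero]
    by_cases hj : r.1 ∈ Submodule.span F {(Φ.e j).1}
    · rw [(hzero j hj).1, (hzero j hj).2, zero_mul, mul_zero]
    by_cases hv : r.1 ∈ Submodule.span F {(Φ.e i).1, (Φ.e j).1}
    · obtain ⟨k, hki, hkj⟩ := exists_third i j
      have h1 := main i k hki.symm (other_side Φ hij hkj.symm hv hi)
      have h2 := main j k hkj.symm (other_side Φ (Ne.symm hij) hki.symm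
        (Set.pair_comm _ _ ▸ hv) hj)
      have hk : s k ≠ 0 := by
        rw [hs]
        exact (map_ne_zero σ).mpr (apply_ne_zero S (Φ.mem k) hr fun h =>
          other_side Φ hij hkj.symm hv hi (Submodule.span_mono (by simp) h))
      apply mul_left_cancel₀ hk
      linear_combination (s j) * h1 - (s i) * h2
    · exact main i j hij hv
  obtain ⟨i₀, hi₀⟩ : ∃ i, (Φ.e i).2 r.1 ≠ 0 := by
    by_contra h
    push Not at h
    have hz : ∀ i, Φ.form σ r.1 (Φ.e i).1 = 0 := fun i => by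
      have := h i
      rw [Φ.apply_e S i, mul_eq_zero] at this
      exact this.resolve_left (Φ.lam_mem S i).2
    refine S.data.centre_ne r hr (Φ.eq_zero_of_form S r.1 fun y => ?_)
    rw [← Φ.expand y, Fin.sum_univ_three, Φ.form_add_right, Φ.form_add_right,
      Φ.form_smul_right, Φ.form_smul_right, Φ.form_smul_right, hz, hz, hz]
    ring
  have hri : r.2 (Φ.e i₀).1 ≠ 0 :=
    apply_ne_zero' S (Φ.mem i₀) hr (notMem_of_apply_ne (S.data.isRoot _ (Φ.mem i₀)) hi₀)
  have hs0 : s i₀ ≠ 0 := (map_ne_zero σ).mpr hi₀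
  have hk := (S.fix _).mp (S.data.inv _ (Φ.mem i₀) _ hr)
  rw [map_mul] at hk
  refine ⟨-(q i₀ / s i₀), ?_, neg_ne_zero.mpr (div_ne_zero
    (mul_ne_zero (Φ.lam_mem S i₀).2 hri) hs0), fun x => ?_⟩
  · refine K.neg_mem ((S.fix _).mpr ?_)
    simp only [hq, hs] at hs0 ⊢
    rw [map_div₀, map_mul, hsq, (S.fix _).mp (Φ.lam_mem S i₀).1, div_eq_div_iff hi₀ hs0]
    linear_combination Φ.lam i₀ * hk
  · suffices h : r.2 = (-(q i₀ / s i₀)) • Φ.formLin σ r.1 by
      conv_lhs => rw [h]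
      simp
    refine Φ.basis.ext fun l => ?_
    rw [basis_apply, LinearMap.smul_apply, formLin_apply, smul_eq_mul, Φ.form_skew hsq]
    have h1 : σ (Φ.form σ r.1 (Φ.e l).1) * Φ.lam l = s l := by
      simp only [hs]
      rw [Φ.apply_e S l r.1, map_mul, (S.fix _).mp (Φ.lam_mem S l).1, mul_comm]
    have h2 : q l * s i₀ = q i₀ * s l := hall l i₀
    apply mul_left_cancel₀ (Φ.lam_mem S l).2
    rw [neg_mul_neg, div_mul_eq_mul_div, mul_div_assoc', eq_div_iff hs0]
    calc Φ.lam l * r.2 (Φ.e l).1 * s i₀ = q i₀ * s l := h2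
      _ = _ := by rw [← h1]; ring

lemma form_isotropic (S : Setting P K R σ) {r : Root F} (hr : r ∈ R) : Φ.form σ r.1 r.1 = 0 := by
  obtain ⟨L, -, hL, h⟩ := Φ.root_form hsq S hr
  have := h r.1
  rw [S.data.isRoot r hr] at this
  exact (mul_eq_zero.mp this.symm).resolve_left hL

lemma root_isometry (S : Setting P K R σ) {r : Root F} (hr : r ∈ R) (x y : Fin 3 → F) :
    Φ.form σ (ap (tv r.1 r.2 (S.data.isRoot r hr)) x) (ap (tv r.1 r.2 (S.data.isRoot r hr)) y) =
      Φ.form σ x y := by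
  obtain ⟨L, hLK, -, h⟩ := Φ.root_form hsq S hr
  rw [ap_tv, ap_tv, h x, h y]
  simp only [Φ.form_add_left, Φ.form_add_right, Φ.form_smul_left, Φ.form_smul_right,
    Φ.form_isotropic hsq S hr, map_mul, (S.fix _).mp hLK]
  rw [Φ.form_skew hsq r.1 y]
  ring

/-- The isometries of the form contain `P`. -/
lemma fixes_form (hC : Core P) (S : Setting P K R σ) {g : GL (Fin 3) F} (hg : g ∈ P)
    (x y : Fin 3 → F) : Φ.form σ (ap g x) (ap g y) = Φ.form σ x y := by
  let M : Subgroup (GL (Fin 3) F) :=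
    { carrier := {g | ∀ x y, Φ.form σ (ap g x) (ap g y) = Φ.form σ x y}
      one_mem' := fun x y => by rw [ap_one, ap_one]
      mul_mem' := fun {g h} hg hh x y => by rw [ap_mul, ap_mul, hg, hh]
      inv_mem' := fun {g} hg x y => by
        have := hg (ap g⁻¹ x) (ap g⁻¹ y)
        rw [ap_ap_inv, ap_ap_inv] at this
        exact this.symm }
  exact (le_of_root hC S.data M fun r hr x y => Φ.root_isometry hsq S hr x y) hg x y

omit hsq

lemma zero_apply (x : Fin 3 → F) : (Φ.e 0).2 x = Φ.co x 1 + Φ.co x 2 +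
    Φ.co x 0 * (Φ.e 0).2 (Φ.e 0).1 := by
  rw [Φ.apply_eq (Φ.e 0).2 x, Fin.sum_univ_three, Φ.norm1, Φ.norm2]
  ring

lemma zero_apply' (S : Setting P K R σ) (x : Fin 3 → F) :
    (Φ.e 0).2 x = Φ.co x 1 + Φ.co x 2 := by
  rw [Φ.zero_apply, S.data.isRoot _ (Φ.mem 0), mul_zero, add_zero]

end Frame

/-- `v` is a centre. -/
def IsCentre (R : Set (Root F)) (v : Fin 3 → F) : Prop := ∃ φ, ((v, φ) : Root F) ∈ R

lemma IsCentre.smul (S : Setting P K R σ) {v : Fin 3 → F} (h : IsCentre R v) {c : F}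
    (hc : c ≠ 0) : IsCentre R (c • v) := by
  obtain ⟨φ, hφ⟩ := h
  exact ⟨_, S.smul _ hφ c hc⟩

lemma IsCentre.shift (S : Setting P K R σ) (Φ : Frame R) {z : Fin 3 → F} (h : IsCentre R z)
    (hz : (Φ.e 0).2 z = 1) {k : F} (hk : k ∈ K) : IsCentre R (z + k • (Φ.e 0).1) := by
  obtain ⟨φ, hφ⟩ := h
  have := moved S hφ (Φ.mem 0) hk
  simp only [hz, mul_one] at this
  exact ⟨_, this⟩

/-- The lines through the first centre met by centres are closed under irrational combinations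
with the third one. -/
lemma line_step (S : Setting P K R σ) (Φ : Frame R) (hsq : ∀ x, σ (σ x) = x) {z : Fin 3 → F}
    (hz : IsCentre R z) (h1 : (Φ.e 0).2 z = 1) (h2 : Φ.co z 2 ≠ 1) {μ : F} (hμ : μ ∉ K) :
    ∃ w, IsCentre R w ∧ (Φ.e 0).2 w = 1 ∧ Φ.co w 2 = (1 - μ) * Φ.co z 2 + μ := by
  have hμ1 : 1 - μ ≠ 0 := sub_ne_zero.mpr fun e => hμ (e ▸ K.one_mem)
  set ρ := μ / (1 - μ) with hρ
  have hρK : ρ ∉ K := by
    intro h
    have e : μ = ρ / (1 + ρ) := by rw [hρ]; field_simp; ring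
    exact hμ (e ▸ K.div_mem h (K.add_mem K.one_mem h))
  set g := Φ.form σ z (Φ.e 2).1 with hg
  have hmove : ∀ k, (Φ.e 2).2 (z + k • (Φ.e 0).1) = Φ.lam 2 * (g - k) := by
    intro k
    rw [Φ.apply_e S 2, Φ.form_add_left, Φ.form_smul_left, hg]
    congr 1
    simp [Frame.form, Frame.co_e]
    ring
  have hgK : g ∉ K := by
    intro h
    obtain ⟨φ, hφ⟩ := hz.shift S Φ h1 h
    obtain ⟨d, hd⟩ := Submodule.mem_span_singleton.mp
      (S.noInc _ (Φ.mem 2) _ hφ (by rw [hmove, sub_self, mul_zero]))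
    have e2 := congrArg (Φ.co · 2) hd
    have e0 := congrArg (Φ.e 0).2 hd
    simp [Frame.co_smul, Frame.co_add, Frame.co_e] at e2
    rw [map_smul, Φ.norm2, map_add, map_smul, S.data.isRoot _ (Φ.mem 0), h1] at e0
    simp at e0
    exact h2 (e2 ▸ e0)
  have hρσ : ρ - σ ρ ≠ 0 := sub_ne_zero.mpr fun e => hρK ((S.fix _).mpr e.symm)
  have hgσ : g - σ g ≠ 0 := sub_ne_zero.mpr fun e => hgK ((S.fix _).mpr e.symm)
  set κ := (g - σ g) / (ρ - σ ρ) with hκ
  have hκK : κ ∈ K := (S.fix _).mpr (by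
    rw [hκ, map_div₀, map_sub, map_sub, hsq, hsq, ← neg_div_neg_eq, neg_sub, neg_sub])
  have hκ0 : κ ≠ 0 := div_ne_zero hgσ hρσ
  have hiK : g - κ * ρ ∈ K := (S.fix _).mpr (by
    rw [map_sub, map_mul, (S.fix _).mp hκK]
    have : κ * (ρ - σ ρ) = g - σ g := div_mul_cancel₀ _ hρσ
    linear_combination this)
  obtain ⟨φ, hφ⟩ := hz.shift S Φ h1 hiK
  have hv : (Φ.e 2).2 (z + (g - κ * ρ) • (Φ.e 0).1) = Φ.lam 2 * (κ * ρ) := by
    rw [hmove]; ring
  have hne : (Φ.e 2).2 (z + (g - κ * ρ) • (Φ.e 0).1) ≠ 0 := by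
    rw [hv]
    exact mul_ne_zero (Φ.lam_mem S 2).2 (mul_ne_zero hκ0 fun e => hρK (e ▸ K.zero_mem))
  have hne' : φ (Φ.e 2).1 ≠ 0 :=
    apply_ne_zero' S (Φ.mem 2) hφ (notMem_of_apply_ne (s := (_, φ)) (S.data.isRoot _ (Φ.mem 2)) hne)
  have hw := secant S hφ (Φ.mem 2) (mul_ne_zero hne' hne) K.one_mem
    (K.inv_mem (K.mul_mem (Φ.lam_mem S 2).1 hκK))
    (inv_ne_zero (mul_ne_zero (Φ.lam_mem S 2).2 hκ0))
  have hρ' : (Φ.lam 2 * κ)⁻¹ * (Φ.e 2).2 (z + (g - κ * ρ) • (Φ.e 0).1) = ρ := by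
    rw [hv, ← mul_assoc (Φ.lam 2), inv_mul_cancel_left₀ (mul_ne_zero (Φ.lam_mem S 2).2 hκ0)]
  simp only [one_smul, hρ'] at hw
  refine ⟨_, IsCentre.smul S ⟨_, hw⟩ hμ1, ?_, ?_⟩
  · rw [map_smul, map_add, map_add, map_smul, map_smul, h1, S.data.isRoot _ (Φ.mem 0),
      Φ.norm2, smul_eq_mul, smul_eq_mul, smul_eq_mul, hρ]
    field_simp
    ring
  · simp [Frame.co_smul, Frame.co_add, Frame.co_e, hρ]
    field_simp

lemma exists_line (S : Setting P K R σ) (Φ : Frame R) (hsq : ∀ x, σ (σ x) = x) (γ : F) :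
    ∃ w, IsCentre R w ∧ (Φ.e 0).2 w = 1 ∧ Φ.co w 2 = γ := by
  have hstart : ∀ μ, μ ∉ K → ∃ w, IsCentre R w ∧ (Φ.e 0).2 w = 1 ∧ Φ.co w 2 = μ := by
    intro μ hμ
    obtain ⟨w, hw1, hw2, hw3⟩ := line_step S Φ hsq ⟨_, Φ.mem 1⟩ Φ.norm1
      (by simp [Frame.co_e]) hμ
    exact ⟨w, hw1, hw2, by simpa [Frame.co_e] using hw3⟩
  by_cases hγ : γ ∈ K
  swap
  · exact hstart γ hγ
  by_cases h1 : γ = 1
  · exact ⟨_, ⟨_, Φ.mem 2⟩, Φ.norm2, by simp [Frame.co_e, h1]⟩
  have hμ0 : Φ.u ∉ K := fun h => Φ.sigma_u_ne S ((S.fix _).mp h)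
  have hu1 : 1 - Φ.u ≠ 0 := sub_ne_zero.mpr fun e => hμ0 (e ▸ K.one_mem)
  obtain ⟨z, hz, hz1, hz2⟩ := hstart Φ.u hμ0
  have hμ : (γ - Φ.u) / (1 - Φ.u) ∉ K := by
    intro h
    set m := (γ - Φ.u) / (1 - Φ.u) with hm
    have e : m * (1 - Φ.u) = γ - Φ.u := div_mul_cancel₀ _ hu1
    have hm1 : m - 1 ≠ 0 := sub_ne_zero.mpr fun e' => h1 (by rw [e', one_mul] at e; linear_combination -e)
    have : Φ.u = (m - γ) / (m - 1) := by rw [eq_div_iff hm1]; linear_combination -e
    exact hμ0 (this ▸ K.div_mem (K.sub_mem h hγ) (K.sub_mem h K.one_mem))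
  obtain ⟨w, hw1, hw2, hw3⟩ :=
    line_step S Φ hsq hz hz1 (fun e => hu1 (by rw [← hz2, e, sub_self])) hμ
  refine ⟨w, hw1, hw2, ?_⟩
  rw [hw3, hz2]
  field_simp
  ring

/-- Every isotropic vector is a centre. -/
lemma isCentre_of_isotropic (S : Setting P K R σ) (Φ : Frame R) (hsq : ∀ x, σ (σ x) = x)
    {w : Fin 3 → F} (hw0 : w ≠ 0) (hw : Φ.form σ w w = 0) : IsCentre R w := by
  by_cases h0 : (Φ.e 0).2 w = 0
  · rw [Φ.zero_apply' S] at h0
    have h1 : Φ.co w 1 = -Φ.co w 2 := eq_neg_of_add_eq_zero_left h0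
    have h2 : (σ Φ.u - Φ.u) * (Φ.co w 2 * σ (Φ.co w 2)) = 0 := by
      simp only [Frame.form, h1, map_neg] at hw
      linear_combination hw
    have h2' : Φ.co w 2 = 0 := by
      rcases mul_eq_zero.mp ((mul_eq_zero.mp h2).resolve_left
        (sub_ne_zero.mpr (Φ.sigma_u_ne S))) with h | h
      · exact h
      · exact (map_eq_zero σ).mp h
    have e : w = Φ.co w 0 • (Φ.e 0).1 := by
      conv_lhs => rw [← Φ.expand w, Fin.sum_univ_three, h1, h2']
      simp
    rw [e]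
    exact IsCentre.smul S ⟨_, Φ.mem 0⟩ fun h => hw0 (by rw [e, h, zero_smul])
  set c := (Φ.e 0).2 w with hc
  obtain ⟨z, hz, hz1, hz2⟩ := exists_line S Φ hsq (Φ.co (c⁻¹ • w) 2)
  have hw1 : (Φ.e 0).2 (c⁻¹ • w) = 1 := by rw [map_smul, smul_eq_mul, inv_mul_cancel₀ h0]
  set d := c⁻¹ • w - z with hd
  have hd0 : (Φ.e 0).2 d = 0 := by rw [hd, map_sub, hw1, hz1, sub_self]
  have hd2 : Φ.co d 2 = 0 := by simp [hd, Frame.co, map_sub] at hz2 ⊢; linear_combination -hz2
  have hd1 : Φ.co d 1 = 0 := by rw [Φ.zero_apply' S, hd2, add_zero] at hd0; exact hd0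
  have he : c⁻¹ • w = z + Φ.co d 0 • (Φ.e 0).1 := by
    have : d = Φ.co d 0 • (Φ.e 0).1 := by
      conv_lhs => rw [← Φ.expand d, Fin.sum_univ_three, hd1, hd2]
      simp
    rw [← this, hd, add_sub_cancel]
  have hzz : Φ.form σ z z = 0 := by
    obtain ⟨φ, hφ⟩ := hz
    have hiso := Φ.form_isotropic hsq S (r := (z, φ)) hφ
    dsimp only at hiso
    exact hiso
  have hz0 : Φ.form σ z (Φ.e 0).1 = 1 := by
    have := Φ.apply_e S 0 z
    rw [hz1] at this
    simpa [Frame.lam] using this.symm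
  have hj : Φ.co d 0 ∈ K := by
    refine (S.fix _).mpr ?_
    have e := congrArg (fun x => Φ.form σ x x) he
    simp only [Φ.form_smul_left, Φ.form_smul_right, Φ.form_add_left, Φ.form_add_right, hw, hzz,
      hz0, Φ.form_isotropic hsq S (Φ.mem 0), Φ.form_skew hsq (Φ.e 0).1 z, map_one] at e
    linear_combination -e
  have := IsCentre.smul S (hz.shift S Φ hz1 hj) h0
  rw [← he, smul_inv_smul₀ h0] at this
  exact this

/-- All transvections of the form lie in `P`. -/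
lemma allFormTv (S : Setting P K R σ) (Φ : Frame R) (hsq : ∀ x, σ (σ x) = x) (v : Fin 3 → F)
    (φ : (Fin 3 → F) →ₗ[F] F) (h : φ v = 0)
    (hiso : ∀ x y, Φ.form σ (ap (tv v φ h) x) (ap (tv v φ h) y) = Φ.form σ x y) :
    tv v φ h ∈ P := by
  by_cases hv : v = 0
  · have : tv v φ h = 1 := gl_ext fun x => by simp [hv]
    rw [this]; exact one_mem P
  by_cases hφ : φ = 0
  · have : tv v φ h = 1 := gl_ext fun x => by simp [hφ]
    rw [this]; exact one_mem P
  obtain ⟨x₁, hx₁⟩ : ∃ x, φ x = 1 := by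
    obtain ⟨x, hx⟩ : ∃ x, φ x ≠ 0 := by
      by_contra hne
      push Not at hne
      exact hφ (LinearMap.ext hne)
    exact ⟨(φ x)⁻¹ • x, by simp [hx]⟩
  have hxv : ∀ x, φ x = 0 → Φ.form σ x v = 0 := by
    intro x hx
    have := hiso x x₁
    simp only [ap_tv, hx, hx₁, zero_smul, add_zero, one_smul, Φ.form_add_right] at this
    simpa using this
  have hη : ∀ x, Φ.form σ x v = φ x * Φ.form σ x₁ v := by
    intro x
    have := hxv (x - φ x • x₁) (by simp [hx₁])
    rw [sub_eq_add_neg, ← neg_smul, Φ.form_add_left, Φ.form_smul_left] at this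
    linear_combination this
  have hvv : Φ.form σ v v = 0 := hxv v h
  set η := Φ.form σ x₁ v with hηdef
  have hη0 : η ≠ 0 := by
    intro h0
    refine hv (Φ.eq_zero_of_form S v fun y => ?_)
    rw [Φ.form_skew hsq, hη, h0, mul_zero, map_zero, neg_zero]
  have hηK : η ∈ K := by
    refine (S.fix _).mpr ?_
    have := hiso x₁ x₁
    simp only [ap_tv, hx₁, one_smul, Φ.form_add_left, Φ.form_add_right, hvv, ← hηdef,
      Φ.form_skew hsq v x₁] at this
    linear_combination -this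
  obtain ⟨ψ, hψ⟩ := isCentre_of_isotropic S Φ hsq hv hvv
  obtain ⟨L, hLK, hL0, hL⟩ := Φ.root_form hsq S hψ
  have hk : (η * L)⁻¹ ∈ K := K.inv_mem (K.mul_mem hηK hLK)
  convert S.data.mem _ hψ _ hk (by simp [S.data.isRoot _ hψ]) using 1
  refine tv_eq_tv _ _ fun x => ?_
  have e := hL x
  rw [hη] at e
  simp only [LinearMap.smul_apply, smul_eq_mul]
  rw [show (η * L)⁻¹ * ψ x = φ x by rw [e]; field_simp]

lemma exists_endo [Finite F] (K : Subfield F) : ∃ σ : F →+* F, ∀ x, x ∈ K ↔ σ x = x := by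
  classical
  haveI : Fintype F := Fintype.ofFinite F
  obtain ⟨p, hp⟩ := CharP.exists F
  haveI := hp
  haveI : Fact p.Prime := ⟨CharP.char_is_prime F p⟩
  haveI : CharP K p := (K.subtype).charP K.subtype.injective p
  obtain ⟨n, -, hn⟩ := FiniteField.card K p
  refine ⟨iterateFrobenius F p n, fun x => ?_⟩
  rw [iterateFrobenius_def]
  constructor
  · intro hx
    have := congrArg K.subtype (FiniteField.pow_card (⟨x, hx⟩ : K))
    rw [map_pow, hn] at this
    exact this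
  · intro hx
    set q := p ^ (n : ℕ) with hq
    have hq1 : 1 < q := Nat.one_lt_pow n.pos.ne' (Fact.out : p.Prime).one_lt
    have hne : (Polynomial.X ^ q - Polynomial.X : Polynomial F) ≠ 0 :=
      FiniteField.X_pow_card_sub_X_ne_zero F hq1
    have hroot : ∀ y : F, y ^ q = y → y ∈ (Polynomial.X ^ q - Polynomial.X : Polynomial F).roots.toFinset := by
      intro y hy
      simp [Polynomial.mem_roots hne, hy]
    have hsub : (Finset.univ.map ⟨K.subtype, K.subtype.injective⟩ : Finset F) ⊆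
        (Polynomial.X ^ q - Polynomial.X : Polynomial F).roots.toFinset := by
      intro y hy
      obtain ⟨z, -, rfl⟩ := Finset.mem_map.mp hy
      refine hroot _ ?_
      have := congrArg K.subtype (FiniteField.pow_card z)
      rwa [map_pow, hn] at this
    have hcard : (Polynomial.X ^ q - Polynomial.X : Polynomial F).roots.toFinset.card ≤ q :=
      ((Multiset.toFinset_card_le _).trans (Polynomial.card_roots' _)).trans
        (FiniteField.X_pow_card_sub_X_natDegree_eq F hq1).le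
    have heq := Finset.eq_of_subset_of_card_le hsub
      (by rw [Finset.card_map, Finset.card_univ, hn]; exact hcard)
    have hx' := hroot x hx
    rw [← heq] at hx'
    obtain ⟨z, -, rfl⟩ := Finset.mem_map.mp hx'
    exact z.2

end NoInc

open NoInc in
/-- Without incidences `P` fixes a unitary form and contains all its transvections. -/
theorem unitary_of_noIncidence [Finite F] (hC : Core P) (hK : NoSub P) (D : RootData P K R)
    (hN : NoIncidence R) :
    ∃ (σ : F ≃+* F) (f : (Fin 3 → F) → (Fin 3 → F) → F),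
      IsUnitaryForm σ f ∧ FixesForm (matrixSet P) f ∧ AllFormTv P f := by
  obtain ⟨σ, hσ⟩ := exists_endo K
  have S := scaled_setting D hN hσ
  obtain ⟨Φ⟩ := exists_frame hC S
  have hsq := sq_eq_id hC hK S Φ
  let σe : F ≃+* F := RingEquiv.ofRingHom σ σ (RingHom.ext hsq) (RingHom.ext hsq)
  have hσe : ∀ x, σe x = σ x := fun x => rfl
  set ε := Φ.u - σ Φ.u with hε
  have hε0 : ε ≠ 0 := sub_ne_zero.mpr (Φ.sigma_u_ne S).symm
  have hεσ : σ ε = -ε := by rw [hε, map_sub, hsq, neg_sub]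
  refine ⟨σe, fun x y => ε * Φ.form σ x y, ⟨?_, hsq, ?_, ?_, ?_, ?_⟩, ?_, ?_⟩
  · intro e
    exact Φ.sigma_u_ne S (by rw [← hσe, e]; rfl)
  · intro x y v; simp only [Φ.form_add_left, mul_add]
  · intro c x v; simp only [Φ.form_smul_left]; ring
  · intro v w
    rw [hσe, map_mul, hεσ, Φ.form_skew hsq v w]
    ring
  · intro v hv
    have : ∃ y, Φ.form σ v y ≠ 0 := by
      by_contra hne
      push Not at hne
      exact hv (Φ.eq_zero_of_form S v hne)
    obtain ⟨y, hy⟩ := this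
    refine ⟨⟨y, mul_ne_zero hε0 ?_⟩, ⟨y, mul_ne_zero hε0 hy⟩⟩
    rw [Φ.form_skew hsq]
    exact neg_ne_zero.mpr ((map_ne_zero σ).mpr hy)
  · rintro _ ⟨g, hg, rfl⟩ x y
    exact congrArg (ε * ·) (Φ.fixes_form hsq hC S hg x y)
  · intro v φ h hiso
    exact allFormTv S Φ hsq v φ h fun x y => mul_left_cancel₀ hε0 (hiso x y)

end CfsgLib.SLThreeResidual
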