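import Cfsg.Agent.Lib.SLThreeResidual.Basic
import Cfsg.Agent.Lib.SmallDim.Descent
import Cfsg.Agent.Lib.SmallDim.Forms

/-!
# Representations with equal traces, and invariant forms read off from traces
-/

set_option autoImplicit false
set_option linter.style.haveILetI false

namespace CfsgLib.SLThreeResidual

open Cfsg.Geo Matrix CfsgLib.SmallDim

set_option linter.unusedSectionVars false

variable {F : Type*} [Field F] [Fintype F] {P : Subgroup (GL (Fin 3) F)}

lemma mulVec_dotProduct_eq (A : Matrix (Fin 3) (Fin 3) F) (u w : Fin 3 → F) :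
    (A *ᵥ u) ⬝ᵥ w = u ⬝ᵥ (Aᵀ *ᵥ w) := by
  rw [dotProduct_comm, Matrix.dotProduct_mulVec, dotProduct_comm, Matrix.mulVec_transpose]

/-- An absolutely irreducible representation is determined by its traces. -/
theorem exists_intertwiner_of_trace (habs : ActsAbsolutelyIrreducibly (matrixSet P))
    (rho : P →* GL (Fin 3) F)
    (htr : ∀ g : P, trace (rho g).val = trace (g : GL (Fin 3) F).val) :
    ∃ B : GL (Fin 3) F, ∀ g : P, rho g = B * g * B⁻¹ := by
  classical
  have hspan := span_eq_top_of_absIrred habs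
  obtain ⟨s, hsN, hss, hli⟩ := exists_linearIndependent F (matrixSet P)
  have hs : Submodule.span F s = ⊤ := hss.trans hspan
  have : Fintype s := Fintype.ofFinite s
  let b : Module.Basis s F (Matrix (Fin 3) (Fin 3) F) :=
    Module.Basis.mk hli (by rw [Subtype.range_coe, hs])
  have hb : ∀ i, b i = (i : Matrix (Fin 3) (Fin 3) F) := fun i => by simp [b]
  have hpre : ∀ i : s, ∃ g : P, ((g : GL (Fin 3) F) : Matrix (Fin 3) (Fin 3) F) = (i : Matrix (Fin 3) (Fin 3) F) := by
    intro i
    obtain ⟨g, hg, hgi⟩ := hsN i.2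
    exact ⟨⟨g, hg⟩, hgi⟩
  choose r hr using hpre
  let L : Matrix (Fin 3) (Fin 3) F →ₗ[F] Matrix (Fin 3) (Fin 3) F :=
    b.constr F fun i => (rho (r i)).val
  have htm : ∀ g h : P, trace ((rho g).val * (rho h).val) =
      trace ((g : GL (Fin 3) F).val * (h : GL (Fin 3) F).val) := by
    intro g h
    rw [← Units.val_mul, ← map_mul, htr, Subgroup.coe_mul, Units.val_mul]
  have hLtr : ∀ (M : Matrix (Fin 3) (Fin 3) F) (h : P),
      trace (L M * (rho h).val) = trace (M * (h : GL (Fin 3) F).val) := by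
    intro M h
    conv_rhs => rw [← b.sum_repr M]
    conv_lhs => rw [← b.sum_repr M]
    simp only [map_sum, map_smul, Finset.sum_mul, Matrix.smul_mul, Matrix.trace_sum,
      Matrix.trace_smul, L, Module.Basis.constr_basis]
    refine Finset.sum_congr rfl fun i _ => ?_
    rw [htm, hr, ← hb]
  have hinj : Function.Injective L := by
    rw [← LinearMap.ker_eq_bot, LinearMap.ker_eq_bot']
    intro M hM
    refine eq_zero_of_trace_mul hspan ?_
    rintro _ ⟨h, hh, rfl⟩
    have h1 := hLtr M ⟨h, hh⟩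
    simp only [hM, Matrix.zero_mul, Matrix.trace_zero] at h1
    exact h1.symm
  have hsurj : Function.Surjective L := LinearMap.surjective_of_injective hinj
  have hrspan : Submodule.span F (Set.range fun g : P => (rho g).val) = ⊤ := by
    rw [eq_top_iff]
    intro M _
    obtain ⟨N, rfl⟩ := hsurj M
    rw [← b.sum_repr N, map_sum]
    refine Submodule.sum_mem _ fun i _ => ?_
    rw [map_smul]
    refine Submodule.smul_mem _ _ (Submodule.subset_span ⟨r i, ?_⟩)
    simp [L]
  have hLg : ∀ g : P, L (g : GL (Fin 3) F).val = (rho g).val := by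
    intro g
    refine sub_eq_zero.1 (eq_zero_of_trace_mul hrspan ?_)
    rintro _ ⟨h, rfl⟩
    rw [Matrix.sub_mul, Matrix.trace_sub, hLtr, htm, sub_self]
  have hmul : ∀ X Y, L (X * Y) = L X * L Y := by
    intro X Y
    induction (hspan ▸ Submodule.mem_top : X ∈ Submodule.span F (matrixSet P))
      using Submodule.span_induction with
    | mem x hx =>
      obtain ⟨g, hg, rfl⟩ := hx
      induction (hspan ▸ Submodule.mem_top : Y ∈ Submodule.span F (matrixSet P))
        using Submodule.span_induction with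
      | mem y hy =>
        obtain ⟨h, hh, rfl⟩ := hy
        show L ((g : Matrix (Fin 3) (Fin 3) F) * (h : Matrix (Fin 3) (Fin 3) F)) = _
        rw [← Units.val_mul]
        rw [hLg ⟨g * h, mul_mem hg hh⟩, hLg ⟨g, hg⟩, hLg ⟨h, hh⟩, ← Units.val_mul, ← map_mul]
        rfl
      | zero => simp
      | add a c _ _ ha hc => rw [mul_add, map_add, ha, hc, map_add, mul_add]
      | smul k a _ ha => rw [Matrix.mul_smul, map_smul, ha, map_smul, Matrix.mul_smul]
    | zero => simp
    | add a c _ _ ha hc => rw [add_mul, map_add, ha, hc, map_add, add_mul]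
    | smul k a _ ha => rw [Matrix.smul_mul, map_smul, ha, map_smul, Matrix.smul_mul]
  have hone : L 1 = 1 := by
    have h := hLg 1
    simpa using h
  let φ : Matrix (Fin 3) (Fin 3) F ≃ₐ[F] Matrix (Fin 3) (Fin 3) F :=
    AlgEquiv.ofBijective (AlgHom.ofLinearMap L hone hmul) ⟨hinj, hsurj⟩
  obtain ⟨a, ha⟩ := exists_inner φ
  refine ⟨a, fun g => ?_⟩
  rw [eq_mul_inv_iff_mul_eq]
  apply Units.ext
  rw [Units.val_mul, Units.val_mul, ← hLg g]
  exact ha _

/-- The transpose of the inverse, composed with a ring automorphism, as a representation. -/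
noncomputable def dualHom (σ : F →+* F) (P : Subgroup (GL (Fin 3) F)) : P →* GL (Fin 3) F where
  toFun g :=
    { val := (((g : GL (Fin 3) F)⁻¹ : GL (Fin 3) F) : Matrix (Fin 3) (Fin 3) F)ᵀ.map σ
      inv := ((g : GL (Fin 3) F) : Matrix (Fin 3) (Fin 3) F)ᵀ.map σ
      val_inv := by
        rw [← Matrix.map_mul, ← Matrix.transpose_mul, ← Units.val_mul, mul_inv_cancel]
        simp
      inv_val := by
        rw [← Matrix.map_mul, ← Matrix.transpose_mul, ← Units.val_mul, inv_mul_cancel]
        simp }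
  map_one' := Units.ext (by simp)
  map_mul' g h := Units.ext (by
    show ((((g * h : P) : GL (Fin 3) F)⁻¹).val)ᵀ.map σ =
      (((g : GL (Fin 3) F)⁻¹).val)ᵀ.map σ * (((h : GL (Fin 3) F)⁻¹).val)ᵀ.map σ
    rw [Subgroup.coe_mul, _root_.mul_inv_rev, Units.val_mul, Matrix.transpose_mul, Matrix.map_mul])

/-- A representation with the traces of its twisted dual has an invariant matrix, unique up to
scalars. -/
theorem exists_invariant (hC : Core P) (σ : F →+* F)
    (htr : ∀ g ∈ P, σ (trace ((g⁻¹ : GL (Fin 3) F)).val) = trace g.val) :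
    ∃ B : GL (Fin 3) F, (∀ g ∈ P, g.valᵀ.map σ * B.val * g.val = B.val) ∧
      ∀ M : Matrix (Fin 3) (Fin 3) F, (∀ g ∈ P, g.valᵀ.map σ * M * g.val = M) →
        ∃ c : F, M = c • B.val := by
  obtain ⟨B, hB⟩ := exists_intertwiner_of_trace hC.absIrred (dualHom σ P) fun g => by
    show trace ((((g : GL (Fin 3) F)⁻¹ : GL (Fin 3) F) : Matrix (Fin 3) (Fin 3) F)ᵀ.map σ) = _
    rw [show trace ((((g : GL (Fin 3) F)⁻¹ : GL (Fin 3) F) : Matrix (Fin 3) (Fin 3) F)ᵀ.map σ) =
      σ (trace ((((g : GL (Fin 3) F)⁻¹ : GL (Fin 3) F) : Matrix (Fin 3) (Fin 3) F)ᵀ)) from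
        (AddMonoidHom.map_trace σ.toAddMonoidHom _).symm, Matrix.trace_transpose]
    exact htr _ g.2
  have hinv : ∀ g ∈ P, g.valᵀ.map σ * B.val * g.val = B.val := by
    intro g hg
    have h1 : dualHom σ P ⟨g, hg⟩ * B = B * g := by
      rw [hB ⟨g, hg⟩]
      simp
    have h2 : (((g⁻¹ : GL (Fin 3) F)).val)ᵀ.map σ * B.val = B.val * g.val := by
      have := congrArg (fun u : GL (Fin 3) F => u.val) h1
      simpa [dualHom] using this
    rw [mul_assoc, ← h2, ← mul_assoc, ← Matrix.map_mul, ← Matrix.transpose_mul, ← Units.val_mul,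
      inv_mul_cancel]
    simp
  refine ⟨B, hinv, fun M hM => ?_⟩
  obtain ⟨c, hc⟩ := hC.absIrred.2 ((B⁻¹ : GL (Fin 3) F).val * M) (by
    rintro _ ⟨g, hg, rfl⟩
    show (B⁻¹ : GL (Fin 3) F).val * M * g.val = g.val * ((B⁻¹ : GL (Fin 3) F).val * M)
    have h1 := hinv g hg
    have h2 := hM g hg
    have hu : IsUnit (g.valᵀ.map σ) := by
      refine ⟨dualHom σ P ⟨g⁻¹, inv_mem hg⟩, ?_⟩
      simp [dualHom]
    have h3 : g.valᵀ.map σ * (B.val * g.val * ((B⁻¹ : GL (Fin 3) F).val * M)) =
        g.valᵀ.map σ * (M * g.val) := by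
      rw [← mul_assoc, ← mul_assoc (g.valᵀ.map σ) B.val g.val, h1, ← mul_assoc, ← Units.val_mul,
        mul_inv_cancel, Units.val_one, one_mul, ← mul_assoc, h2]
    have h4 := hu.mul_left_cancel h3
    calc (B⁻¹ : GL (Fin 3) F).val * M * g.val
        = (B⁻¹ : GL (Fin 3) F).val * (B.val * g.val * ((B⁻¹ : GL (Fin 3) F).val * M)) := by
          rw [h4, mul_assoc]
      _ = _ := by
        rw [mul_assoc B.val, ← mul_assoc, ← Units.val_mul, inv_mul_cancel, Units.val_one, one_mul])
  refine ⟨c, ?_⟩
  calc M = B.val * ((B⁻¹ : GL (Fin 3) F).val * M) := by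
        rw [← mul_assoc, ← Units.val_mul, mul_inv_cancel, Units.val_one, one_mul]
    _ = _ := by rw [hc, Matrix.mul_smul, mul_one]

/-- Traces conjugated by inversion give an invariant unitary form. -/
theorem unitaryFix_of_trace (hC : Core P) (σ : F ≃+* F) (hne : σ ≠ RingEquiv.refl F)
    (hinv : ∀ a, σ (σ a) = a)
    (htr : ∀ g ∈ P, trace ((g⁻¹ : GL (Fin 3) F)).val = σ (trace g.val)) : UnitaryFix P := by
  obtain ⟨B, hB, huniq⟩ := exists_invariant hC (σ : F →+* F) fun g hg => by
    rw [htr g hg]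
    exact hinv _
  have hσσ : ∀ A : Matrix (Fin 3) (Fin 3) F, (A.map σ).map σ = A :=
    fun A => Matrix.ext fun _ _ => hinv _
  have hadj : ∀ g ∈ P, g.valᵀ.map σ * (B.valᵀ.map σ) * g.val = B.valᵀ.map σ := by
    intro g hg
    have h := congrArg (fun A : Matrix (Fin 3) (Fin 3) F => Aᵀ.map (σ : F →+* F)) (hB g hg)
    simp only [Matrix.transpose_mul, Matrix.map_mul, Matrix.transpose_map, RingEquiv.coe_toRingHom,
      Matrix.transpose_transpose, hσσ] at h
    rw [← mul_assoc] at h
    exact h
  obtain ⟨c, hc⟩ := huniq _ hadj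
  have hcc : σ c * c = 1 := by
    have h := congrArg (fun A : Matrix (Fin 3) (Fin 3) F => Aᵀ.map (σ : F →+* F)) hc
    simp only [Matrix.transpose_map, Matrix.transpose_transpose, RingEquiv.coe_toRingHom, hσσ,
      Matrix.transpose_smul] at h
    have h' : B.val = (σ c * c) • B.val := by
      conv_lhs => rw [h]
      ext i j
      simp only [Matrix.map_apply, Matrix.smul_apply, smul_eq_mul, map_mul]
      have h2 := congrFun (congrFun hc i) j
      simp only [Matrix.map_apply, Matrix.transpose_apply, Matrix.smul_apply, smul_eq_mul] at h2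
      rw [Matrix.transpose_apply, h2]
      ring
    by_contra hne1
    have h0 : (σ c * c - 1) • B.val = 0 := by rw [sub_smul, one_smul, ← h', sub_self]
    rcases smul_eq_zero.1 h0 with h1 | h1
    · exact hne1 (sub_eq_zero.1 h1)
    · exact Units.ne_zero B h1
  obtain ⟨lam, hlam, hlam0⟩ : ∃ lam : F, c * σ lam = lam ∧ lam ≠ 0 := by
    by_contra hall
    push Not at hall
    have hz : ∀ x, x + c * σ x = 0 := fun x => hall _ (by
      rw [map_add, map_mul, hinv]
      linear_combination x * hcc)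
    have hc1 : c = -1 := by
      have := hz 1
      rw [map_one, mul_one] at this
      linear_combination this
    refine hne (RingEquiv.ext fun x => ?_)
    have := hz x
    rw [hc1] at this
    show σ x = x
    linear_combination -this
  let M := lam • B.val
  have hM : ∀ g ∈ P, g.valᵀ.map σ * M * g.val = M := fun g hg => by
    simp only [M, Matrix.mul_smul, Matrix.smul_mul]
    rw [show g.valᵀ.map σ = g.valᵀ.map (σ : F →+* F) from rfl, hB g hg]
  have hMh : ∀ i j, σ (M j i) = M i j := fun i j => by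
    have h2 := congrFun (congrFun hc i) j
    simp only [Matrix.map_apply, Matrix.transpose_apply, Matrix.smul_apply, smul_eq_mul] at h2
    simp only [M, Matrix.smul_apply, smul_eq_mul, map_mul]
    rw [h2]
    linear_combination B.val i j * hlam
  refine ⟨σ, fun u v => (σ ∘ v) ⬝ᵥ (M *ᵥ u), ⟨hne, hinv, ?_, ?_, ?_, ?_⟩, ?_⟩
  · intro x y v
    rw [Matrix.mulVec_add, dotProduct_add]
  · intro a x v
    rw [Matrix.mulVec_smul, dotProduct_smul, smul_eq_mul]
  · intro v w
    simp only [dotProduct, Matrix.mulVec, Function.comp_apply, Finset.mul_sum, map_sum, map_mul,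
      hinv]
    rw [Finset.sum_comm]
    refine Finset.sum_congr rfl fun i _ => Finset.sum_congr rfl fun j _ => ?_
    rw [hMh]
    ring
  · intro v hv
    have hMdet : IsUnit M.det := by
      rw [Matrix.det_smul]
      exact (IsUnit.pow _ (isUnit_iff_ne_zero.2 hlam0)).mul ((Matrix.isUnit_iff_isUnit_det _).1 B.isUnit)
    constructor
    · by_contra hall
      push Not at hall
      refine hv (funext fun i => σ.injective ?_)
      have hz : (σ ∘ v) ᵥ* M = 0 := funext fun j => by
        have := hall (Pi.single j 1)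
        rw [Matrix.dotProduct_mulVec, dotProduct_single, mul_one] at this
        exact this
      have h0 := Matrix.vecMul_injective_iff_isUnit.2 ((Matrix.isUnit_iff_isUnit_det _).2 hMdet)
        (hz.trans (Matrix.zero_vecMul M).symm)
      rw [Pi.zero_apply, map_zero]
      exact congrFun h0 i
    · by_contra hall
      push Not at hall
      refine hv ?_
      have hz : M *ᵥ v = 0 := funext fun j => by
        have := hall (Pi.single j 1)
        simpa [dotProduct, Pi.single_apply, apply_ite σ] using this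
      exact (Matrix.mulVec_injective_iff_isUnit.2 ((Matrix.isUnit_iff_isUnit_det _).2 hMdet))
        (hz.trans (Matrix.mulVec_zero M).symm)
  · rintro _ ⟨g, hg, rfl⟩ u v
    show (σ ∘ (g.val *ᵥ v)) ⬝ᵥ (M *ᵥ (g.val *ᵥ u)) = (σ ∘ v) ⬝ᵥ (M *ᵥ u)
    rw [show σ ∘ (g.val *ᵥ v) = g.val.map σ *ᵥ (σ ∘ v) from
      map_mulVec_comp (σ : F →+* F) g.val v, mulVec_dotProduct_eq,
      Matrix.mulVec_mulVec, Matrix.mulVec_mulVec, ← Matrix.transpose_map, hM g hg]

/-- Real traces give an invariant non-singular symmetric matrix. -/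
theorem exists_symmetric_of_realTraces (hC : Core P) (h : RealTraces P) :
    ∃ B : GL (Fin 3) F, B.valᵀ = B.val ∧ ∀ g ∈ P, g.valᵀ * B.val * g.val = B.val := by
  obtain ⟨B, hB, huniq⟩ := exists_invariant hC (RingHom.id F) fun g hg => h g hg
  simp only [RingHom.coe_id, Matrix.map_id] at hB huniq
  obtain ⟨c, hc⟩ := huniq B.valᵀ fun g hg => by
    have h1 := congrArg Matrix.transpose (hB g hg)
    rwa [Matrix.transpose_mul, Matrix.transpose_mul, Matrix.transpose_transpose, ← mul_assoc] at h1
  have hc1 : c = 1 := by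
    have hd := congrArg Matrix.det hc
    rw [Matrix.det_transpose, Matrix.det_smul, Fintype.card_fin] at hd
    have hd0 : B.val.det ≠ 0 := ((Matrix.isUnit_iff_isUnit_det _).1 B.isUnit).ne_zero
    have h3 : c ^ 3 = 1 := mul_right_cancel₀ hd0 (by rw [← hd, one_mul])
    have h2 : c * c = 1 := by
      have ht := congrArg Matrix.transpose hc
      rw [Matrix.transpose_transpose, Matrix.transpose_smul, hc, smul_smul] at ht
      have h0 : (c * c - 1) • B.val = 0 := by rw [sub_smul, one_smul, ← ht, sub_self]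
      rcases smul_eq_zero.1 h0 with h1 | h1
      · exact sub_eq_zero.1 h1
      · exact absurd h1 (Units.ne_zero B)
    calc c = c * (c * c) := by rw [h2, mul_one]
      _ = 1 := by rw [← h3]; ring
  exact ⟨B, by rw [hc, hc1, one_smul], hB⟩

/-- Real traces in odd characteristic give an invariant quadratic form. -/
theorem quadFix_of_realTraces (h2 : (2 : F) ≠ 0) (hC : Core P) (h : RealTraces P) : QuadFix P := by
  obtain ⟨B, hsym, hB⟩ := exists_symmetric_of_realTraces hC h
  let Q : (Fin 3 → F) → F := fun v => v ⬝ᵥ (B.val *ᵥ v)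
  have hswap : ∀ u v : Fin 3 → F, u ⬝ᵥ (B.val *ᵥ v) = v ⬝ᵥ (B.val *ᵥ u) := by
    intro u v
    rw [Matrix.dotProduct_mulVec, dotProduct_comm, ← Matrix.mulVec_transpose, hsym]
  have hpol : ∀ u v, QuadraticMap.polar Q u v = 2 * (u ⬝ᵥ (B.val *ᵥ v)) := by
    intro u v
    simp only [QuadraticMap.polar, Q, Matrix.mulVec_add, dotProduct_add, add_dotProduct, hswap v u]
    ring
  have hnd : ∀ v : Fin 3 → F, v ≠ 0 → ∃ x, QuadraticMap.polar Q x v ≠ 0 := by
    intro v hv
    by_contra hall
    push Not at hall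
    refine hv (Matrix.mulVec_injective_iff_isUnit.2 B.isUnit (a₁ := v) (a₂ := 0) ?_)
    rw [Matrix.mulVec_zero]
    funext j
    have := hall (Pi.single j 1)
    rw [hpol, single_dotProduct, one_mul] at this
    exact (mul_eq_zero.1 this).resolve_left h2
  refine ⟨Q, ⟨?_, ⟨?_, ?_, ?_, ?_⟩, fun v hv => ⟨hnd v hv, ?_⟩⟩, ?_⟩
  · intro c v
    simp only [Q, Matrix.mulVec_smul, dotProduct_smul, smul_dotProduct, smul_eq_mul]
    ring
  · intro x y v; simp only [hpol, add_dotProduct, mul_add]
  · intro c x v; simp only [hpol, smul_dotProduct, smul_eq_mul]; ring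
  · intro v x y; simp only [hpol, Matrix.mulVec_add, dotProduct_add, mul_add]
  · intro c v x; simp only [hpol, Matrix.mulVec_smul, dotProduct_smul, smul_eq_mul]; ring
  · obtain ⟨x, hx⟩ := hnd v hv
    exact ⟨x, by rw [hpol, hswap, ← hpol]; exact hx⟩
  · rintro _ ⟨g, hg, rfl⟩ v
    show (g.val *ᵥ v) ⬝ᵥ (B.val *ᵥ (g.val *ᵥ v)) = v ⬝ᵥ (B.val *ᵥ v)
    rw [mulVec_dotProduct_eq, Matrix.mulVec_mulVec,
      Matrix.mulVec_mulVec, hB g hg]

/-- Real traces are impossible in characteristic two. -/
theorem false_of_realTraces_two (h2 : (2 : F) = 0) (hC : Core P) (h : RealTraces P) : False := by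
  obtain ⟨B, hsym, hB⟩ := exists_symmetric_of_realTraces hC h
  let f : (Fin 3 → F) → (Fin 3 → F) → F := fun u v => u ⬝ᵥ (B.val *ᵥ v)
  have hswap : ∀ u v, f u v = f v u := by
    intro u v
    show u ⬝ᵥ (B.val *ᵥ v) = v ⬝ᵥ (B.val *ᵥ u)
    rw [Matrix.dotProduct_mulVec, dotProduct_comm, ← Matrix.mulVec_transpose, hsym]
  let W : Submodule F (Fin 3 → F) :=
    { carrier := {v | f v v = 0}
      zero_mem' := by simp [f]
      add_mem' := by
        intro a b ha hb
        have hab := hswap a b
        simp only [Set.mem_ofPred_eq, f, Matrix.mulVec_add, dotProduct_add, add_dotProduct] at ha hb hab ⊢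
        rw [ha, hb, hab]
        linear_combination (b ⬝ᵥ (B.val *ᵥ a)) * h2
      smul_mem' := by
        intro c v hv
        simp only [Set.mem_ofPred_eq, f, Matrix.mulVec_smul, dotProduct_smul, smul_dotProduct,
          smul_eq_mul] at hv ⊢
        rw [hv, mul_zero, mul_zero] }
  have hW : W ≠ ⊥ := by
    intro hbot
    by_cases hd : B.val 0 0 = 0
    · have hm : Pi.single (0 : Fin 3) (1 : F) ∈ W := by
        show f _ _ = 0
        simp [f, hd]
      rw [hbot, Submodule.mem_bot] at hm
      simpa using congrFun hm 0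
    · haveI : CharP F 2 := CharTwo.of_one_ne_zero_of_two_eq_zero one_ne_zero h2
      obtain ⟨a, ha⟩ := FiniteField.isSquare_of_char_two (ringChar.eq F 2) (B.val 0 0)
      obtain ⟨b, hb⟩ := FiniteField.isSquare_of_char_two (ringChar.eq F 2) (B.val 1 1)
      have hm : (![b, a, 0] : Fin 3 → F) ∈ W := by
        have h01 : B.val 1 0 = B.val 0 1 := by
          have := congrFun (congrFun hsym 0) 1
          simpa using this
        show f _ _ = 0
        simp only [f, dotProduct, Matrix.mulVec, Fin.sum_univ_three, Matrix.cons_val_zero,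
          Matrix.cons_val_one, Matrix.cons_val, h01, ha, hb]
        linear_combination (b * b * (a * a) + a * b * B.val 0 1) * h2
      rw [hbot, Submodule.mem_bot] at hm
      have : a = 0 := congrFun hm 1
      rw [this, zero_mul] at ha
      exact hd ha
  have hWtop : W = ⊤ := (hC.absIrred.1 W (by
    rintro _ ⟨g, hg, rfl⟩ _ ⟨v, hv, rfl⟩
    show f _ _ = 0
    have hv' : f v v = 0 := hv
    rw [← hv']
    show (Matrix.toLin' g.val v) ⬝ᵥ (B.val *ᵥ Matrix.toLin' g.val v) = v ⬝ᵥ (B.val *ᵥ v)
    rw [Matrix.toLin'_apply, mulVec_dotProduct_eq,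
      Matrix.mulVec_mulVec, Matrix.mulVec_mulVec, hB g hg])).resolve_left hW
  have halt : ∀ v, f v v = 0 := fun v => (hWtop ▸ Submodule.mem_top : v ∈ W)
  refine no_alternating_odd (F := F) (by decide) ⟨?_, ?_, ?_, ?_⟩ halt ?_
  · intro x y v; simp only [f, add_dotProduct]
  · intro c x v; simp only [f, smul_dotProduct, smul_eq_mul]
  · intro v x y; simp only [f, Matrix.mulVec_add, dotProduct_add]
  · intro c v x; simp only [f, Matrix.mulVec_smul, dotProduct_smul, smul_eq_mul]
  · intro v hv
    have hne : ∃ x, f x v ≠ 0 := by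
      by_contra hall
      push Not at hall
      refine hv (Matrix.mulVec_injective_iff_isUnit.2 B.isUnit (a₁ := v) (a₂ := 0) ?_)
      rw [Matrix.mulVec_zero]
      funext j
      simpa [f] using hall (Pi.single j 1)
    obtain ⟨x, hx⟩ := hne
    exact ⟨⟨x, hx⟩, x, by rw [hswap]; exact hx⟩

end CfsgLib.SLThreeResidual
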