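import Cfsg.Agent.Lib.SLThreeResidual.SevenFiveFacts
import Cfsg.Agent.Lib.SLThreeResidual.CongrSeven
import Cfsg.Agent.Lib.SLThreeResidual.Traces
import Cfsg.Agent.Lib.SmallDim.UnitaryGeneral

/-!
# `L₂(7)` is not maximal in `SU(3,5)`: it lies in `3.A₇`
-/

set_option autoImplicit false
set_option linter.unusedSectionVars false
set_option maxRecDepth 4000

namespace CfsgLib.SLThreeResidual

open Cfsg.Geo Matrix CfsgLib.Geometric CfsgLib.SmallDim CfsgLib.SmallDim.UThree
open scoped MatrixGroups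

namespace SevenFive

lemma eq_iff_entries {x : S7} {e : M2} (hx : arr x = e) :
    (∀ i j, e i j = one2 i j) ↔ x = 1 := by
  subst hx
  rw [← arr_injective.eq_iff, arr_one]
  exact ⟨fun h => funext fun i => funext (h i), fun h i j => by rw [h]⟩

lemma arr_gS (b : Bool) : arr (gS b) = gen2 b := rfl

lemma pow_three (g : S7) : g ^ 3 = g * g * g := by simp [pow_succ]

lemma pow_four (g : S7) : g ^ 4 = g * g * (g * g) := by simp [pow_succ, mul_assoc]

lemma pow_seven (g : S7) : g ^ 7 = g * g * (g * g) * (g * g) * g := by simp [pow_succ, mul_assoc]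

/-- The transpose inverse automorphism. -/
def dual : S7 →* S7 where
  toFun g := ⟨((g⁻¹ : S7) : Matrix (Fin 3) (Fin 3) (ZMod 2))ᵀ, by rw [Matrix.det_transpose]; exact (g⁻¹).2⟩
  map_one' := Subtype.ext (by simp)
  map_mul' g h := Subtype.ext (by
    show ((((g * h)⁻¹ : S7)) : Matrix (Fin 3) (Fin 3) (ZMod 2))ᵀ = _
    rw [_root_.mul_inv_rev, Matrix.SpecialLinearGroup.coe_mul, Matrix.transpose_mul]
    rfl)

lemma dual_injective : Function.Injective dual := fun g h e => by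
  have e' := congrArg (fun x : S7 => ((x : Matrix (Fin 3) (Fin 3) (ZMod 2)))ᵀ) e
  change (((g⁻¹ : S7) : Matrix (Fin 3) (Fin 3) (ZMod 2))ᵀ)ᵀ = (((h⁻¹ : S7) : Matrix (Fin 3) (Fin 3) (ZMod 2))ᵀ)ᵀ at e'
  have this := by simpa only [Matrix.transpose_transpose] using e'
  exact inv_injective (Subtype.ext this)

lemma l32Tr_dual {F : Type*} [Field F] (α : F) (g : S7) : l32Tr α (dual g) = l32Tr (-1 - α) g := by
  have hone : ∀ x, dual x = 1 ↔ x = 1 := fun x => map_eq_one_iff dual dual_injective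
  have e2 : dual g * dual g = 1 ↔ g * g = 1 := by rw [← map_mul]; exact hone _
  have e4 : dual g ^ 4 = 1 ↔ g ^ 4 = 1 := by rw [← map_pow]; exact hone _
  have e3 : dual g ^ 3 = 1 ↔ g ^ 3 = 1 := by rw [← map_pow]; exact hone _
  unfold l32Tr
  by_cases h1 : g = 1
  · rw [if_pos ((hone g).2 h1), if_pos h1]
  rw [if_neg (mt (hone g).1 h1), if_neg h1]
  by_cases h2 : g * g = 1
  · rw [if_pos (e2.2 h2), if_pos h2]
  rw [if_neg (mt e2.1 h2), if_neg h2]
  by_cases h4 : g ^ 4 = 1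
  · rw [if_pos (e4.2 h4), if_pos h4]
  rw [if_neg (mt e4.1 h4), if_neg h4]
  by_cases h3 : g ^ 3 = 1
  · rw [if_pos (e3.2 h3), if_pos h3]
  rw [if_neg (mt e3.1 h3), if_neg h3]
  have hsw := trace_swap (idx g) (idx g⁻¹)
    (by rw [elt_idx, elt_idx, ← arr_mul, mul_inv_cancel, arr_one]; exact fun _ _ => rfl)
    (by rw [elt_idx, ← arr_mul, ← arr_mul]
        exact fun h => h4 ((pow_four g).trans ((eq_iff_entries rfl).1 h)))
    (by rw [elt_idx, ← arr_mul, ← arr_mul]
        exact fun h => h3 ((pow_three g).trans ((eq_iff_entries rfl).1 h)))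
  rw [elt_idx, elt_idx, ← trace_eq, ← trace_eq] at hsw
  have htr : Matrix.trace (dual g : Matrix (Fin 3) (Fin 3) (ZMod 2)) =
      Matrix.trace ((g⁻¹ : S7) : Matrix (Fin 3) (Fin 3) (ZMod 2)) := Matrix.trace_transpose _
  rw [htr]
  by_cases ht : Matrix.trace (g : Matrix (Fin 3) (Fin 3) (ZMod 2)) = 0
  · rw [if_neg (hsw.1 ht), if_pos ht]
  · rw [if_pos (not_not.1 (mt hsw.2 ht)), if_neg ht, sub_sub_cancel]

/-- An injective endomorphism preserving the trace function is inner. -/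
theorem inner_of_l32Tr {F : Type*} [Field F] {α : F} (hα : α ≠ -1 - α) (φ : S7 →* S7)
    (hinj : Function.Injective φ) (htr : ∀ g, l32Tr α (φ g) = l32Tr α g) :
    ∃ k : S7, ∀ g, φ g = k * g * k⁻¹ := by
  obtain ⟨hA2, hA1, hB1, hB3, ⟨hu7, hu2, hu4, hu3⟩, hc4⟩ := gen_rels
  have hone : ∀ x, φ x = 1 ↔ x = 1 := fun x => map_eq_one_iff φ hinj
  set A := gS false
  set B := gS true
  -- the first generator
  obtain ⟨k₁, hk₁⟩ := conj_first (idx (φ A))
    (by
      rw [elt_idx, ← arr_mul, eq_iff_entries rfl, ← map_mul, hone, ← eq_iff_entries (arr_mul A A)]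
      exact hA2)
    (by
      rw [elt_idx, eq_iff_entries rfl, hone, ← eq_iff_entries (x := A) (arr_gS false)]
      exact hA1)
  have hk₁' : eS k₁ * A = φ A * eS k₁ := arr_injective (by
    rw [arr_mul, arr_mul]
    funext i j
    rw [← elt_idx (φ A)]
    exact hk₁ i j)
  set ψ : S7 →* S7 := (MulAut.conj (eS k₁)⁻¹).toMonoidHom.comp φ
  have hψ : ∀ g, ψ g = (eS k₁)⁻¹ * φ g * eS k₁ := fun g => by simp [ψ]
  have hψA : ψ A = A := by rw [hψ, mul_assoc, ← hk₁', inv_mul_cancel_left]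
  have hψinj : Function.Injective ψ := (MulAut.conj (eS k₁)⁻¹).injective.comp hinj
  have hψone : ∀ x, ψ x = 1 ↔ x = 1 := fun x => map_eq_one_iff ψ hψinj
  have hψtr : ∀ g, l32Tr α (ψ g) = l32Tr α g := fun g => by
    rw [← htr g, hψ]
    have hiff : ∀ x : S7, (eS k₁)⁻¹ * x * eS k₁ = 1 ↔ x = 1 := fun x => by
      constructor
      · intro h
        have := congrArg (fun y => eS k₁ * y * (eS k₁)⁻¹) h
        simpa [mul_assoc] using this
      · rintro rfl; simp
    have hp : ∀ (x : S7) (n : ℕ), ((eS k₁)⁻¹ * x * eS k₁) ^ n = (eS k₁)⁻¹ * x ^ n * eS k₁ := fun x n => by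
      have := (map_pow (MulAut.conj (eS k₁)⁻¹) x n).symm
      simpa [mul_assoc] using this
    unfold l32Tr
    simp only [hiff, hp, show (eS k₁)⁻¹ * φ g * eS k₁ * ((eS k₁)⁻¹ * φ g * eS k₁) =
      (eS k₁)⁻¹ * (φ g * φ g) * eS k₁ by simp [mul_assoc]]
    rw [Matrix.SpecialLinearGroup.coe_mul, Matrix.SpecialLinearGroup.coe_mul, Matrix.trace_mul_cycle,
      ← Matrix.SpecialLinearGroup.coe_mul, mul_inv_cancel, Matrix.SpecialLinearGroup.coe_one, one_mul]
  -- the second generator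
  set u := A * B
  have au : arr u = mul2 (gen2 false) (gen2 true) := by rw [arr_mul, arr_gS, arr_gS]
  have hu : arr (ψ u) = mul2 (gen2 false) (elt (idx (ψ B))) := by
    rw [map_mul, hψA, arr_mul, arr_gS, elt_idx]
  have n1 : u ≠ 1 := fun h => hu2 (by
    rw [← au, ← arr_mul, h, mul_one, arr_one]; exact fun _ _ => rfl)
  have n2 : u * u ≠ 1 := fun h => hu2 (by rw [← au, ← arr_mul, h, arr_one]; exact fun _ _ => rfl)
  have n4 : u ^ 4 ≠ 1 := fun h => hu4 (by
    rw [← au, ← arr_mul, ← arr_mul, ← pow_four, h, arr_one]; exact fun _ _ => rfl)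
  have n3 : u ^ 3 ≠ 1 := fun h => hu3 (by
    rw [← au, ← arr_mul, ← arr_mul, ← pow_three, h, arr_one]; exact fun _ _ => rfl)
  have htu : tr2 (mul2 (gen2 false) (elt (idx (ψ B)))) = tr2 (mul2 (gen2 false) (gen2 true)) := by
    rw [← hu, ← au]
    have h := hψtr u
    unfold l32Tr at h
    rw [if_neg (mt (hψone u).1 n1), if_neg (fun e => n2 ((hψone _).1 (by rw [map_mul, e]))),
      if_neg (fun e => n4 ((hψone _).1 (by rw [map_pow, e]))),
      if_neg (fun e => n3 ((hψone _).1 (by rw [map_pow, e]))), if_neg n1, if_neg n2, if_neg n4,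
      if_neg n3, trace_eq, trace_eq] at h
    have h01 : ∀ a b : ZMod 2, ¬ a = 0 → ¬ b = 0 → a = b := by decide
    split_ifs at h with ha hb hb
    · rw [ha, hb]
    · exact absurd h hα
    · exact absurd h.symm hα
    · exact h01 _ _ ha hb
  obtain ⟨k₂, hk₂A, hk₂B⟩ := conj_second (idx (ψ B))
    (by
      rw [elt_idx, eq_iff_entries rfl, hψone, ← eq_iff_entries (x := B) (arr_gS true)]
      exact hB1)
    (by
      rw [elt_idx, ← arr_mul, ← arr_mul, eq_iff_entries rfl, ← map_mul, ← map_mul, hψone,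
        ← eq_iff_entries (e := mul2 (mul2 (gen2 true) (gen2 true)) (gen2 true))
          (by rw [arr_mul, arr_mul, arr_gS])]
      exact hB3)
    (by
      dsimp only
      rw [← hu, ← arr_mul, ← arr_mul, ← arr_mul, ← arr_mul, eq_iff_entries rfl, ← map_mul, ← map_mul,
        ← map_mul, ← map_mul, hψone,
        ← eq_iff_entries (e := _) (by rw [arr_mul, arr_mul, arr_mul, arr_mul, au])]
      exact hu7)
    (by
      dsimp only
      have hc : mul2 (mul2 (gen2 false) (elt (idx (ψ B))))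
          (mul2 (gen2 false) (mul2 (elt (idx (ψ B))) (elt (idx (ψ B))))) =
          arr (ψ (A * B * (A * (B * B)))) := by
        simp only [map_mul, hψA, arr_mul, elt_idx, A, arr_gS]
      rw [hc, ← arr_mul, ← arr_mul, eq_iff_entries rfl, ← map_mul, ← map_mul, hψone,
        ← eq_iff_entries (e := _) (by simp only [arr_mul, A, B, arr_gS]; rfl)]
      exact hc4)
    htu
  have hgenk : ∀ b, eS k₂ * gS b = ψ (gS b) * eS k₂ := by
    intro b
    apply arr_injective
    rw [arr_mul, arr_mul, arr_gS]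
    funext i j
    cases b
    · rw [show ψ (gS false) = A from hψA]; exact hk₂A i j
    · rw [← elt_idx (ψ (gS true))]; exact hk₂B i j
  refine ⟨eS k₁ * eS k₂, fun g => ?_⟩
  have hg : eS k₂ * g = ψ g * eS k₂ := by
    refine induction (p := fun g => eS k₂ * g = ψ g * eS k₂) (by simp) (fun g b ih => ?_) g
    rw [← mul_assoc, ih, mul_assoc, hgenk, ← mul_assoc, map_mul]
  rw [show φ g = eS k₁ * ψ g * (eS k₁)⁻¹ by simp [hψ, mul_assoc], eq_mul_inv_of_mul_eq hg.symm]
  simp [mul_assoc]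

end SevenFive

variable {F : Type*} [Field F] [Fintype F] {P : Subgroup (GL (Fin 3) F)}

/-- `L₂(7)` is not maximal in `SU(3,5)`. -/
theorem no_L32_five {q : ℕ} (hF : Fintype.card F = q ^ 2) (hq : q = 5) {H : Subgroup (GL (Fin 3) F)}
    (hH : IsMaximalIn (Cfsg.GU 3 F q ⊓ specialLinear (Fin 3) F) H) (hres : IsResidualCore H P)
    (hQ : ¬ QuadFix P)
    (e : Nonempty (Proj P ≃* Matrix.ProjectiveSpecialLinearGroup (Fin 3) (ZMod 2))) : False := by
  subst hq
  classical
  have : CharP F 5 := UThree.charP_of_card (by norm_num) hF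
  obtain ⟨σ, hu⟩ := exists_unitarySetup (F := F) 3 hF
  obtain ⟨s, hs⟩ := exists_sqrt_two (p := 5) hF (by norm_num) (by decide)
  have hs2 : ∀ a : ZMod 5, a ^ 2 ≠ 2 := by decide
  have hC : Core P := core_of_isResidualCore (hH.1.le.trans inf_le_right) hres
  obtain ⟨f, α, hα, hf⟩ := exists_traces_L32 hC hQ e
  set α₀ : F := decQ s ((2, 4) : Q2 5)
  have hα₀ := SevenFive.decQ_alpha (F := F) hs
  obtain ⟨f', hf'inj, hf'⟩ : ∃ f' : P →* SevenFive.S7, Function.Injective f' ∧
      ∀ g : P, trace (g : GL (Fin 3) F).val = l32Tr α₀ (f' g) := by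
    rcases mul_eq_zero.1 (show (α - α₀) * (α + α₀ + 1) = 0 by linear_combination hα - hα₀) with h | h
    · exact ⟨f.toMonoidHom, f.injective, fun g => by rw [hf g, sub_eq_zero.1 h]; rfl⟩
    · refine ⟨SevenFive.dual.comp f.toMonoidHom, SevenFive.dual_injective.comp f.injective, fun g => ?_⟩
      rw [hf g, show α = -1 - α₀ by linear_combination h, ← SevenFive.l32Tr_dual]
      rfl
  have hsurj : Function.Surjective f' := by
    have : Finite P := inferInstance
    exact ((Nat.bijective_iff_injective_and_card f').2 ⟨hf'inj, Nat.card_congr f.toEquiv⟩).2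
  let ρ : P →* GL (Fin 3) F := (SevenFive.rep hs).comp f'
  obtain ⟨B, hB⟩ := exists_intertwiner_of_trace hC.absIrred ρ fun g =>
    (SevenFive.rep_trace hs (f' g)).trans (hf' g).symm
  have hρ : ∀ g : P, ρ g ∈ (Cfsg.GU 3 F 5 ⊓ specialLinear (Fin 3) F) ⊓ UThree.a7Stab s :=
    fun g => SevenFive.rep_mem hs hu _
  have hPG : P ≤ Cfsg.GU 3 F 5 := (hres.le.trans hH.1.le).trans inf_le_left
  -- the intertwiner can be taken unitary
  obtain ⟨c, hc, hcB⟩ : ∃ c ∈ Cfsg.GU 3 F 5, ∀ g : P, ρ g = c * g * c⁻¹ := by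
    let h := Cfsg.hermForm 3 F 5
    let f₂ : (Fin 3 → F) → (Fin 3 → F) → F := fun u v => h (act B u) (act B v)
    have hs' : IsSesqui (σ : F →+* F) f₂ := hu.sesqui.transform _
    have hfix : FixesForm (matrixSet P) f₂ := by
      rintro _ ⟨g, hg, rfl⟩ u v
      show h (act B (act g u)) (act B (act g v)) = h (act B u) (act B v)
      have e1 : ∀ w, act B (act g w) = act (ρ ⟨g, hg⟩) (act B w) := fun w => by
        rw [← act_mul, ← act_mul, hB ⟨g, hg⟩, inv_mul_cancel_right]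
      rw [e1, e1]
      exact mem_GU.1 (hρ ⟨g, hg⟩).1.1 _ _
    obtain ⟨d, hd⟩ := form_unique σ.surjective hu.sesqui hu.isUnitary.nondegenerate hs' hC.absIrred
      (fun x hx => by obtain ⟨g, -, rfl⟩ := hx; exact g.isUnit)
      (fun x hx u v => by obtain ⟨g, hg, rfl⟩ := hx; exact hPG hg u v) hfix
    set v₀ : Fin 3 → F := Pi.single 0 1
    have h1 : h v₀ v₀ = 1 := by simp [h, v₀, hu.herm_single]
    have hd1 : f₂ v₀ v₀ = d := by
      rw [hd]; show d * h v₀ v₀ = d; rw [h1, mul_one]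
    have hσd : σ d = d := by rw [← hd1]; exact (hu.herm _ _).symm
    have hd0 : d ≠ 0 := by
      intro h0
      obtain ⟨w, hw⟩ := (hu.isUnitary.nondegenerate (act B v₀) (act_ne_zero B (by simp [v₀]))).1
      apply hw
      have := hd (act B⁻¹ w) v₀
      rw [h0, zero_mul] at this
      simpa [f₂, h, act_act_inv] using this
    obtain ⟨ν, hν, -⟩ := hu.exists_norm_avoid hσd hd0 ∅ (by simp)
    have hν0 : ν ≠ 0 := left_ne_zero_of_mul (hν ▸ hd0)
    set Z : GL (Fin 3) F := Matrix.GeneralLinearGroup.mkOfDetNeZero (ν⁻¹ • (1 : Matrix (Fin 3) (Fin 3) F))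
      (by rw [Matrix.det_smul, Matrix.det_one, mul_one]; exact pow_ne_zero _ (inv_ne_zero hν0))
    have hZ : ∀ w, act Z w = ν⁻¹ • w := fun w => act_scalar rfl w
    have hZc : ∀ x : GL (Fin 3) F, Z * x = x * Z :=
      fun x => scalars_commute ((mem_scalars_iff _).2 ⟨Units.mk0 ν⁻¹ (inv_ne_zero hν0), rfl⟩) x
    refine ⟨Z * B, mem_GU.2 fun u v => ?_, fun g => ?_⟩
    · rw [act_mul, act_mul, hZ, hZ, hu.sesqui.smul_left, hu.sesqui.smul_right]
      show ν⁻¹ * (σ ν⁻¹ * f₂ u v) = _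
      rw [hd, map_inv₀, ← mul_assoc, ← mul_assoc, ← mul_inv, hν, inv_mul_cancel₀ hd0, one_mul]
    · rw [hB g]
      calc B * ↑g * B⁻¹ = Z * (B * ↑g * B⁻¹) * Z⁻¹ := by rw [hZc, mul_inv_cancel_right]
        _ = Z * B * ↑g * (Z * B)⁻¹ := by group
  have hconj : ∀ h ∈ H, ∃ (k : SevenFive.S7) (r : F),
      ((c * h * c⁻¹ : GL (Fin 3) F) : Matrix (Fin 3) (Fin 3) F) =
        r • ((SevenFive.rep hs k : GL (Fin 3) F) : Matrix (Fin 3) (Fin 3) F) := by
    intro h hh
    let cj : P →* P :=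
      { toFun := fun g => ⟨h * g * h⁻¹, hres.normal h hh g g.2⟩
        map_one' := Subtype.ext (by simp)
        map_mul' := fun a b => Subtype.ext (by simp [mul_assoc]) }
    let e' : P ≃* SevenFive.S7 := MulEquiv.ofBijective f' ⟨hf'inj, hsurj⟩
    let φ : SevenFive.S7 →* SevenFive.S7 := f'.comp (cj.comp e'.symm.toMonoidHom)
    have hne : α₀ ≠ -1 - α₀ := fun h' => by
      have h5 : (5 : F) = 0 := by exact_mod_cast CharP.cast_eq_zero F 5
      have : (2 : F) = 0 := by linear_combination (-(2 * α₀ + 1)) * h' + 4 * hα₀ - h5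
      have : (1 : F) = 0 := by linear_combination h5 - 2 * this
      exact one_ne_zero this
    obtain ⟨k, hk⟩ := SevenFive.inner_of_l32Tr hne φ
      (by
        intro a b hab
        have h1 : cj (e'.symm a) = cj (e'.symm b) := hf'inj hab
        exact e'.symm.injective (Subtype.ext (by simpa [cj] using congrArg Subtype.val h1)))
      (fun g => by
        show l32Tr α₀ (f' (cj (e'.symm g))) = _
        rw [← hf', ← MulEquiv.apply_symm_apply e' g]
        show _ = l32Tr α₀ (f' _)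
        rw [← hf', MulEquiv.symm_apply_apply]
        show Matrix.trace ((h * _ * h⁻¹ : GL (Fin 3) F) : Matrix (Fin 3) (Fin 3) F) = _
        rw [Units.val_mul, Units.val_mul, Matrix.trace_mul_cycle, ← Units.val_mul, inv_mul_cancel,
          Units.val_one, one_mul])
    obtain ⟨p₀, hp₀⟩ := hsurj k
    set y : GL (Fin 3) F := (p₀ : GL (Fin 3) F)⁻¹ * h
    have hy : ∀ g : P, y * (g : GL (Fin 3) F) = (g : GL (Fin 3) F) * y := by
      intro g
      have h1 : cj g = p₀ * g * p₀⁻¹ := hf'inj (by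
        rw [map_mul, map_mul, map_inv, hp₀, ← hk]
        show f' (cj g) = f' (cj (e'.symm (f' g)))
        rw [show e'.symm (f' g) = g from e'.symm_apply_apply g])
      have h2 : h * (g : GL (Fin 3) F) * h⁻¹ = (p₀ : GL (Fin 3) F) * g * (p₀ : GL (Fin 3) F)⁻¹ :=
        congrArg Subtype.val h1
      calc y * g = (p₀ : GL (Fin 3) F)⁻¹ * (h * g * h⁻¹) * h := by simp [y, mul_assoc]
        _ = g * y := by rw [h2]; simp [y, mul_assoc]
    obtain ⟨r, hr⟩ := hC.absIrred.2 (y : Matrix (Fin 3) (Fin 3) F) fun x hx => by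
      obtain ⟨g, hg, rfl⟩ := hx
      exact congrArg Units.val (hy ⟨g, hg⟩)
    refine ⟨k, r, ?_⟩
    rw [← hp₀, show SevenFive.rep hs (f' p₀) = c * (p₀ : GL (Fin 3) F) * c⁻¹ from hcB p₀,
      show c * h * c⁻¹ = c * (p₀ : GL (Fin 3) F) * y * c⁻¹ by simp [y, mul_assoc]]
    simp only [Units.val_mul, hr, Matrix.mul_smul, Matrix.smul_mul, Matrix.mul_one]
  obtain ⟨g₁, hg₁, hg₁U, hg₁M, -, hg₁S⟩ := cert_a7D1.exists_gl hs hu (by norm_num) (by decide)
  obtain ⟨d, hdv, hdU, hdS⟩ := exists_unitary_gl out_a7_unitary hs hu (by norm_num) (by decide)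
  refine false_of_overgroup hH hc (fun h hh => ?_) hg₁M ⟨hg₁U, hg₁S det_a7D1⟩ (fun hgH => ?_)
    ⟨hdU, hdS det_a7Out⟩ (not_mem_lineStab hs hs2 hF hdv out_a7_bad)
  · obtain ⟨k, r, hkr⟩ := hconj h hh
    have hsc : (c * h * c⁻¹) * (SevenFive.rep hs k)⁻¹ ∈ UThree.a7Stab s :=
      scalar_mem_lineStab _ (c := r) (by rw [Units.val_mul, hkr, Matrix.smul_mul, Units.mul_inv])
    have := mul_mem hsc (SevenFive.rep_mem hs hu k).2
    rwa [inv_mul_cancel_right] at this
  · obtain ⟨k, r, hkr⟩ := hconj _ hgH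
    rw [show c * (c⁻¹ * g₁ * c) * c⁻¹ = g₁ by simp [mul_assoc], hg₁, SevenFive.rep_val] at hkr
    obtain ⟨z, rfl⟩ : ∃ z : Q2 5, decQ s z = r :=
      ((Fintype.bijective_iff_injective_and_card _).mpr ⟨decQ_injective hs hs2, by
        rw [Fintype.card_prod, ZMod.card, hF, pow_two]⟩).2 r
    refine SevenFive.extra_not_rep (SevenFive.idx k) z fun i j => decQ_injective hs hs2 ?_
    have := congrFun (congrFun hkr i) j
    simpa [decM, decQ_mul hs] using this

end CfsgLib.SLThreeResidual
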