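import Cfsg.Agent.Lib.SLThreeResidual.OddPlane

/-!
# Odd characteristic: the frames

A group with `OddSetup` has, in a suitable basis, the monomial elements and one of the two
exceptional elements of `SDFrame` and `WrFrame`.
-/

set_option autoImplicit false
set_option linter.unusedSectionVars false
set_option linter.style.haveILetI false

namespace CfsgLib.SLThreeResidual

open Cfsg.Geo Matrix CfsgLib.Geometric
open CfsgLib.Geometric.SLThree (IsHom)

variable {F : Type*} [Field F] [Fintype F] {P : Subgroup (GL (Fin 3) F)}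

/-- A diagonal matrix. -/
def dia (a b c : F) : Matrix (Fin 3) (Fin 3) F := blk a 0 0 b c

/-- A weighted three-cycle. -/
def cyc (a b c : F) : Matrix (Fin 3) (Fin 3) F := !![0, 0, c; a, 0, 0; 0, b, 0]

/-- The transposed weighted three-cycle. -/
def cyct (a b c : F) : Matrix (Fin 3) (Fin 3) F := !![0, a, 0; 0, 0, b; c, 0, 0]

lemma In.mul {M N : Matrix (Fin 3) (Fin 3) F} (hM : In P M) (hN : In P N) : In P (M * N) := by
  obtain ⟨g, hg, rfl⟩ := hM
  obtain ⟨h, hh, rfl⟩ := hN
  exact ⟨g * h, mul_mem hg hh, Units.val_mul g h⟩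

lemma In.inv {M N : Matrix (Fin 3) (Fin 3) F} (hM : In P M) (h : M * N = 1) : In P N := by
  obtain ⟨g, hg, rfl⟩ := hM
  exact ⟨g⁻¹, inv_mem hg, Units.inv_eq_of_mul_eq_one_right h⟩

lemma In.det {M : Matrix (Fin 3) (Fin 3) F} (hP : OddSetup P) (hM : In P M) : M.det = 1 := by
  obtain ⟨g, hg, rfl⟩ := hM
  exact (mem_specialLinear_iff g).mp (hP.le_sl hg)

lemma In.of_eq {M N : Matrix (Fin 3) (Fin 3) F} (hM : In P M) (h : M = N) : In P N := h ▸ hM

lemma In.change {M M' : Matrix (Fin 3) (Fin 3) F} (hM : In P M) (B : GL (Fin 3) F)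
    (h : M * (B : Matrix (Fin 3) (Fin 3) F) = (B : Matrix (Fin 3) (Fin 3) F) * M') :
    In (P.map (MulAut.conj B⁻¹).toMonoidHom) M' := by
  obtain ⟨g, hg, rfl⟩ := hM
  refine ⟨B⁻¹ * g * B, ⟨g, hg, by simp [MulAut.conj_apply]⟩, ?_⟩
  rw [Units.val_mul, Units.val_mul, mul_assoc, h, Units.inv_mul_cancel_left]

lemma In.back {M : Matrix (Fin 3) (Fin 3) F} {B : GL (Fin 3) F}
    (hM : In (P.map (MulAut.conj B⁻¹).toMonoidHom) M) :
    ∃ g ∈ P, (g : Matrix (Fin 3) (Fin 3) F) = (B : Matrix (Fin 3) (Fin 3) F) * M *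
      ((B⁻¹ : GL (Fin 3) F) : Matrix (Fin 3) (Fin 3) F) := by
  obtain ⟨_, ⟨g, hg, rfl⟩, hv⟩ := hM
  refine ⟨g, hg, ?_⟩
  rw [← hv]
  simp [MulAut.conj_apply, mul_assoc]

lemma map_conj_map (B D : GL (Fin 3) F) :
    (P.map (MulAut.conj B⁻¹).toMonoidHom).map (MulAut.conj D⁻¹).toMonoidHom =
      P.map (MulAut.conj (B * D)⁻¹).toMonoidHom := by
  rw [Subgroup.map_map]
  congr 1
  ext g : 1
  simp [MulAut.conj_apply, mul_assoc]

/-- The hypotheses do not depend on the basis. -/
theorem OddSetup.map (hP : OddSetup P) (C : GL (Fin 3) F) :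
    OddSetup (P.map (MulAut.conj C).toMonoidHom) := by
  set f := (MulAut.conj C).toMonoidHom with hf
  have inj : Function.Injective f := (MulAut.conj C).injective
  have hsq : ∀ {x : GL (Fin 3) F}, f x * f x = 1 → x * x = 1 := fun {x} h =>
    inj (by rw [map_mul, h, map_one])
  have hne : ∀ {x : GL (Fin 3) F}, f x ≠ 1 → x ≠ 1 := fun {x} h e => h (by rw [e, map_one])
  have hcm : ∀ {x y : GL (Fin 3) F}, f x * f y = f y * f x → x * y = y * x := fun {x y} h =>
    inj (by rw [map_mul, map_mul, h])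
  refine ⟨hP.two, ?_, ?_, ?_, ?_, ?_, ?_, ?_, ?_⟩
  · rintro _ ⟨x, hx, rfl⟩
    rw [mem_specialLinear_iff]
    simp only [hf, MulEquiv.coe_toMonoidHom, MulAut.conj_apply, Units.val_mul, det_mul]
    rw [(mem_specialLinear_iff x).mp (hP.le_sl hx), mul_one, ← det_mul, ← Units.val_mul,
      mul_inv_cancel, Units.val_one, det_one]
  · intro v φ h hmem
    obtain ⟨x, hx, hxv⟩ := hmem
    have hx' : x = tv (ap C⁻¹ v) (φ.comp (apEquiv C).toLinearMap) (by simp [ap_ap_inv, h]) := by
      refine gl_ext fun y => ap_injective C ?_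
      have h1 := congrArg (fun g => ap g (ap C y)) hxv
      simp only [hf, MulEquiv.coe_toMonoidHom, MulAut.conj_apply, ap_mul, ap_inv_ap, ap_tv] at h1
      rw [h1, ap_tv, ap_add, ap_smul, ap_ap_inv]
      rfl
    rcases hP.tvFree _ _ _ (hx' ▸ hx) with h0 | h0
    · exact Or.inl (ap_injective C⁻¹ (by rw [h0, ap_zero]))
    · refine Or.inr (LinearMap.ext fun y => ?_)
      have := LinearMap.congr_fun h0 (ap C⁻¹ y)
      simpa [ap_ap_inv] using this
  · rintro _ ⟨s, hs, rfl⟩ _ ⟨t, ht, rfl⟩ a b c d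
    obtain ⟨h, hh, e⟩ := hP.one s hs t ht (hsq a) (hne b) (hsq c) (hne d)
    exact ⟨f h, ⟨h, hh, rfl⟩, by rw [← map_inv, ← map_mul, ← map_mul, e]⟩
  · obtain ⟨t, ht, s, hs, a, b, c, d, e, g⟩ := hP.pair
    exact ⟨f t, ⟨t, ht, rfl⟩, f s, ⟨s, hs, rfl⟩, by rw [← map_mul, a, map_one],
      fun h => b (inj (by rw [h, map_one])), by rw [← map_mul, c, map_one],
      fun h => d (inj (by rw [h, map_one])), by rw [← map_mul, e, map_mul],
      fun h => g (inj h)⟩
  · rintro _ ⟨t, ht, rfl⟩ _ ⟨s, hs, rfl⟩ a b c d e g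
    obtain ⟨x, hx, x1, x2⟩ := hP.swap t ht s hs (hsq a) (hne b) (hsq c) (hne d) (hcm e)
      (fun h => g (by rw [h]))
    exact ⟨f x, ⟨x, hx, rfl⟩, by rw [← map_mul, x1, map_mul],
      by rw [← map_inv, ← map_mul, ← map_mul, x2, map_mul]⟩
  · rintro _ ⟨t, ht, rfl⟩ a b
    obtain ⟨x, hx, y, hy, u, hu, w, hw, x1, y1, u1, w1, hne'⟩ := hP.deep t ht (hsq a) (hne b)
    refine ⟨f x, ⟨x, hx, rfl⟩, f y, ⟨y, hy, rfl⟩, f u, ⟨u, hu, rfl⟩, f w, ⟨w, hw, rfl⟩,
      by rw [← map_mul, x1, map_mul], by rw [← map_mul, y1, map_mul],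
      by rw [← map_mul, u1, map_mul], by rw [← map_mul, w1, map_mul], fun h => hne' (inj ?_)⟩
    simpa only [map_mul, map_inv] using h
  · rintro _ ⟨t, ht, rfl⟩ a b
    obtain ⟨x, hx, y, hy, x1, y1, ⟨k, hk⟩, hne'⟩ := hP.sq t ht (hsq a) (hne b)
    exact ⟨f x, ⟨x, hx, rfl⟩, f y, ⟨y, hy, rfl⟩, by rw [← map_mul, x1, map_mul],
      by rw [← map_mul, y1, map_mul], ⟨k, by rw [← map_pow, hk, map_one]⟩,
      fun h => hne' (inj (by simpa only [map_mul] using h))⟩
  · rintro _ ⟨t, ht, rfl⟩ a b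
    obtain ⟨r, hr, r1, r3, rne, rfix⟩ := hP.three t ht (hsq a) (hne b)
    refine ⟨f r, ⟨r, hr, rfl⟩, by rw [← map_mul, r1, map_mul], by rw [← map_pow, r3, map_one],
      fun h => rne (inj (by rw [h, map_one])), fun v hv => ?_⟩
    simp only [hf, MulEquiv.coe_toMonoidHom, MulAut.conj_apply, ap_mul] at hv ⊢
    have h1 : ap t (ap C⁻¹ v) = ap C⁻¹ v := ap_injective C (by rw [hv, ap_ap_inv])
    rw [rfix _ h1, ap_ap_inv]

/-- An involution negates the centre of another one commuting with it. -/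
lemma neg_centre (h2 : (2 : F) ≠ 0) (hT : TvFree P) {t s : GL (Fin 3) F} (htP : t ∈ P) (hsP : s ∈ P)
    {c d : Fin 3 → F} {φ ψ : (Fin 3 → F) →ₗ[F] F} (ht : IsHom t c φ) (hs : IsHom s d ψ)
    (hst : s * t = t * s) (hne : s ≠ t) : ap t d = -d := by
  have hsd : ap s (ap t d) = ap t d := by rw [← ap_mul, hst, ap_mul, hs.ap_c]
  have h1 := hs.eq_smul_of_fix h2 hsd
  set k := ψ (ap t d) with hk
  have hkk : k * k = 1 := by
    have h := congrArg (ap t) h1
    rw [← ap_mul, ht.sq, ap_one, ap_smul, h1, smul_smul] at h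
    have h' : (1 - k * k) • d = 0 := by rw [sub_smul, one_smul, ← h, sub_self]
    exact (sub_eq_zero.mp ((smul_eq_zero.mp h').resolve_right hs.c_ne)).symm
  rcases mul_self_eq_one_iff.mp hkk with e | e
  · exfalso
    rw [e, one_smul] at h1
    have h3 := ht.eq_smul_of_fix h2 h1
    have hk0 : φ d ≠ 0 := fun h => hs.c_ne (by rw [h3, h, zero_smul])
    have hs' : IsHom s c (φ d • ψ) := by
      refine ⟨?_, fun x => ?_⟩
      · have := hs.1
        rw [h3, map_smul] at this
        simpa using this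
      · rw [hs.2]
        conv_lhs => rw [h3, smul_smul]
        simp only [LinearMap.smul_apply, smul_eq_mul]
        congr 2
        ring
    exact hne (ht.eq_of_centre hT htP hsP hs')
  · rw [h1, e, neg_one_smul]

/-- A basis diagonalising two commuting involutions. -/
theorem exists_diag_pair (h2 : (2 : F) ≠ 0) (hsl : P ≤ specialLinear (Fin 3) F) (hT : TvFree P)
    {t s : GL (Fin 3) F} (htP : t ∈ P) (hsP : s ∈ P) (ht2 : t * t = 1) (ht1 : t ≠ 1)
    (hs2 : s * s = 1) (hs1 : s ≠ 1) (hst : s * t = t * s) (hne : s ≠ t) : ∃ B : GL (Fin 3) F,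
    (t : Matrix (Fin 3) (Fin 3) F) * (B : Matrix (Fin 3) (Fin 3) F) =
        (B : Matrix (Fin 3) (Fin 3) F) * dia (-1) (-1) 1 ∧
      (s : Matrix (Fin 3) (Fin 3) F) * (B : Matrix (Fin 3) (Fin 3) F) =
        (B : Matrix (Fin 3) (Fin 3) F) * dia 1 (-1) (-1) := by
  set u := t * s with hu
  have huP : u ∈ P := mul_mem htP hsP
  have hu2 : u * u = 1 := by
    rw [hu, mul_assoc, ← mul_assoc s, hst, mul_assoc t, hs2, mul_one, ht2]
  have hinv : t⁻¹ = t := inv_eq_of_mul_eq_one_right ht2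
  have hu1 : u ≠ 1 := fun h => hne ((eq_inv_of_mul_eq_one_right h).trans hinv)
  obtain ⟨c, φ, htc⟩ := SLThree.exists_isHom h2 (hsl htP) ht2 ht1
  obtain ⟨d, ψ, hsd⟩ := SLThree.exists_isHom h2 (hsl hsP) hs2 hs1
  obtain ⟨e, χ, hue⟩ := SLThree.exists_isHom h2 (hsl huP) hu2 hu1
  have htu : u * t = t * u := by rw [hu, mul_assoc, hst]
  have hsu : u * s = s * u := by rw [hu, ← mul_assoc, hst]
  have hut : u ≠ t := fun h => hs1 (by
    have := congrArg (fun x => t⁻¹ * x) h
    simpa [hu] using this)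
  have hus : u ≠ s := fun h => ht1 (by
    have := congrArg (fun x => x * s⁻¹) h
    simpa [hu] using this)
  have td := neg_centre h2 hT htP hsP htc hsd hst hne
  have te := neg_centre h2 hT htP huP htc hue htu hut
  have sc := neg_centre h2 hT hsP htP hsd htc hst.symm (Ne.symm hne)
  have se := neg_centre h2 hT hsP huP hsd hue hsu hus
  have tc := htc.ap_c
  have sd := hsd.ap_c
  let M : Matrix (Fin 3) (Fin 3) F := Matrix.of fun i j => (![d, e, c] j) i
  have hmv : ∀ v : Fin 3 → F, M *ᵥ v = v 0 • d + v 1 • e + v 2 • c := fun v => by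
    funext i
    simp [M, Matrix.mulVec, dotProduct, Fin.sum_univ_three, mul_comm]
  have hdet : M.det ≠ 0 := by
    intro h0
    obtain ⟨v, hv0, hv⟩ := Matrix.exists_mulVec_eq_zero_iff.mpr h0
    rw [hmv] at hv
    have h1 := congrArg (ap t) hv
    simp only [ap_add, ap_smul, td, te, tc, ap_zero] at h1
    have hc : ((2 : F) * v 2) • c = 0 := by linear_combination (norm := module) hv + h1
    have hv2 : v 2 = 0 :=
      (mul_eq_zero.mp ((smul_eq_zero.mp hc).resolve_right htc.c_ne)).resolve_left h2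
    rw [hv2, zero_smul, add_zero] at hv
    have h3 := congrArg (ap s) hv
    simp only [ap_add, ap_smul, sd, se, ap_zero] at h3
    have hd : ((2 : F) * v 0) • d = 0 := by linear_combination (norm := module) hv + h3
    have hv00 : v 0 = 0 :=
      (mul_eq_zero.mp ((smul_eq_zero.mp hd).resolve_right hsd.c_ne)).resolve_left h2
    rw [hv00, zero_smul, zero_add] at hv
    have hv1 : v 1 = 0 := (smul_eq_zero.mp hv).resolve_right hue.c_ne
    exact hv0 (funext fun i => by fin_cases i <;> assumption)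
  refine ⟨GeneralLinearGroup.mkOfDetNeZero M hdet, ?_, ?_⟩ <;>
  · ext i j
    show ((_ : Matrix (Fin 3) (Fin 3) F) *ᵥ fun k => M k j) i =
      HMul.hMul (γ := Matrix (Fin 3) (Fin 3) F) M (_ : Matrix (Fin 3) (Fin 3) F) i j
    rw [Matrix.mul_apply]
    fin_cases j
    · show (ap _ d) i = _
      simp [td, sd, M, dia, blk, Fin.sum_univ_three]
    · show (ap _ e) i = _
      simp [te, se, M, dia, blk, Fin.sum_univ_three]
    · show (ap _ c) i = _
      simp [tc, sc, M, dia, blk, Fin.sum_univ_three]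

/-- A basis with two diagonal involutions. -/
theorem exists_diagonal (hP : OddSetup P) : ∃ B : GL (Fin 3) F,
    In (P.map (MulAut.conj B⁻¹).toMonoidHom) (dia (-1) (-1) 1) ∧
      In (P.map (MulAut.conj B⁻¹).toMonoidHom) (dia 1 (-1) (-1)) := by
  obtain ⟨t, htP, s, hsP, ht2, ht1, hs2, hs1, hst, hne⟩ := hP.pair
  obtain ⟨B, hBt, hBs⟩ :=
    exists_diag_pair hP.two hP.le_sl hP.tvFree htP hsP ht2 ht1 hs2 hs1 hst hne
  exact ⟨B, In.change ⟨t, htP, rfl⟩ B hBt, In.change ⟨s, hsP, rfl⟩ B hBs⟩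

lemma dia_mul (a b c a' b' c' : F) : dia a b c * dia a' b' c' = dia (a * a') (b * b') (c * c') := by
  simp [dia, blk_mul]

lemma dia_one : dia (1 : F) 1 1 = 1 := blk_one

lemma dia_inj {a b c a' b' c' : F} (h : dia a b c = dia a' b' c') : a = a' ∧ b = b' ∧ c = c' :=
  ⟨(blk_inj h).1, (blk_inj h).2.2.2.1, (blk_inj h).2.2.2.2⟩

lemma cyc_mul_dia_mul (k a b c : F) (hk : k ≠ 0) :
    cyc k k k * dia a b c * cyct k⁻¹ k⁻¹ k⁻¹ = dia c a b := by
  ext i j
  fin_cases i <;> fin_cases j <;>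
    simp [cyc, cyct, dia, blk, Matrix.mul_apply, Fin.sum_univ_three] <;> field_simp

lemma cyc_mul_cyct (k : F) (hk : k ≠ 0) : cyc k k k * cyct k⁻¹ k⁻¹ k⁻¹ = 1 := by
  ext i j
  fin_cases i <;> fin_cases j <;> simp [cyc, cyct, Matrix.mul_apply, Fin.sum_univ_three, hk]

/-- A group in standard position before normalisation. -/
structure Std (P : Subgroup (GL (Fin 3) F)) (k m₁ m₂ m₃ : F) : Prop where
  setup : OddSetup P
  t : In P (dia (-1) (-1) 1)
  s : In P (dia 1 (-1) (-1))
  c : In P (cyc k k k)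
  g : In P (blk 0 m₁ m₂ 0 m₃)

namespace Std

variable {k m₁ m₂ m₃ : F} (hS : Std P k m₁ m₂ m₃)
include hS

lemma k_ne : k ≠ 0 := by
  have h := hS.c.det hS.setup
  rintro rfl
  simp [cyc, Matrix.det_fin_three] at h

lemma m_eq : m₁ * m₂ * m₃ = -1 := by
  have h := hS.g.det hS.setup
  rw [det_blk] at h
  linear_combination -h

lemma m_ne : m₁ ≠ 0 ∧ m₂ ≠ 0 ∧ m₃ ≠ 0 := by
  have h := hS.m_eq
  refine ⟨?_, ?_, ?_⟩ <;> rintro rfl <;> simp at h

lemma shift {a b c : F} (h : In P (dia a b c)) : In P (dia c a b) :=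
  ((hS.c.mul h).mul (hS.c.inv (cyc_mul_cyct k hS.k_ne))).of_eq (cyc_mul_dia_mul k a b c hS.k_ne)

lemma plane : (3 : F) ≠ 0 ∧ ∀ a b c d e, In P (blk a b c d e) → (b = 0 ∧ c = 0 ∧ a = d) ∨
    (a + d) ^ 2 = 0 ∨ (a + d) ^ 2 = a * d - b * c ∨ (a + d) ^ 2 = 2 * (a * d - b * c) :=
  plane_cases hS.setup hS.t hS.s hS.g

lemma four_pow {a b c : F} (h : In P (dia a b c)) : a ^ 4 = b ^ 4 := by
  have hd := h.det hS.setup
  rw [dia, det_blk, mul_zero, sub_zero] at hd
  have hab : a * b ≠ 0 := left_ne_zero_of_mul_eq_one hd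
  have h2 := hS.setup.two
  have A : a = b ∨ (a + b) ^ 2 = 0 ∨ (a + b) ^ 2 = a * b ∨ (a + b) ^ 2 = 2 * (a * b) := by
    rcases hS.plane.2 a 0 0 b c h with ⟨-, -, e⟩ | e | e | e
    · exact Or.inl e
    · exact Or.inr (Or.inl e)
    · exact Or.inr (Or.inr (Or.inl (by linear_combination e)))
    · exact Or.inr (Or.inr (Or.inr (by linear_combination e)))
  have A' : a = -b ∨ (a - b) ^ 2 = 0 ∨ (a - b) ^ 2 = -(a * b) ∨ (a - b) ^ 2 = -2 * (a * b) := by
    have h' := (h.mul hS.s).of_eq (dia_mul a b c 1 (-1) (-1))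
    rcases hS.plane.2 _ 0 0 _ _ h' with ⟨-, -, e⟩ | e | e | e
    · exact Or.inl (by linear_combination e)
    · exact Or.inr (Or.inl (by linear_combination e))
    · exact Or.inr (Or.inr (Or.inl (by linear_combination e)))
    · exact Or.inr (Or.inr (Or.inr (by linear_combination e)))
  rcases A with e | e | e | e
  · rw [e]
  · rw [eq_neg_of_add_eq_zero_left (pow_eq_zero_iff two_ne_zero |>.mp e)]; ring
  · rcases A' with e' | e' | e' | e'
    · rw [e']; ring
    · rw [sub_eq_zero.mp (pow_eq_zero_iff two_ne_zero |>.mp e')]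
    · exact (mul_ne_zero h2 hab (by linear_combination e - e')).elim
    · exact (hab (by linear_combination e - e')).elim
  · rcases A' with e' | e' | e' | e'
    · rw [e']; ring
    · rw [sub_eq_zero.mp (pow_eq_zero_iff two_ne_zero |>.mp e')]
    · exact (hab (by linear_combination e - e')).elim
    · linear_combination (a ^ 2 - b ^ 2) * e

lemma pow_twelve {a b c : F} (h : In P (dia a b c)) :
    a ^ 4 = b ^ 4 ∧ b ^ 4 = c ^ 4 ∧ (a ^ 4) ^ 3 = 1 := by
  have h1 := hS.four_pow h
  have h2 := hS.four_pow (hS.shift h)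
  have hd := h.det hS.setup
  rw [dia, det_blk, mul_zero, sub_zero] at hd
  refine ⟨h1, h1.symm.trans h2.symm, ?_⟩
  calc (a ^ 4) ^ 3 = a ^ 4 * a ^ 4 * a ^ 4 := by ring
    _ = a ^ 4 * b ^ 4 * c ^ 4 := by nth_rewrite 2 [h1]; rw [h2]
    _ = (a * b * c) ^ 4 := by ring
    _ = 1 := by rw [hd, one_pow]

/-- The product of the three-cycle with its conjugate by the swap. -/
lemma prod_diag : In P (dia (k * k * (m₃ / m₁)) (k * k * (m₁ / m₂)) (k * k * (m₂ / m₃))) := by
  obtain ⟨n1, n2, n3⟩ := hS.m_ne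
  have hi : In P (blk 0 m₂⁻¹ m₁⁻¹ 0 m₃⁻¹) := hS.g.inv (by rw [blk_mul, ← blk_one]; simp [n1, n2, n3])
  refine (hS.c.mul (hS.g.mul (hS.c.mul hi))).of_eq ?_
  ext i j
  fin_cases i <;> fin_cases j <;>
    simp [cyc, blk, dia, Matrix.mul_apply, Fin.sum_univ_three] <;> field_simp

lemma sign {x y z : F} (hx : x ^ 2 = 1) (hy : y ^ 2 = 1) (h : x * y * z = 1) : In P (dia x y z) := by
  rcases sq_eq_one_iff.mp hx with rfl | rfl <;> rcases sq_eq_one_iff.mp hy with rfl | rfl
  · obtain rfl : z = 1 := by linear_combination h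
    exact (hS.t.mul hS.t).of_eq (by rw [dia_mul]; simp)
  · obtain rfl : z = -1 := by linear_combination -h
    exact hS.s
  · obtain rfl : z = -1 := by linear_combination -h
    exact (hS.t.mul hS.s).of_eq (by rw [dia_mul]; simp)
  · obtain rfl : z = 1 := by linear_combination h
    exact hS.t

lemma of_sq {p q r x y z : F} (h : In P (dia p q r)) (hx : x ^ 2 = p ^ 2) (hy : y ^ 2 = q ^ 2)
    (hz : x * y * z = 1) : In P (dia x y z) := by
  have hd := h.det hS.setup
  rw [dia, det_blk, mul_zero, sub_zero] at hd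
  have hp : p ≠ 0 := left_ne_zero_of_mul (left_ne_zero_of_mul_eq_one hd)
  have hq : q ≠ 0 := right_ne_zero_of_mul (left_ne_zero_of_mul_eq_one hd)
  have hr : r ≠ 0 := right_ne_zero_of_mul_eq_one hd
  refine (h.mul (hS.sign (x := x / p) (y := y / q) (z := z / r) ?_ ?_ ?_)).of_eq ?_
  · rw [div_pow, hx, div_self (pow_ne_zero 2 hp)]
  · rw [div_pow, hy, div_self (pow_ne_zero 2 hq)]
  · rw [div_mul_div_comm, div_mul_div_comm, hz, hd, div_one]
  · rw [dia_mul, mul_div_cancel₀ _ hp, mul_div_cancel₀ _ hq, mul_div_cancel₀ _ hr]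

lemma cube {a b c d e : F} (h : In P (blk a b c d e)) (hT : (a + d) ^ 2 = a * d - b * c) :
    In P (dia (-(a + d) * (a * d - b * c)) (-(a + d) * (a * d - b * c)) (e ^ 3)) := by
  refine ((h.mul h).mul h).of_eq ?_
  rw [blk_mul, blk_mul, dia]
  congr 1
  · linear_combination a * hT
  · linear_combination b * hT
  · linear_combination c * hT
  · linear_combination d * hT
  · ring

end Std

/-- A basis with both involutions, a scalar multiple of the three-cycle and the swap. -/
theorem exists_std (hP : OddSetup P) : ∃ (B : GL (Fin 3) F) (w : F), w ^ 3 = 1 ∧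
    Std (P.map (MulAut.conj B⁻¹).toMonoidHom) w 1 1 (-1) := by
  obtain ⟨B₀, ht, hs⟩ := exists_diagonal hP
  set P₀ := P.map (MulAut.conj B₀⁻¹).toMonoidHom with hP₀
  have h0 : OddSetup P₀ := hP.map _
  have h2 := hP.two
  have hz : ∀ x : F, x = -x → x = 0 := fun x hx =>
    (mul_eq_zero.mp (show (2 : F) * x = 0 by linear_combination hx)).resolve_left h2
  obtain ⟨t, htP, htv⟩ := id ht
  obtain ⟨s, hsP, hsv⟩ := id hs
  obtain ⟨ht2, ht1⟩ := blk_t_ne h2 htv
  have hs2 : s * s = 1 := Units.ext (by rw [Units.val_mul, hsv, dia_mul, Units.val_one, ← dia_one]; simp)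
  have hs1 : s ≠ 1 := by
    rintro rfl
    rw [Units.val_one, ← dia_one] at hsv
    exact h2 (by linear_combination (dia_inj hsv).2.1)
  have hst : s * t = t * s :=
    Units.ext (by rw [Units.val_mul, Units.val_mul, htv, hsv, dia_mul, dia_mul]; simp [mul_comm])
  have hne : s ≠ t := fun e => h2 (by
    rw [e, htv] at hsv
    linear_combination -(dia_inj hsv).1)
  obtain ⟨g₁, hg₁, hg₁t, hg₁s⟩ := h0.swap t htP s hsP ht2 ht1 hs2 hs1 hst hne
  obtain ⟨g₂, hg₂, hg₂s, hg₂t⟩ := h0.swap s hsP t htP hs2 hs1 ht2 ht1 hst.symm (Ne.symm hne)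
  set M := (g₁ : Matrix (Fin 3) (Fin 3) F) with hM
  have e1 := congrArg (fun x : GL (Fin 3) F => (x : Matrix (Fin 3) (Fin 3) F)) hg₁t
  have e2 := congrArg (fun x : GL (Fin 3) F => (x : Matrix (Fin 3) (Fin 3) F))
    (mul_inv_eq_iff_eq_mul.mp hg₁s)
  simp only [Units.val_mul, htv, hsv, ← hM, dia_mul] at e1 e2
  have hMb := eq_blk_of_comm h2 e1
  have m00 : M 0 0 = 0 := by
    have := congrFun (congrFun e2 0) 0
    simp [dia, blk, Matrix.mul_apply, Fin.sum_univ_three] at this
    exact hz _ this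
  have m11 : M 1 1 = 0 := by
    have := congrFun (congrFun e2 1) 1
    simp [dia, blk, Matrix.mul_apply, Fin.sum_univ_three] at this
    exact hz _ this.symm
  rw [m00, m11] at hMb
  set N := (g₂ : Matrix (Fin 3) (Fin 3) F) with hN
  have f1 := congrArg (fun x : GL (Fin 3) F => (x : Matrix (Fin 3) (Fin 3) F)) hg₂s
  have f2 := congrArg (fun x : GL (Fin 3) F => (x : Matrix (Fin 3) (Fin 3) F))
    (mul_inv_eq_iff_eq_mul.mp hg₂t)
  simp only [Units.val_mul, htv, hsv, ← hN, dia_mul] at f1 f2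
  have hNb : N = !![N 0 0, 0, 0; 0, 0, N 1 2; 0, N 2 1, 0] := by
    have n01 := congrFun (congrFun f1 0) 1
    have n02 := congrFun (congrFun f1 0) 2
    have n10 := congrFun (congrFun f1 1) 0
    have n20 := congrFun (congrFun f1 2) 0
    have n11 := congrFun (congrFun f2 1) 1
    have n22 := congrFun (congrFun f2 2) 2
    simp [dia, blk, Matrix.mul_apply, Fin.sum_univ_three] at n01 n02 n10 n20 n11 n22
    ext i j
    fin_cases i <;> fin_cases j <;> simp
    · exact hz _ n01.symm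
    · exact hz _ n02.symm
    · exact hz _ n10
    · exact hz _ n11.symm
    · exact hz _ n20
    · exact hz _ n22
  set m₁ := M 0 1
  set m₂ := M 1 0
  set m₃ := M 2 2
  have hg : In P₀ (blk 0 m₁ m₂ 0 m₃) := ⟨g₁, hg₁, hMb⟩
  set l₁ := m₂ * N 0 0
  set l₂ := m₃ * N 2 1
  set l₃ := m₁ * N 1 2
  have hc : In P₀ (cyc l₁ l₂ l₃) := (hg.mul ⟨g₂, hg₂, hNb⟩).of_eq (by
    ext i j
    fin_cases i <;> fin_cases j <;> simp [cyc, blk, Matrix.mul_apply, Fin.sum_univ_three, l₁, l₂, l₃])
  have hl : l₁ * l₂ * l₃ = 1 := by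
    have := hc.det h0
    simp [cyc, Matrix.det_fin_three] at this
    linear_combination this
  have hl1 : l₁ ≠ 0 := left_ne_zero_of_mul (left_ne_zero_of_mul_eq_one hl)
  have hl2 : l₁ * l₂ ≠ 0 := left_ne_zero_of_mul_eq_one hl
  -- the three-cycle becomes exact
  let D : GL (Fin 3) F := GeneralLinearGroup.mkOfDetNeZero (dia 1 l₁ (l₁ * l₂))
    (by rw [dia, det_blk]; simp [hl1, hl2])
  set P₁ := P₀.map (MulAut.conj D⁻¹).toMonoidHom with hP₁
  set n₁ := m₁ * l₁
  set n₂ := m₂ / l₁
  have S₁ : Std P₁ 1 n₁ n₂ m₃ := by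
    refine ⟨h0.map _, In.change ht D ?_, In.change hs D ?_, In.change hc D ?_, In.change hg D ?_⟩
    · show dia _ _ _ * dia _ _ _ = dia _ _ _ * dia _ _ _
      rw [dia_mul, dia_mul]; simp [mul_comm]
    · show dia _ _ _ * dia _ _ _ = dia _ _ _ * dia _ _ _
      rw [dia_mul, dia_mul]; simp [mul_comm]
    · show cyc _ _ _ * dia _ _ _ = dia _ _ _ * cyc _ _ _
      ext i j
      fin_cases i <;> fin_cases j <;>
        simp [cyc, dia, blk, Matrix.mul_apply, Fin.sum_univ_three]
      · linear_combination hl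
      · ring
    · show blk _ _ _ _ _ * dia _ _ _ = dia _ _ _ * blk _ _ _ _ _
      simp only [dia, blk_mul]
      congr 1 <;> first | ring1 | (simp only [n₁, n₂]; field_simp; ring1) | (simp [n₁, n₂]; field_simp)
  -- the cube root of one
  obtain ⟨ha, hb, hw⟩ := S₁.pow_twelve S₁.prod_diag
  simp only [one_mul] at ha hb hw
  set w := (m₃ / n₁) ^ 4 with hwdef
  obtain ⟨q1, q2, q3⟩ := S₁.m_ne
  have hw0 : w ≠ 0 := fun e => by rw [e] at hw; simp at hw
  let E : GL (Fin 3) F := GeneralLinearGroup.mkOfDetNeZero (dia 1 w (w ^ 2))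
    (by rw [dia, det_blk]; simp [hw0])
  set P₂ := P₁.map (MulAut.conj E⁻¹).toMonoidHom with hP₂
  have S₂ : Std P₂ (w ^ 2) (n₁ * w) (n₂ * w ^ 2) m₃ := by
    refine ⟨S₁.setup.map _, In.change S₁.t E ?_, In.change S₁.s E ?_, In.change S₁.c E ?_,
      In.change S₁.g E ?_⟩
    · show dia _ _ _ * dia _ _ _ = dia _ _ _ * dia _ _ _
      rw [dia_mul, dia_mul]; simp [mul_comm]
    · show dia _ _ _ * dia _ _ _ = dia _ _ _ * dia _ _ _
      rw [dia_mul, dia_mul]; simp [mul_comm]
    · show cyc _ _ _ * dia _ _ _ = dia _ _ _ * cyc _ _ _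
      ext i j
      fin_cases i <;> fin_cases j <;>
        simp [cyc, dia, blk, Matrix.mul_apply, Fin.sum_univ_three]
      · linear_combination -hw
      · linear_combination -w * hw
    · show blk _ _ _ _ _ * dia _ _ _ = dia _ _ _ * blk _ _ _ _ _
      simp only [dia, blk_mul]
      congr 1
      · ring
      · ring
      · linear_combination -n₂ * hw
      · ring
      · ring
  set k := m₃ ^ 4 with hk
  have k1 : (n₁ * w) ^ 4 = k := by
    have h' : m₃ ^ 4 = w * n₁ ^ 4 := by rw [hwdef, div_pow]; field_simp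
    rw [hk, h']
    linear_combination n₁ ^ 4 * w * hw
  have k2 : (n₂ * w ^ 2) ^ 4 = k := by
    have h' : n₁ ^ 4 = w * n₂ ^ 4 := by rw [ha, div_pow]; field_simp
    have h'' : m₃ ^ 4 = w * n₁ ^ 4 := by rw [hwdef, div_pow]; field_simp
    rw [hk, h'', h']
    linear_combination n₂ ^ 4 * (w ^ 5 + w ^ 2) * hw
  have k3 : k ^ 3 = 1 := by
    calc k ^ 3 = (n₁ * w) ^ 4 * (n₂ * w ^ 2) ^ 4 * m₃ ^ 4 := by rw [k1, k2, hk]; ring
      _ = ((n₁ * w) * (n₂ * w ^ 2) * m₃) ^ 4 := by ring
      _ = 1 := by rw [S₂.m_eq]; norm_num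
  -- the exact swap
  set v₁ := n₁ * w * k ^ 2 with hv1
  set v₂ := n₂ * w ^ 2 * k ^ 2 with hv2
  set v₃ := m₃ * k ^ 2 with hv3
  have p1 : v₁ ^ 4 = 1 := by
    rw [hv1, mul_pow, k1]; linear_combination (k ^ 6 + k ^ 3 + 1) * k3
  have p2 : v₂ ^ 4 = 1 := by
    rw [hv2, mul_pow, k2]; linear_combination (k ^ 6 + k ^ 3 + 1) * k3
  have p3 : v₃ ^ 4 = 1 := by
    rw [hv3, mul_pow, ← hk]; linear_combination (k ^ 6 + k ^ 3 + 1) * k3
  have hv : In P₂ (blk 0 v₁ v₂ 0 v₃) := by
    have h2' := S₂.g.mul S₂.g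
    have h4' := h2'.mul h2'
    refine (S₂.g.mul (h4'.mul h4')).of_eq ?_
    simp only [blk_mul, zero_mul, mul_zero, add_zero, zero_add]
    have e12 : (n₁ * w) ^ 4 * (n₂ * w ^ 2) ^ 4 = k ^ 2 := by rw [k1, k2, pow_two]
    congr 1
    · rw [hv1]; linear_combination (n₁ * w) * e12
    · rw [hv2]; linear_combination (n₂ * w ^ 2) * e12
    · rw [hv3]; linear_combination m₃ * (m₃ ^ 4 + k) * hk.symm
  have S₃ : Std P₂ (w ^ 2) v₁ v₂ v₃ := ⟨S₂.setup, S₂.t, S₂.s, S₂.c, hv⟩
  have hvv := S₃.m_eq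
  obtain ⟨r1, r2, r3⟩ := S₃.m_ne
  have hd : In P₂ (dia (v₃ / v₁) (v₁ / v₂) (v₂ / v₃)) := by
    have h := S₃.prod_diag
    have h4' := (h.mul h).mul (h.mul h)
    refine (h.mul (h4'.mul h4')).of_eq ?_
    simp only [dia_mul]
    have key : ∀ x : F, x ^ 4 = 1 → w ^ 2 * w ^ 2 * x * (w ^ 2 * w ^ 2 * x * (w ^ 2 * w ^ 2 * x) *
        (w ^ 2 * w ^ 2 * x * (w ^ 2 * w ^ 2 * x)) * (w ^ 2 * w ^ 2 * x * (w ^ 2 * w ^ 2 * x) *
        (w ^ 2 * w ^ 2 * x * (w ^ 2 * w ^ 2 * x)))) = x := fun x hx => by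
      have h36 : w ^ 36 = 1 := by rw [show 36 = 3 * 12 by norm_num, pow_mul, hw, one_pow]
      linear_combination w ^ 36 * x * (x ^ 4 + 1) * hx + x * h36
    congr 1
    · exact key _ (by rw [div_pow, p3, p1, div_one])
    · exact key _ (by rw [div_pow, p1, p2, div_one])
    · exact key _ (by rw [div_pow, p2, p3, div_one])
  have hT : In P₂ (dia v₂⁻¹ v₁⁻¹ (-v₃⁻¹)) := by
    have hprod : v₂⁻¹ * v₁⁻¹ * -v₃⁻¹ = 1 := by field_simp; linear_combination -hvv
    have hinv : ∀ v : F, v ^ 4 = 1 → (v⁻¹) ^ 2 = v ^ 2 := fun v h => by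
      have : v ≠ 0 := fun e => by simp [e] at h
      field_simp; linear_combination -h
    have hsg : ∀ v : F, v ^ 4 = 1 → v ^ 2 = 1 ∨ v ^ 2 = -1 := fun v h =>
      mul_self_eq_one_iff.mp (by linear_combination h)
    have hq : v₁ ^ 2 * v₂ ^ 2 * v₃ ^ 2 = 1 := by linear_combination (v₁ * v₂ * v₃ - 1) * hvv
    have hdiv : ∀ a b : F, b ^ 4 = 1 → (a / b) ^ 2 = a ^ 2 * b ^ 2 := fun a b h => by
      have : b ≠ 0 := fun e => by simp [e] at h
      field_simp; linear_combination -(a ^ 2) * h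
    rcases hsg v₁ p1 with a | a <;> rcases hsg v₂ p2 with b | b
    · exact S₃.sign (by rw [hinv _ p2, b]) (by rw [hinv _ p1, a]) hprod
    all_goals rw [a, b] at hq
    all_goals have c : v₃ ^ 2 = -1 ∨ v₃ ^ 2 = 1 := (hsg v₃ p3).symm
    · refine S₃.of_sq (S₃.shift (S₃.shift hd)) ?_ ?_ hprod
      · rw [hinv _ p2, hdiv _ _ p2, a, b]; ring
      · rw [hinv _ p1, hdiv _ _ p3, a, b]; linear_combination -hq
    · refine S₃.of_sq hd ?_ ?_ hprod
      · rw [hinv _ p2, hdiv _ _ p1, a, b]; linear_combination -hq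
      · rw [hinv _ p1, hdiv _ _ p2, a, b]; ring
    · refine S₃.of_sq (S₃.shift hd) ?_ ?_ hprod
      · rw [hinv _ p2, hdiv _ _ p3, b]; linear_combination hq
      · rw [hinv _ p1, hdiv _ _ p1, a]; linear_combination hq
  refine ⟨B₀ * D * E, w ^ 2, by rw [← pow_mul, mul_comm, pow_mul, hw, one_pow], ?_⟩
  rw [← map_conj_map, ← map_conj_map, ← hP₀, ← hP₁, ← hP₂]
  refine ⟨S₂.setup, S₂.t, S₂.s, S₂.c, (hv.mul hT).of_eq ?_⟩
  rw [dia, blk_mul]
  simp [r1, r2, r3]

/-- The element of order three on the plane of the first involution. -/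
theorem exists_r {w : F} (hS : Std P w 1 1 (-1)) : ∃ α β γ δ : F, In P (blk α β γ δ 1) ∧
    α + δ = -1 ∧ α * δ - β * γ = 1 ∧ ¬ (β = 0 ∧ γ = 0) := by
  obtain ⟨t, htP, htv⟩ := hS.t
  obtain ⟨ht2, ht1⟩ := blk_t_ne hS.setup.two htv
  obtain ⟨r, hrP, hrt, hr3, hr1, hfix⟩ := hS.setup.three t htP ht2 ht1
  have hb := congrArg (fun x : GL (Fin 3) F => (x : Matrix (Fin 3) (Fin 3) F)) hrt
  simp only [Units.val_mul, htv] at hb
  have hrb := eq_blk_of_comm hS.setup.two hb
  set R := (r : Matrix (Fin 3) (Fin 3) F) with hR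
  set α := R 0 0
  set β := R 0 1
  set γ := R 1 0
  set δ := R 1 1
  set ε := R 2 2
  have hε : ε = 1 := by
    have htv' : (t : Matrix (Fin 3) (Fin 3) F) = blk (-1) 0 0 (-1) 1 := htv
    have h : ap t ![0, 0, 1] = ![0, 0, 1] := by
      rw [ap_blk htv']; funext i; fin_cases i <;> simp
    have h' := congrFun (hfix _ h) 2
    rw [ap_blk hrb] at h'
    simpa using h'
  rw [hε] at hrb
  have hin : In P (blk α β γ δ 1) := ⟨r, hrP, hrb⟩
  have hdet : α * δ - β * γ = 1 := by
    have := hin.det hS.setup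
    rw [det_blk, mul_one] at this
    exact this
  have hcube := congrArg (fun x : GL (Fin 3) F => (x : Matrix (Fin 3) (Fin 3) F)) hr3
  simp only [Units.val_pow_eq_pow_val, Units.val_one, ← hR] at hcube
  rw [pow_succ, pow_two, hrb, blk_mul, blk_mul, ← blk_one] at hcube
  obtain ⟨c1, c2, c3, c4, -⟩ := blk_inj hcube
  have hns : ¬ (β = 0 ∧ γ = 0) := by
    rintro ⟨hβ, hγ⟩
    apply hr1
    rw [hβ, hγ] at hin hrb hdet c1 c4
    have h4 := hS.pow_twelve hin
    have ha4 : α ^ 4 = 1 := by rw [h4.1, h4.2.1, one_pow]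
    have ha : α = 1 := by linear_combination ha4 - α * c1
    rw [ha] at hrb hdet
    have hd : δ = 1 := by linear_combination hdet
    rw [hd] at hrb
    exact Units.ext (by rw [← hR, hrb, Units.val_one, blk_one])
  refine ⟨α, β, γ, δ, hin, ?_, hdet, hns⟩
  -- the cube is `(T² - 1) r - T`
  set T := α + δ with hT
  have e1 : (T ^ 2 - 1) * β = 0 := by rw [hT]; linear_combination c2 + β * hdet
  have e2 : (T ^ 2 - 1) * γ = 0 := by rw [hT]; linear_combination c3 + γ * hdet
  have e3 : (T ^ 2 - 1) * α - T = 1 := by rw [hT]; linear_combination c1 + (2 * α + δ) * hdet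
  have hT1 : T ^ 2 - 1 = 0 := by
    by_contra h
    exact hns ⟨(mul_eq_zero.mp e1).resolve_left h, (mul_eq_zero.mp e2).resolve_left h⟩
  linear_combination α * hT1 - e3

set_option maxHeartbeats 1000000 in
/-- The frame. -/
theorem frame_of_oddSetup (hP : OddSetup P) : SDFrame P ∨ WrFrame P := by
  obtain ⟨B, w, hw, hS⟩ := exists_std hP
  set Q := P.map (MulAut.conj B⁻¹).toMonoidHom with hQ
  obtain ⟨h3, hK⟩ := hS.plane
  have h2 := hP.two
  obtain ⟨α, β, γ, δ, hr, hT, hdet, hns⟩ := exists_r hS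
  -- the three products
  have hJ : In Q (blk 0 (-1) 1 0 1) := (hS.g.mul hS.s).of_eq (by rw [dia, blk_mul]; simp)
  have hrs : In Q (blk α (-β) γ (-δ) (-1)) := (hr.mul hS.s).of_eq (by rw [dia, blk_mul]; simp)
  have hrW : In Q (blk β α δ γ (-1)) := (hr.mul hS.g).of_eq (by rw [blk_mul]; simp)
  have hrJ : In Q (blk β (-α) δ (-γ) 1) := (hr.mul hJ).of_eq (by rw [blk_mul]; simp)
  have hαδ : ¬ (α = 0 ∧ δ = 0) := fun ⟨a, d⟩ => one_ne_zero (α := F)
    (by linear_combination hT - a - d)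
  obtain ⟨e, he⟩ : ∃ e, e = α - δ := ⟨_, rfl⟩
  obtain ⟨f, hf⟩ : ∃ f, f = β + γ := ⟨_, rfl⟩
  obtain ⟨g, hg⟩ : ∃ g, g = β - γ := ⟨_, rfl⟩
  have hE : e ^ 2 = 0 ∨ e ^ 2 = -1 ∨ e ^ 2 = -2 := by
    rcases hK _ _ _ _ _ hrs with ⟨a, b, -⟩ | h | h | h
    · exact absurd ⟨neg_eq_zero.mp a, b⟩ hns
    · exact Or.inl (by rw [he]; linear_combination h)
    · exact Or.inr (Or.inl (by rw [he]; linear_combination h - hdet))
    · exact Or.inr (Or.inr (by rw [he]; linear_combination h - 2 * hdet))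
  have hF : f ^ 2 = 0 ∨ f ^ 2 = -1 ∨ f ^ 2 = -2 := by
    rcases hK _ _ _ _ _ hrW with ⟨a, b, -⟩ | h | h | h
    · exact absurd ⟨a, b⟩ hαδ
    · exact Or.inl (by rw [hf]; linear_combination h)
    · exact Or.inr (Or.inl (by rw [hf]; linear_combination h - hdet))
    · exact Or.inr (Or.inr (by rw [hf]; linear_combination h - 2 * hdet))
  have hG : g ^ 2 = 0 ∨ g ^ 2 = 1 ∨ g ^ 2 = 2 := by
    rcases hK _ _ _ _ _ hrJ with ⟨a, b, -⟩ | h | h | h
    · exact absurd ⟨neg_eq_zero.mp a, b⟩ hαδ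
    · exact Or.inl (by rw [hg]; linear_combination h)
    · exact Or.inr (Or.inl (by rw [hg]; linear_combination h + hdet))
    · exact Or.inr (Or.inr (by rw [hg]; linear_combination h + 2 * hdet))
  have hsum : -e ^ 2 - f ^ 2 + g ^ 2 = 3 := by
    rw [he, hf, hg]; linear_combination 4 * hdet - (α + δ - 1) * hT
  -- the trace with the quarter turn is one
  have hg1 : g ^ 2 = 1 := by
    by_contra hne
    have hG' : g ^ 2 = 0 ∨ g ^ 2 = 2 := by
      rcases hG with h | h | h
      exacts [Or.inl h, absurd h hne, Or.inr h]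
    have hh : e ^ 2 = -1 ∨ f ^ 2 = -1 := by
      rcases hE with a | a | a
      rotate_left
      · exact Or.inl a
      rotate_left
      all_goals rcases hF with b | b | b
      all_goals first | exact Or.inr b | skip
      all_goals exfalso; rcases hG' with c | c
      all_goals first
        | exact one_ne_zero (α := F) (by linear_combination hsum + a + b - c)
        | exact one_ne_zero (α := F) (by linear_combination -(hsum + a + b - c))
        | exact h3 (by linear_combination hsum + a + b - c)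
        | exact h3 (by linear_combination -(hsum + a + b - c))
    obtain ⟨i, hi, hd1⟩ : ∃ i, i ^ 2 = -1 ∧ (i = e ∨ e ^ 2 ≠ -1 ∧ i = f) ∧ In Q (dia (-1) i i) := by
      by_cases a : e ^ 2 = -1
      · refine ⟨e, a, Or.inl rfl, hS.shift ((hS.cube hrs ?_).of_eq ?_)⟩
        · rw [he] at a; linear_combination a + hdet
        · congr 1
          · rw [he]; linear_combination (α - δ) * hdet
          · rw [he]; linear_combination (α - δ) * hdet
          · norm_num
      · refine ⟨f, hh.resolve_left a, Or.inr ⟨a, rfl⟩, hS.shift ((hS.cube hrW ?_).of_eq ?_)⟩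
        · have hb := hh.resolve_left a
          rw [hf] at hb
          linear_combination hb + hdet
        · congr 1
          · rw [hf]; linear_combination (β + γ) * hdet
          · rw [hf]; linear_combination (β + γ) * hdet
          · norm_num
    obtain ⟨hie, hd⟩ := hd1
    have hi0 : i ≠ 0 := fun h0 => by rw [h0] at hi; simp at hi
    have hrd : In Q (blk (-α) (β * i) (-γ) (δ * i) i) :=
      (hr.mul hd).of_eq (by rw [dia, blk_mul]; simp)
    have hrJd : In Q (blk (-β) (-α * i) (-δ) (-γ * i) i) :=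
      (hrJ.mul hd).of_eq (by rw [dia, blk_mul]; simp)
    rcases hie with hie | ⟨hne', hie⟩ <;> subst i
    · have hfg : f * g = 0 := by
        rcases hG' with c | c
        · rw [pow_eq_zero_iff two_ne_zero |>.mp c, mul_zero]
        · have : f ^ 2 = 0 := by linear_combination c - hsum - hi
          rw [pow_eq_zero_iff two_ne_zero |>.mp this, zero_mul]
      have hbg : 2 * (β * γ) = -1 := mul_left_cancel₀ h2 (by
        rw [hf, hg] at hsum
        linear_combination -hsum - hi)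
      have hTT : (-β + -γ * e) ^ 2 = -β * (-γ * e) - -α * e * -δ := by
        rw [hf, hg] at hfg
        linear_combination e * hbg + hfg + γ ^ 2 * hi + e * hdet
      have hc := (hS.pow_twelve (hS.cube hrJd hTT)).2.1
      have hΔ : -β * (-γ * e) - -α * e * -δ = -e := by linear_combination -e * hdet
      rw [hΔ] at hTT hc
      have h4 : (-β + -γ * e) ^ 4 = -1 := by
        linear_combination ((-β + -γ * e) ^ 2 - e) * hTT + hi
      have he4 : e ^ 4 = 1 := by linear_combination (e ^ 2 - 1) * hi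
      exact h2 (by linear_combination -hc + e ^ 4 * h4 - (e ^ 8 + e ^ 4 + 1) * he4 - he4)
    · rcases hE with a | a | a
      · have hαd : δ = α := by
          rw [he] at a
          linear_combination -(pow_eq_zero_iff two_ne_zero |>.mp a)
        have hα : 2 * α = -1 := by linear_combination hT - hαd
        rcases hK _ _ _ _ _ hrd with ⟨b', c', -⟩ | h | h | h
        · exact hns ⟨(mul_eq_zero.mp b').resolve_right hi0, neg_eq_zero.mp c'⟩
        all_goals rw [hαd] at h hdet
        · exact mul_ne_zero h2 hi0 (by linear_combination -4 * h + (4 * α ^ 2) * hi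
            - 2 * f * (2 * α - 1) * hα)
        · exact mul_ne_zero h2 hi0 (by linear_combination 4 * h - (4 * α ^ 2) * hi
            + 2 * f * (2 * α - 1) * hα - 4 * f * hdet)
        · exact mul_ne_zero (mul_ne_zero h2 h3) hi0 (by linear_combination 4 * h - (4 * α ^ 2) * hi
            + 2 * f * (2 * α - 1) * hα - 8 * f * hdet)
      · exact hne' a
      · have hg0 : g ^ 2 = 0 := by linear_combination hsum + a + hi
        have hγ : γ = β := by
          rw [hg] at hg0
          linear_combination -(pow_eq_zero_iff two_ne_zero |>.mp hg0)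
        have hβ : 4 * β ^ 2 = -1 := by
          rw [hf, hγ] at hi
          linear_combination hi
        rcases hK _ _ _ _ _ hrJd with ⟨b', c', -⟩ | h | h | h
        · exact hαδ ⟨neg_eq_zero.mp ((mul_eq_zero.mp b').resolve_right hi0), neg_eq_zero.mp c'⟩
        all_goals rw [hγ] at h hdet
        · exact mul_ne_zero h2 hi0 (by linear_combination -4 * h + (4 * β ^ 2) * hi + 2 * f * hβ)
        · exact mul_ne_zero h2 hi0 (by linear_combination 4 * h - (4 * β ^ 2) * hi - 2 * f * hβ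
            - 4 * f * hdet)
        · exact mul_ne_zero (mul_ne_zero h2 h3) hi0 (by linear_combination 4 * h - (4 * β ^ 2) * hi
            - 2 * f * hβ - 8 * f * hdet)
  -- back to `P`
  have hproj : ∀ {M : Matrix (Fin 3) (Fin 3) F}, In Q M → HasProj P B M := fun {M} h => by
    obtain ⟨x, hx, hv⟩ := h.back
    exact ⟨1, x, hx, by rw [hv, one_smul]⟩
  obtain ⟨t, htP, htv⟩ := hS.t.back
  have hcommon : FrameCommon P B t := by
    have htv' : ((B⁻¹ * t * B : GL (Fin 3) F) : Matrix (Fin 3) (Fin 3) F) = blk (-1) 0 0 (-1) 1 := by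
      rw [Units.val_mul, Units.val_mul, htv]
      simp [mul_assoc, dia]
    obtain ⟨ht2, ht1⟩ := blk_t_ne h2 htv'
    have ht2' : t * t = 1 := by
      have h := congrArg (fun x => B * x * B⁻¹) ht2
      simpa [mul_assoc] using h
    have ht1' : t ≠ 1 := fun e => ht1 (by rw [e]; simp)
    refine ⟨htP, htv, fun s hs a b => hP.one s hs t htP a b ht2' ht1', fun x hx hxt hxc y hy => ?_,
      hproj (hS.s.of_eq rfl), ?_, hproj (hS.g.of_eq rfl)⟩
    · set x' := B⁻¹ * x * B with hx'
      have hx'Q : x' ∈ Q := ⟨x, hx, by simp [hx', MulAut.conj_apply]⟩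
      have hcm : x' * (B⁻¹ * t * B) = B⁻¹ * t * B * x' := by
        rw [hx', show B⁻¹ * x * B * (B⁻¹ * t * B) = B⁻¹ * (x * t) * B by group, hxt]; group
      have hm := congrArg (fun z : GL (Fin 3) F => (z : Matrix (Fin 3) (Fin 3) F)) hcm
      simp only [Units.val_mul (x'), Units.val_mul (B⁻¹ * t * B), htv'] at hm
      have hxb := eq_blk_of_comm h2 hm
      set X := (x' : Matrix (Fin 3) (Fin 3) F) with hX
      have hfix : ap x' ![0, 0, 1] = ![0, 0, 1] := by
        rw [hx', ap_mul, ap_mul, hxc, ap_inv_ap]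
      have h22 : X 2 2 = 1 := by
        have h' := congrFun hfix 2
        rw [ap_blk hxb] at h'
        simpa using h'
      rw [h22] at hxb
      have htr : Matrix.trace (x : Matrix (Fin 3) (Fin 3) F) = X 0 0 + X 1 1 + 1 := by
        have h' : Matrix.trace X = Matrix.trace (x : Matrix (Fin 3) (Fin 3) F) := by
          rw [hX, hx', Units.val_mul, Units.val_mul]
          exact Matrix.trace_units_conj' B _
        rw [← h', Matrix.trace_fin_three, h22]
      have hin : In Q (blk (X 0 0) (X 0 1) (X 1 0) (X 1 1) 1) := ⟨x', hx'Q, hxb⟩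
      have hd := hin.det hS.setup
      rw [det_blk, mul_one] at hd
      have hy' : y = X 0 0 + X 1 1 := by rw [hy, htr]; ring
      subst hy'
      rcases hK _ _ _ _ _ hin with ⟨a, b, c⟩ | h | h | h
      · rw [a, b, c] at hd
        rw [c]
        linear_combination (4 * (X 1 1 + X 1 1) * ((X 1 1 + X 1 1) ^ 2 - 1) *
          ((X 1 1 + X 1 1) ^ 2 - 2)) * hd
      · rw [pow_eq_zero_iff two_ne_zero |>.mp h]; ring
      · rw [hd] at h; rw [h]; ring
      · rw [hd] at h; rw [h]; ring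
    · obtain ⟨x, hx, hv⟩ := hS.c.back
      refine ⟨w, x, hx, ?_⟩
      rw [hv, show cyc w w w = w • !![0, 0, 1; 1, 0, 0; 0, 1, (0 : F)] by
        ext i j; fin_cases i <;> fin_cases j <;> simp [cyc]]
      rw [Matrix.mul_smul, Matrix.smul_mul]
  have htS : In Q (blk (-1) 0 0 (-1) 1) := hS.t
  have hrinv : In Q (blk δ (-β) (-γ) α 1) := hr.inv (by
    rw [blk_mul, ← blk_one]
    congr 1 <;> first | ring1 | linear_combination hdet)
  have half : ∀ {x y : F}, 2 * x = y → x = y / 2 := fun {x y} h => by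
    rw [eq_div_iff h2]; linear_combination h
  rcases hE with hE | hE | hE
  rotate_left
  · -- a square root of minus one
    refine Or.inr ⟨h3, B, t, e, hcommon, by linear_combination hE, ?_⟩
    have hfe : f = e ∨ f = -e :=
      sq_eq_sq_iff_eq_or_eq_neg.mp (by linear_combination -hsum + hg1 - 2 * hE)
    have key : ∃ β' γ', In Q (blk α β' γ' δ 1) ∧ β' + γ' = e ∧ β' - γ' = 1 := by
      have htrans : In Q (blk α γ β δ 1) :=
        ((hJ.mul hrinv).mul ((hJ.mul hJ).mul hJ)).of_eq (by simp [blk_mul])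
      rcases hfe with a | a <;> rcases mul_self_eq_one_iff.mp ((pow_two g).symm.trans hg1) with b | b
      · exact ⟨β, γ, hr, by rw [← hf]; exact a, by rw [← hg]; exact b⟩
      · exact ⟨γ, β, htrans, by rw [← a, hf]; ring, by rw [hg] at b; linear_combination -b⟩
      · exact ⟨-γ, -β, ((hS.s.mul htrans).mul hS.s).of_eq (by simp [dia, blk_mul]),
          by rw [hf] at a; linear_combination -a, by rw [hg] at b; linear_combination b⟩
      · exact ⟨-β, -γ, ((hS.s.mul hr).mul hS.s).of_eq (by simp [dia, blk_mul]),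
          by rw [hf] at a; linear_combination -a, by rw [hg] at b; linear_combination -b⟩
    obtain ⟨β', γ', hr1, hb1, hb2⟩ := key
    have ha : α = (-1 + e) / 2 := half (by rw [he]; linear_combination hT)
    have hd : δ = (-1 - e) / 2 := half (by rw [he]; linear_combination hT)
    have hb : β' = (1 + e) / 2 := half (by linear_combination hb1 + hb2)
    have hc : γ' = (-1 + e) / 2 := half (by linear_combination hb1 - hb2)
    refine ⟨hproj ?_, hproj (hr1.of_eq (by rw [blk, ha, hd, hb, hc]))⟩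
    have hdet' : α * δ - β' * γ' = 1 := by
      have := hr1.det hS.setup
      rwa [det_blk, mul_one] at this
    have hi1 : In Q (blk δ (-β') (-γ') α 1) := hr1.inv (by
      rw [blk_mul, ← blk_one]
      congr 1 <;> first | ring1 | linear_combination hdet')
    refine (htS.mul (((hr1.mul hJ).mul hi1))).of_eq ?_
    rw [show (!![e, 0, 0; 0, -e, 0; 0, 0, (1 : F)]) = blk e 0 0 (-e) 1 from rfl]
    simp only [blk_mul]
    rw [ha, hd, hb, hc]
    congr 1 <;> field_simp <;>
      first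
      | ring1
      | linear_combination hE
      | linear_combination -hE
      | linear_combination 2 * hE
      | linear_combination -2 * hE
  rotate_left
  -- a square root of minus two
  all_goals
    refine Or.inl ⟨h3, B, t, ?_⟩
    have key : ∃ a β' γ' α' δ', In Q (blk α' β' γ' δ' 1) ∧ 2 * a ^ 2 + 1 = 0 ∧
        2 * α' = 2 * a - 1 ∧ 2 * δ' = -2 * a - 1 ∧ 2 * β' = 1 ∧ 2 * γ' = -1 := by
      have fix : ∀ {x y u v : F}, In Q (blk x y u v 1) → x + v = -1 → (x - v) ^ 2 = -2 →
          y + u = 0 → (y - u) ^ 2 = 1 → ∃ a β' γ' α' δ', In Q (blk α' β' γ' δ' 1) ∧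
            2 * a ^ 2 + 1 = 0 ∧ 2 * α' = 2 * a - 1 ∧ 2 * δ' = -2 * a - 1 ∧ 2 * β' = 1 ∧
            2 * γ' = -1 := by
        intro x y u v hin hxv he' hyu hg'
        have h4 : (2 * ((x - v) / 2)) = x - v := by field_simp
        refine ⟨(x - v) / 2, ?_⟩
        have ha : 2 * ((x - v) / 2) ^ 2 + 1 = 0 := by field_simp; linear_combination he'
        rcases mul_self_eq_one_iff.mp ((pow_two _).symm.trans hg') with b | b
        · exact ⟨y, u, x, v, hin, ha, by linear_combination hxv - h4,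
            by linear_combination hxv + h4, by linear_combination hyu + b,
            by linear_combination hyu - b⟩
        · exact ⟨-y, -u, x, v, ((hS.s.mul hin).mul hS.s).of_eq (by simp [dia, blk_mul]), ha,
            by linear_combination hxv - h4, by linear_combination hxv + h4,
            by linear_combination -hyu - b, by linear_combination -hyu + b⟩
      first
      | exact fix hr hT (by rw [← he]; exact hE) (by
          rw [← hf]
          exact pow_eq_zero_iff two_ne_zero |>.mp (by linear_combination -hsum - hE + hg1))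
          (by rw [← hg]; exact hg1)
      | (have he0 : α - δ = 0 := by rw [← he]; exact pow_eq_zero_iff two_ne_zero |>.mp hE
         have hf2 : f ^ 2 = -2 := by linear_combination -hsum - hE + hg1
         rcases mul_self_eq_one_iff.mp ((pow_two g).symm.trans hg1) with b | b
         · refine fix ((htS.mul hrJ).of_eq (by simp [blk_mul]) :
             In Q (blk (-β) α (-δ) γ 1)) ?_ ?_ ?_ ?_
           · rw [hg] at b; linear_combination -b
           · rw [hf] at hf2; linear_combination hf2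
           · linear_combination he0
           · linear_combination (α + δ - 1) * hT
         · refine fix hrJ ?_ ?_ ?_ ?_
           · rw [hg] at b; linear_combination b
           · rw [hf] at hf2; linear_combination hf2
           · linear_combination -he0
           · linear_combination (α + δ - 1) * hT)
    obtain ⟨a, β', γ', α', δ', hr1, ha, hx, hv, hy, hu⟩ := key
    refine ⟨a, hcommon, ha, hproj ?_, hproj (hr1.of_eq ?_)⟩
    · have hdet' : α' * δ' - β' * γ' = 1 := by
        have := hr1.det hS.setup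
        rwa [det_blk, mul_one] at this
      have hi1 : In Q (blk δ' (-β') (-γ') α' 1) := hr1.inv (by
        rw [blk_mul, ← blk_one]
        congr 1 <;> first | ring1 | linear_combination hdet')
      refine ((hS.s.mul (htS.mul ((hr1.mul hJ).mul hi1))).mul hS.s).of_eq ?_
      rw [show (!![a, a, 0; a, -a, 0; 0, 0, (1 : F)]) = blk a a a (-a) 1 from rfl]
      obtain rfl := half hx
      obtain rfl := half hv
      obtain rfl := half hy
      obtain rfl := half hu
      simp only [dia, blk_mul]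
      congr 1 <;> field_simp <;>
        first
        | ring1
        | linear_combination ha
        | linear_combination -ha
        | linear_combination 2 * ha
        | linear_combination -2 * ha
    · obtain rfl := half hx
      obtain rfl := half hv
      obtain rfl := half hy
      obtain rfl := half hu
      rw [blk, neg_div]

end CfsgLib.SLThreeResidual
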