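import Cfsg.Agent.Lib.SLThreeResidual.Basic
import Cfsg.Agent.Lib.Geometric.SLThree.Restrict

/-!
# Odd characteristic: the centraliser of an involution on its plane

`OddSetup` collects what the 2-structure gives for a group with quasi-dihedral or wreathed Sylow
2-subgroups; in standard coordinates the centraliser of `diag(-1,-1,1)` then has only elements
whose squared trace on the plane is `0`, `1`, `2` or `4` times the determinant.
-/

set_option autoImplicit false
set_option linter.unusedSectionVars false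
set_option linter.style.haveILetI false

namespace CfsgLib.SLThreeResidual

open Cfsg.Geo Matrix CfsgLib.Geometric MulAction
open CfsgLib.Geometric.SLThree (Axis PlaneRep IsSc IsEig Pts PImage img)

variable {F : Type*} [Field F]

/-- `M` is the matrix of an element of `P`. -/
def In (P : Subgroup (GL (Fin 3) F)) (M : Matrix (Fin 3) (Fin 3) F) : Prop :=
  ∃ g ∈ P, (g : Matrix (Fin 3) (Fin 3) F) = M

/-- The properties of a group with quasi-dihedral or wreathed Sylow 2-subgroups used for the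
frames. -/
structure OddSetup (P : Subgroup (GL (Fin 3) F)) : Prop where
  two : (2 : F) ≠ 0
  le_sl : P ≤ specialLinear (Fin 3) F
  tvFree : TvFree P
  one : ∀ s ∈ P, ∀ t ∈ P, s * s = 1 → s ≠ 1 → t * t = 1 → t ≠ 1 → ∃ h ∈ P, h * s * h⁻¹ = t
  pair : ∃ t ∈ P, ∃ s ∈ P, t * t = 1 ∧ t ≠ 1 ∧ s * s = 1 ∧ s ≠ 1 ∧ s * t = t * s ∧ s ≠ t
  swap : ∀ t ∈ P, ∀ s ∈ P, t * t = 1 → t ≠ 1 → s * s = 1 → s ≠ 1 → s * t = t * s → s ≠ t →
    ∃ g ∈ P, g * t = t * g ∧ g * s * g⁻¹ = t * s
  deep : ∀ t ∈ P, t * t = 1 → t ≠ 1 → ∃ a ∈ P, ∃ b ∈ P, ∃ c ∈ P, ∃ d ∈ P,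
    a * t = t * a ∧ b * t = t * b ∧ c * t = t * c ∧ d * t = t * d ∧
      (a * b * a⁻¹ * b⁻¹) * (c * d * c⁻¹ * d⁻¹) ≠ (c * d * c⁻¹ * d⁻¹) * (a * b * a⁻¹ * b⁻¹)
  sq : ∀ t ∈ P, t * t = 1 → t ≠ 1 → ∃ g ∈ P, ∃ b ∈ P, g * t = t * g ∧ b * t = t * b ∧
    (∃ k : ℕ, g ^ (2 ^ k) = 1) ∧ g * g * b ≠ b * (g * g)
  three : ∀ t ∈ P, t * t = 1 → t ≠ 1 → ∃ r ∈ P, r * t = t * r ∧ r ^ 3 = 1 ∧ r ≠ 1 ∧
    ∀ v, ap t v = v → ap r v = v

/-- A matrix fixing the last coordinate line and the plane of the first two coordinates. -/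
def blk (a b c d e : F) : Matrix (Fin 3) (Fin 3) F := !![a, b, 0; c, d, 0; 0, 0, e]

lemma blk_mul (a b c d e a' b' c' d' e' : F) :
    blk a b c d e * blk a' b' c' d' e' =
      blk (a * a' + b * c') (a * b' + b * d') (c * a' + d * c') (c * b' + d * d') (e * e') := by
  simp [blk]

lemma det_blk (a b c d e : F) : (blk a b c d e).det = (a * d - b * c) * e := by
  simp [blk, Matrix.det_fin_three]; ring

lemma blk_inj {a b c d e a' b' c' d' e' : F} (h : blk a b c d e = blk a' b' c' d' e') :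
    a = a' ∧ b = b' ∧ c = c' ∧ d = d' ∧ e = e' := by
  refine ⟨?_, ?_, ?_, ?_, ?_⟩
  · simpa [blk] using congrFun (congrFun h 0) 0
  · simpa [blk] using congrFun (congrFun h 0) 1
  · simpa [blk] using congrFun (congrFun h 1) 0
  · simpa [blk] using congrFun (congrFun h 1) 1
  · simpa [blk] using congrFun (congrFun h 2) 2

lemma blk_one : blk (1 : F) 0 0 1 1 = 1 := by
  ext i j; fin_cases i <;> fin_cases j <;> simp [blk]

lemma blk_t_ne (h2 : (2 : F) ≠ 0) {g : GL (Fin 3) F}
    (h : (g : Matrix (Fin 3) (Fin 3) F) = blk (-1) 0 0 (-1) 1) : g * g = 1 ∧ g ≠ 1 := by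
  refine ⟨Units.ext (by rw [Units.val_mul, h, blk_mul, Units.val_one, ← blk_one]; simp), ?_⟩
  rintro rfl
  rw [Units.val_one, ← blk_one] at h
  exact h2 (by linear_combination (blk_inj h).1)

/-- A matrix commuting with `diag(-1,-1,1)` is a block matrix. -/
lemma eq_blk_of_comm (h2 : (2 : F) ≠ 0) {M : Matrix (Fin 3) (Fin 3) F}
    (h : M * blk (-1) 0 0 (-1) 1 = blk (-1) 0 0 (-1) 1 * M) :
    M = blk (M 0 0) (M 0 1) (M 1 0) (M 1 1) (M 2 2) := by
  have e : ∀ x : F, x = -x → x = 0 := fun x hx => by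
    have : (2 : F) * x = 0 := by linear_combination hx
    exact (mul_eq_zero.mp this).resolve_left h2
  have h02 := congrFun (congrFun h 0) 2
  have h12 := congrFun (congrFun h 1) 2
  have h20 := congrFun (congrFun h 2) 0
  have h21 := congrFun (congrFun h 2) 1
  simp [blk, Matrix.mul_apply, Fin.sum_univ_three] at h02 h12 h20 h21
  ext i j
  fin_cases i <;> fin_cases j <;> simp [blk]
  · exact e _ h02
  · exact e _ h12
  · exact e _ h20.symm
  · exact e _ h21.symm

lemma ap_blk {g : GL (Fin 3) F} {a b c d e : F}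
    (h : (g : Matrix (Fin 3) (Fin 3) F) = blk a b c d e) (v : Fin 3 → F) :
    ap g v = ![a * v 0 + b * v 1, c * v 0 + d * v 1, e * v 2] := by
  rw [ap_def, h]
  funext i
  fin_cases i <;> simp [blk, Matrix.mulVec, dotProduct, Fin.sum_univ_three]

/-- The last coordinate line and the plane of the first two coordinates. -/
def stdAxis : Axis F where
  c := ![0, 0, 1]
  φ := LinearMap.proj 2
  φ_c := rfl
  emb :=
    { toFun := fun w => ![w 0, w 1, 0]
      map_add' := fun v w => by funext i; fin_cases i <;> simp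
      map_smul' := fun a w => by funext i; fin_cases i <;> simp }
  coord :=
    { toFun := fun x => ![x 0, x 1]
      map_add' := fun v w => by funext i; fin_cases i <;> simp
      map_smul' := fun a w => by funext i; fin_cases i <;> simp }
  φ_emb := fun w => rfl
  coord_emb := fun w => by funext i; fin_cases i <;> rfl
  emb_coord := fun x hx => by
    funext i
    fin_cases i
    · rfl
    · rfl
    · exact hx.symm

lemma resK_blk (K : Type*) [Field K] [Algebra F K] {g : GL (Fin 3) F} {a b c d e : F}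
    (h : (g : Matrix (Fin 3) (Fin 3) F) = blk a b c d e) (w : Fin 2 → K) :
    (stdAxis (F := F)).resK K g w =
      ![algebraMap F K a * w 0 + algebraMap F K b * w 1,
        algebraMap F K c * w 0 + algebraMap F K d * w 1] := by
  have hm : LinearMap.toMatrix' ((stdAxis (F := F)).res g) = !![a, b; c, d] := by
    ext i j
    rw [LinearMap.toMatrix'_apply, Axis.res_apply, ap_blk h]
    fin_cases i <;> fin_cases j <;> simp [stdAxis]
  rw [Axis.resK, hm, Matrix.toLin'_apply]
  funext i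
  fin_cases i <;> simp [Matrix.mulVec, dotProduct, Fin.sum_univ_two]

lemma isSc_cases {a b c d u : F} (h1 : u * b = 0) (h2 : u * c = 0) (h3 : u * (a - d) = 0) :
    u = 0 ∨ (b = 0 ∧ c = 0 ∧ a = d) := by
  by_cases hu : u = 0
  · exact Or.inl hu
  · exact Or.inr ⟨(mul_eq_zero.mp h1).resolve_left hu, (mul_eq_zero.mp h2).resolve_left hu,
      sub_eq_zero.mp ((mul_eq_zero.mp h3).resolve_left hu)⟩

/-- Elements permuting two points commute on them. -/
lemma smul_comm_of_pair {G α : Type*} [Group G] [MulAction G α] {l m : α} (h : l ≠ m)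
    (hor : ∀ (g : G) x, x = l ∨ x = m → g • x = l ∨ g • x = m) (a b : G) {x : α}
    (hx : x = l ∨ x = m) : (a * b) • x = (b * a) • x := by
  have key : ∀ g : G, (g • l = l ∧ g • m = m) ∨ (g • l = m ∧ g • m = l) := by
    intro g
    have hne : g • l ≠ g • m := fun e => h (MulAction.injective g e)
    rcases hor g l (Or.inl rfl) with e | e <;> rcases hor g m (Or.inr rfl) with e' | e'
    · exact absurd (e.trans e'.symm) hne
    · exact Or.inl ⟨e, e'⟩
    · exact Or.inr ⟨e, e'⟩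
    · exact absurd (e.trans e'.symm) hne
  rcases key a with ⟨a1, a2⟩ | ⟨a1, a2⟩ <;> rcases key b with ⟨b1, b2⟩ | ⟨b1, b2⟩ <;>
    rcases hx with rfl | rfl <;> simp [mul_smul, a1, a2, b1, b2]

set_option maxHeartbeats 1000000 in
/-- The plane image of the centraliser is the octahedral group: the possible traces. -/
theorem plane_cases [Fintype F] {P : Subgroup (GL (Fin 3) F)} (hP : OddSetup P)
    (ht : In P (blk (-1) 0 0 (-1) 1)) (hs : In P (blk 1 0 0 (-1) (-1)))
    {μ₁ μ₂ μ₃ : F} (hg : In P (blk 0 μ₁ μ₂ 0 μ₃)) :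
    (3 : F) ≠ 0 ∧ ∀ a b c d e, In P (blk a b c d e) → (b = 0 ∧ c = 0 ∧ a = d) ∨
      (a + d) ^ 2 = 0 ∨ (a + d) ^ 2 = a * d - b * c ∨ (a + d) ^ 2 = 2 * (a * d - b * c) := by
  classical
  have h2 := hP.two
  obtain ⟨t, htP, htv⟩ := ht
  obtain ⟨ht2, ht1⟩ := blk_t_ne h2 htv
  set X := P ⊓ Subgroup.centralizer ({t} : Set (GL (Fin 3) F)) with hX
  have hmem : ∀ {g : GL (Fin 3) F}, g ∈ X ↔ g ∈ P ∧ g * t = t * g := fun {g} => by
    rw [hX, Subgroup.mem_inf, Subgroup.mem_centralizer_singleton_iff]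
  have hblk : ∀ g : X, ∃ a b c d e,
      ((g : GL (Fin 3) F) : Matrix (Fin 3) (Fin 3) F) = blk a b c d e := by
    intro g
    have h := congrArg (fun x : GL (Fin 3) F => (x : Matrix (Fin 3) (Fin 3) F)) (hmem.mp g.2).2
    simp only [Units.val_mul, htv] at h
    exact ⟨_, _, _, _, _, eq_blk_of_comm h2 h⟩
  have hInX : ∀ {a b c d e}, In P (blk a b c d e) →
      ∃ g : X, ((g : GL (Fin 3) F) : Matrix (Fin 3) (Fin 3) F) = blk a b c d e := by
    rintro a b c d e ⟨g, hgP, hgv⟩
    refine ⟨⟨g, hmem.mpr ⟨hgP, Units.ext ?_⟩⟩, hgv⟩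
    rw [Units.val_mul, Units.val_mul, hgv, htv, blk_mul, blk_mul]
    simp
  have hXst : X ≤ (stdAxis (F := F)).stab := by
    intro g hgX
    obtain ⟨a, b, c, d, e, hge⟩ := hblk ⟨g, hgX⟩
    refine (stdAxis (F := F)).mem_stab (a := e) ?_ fun x hx => ?_
    · rw [ap_blk hge]; funext i; fin_cases i <;> simp [stdAxis]
    · have hx' : x 2 = 0 := hx
      rw [ap_blk hge]
      simp [stdAxis, hx']
  let K := AlgebraicClosure F
  let ι : F →+* K := algebraMap F K
  let ρ := (stdAxis (F := F)).rep K hXst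
  have hρ : PlaneRep ρ := (stdAxis (F := F)).planeRep K hP.tvFree inf_le_left
  have hap : ∀ (g : X) {a b c d e : F},
      ((g : GL (Fin 3) F) : Matrix (Fin 3) (Fin 3) F) = blk a b c d e → ∀ w : Fin 2 → K,
      ρ g w = ![ι a * w 0 + ι b * w 1, ι c * w 0 + ι d * w 1] := fun g a b c d e h w => by
    show (stdAxis (F := F)).resK K (g : GL (Fin 3) F) w = _
    exact resK_blk K h w
  have hsc : ∀ (g : X) {a b c d e : F},
      ((g : GL (Fin 3) F) : Matrix (Fin 3) (Fin 3) F) = blk a b c d e → IsSc ρ g →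
      b = 0 ∧ c = 0 ∧ a = d := by
    rintro g a b c d e h ⟨κ, hκ⟩
    have e0 := hκ ![1, 0]
    have e1 := hκ ![0, 1]
    rw [hap g h] at e0 e1
    have a0 := congrFun e0 0
    have c0 := congrFun e0 1
    have b1 := congrFun e1 0
    have d1 := congrFun e1 1
    simp at a0 c0 b1 d1
    exact ⟨b1, c0, ι.injective (a0.trans d1.symm)⟩
  obtain ⟨sX, hsX⟩ := hInX hs
  obtain ⟨gX, hgX⟩ := hInX hg
  have hμ : μ₁ ≠ 0 ∧ μ₂ ≠ 0 := by
    have h := (mem_specialLinear_iff _).mp (hP.le_sl (hmem.mp gX.2).1)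
    rw [hgX, det_blk] at h
    constructor <;> rintro rfl <;> simp at h
  have h2K : (2 : K) ≠ 0 := fun h => h2 (ι.injective (by rw [map_ofNat, map_zero]; exact h))
  have hno : ∀ w : Fin 2 → K, w ≠ 0 → ∃ g, ¬ IsEig ρ g w := by
    intro w hw
    by_contra hcon
    push Not at hcon
    obtain ⟨u, hu⟩ := hcon sX
    obtain ⟨v, hv⟩ := hcon gX
    rw [hap sX hsX] at hu
    rw [hap gX hgX] at hv
    have u0 := congrFun hu 0
    have u1 := congrFun hu 1
    have v0 := congrFun hv 0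
    have v1 := congrFun hv 1
    simp at u0 u1 v0 v1
    apply hw
    have hμ1 : ι μ₁ ≠ 0 := (map_ne_zero ι).mpr hμ.1
    have hμ2 : ι μ₂ ≠ 0 := (map_ne_zero ι).mpr hμ.2
    have h0 : w 0 = 0 ∨ w 1 = 0 := by
      by_contra hne
      push Not at hne
      have hu1 : u = 1 := mul_right_cancel₀ hne.1 (by rw [one_mul]; exact u0.symm)
      rcases u1 with h | h
      · exact h2K (by linear_combination -h - hu1)
      · exact hne.2 h
    funext i
    rcases h0 with h0 | h0
    · rw [h0, mul_zero] at v0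
      fin_cases i
      · exact h0
      · simpa [hμ1] using v0
    · rw [h0, mul_zero] at v1
      fin_cases i
      · simpa [hμ2] using v1
      · exact h0
  have htp := hρ.twoPoint hno
  haveI := hρ.finite_pts
  have himg := fun g : X => hρ.img_eq_one hno g
  have hpow : ∀ (g : X) (n : ℕ), img ρ g ^ n = 1 → IsSc ρ (g ^ n) := fun g n h =>
    (himg _).mp (by rw [SLThree.img_pow]; exact h)
  obtain ⟨r, hcov, ⟨i, hi, -⟩ | ⟨i, j, k, hij, hik, hjk, hi, hj, hk⟩⟩ := htp.cases
  · -- an invariant pair of lines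
    exfalso
    obtain ⟨l, hl⟩ : ∃ l, l = r i := ⟨r i, rfl⟩
    rw [← hl] at hi
    obtain ⟨⟨m, hm⟩, hml⟩ : ∃ m : orbit (PImage ρ) l, m ≠ ⟨l, mem_orbit_self l⟩ := by
      haveI : Nontrivial (orbit (PImage ρ) l) := Finite.one_lt_card_iff_nontrivial.mp (by omega)
      exact exists_ne _
    have hlm : l ≠ m := fun e => hml (Subtype.ext e.symm)
    have hO := SLThree.TwoPoint.pair_eq hi (mem_orbit_self l) hm hlm
    have horb : ∀ (g : X) x, x = l ∨ x = m → g • x = l ∨ g • x = m := by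
      intro g x hx
      have hxo : x ∈ orbit (PImage ρ) l := by
        rcases hx with rfl | rfl
        · exact mem_orbit_self _
        · exact hm
      obtain ⟨δ, hδ⟩ := hxo
      have : g • x ∈ orbit (PImage ρ) l := ⟨img ρ g * δ, by
        show (img ρ g * δ) • l = _
        rw [mul_smul, show δ • l = x from hδ]; rfl⟩
      rw [hO] at this
      exact this
    have hcomm : ∀ (a b : X) x, x = l ∨ x = m → (a * b) • x = (b * a) • x :=
      fun a b x hx => smul_comm_of_pair hlm horb a b hx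
    have hfix : ∀ (a b : X) x, x = l ∨ x = m → (a * b * a⁻¹ * b⁻¹) • x = x := by
      intro a b x hx
      have hy : (a⁻¹ * b⁻¹) • x = l ∨ (a⁻¹ * b⁻¹) • x = m := horb _ x hx
      rw [show a * b * a⁻¹ * b⁻¹ = a * b * (a⁻¹ * b⁻¹) by group, mul_smul, hcomm a b _ hy,
        ← mul_smul, show b * a * (a⁻¹ * b⁻¹) = 1 by group, one_smul]
    obtain ⟨-, v, -, hv0, -, hlv⟩ := l.2
    obtain ⟨-, w, -, hw0, -, hmw⟩ := m.2
    have hli : LinearIndependent K ![v, w] := by
      rw [LinearIndependent.pair_iff' hv0]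
      intro c hc
      apply hlm
      apply Subtype.ext
      rw [hlv, hmw, ← hc, Submodule.span_singleton_smul_eq
        (IsUnit.mk0 c fun e => hw0 (by rw [← hc, e, zero_smul]))]
    obtain ⟨a, haP, b, hbP, c, hcP, d, hdP, hat, hbt, hct, hdt, hne⟩ := hP.deep t htP ht2 ht1
    let a' : X := ⟨a, hmem.mpr ⟨haP, hat⟩⟩
    let b' : X := ⟨b, hmem.mpr ⟨hbP, hbt⟩⟩
    let c' : X := ⟨c, hmem.mpr ⟨hcP, hct⟩⟩
    let d' : X := ⟨d, hmem.mpr ⟨hdP, hdt⟩⟩
    apply hne
    set x := a' * b' * a'⁻¹ * b'⁻¹ with hx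
    set y := c' * d' * c'⁻¹ * d'⁻¹ with hy
    suffices hxy : x * y = y * x by exact congrArg Subtype.val hxy
    have hρc : ∀ u : Fin 2 → K, ρ (x * y) u = ρ (y * x) u := by
      obtain ⟨p₁, hp₁⟩ := (PlaneRep.smul_eq_iff hv0 hlv).mp (hfix a' b' l (Or.inl rfl))
      obtain ⟨p₂, hp₂⟩ := (PlaneRep.smul_eq_iff hw0 hmw).mp (hfix a' b' m (Or.inr rfl))
      obtain ⟨q₁, hq₁⟩ := (PlaneRep.smul_eq_iff hv0 hlv).mp (hfix c' d' l (Or.inl rfl))
      obtain ⟨q₂, hq₂⟩ := (PlaneRep.smul_eq_iff hw0 hmw).mp (hfix c' d' m (Or.inr rfl))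
      rw [← hx] at hp₁ hp₂
      rw [← hy] at hq₁ hq₂
      intro u
      obtain ⟨p, q, rfl⟩ := PlaneRep.mem_span_pair_of (hρ.span_pair_top hli) u
      simp only [map_add, map_smul, PlaneRep.rho_mul, hp₁, hp₂, hq₁, hq₂, smul_smul]
      simp only [mul_comm, mul_left_comm]
    obtain ⟨p1, p2, p3, p4, p5, hpv⟩ := hblk (x * y)
    obtain ⟨q1, q2, q3, q4, q5, hqv⟩ := hblk (y * x)
    have e0 := hρc ![1, 0]
    have e1 := hρc ![0, 1]
    rw [hap _ hpv, hap _ hqv] at e0 e1
    have h11 := congrFun e0 0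
    have h21 := congrFun e0 1
    have h12 := congrFun e1 0
    have h22 := congrFun e1 1
    simp at h11 h21 h12 h22
    replace h11 := ι.injective h11
    replace h21 := ι.injective h21
    replace h12 := ι.injective h12
    replace h22 := ι.injective h22
    have dp := (mem_specialLinear_iff _).mp (hP.le_sl (hmem.mp (x * y).2).1)
    have dq := (mem_specialLinear_iff _).mp (hP.le_sl (hmem.mp (y * x).2).1)
    rw [hpv, det_blk] at dp
    rw [hqv, det_blk, ← h11, ← h21, ← h12, ← h22] at dq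
    have h55 : p5 = q5 := mul_left_cancel₀ (left_ne_zero_of_mul_eq_one dp) (dp.trans dq.symm)
    exact Subtype.ext (Units.ext (by rw [hpv, hqv, h11, h21, h12, h22, h55]))
  -- the three orbits
  have hord : ∀ g : X, img ρ g = 1 ∨ ∃ q, orderOf (img ρ g) ∣ Nat.card (stabilizer (PImage ρ) (r q)) := by
    intro g
    by_cases hg1 : img ρ g = 1
    · exact Or.inl hg1
    · obtain ⟨l, -, -, hl, -, -⟩ := hρ.fix_pair (fun e => hg1 ((himg g).mpr e))
      obtain ⟨q, hq⟩ := hcov l
      refine Or.inr ⟨q, ?_⟩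
      rw [← (SLThree.TwoPoint.card_stab_orbit hq).1]
      exact SLThree.TwoPoint.orderOf_dvd_stab (G := PImage ρ) hl
  rcases hk with ⟨hk, -⟩ | ⟨hk, -⟩ | ⟨hk, -⟩
  rotate_left
  · refine ⟨?_, fun a b c d e hM => ?_⟩
    · obtain ⟨u, huP, hut, hu3, hu1, -⟩ := hP.three t htP ht2 ht1
      intro h3
      apply hρ.orderOf_ne_zero (⟨u, hmem.mpr ⟨huP, hut⟩⟩ : X)
      haveI : Fact (Nat.Prime 3) := ⟨Nat.prime_three⟩
      rw [← Subgroup.orderOf_coe, orderOf_eq_prime hu3 hu1]
      push_cast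
      rw [← map_ofNat ι, h3, map_zero]
    obtain ⟨g, hgv⟩ := hInX hM
    have hn : img ρ g ^ 2 = 1 ∨ img ρ g ^ 3 = 1 ∨ img ρ g ^ 4 = 1 := by
      rcases hord g with h | ⟨q, hq⟩
      · exact Or.inl (by rw [h, one_pow])
      · rcases SLThree.tri i j k q hij hik hjk with rfl | rfl | rfl
        · exact Or.inl (orderOf_dvd_iff_pow_eq_one.mp (by rw [hi] at hq; exact hq))
        · exact Or.inr (Or.inl (orderOf_dvd_iff_pow_eq_one.mp (by rw [hj] at hq; exact hq)))
        · exact Or.inr (Or.inr (orderOf_dvd_iff_pow_eq_one.mp (by rw [hk] at hq; exact hq)))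
    have hg2 : ((g ^ 2 : X) : GL (Fin 3) F).1 = blk (a * a + b * c) (a * b + b * d)
        (c * a + d * c) (c * b + d * d) (e * e) := by
      rw [SubmonoidClass.coe_pow, Units.val_pow_eq_pow_val, pow_two, hgv, blk_mul]
    rcases hn with h | h | h
    · obtain ⟨x1, x2, x3⟩ := hsc _ hg2 (hpow g 2 h)
      rcases isSc_cases (a := a) (b := b) (c := c) (d := d) (u := a + d)
        (by linear_combination x1) (by linear_combination x2) (by linear_combination x3) with h0 | h0
      · exact Or.inr (Or.inl (by rw [h0]; ring))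
      · exact Or.inl h0
    · have hg3 : ((g ^ 3 : X) : GL (Fin 3) F).1 = blk (a * a + b * c) (a * b + b * d)
          (c * a + d * c) (c * b + d * d) (e * e) * blk a b c d e := by
        rw [SubmonoidClass.coe_pow, Units.val_pow_eq_pow_val, pow_succ, pow_two, hgv, blk_mul]
      rw [blk_mul] at hg3
      obtain ⟨x1, x2, x3⟩ := hsc _ hg3 (hpow g 3 h)
      rcases isSc_cases (a := a) (b := b) (c := c) (d := d)
        (u := (a + d) ^ 2 - (a * d - b * c)) (by linear_combination x1) (by linear_combination x2)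
        (by linear_combination x3) with h0 | h0
      · exact Or.inr (Or.inr (Or.inl (by linear_combination h0)))
      · exact Or.inl h0
    · have hg4 : ((g ^ 4 : X) : GL (Fin 3) F).1 = blk (a * a + b * c) (a * b + b * d)
          (c * a + d * c) (c * b + d * d) (e * e) * blk (a * a + b * c) (a * b + b * d)
          (c * a + d * c) (c * b + d * d) (e * e) := by
        rw [SubmonoidClass.coe_pow, Units.val_pow_eq_pow_val,
          show (4 : ℕ) = 2 * 2 from rfl, pow_mul, pow_two, pow_two, hgv, blk_mul]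
      rw [blk_mul] at hg4
      obtain ⟨x1, x2, x3⟩ := hsc _ hg4 (hpow g 4 h)
      rcases isSc_cases (a := a) (b := b) (c := c) (d := d)
        (u := (a + d) * ((a + d) ^ 2 - 2 * (a * d - b * c))) (by linear_combination x1)
        (by linear_combination x2) (by linear_combination x3) with h0 | h0
      · rcases mul_eq_zero.mp h0 with h0 | h0
        · exact Or.inr (Or.inl (by rw [h0]; ring))
        · exact Or.inr (Or.inr (Or.inr (by linear_combination h0)))
      · exact Or.inl h0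
  all_goals
    exfalso
    obtain ⟨g, hgP, b, hbP, hgt, hbt, ⟨n, hn⟩, hne⟩ := hP.sq t htP ht2 ht1
    let g' : X := ⟨g, hmem.mpr ⟨hgP, hgt⟩⟩
    let b' : X := ⟨b, hmem.mpr ⟨hbP, hbt⟩⟩
    have hg' : g' ^ (2 ^ n) = 1 := Subtype.ext hn
    have hd2 : orderOf (img ρ g') ∣ 2 ^ n := orderOf_dvd_of_pow_eq_one (by
      rw [← SLThree.img_pow, hg']; exact (himg 1).mpr PlaneRep.isSc_one)
    have h2 : img ρ g' ^ 2 = 1 := by
      rcases hord g' with h | ⟨q, hq⟩
      · rw [h, one_pow]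
      · apply orderOf_dvd_iff_pow_eq_one.mp
        rcases SLThree.tri i j k q hij hik hjk with rfl | rfl | rfl
        · rw [hi] at hq; exact hq
        · rw [hj] at hq
          have h1 := Nat.dvd_gcd hd2 hq
          rw [Nat.Coprime.gcd_eq_one (Nat.Coprime.pow_left n (by norm_num)), Nat.dvd_one] at h1
          exact h1 ▸ one_dvd 2
        · rw [hk] at hq
          have h1 := Nat.dvd_gcd hd2 hq
          rw [Nat.Coprime.gcd_eq_one (Nat.Coprime.pow_left n (by norm_num)), Nat.dvd_one] at h1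
          exact h1 ▸ one_dvd 2
    obtain ⟨a₀, b₀, c₀, d₀, e₀, hgv⟩ := hblk (g' * g')
    obtain ⟨a₁, b₁, c₁, d₁, e₁, hbv⟩ := hblk b'
    obtain ⟨x1, x2, x3⟩ := hsc _ hgv (by rw [← pow_two]; exact hpow g' 2 h2)
    subst x1 x2 x3
    apply hne
    have hgv' : ((g * g : GL (Fin 3) F) : Matrix (Fin 3) (Fin 3) F) = blk a₀ 0 0 a₀ e₀ := hgv
    have hbv' : (b : Matrix (Fin 3) (Fin 3) F) = blk a₁ b₁ c₁ d₁ e₁ := hbv
    apply Units.ext
    rw [Units.val_mul, Units.val_mul (b : GL (Fin 3) F), hgv', hbv', blk_mul, blk_mul]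
    simp [mul_comm]

end CfsgLib.SLThreeResidual
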