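import Cfsg.Agent.Lib.SL2.Dickson.Classification
import Cfsg.Agent.Lib.SL2.Dickson.Generation

/-!
# Subgroups of `SL₂` generated by root groups: the invariants lie in a subfield

If a subgroup of `SL₂(F)` contains non-trivial lower transvections and exactly `n ≥ 4` upper ones,
then the products of the entries lie in the subfield with `n` elements.  For three upper
transvections there is the exception `λ ^ 2 = -1`.
-/

set_option autoImplicit false

open Matrix
open scoped MatrixGroups
open CfsgLib.ClassicalLinear (upS upS_coe upS_add)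
open CfsgLib.SL2.Dickson

namespace CfsgLib.SLThreeResidual

variable {F : Type*} [Field F]

local notation "SL₂F" => Matrix.SpecialLinearGroup (Fin 2) F

/-- The subfields of a finite field are determined by their cardinality. -/
lemma subfield_eq_of_card [Finite F] {K L : Subfield F} (h : Nat.card K = Nat.card L) : K = L := by
  classical
  haveI : Fintype F := Fintype.ofFinite F
  have key : ∀ M : Subfield F, ∀ x ∈ M, x ^ Nat.card M = x := fun M x hx => by
    haveI : Fintype M := Fintype.ofFinite M
    have h1 := FiniteField.pow_card (⟨x, hx⟩ : M)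
    rw [← Nat.card_eq_fintype_card] at h1
    simpa using congrArg Subtype.val h1
  have h1 : 1 < Nat.card K := Finite.one_lt_card
  set S : Finset F := (Polynomial.X ^ Nat.card K - Polynomial.X : Polynomial F).roots.toFinset
  have hne : (Polynomial.X ^ Nat.card K - Polynomial.X : Polynomial F) ≠ 0 :=
    FiniteField.X_pow_card_sub_X_ne_zero F h1
  have hS : S.card ≤ Nat.card K := by
    refine (Multiset.toFinset_card_le _).trans ((Polynomial.card_roots' _).trans ?_)
    rw [FiniteField.X_pow_card_sub_X_natDegree_eq F h1]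
  have hsub : ∀ M : Subfield F, Nat.card M = Nat.card K → (M : Set F) = (S : Set F) := by
    intro M hM
    refine Set.eq_of_subset_of_ncard_le (fun x hx => ?_) ?_
    · simp only [S, Finset.mem_coe, Multiset.mem_toFinset, Polynomial.mem_roots hne,
        Polynomial.IsRoot.def, Polynomial.eval_sub, Polynomial.eval_pow, Polynomial.eval_X]
      rw [sub_eq_zero, ← hM]
      exact key M x hx
    · rw [Set.ncard_coe_finset, ← Nat.card_coe_set_eq]
      exact hS.trans hM.ge
  exact SetLike.coe_injective ((hsub K rfl).trans (hsub L h.symm).symm)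

/-- An element of an additive subgroup of odd exponent is a multiple of its double. -/
lemma mem_of_two_mul_mem [Finite F] (h2 : (2 : F) ≠ 0) {A : AddSubgroup F} {x : F}
    (hx : 2 * x ∈ A) : x ∈ A := by
  obtain ⟨p, hp, hchar, -⟩ := CfsgLib.SL2.exists_charP (F := F)
  have hodd : Odd p := hp.odd_of_ne_two fun e => h2 (by
    have := CharP.cast_eq_zero F p; rw [e] at this; exact_mod_cast this)
  obtain ⟨m, hm⟩ := hodd
  have h := A.nsmul_mem hx (m + 1)
  have e : (m + 1) • (2 * x) = x := by
    have h0 : ((p : ℕ) : F) = 0 := CharP.cast_eq_zero F p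
    rw [hm] at h0
    push_cast at h0
    rw [nsmul_eq_mul]
    push_cast
    linear_combination x * h0
  rwa [e] at h

/-- Dickson: products of lower and upper entries lie in the subfield with as many elements as
there are upper transvections. -/
theorem exists_subfield_of_transl [Finite F] {G : Subgroup SL₂F} {s₀ : F} (hs₀ : s₀ ≠ 0)
    (hl : lowS s₀ ∈ G) (h4 : 4 ≤ Nat.card (transl G)) :
    ∃ R : Subfield F, Nat.card R = Nat.card (transl G) ∧
      ∀ s t : F, lowS s ∈ G → upS t ∈ G → s * t ∈ R := by
  classical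
  haveI : Fintype F := Fintype.ofFinite F
  set Z := Subgroup.center SL₂F with hZdef
  set G₁ := G ⊔ Z with hG₁
  have hGle : G ≤ G₁ := le_sup_left
  have hsq : ∀ y ∈ G₁, y ^ 2 ∈ G := by
    intro y hy
    obtain ⟨g, hg, z, hz, rfl⟩ := Subgroup.mem_sup_of_normal_right.1 hy
    have hz2 : z ^ 2 = 1 := by
      rcases (CfsgLib.SL2.mem_center_iff z).1 hz with e | e <;> rw [e] <;> simp
    rw [Commute.mul_pow (Subgroup.mem_center_iff.1 hz g), hz2, mul_one]
    exact pow_mem hg 2
  have htwoEq : (2 : F) = 0 → G₁ = G := fun h2 => by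
    refine le_antisymm (sup_le le_rfl fun z hz => ?_) hGle
    rcases (CfsgLib.SL2.mem_center_iff z).1 hz with rfl | rfl
    · exact one_mem G
    · have h1 : (-1 : SL₂F) = 1 := by
        have e : (-1 : F) = 1 := by linear_combination -h2
        apply Subtype.ext
        ext i j
        simp [Matrix.one_apply, apply_ite, e]
      rw [h1]; exact one_mem G
  have htr : transl G₁ = transl G := by
    refine le_antisymm (fun t ht => ?_) fun t ht => hGle ht
    by_cases h2 : (2 : F) = 0
    · rwa [mem_transl, htwoEq h2] at ht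
    · refine mem_of_two_mul_mem h2 (mem_transl.2 ?_)
      rw [two_mul, upS_add, ← sq]
      exact hsq _ ht
  obtain ⟨x₀, hx₀, hx₀0⟩ : ∃ x ∈ transl G₁, x ≠ 0 := by
    by_contra h
    push Not at h
    have : transl G₁ = ⊥ := (AddSubgroup.eq_bot_iff_forall _).2 h
    rw [htr] at this
    rw [this] at h4
    simp at h4
  rcases structure_modular (G := G₁) le_sup_right hx₀ hx₀0 with
    h | ⟨h, -⟩ | ⟨h, -⟩ | ⟨h, -⟩ | ⟨k, hk2, hkq, hr, hcard, hidx, d, hd, htd, -, hcd, hnd⟩
  · exfalso
    have := (h ▸ Subgroup.mem_top _ : (⟨lowS s₀, hGle hl⟩ : G₁) ∈ borelPart G₁)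
    rw [mem_borelPart] at this
    exact hs₀ (by simpa [lowS_coe] using this)
  · rw [htr] at h; omega
  · rw [htr] at h; omega
  · rw [htr] at h; omega
  obtain ⟨R, P, hR, hsub, -⟩ := structure_subfield (G := G₁) le_sup_right hk2 hkq hr hcard hidx hd htd hcd hnd
  choose θ hθG hθ using hsub
  have hcoe : ∀ g g' : SL(2, R), θ (g * g') = θ g * θ g' := fun g g' => Subtype.ext (by
    rw [Matrix.SpecialLinearGroup.coe_mul (θ g), hθ, hθ, hθ, Matrix.SpecialLinearGroup.coe_mul,
      Matrix.map_mul]
    simp only [Matrix.mul_assoc]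
    rw [← Matrix.mul_assoc ((P⁻¹ : GL (Fin 2) F) : Matrix (Fin 2) (Fin 2) F) (P : Matrix (Fin 2) (Fin 2) F),
      ← Units.val_mul, inv_mul_cancel, Units.val_one, Matrix.one_mul])
  let θ₁ : SL(2, R) →* G₁ := MonoidHom.mk' (fun g => ⟨θ g, hθG g⟩) fun g g' => Subtype.ext (hcoe g g')
  have hinj : Function.Injective θ₁ := by
    intro g g' h
    have h1 := congrArg (fun z : G₁ => ((z : SL₂F) : Matrix (Fin 2) (Fin 2) F)) h
    simp only [θ₁, MonoidHom.mk'_apply, hθ] at h1
    rw [(P⁻¹).isUnit.mul_left_inj, P.isUnit.mul_right_inj] at h1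
    exact Subtype.ext (Matrix.map_injective Subtype.val_injective h1)
  set S := θ₁.range with hS
  have hScard : Nat.card S = Nat.card R * (Nat.card R ^ 2 - 1) := by
    rw [hS, ← Nat.card_congr (MonoidHom.ofInjective hinj).toEquiv, CfsgLib.SL2.card_SL]
  set n := Nat.card (transl G₁) with hn
  have hn4 : 4 ≤ n := by rw [hn, htr]; exact h4
  have hfac : n ^ 2 - 1 = (n - 1) * (n + 1) := by
    rw [show n ^ 2 - 1 = n ^ 2 - 1 ^ 2 from rfl, Nat.sq_sub_sq, mul_comm]
  have hidx2 : S.index ≤ 2 := by
    have hmul := S.card_mul_index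
    rw [hScard, hR, hcard, hfac] at hmul
    have hZ2 : Nat.card (Subgroup.center SL₂F) ≤ 2 := by
      by_cases h2 : (2 : F) = 0
      · have : Subgroup.center SL₂F = ⊥ := (Subgroup.eq_bot_iff_forall _).2 fun z hz => by
          rcases (CfsgLib.SL2.mem_center_iff z).1 hz with rfl | rfl
          · rfl
          · apply Subtype.ext
            have e : (-1 : F) = 1 := by linear_combination -h2
            ext i j
            simp [Matrix.one_apply, apply_ite, e]
        rw [this]; simp
      · rw [CfsgLib.SL2.center_card_of_odd h2]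
    have hk : k ≤ n - 1 := by rcases hkq with e | e <;> omega
    have h1 : n * (n + 1) * ((n - 1) * S.index) ≤ n * (n + 1) * (2 * (n - 1)) := by
      calc n * (n + 1) * ((n - 1) * S.index) = n * ((n - 1) * (n + 1)) * S.index := by ring
        _ = Nat.card (Subgroup.center SL₂F) * (n * k * (n + 1)) := hmul
        _ ≤ 2 * (n * (n - 1) * (n + 1)) := by gcongr
        _ = _ := by ring
    have h2' := Nat.le_of_mul_le_mul_left h1 (by positivity)
    rw [mul_comm 2] at h2'
    exact Nat.le_of_mul_le_mul_left h2' (by omega)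
  have hsqS : ∀ g : G₁, g * g ∈ S := by
    intro g
    have h0 : S.index ≠ 0 := Subgroup.FiniteIndex.index_ne_zero
    rcases (by omega : S.index = 1 ∨ S.index = 2) with h | h
    · rw [Subgroup.index_eq_one.1 h]; exact Subgroup.mem_top _
    · exact Subgroup.mul_self_mem_of_index_two h g
  have htwoS : (2 : F) = 0 → S = ⊤ := by
    intro h2
    refine Subgroup.eq_top_of_card_eq _ ?_
    have hZ1 : Nat.card (Subgroup.center SL₂F) = 1 := by
      rw [Subgroup.card_eq_one, Subgroup.eq_bot_iff_forall]
      intro z hz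
      rcases (CfsgLib.SL2.mem_center_iff z).1 hz with rfl | rfl
      · rfl
      · apply Subtype.ext
        have e : (-1 : F) = 1 := by linear_combination -h2
        ext i j
        simp [Matrix.one_apply, apply_ite, e]
    have heven : 2 ∣ n := by
      haveI : Fact (Nat.Prime 2) := ⟨Nat.prime_two⟩
      have hord : addOrderOf (⟨x₀, hx₀⟩ : transl G₁) = 2 := addOrderOf_eq_prime
        (Subtype.ext (by rw [two_nsmul, AddSubgroup.coe_add, ← two_mul, h2, zero_mul]; rfl))
        fun h => hx₀0 (congrArg Subtype.val h)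
      exact hord ▸ addOrderOf_dvd_natCard _
    have hk : k = n - 1 := hkq.resolve_right fun e => by omega
    rw [hScard, hR, hcard, hfac, hZ1, hk]
    ring
  have hlowS : ∀ s, lowS s ∈ G → ∃ h : lowS s ∈ G₁, (⟨lowS s, h⟩ : G₁) ∈ S := by
    intro s hs
    refine ⟨hGle hs, ?_⟩
    by_cases h2 : (2 : F) = 0
    · rw [htwoS h2]; exact Subgroup.mem_top _
    · obtain ⟨p, hp, hchar, -⟩ := CfsgLib.SL2.exists_charP (F := F)
      obtain ⟨m, hm⟩ : Odd p := hp.odd_of_ne_two fun e => h2 (by
        have := CharP.cast_eq_zero F p; rw [e] at this; exact_mod_cast this)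
      have hz : ((p : ℕ) : F) = 0 := CharP.cast_eq_zero F p
      rw [hm] at hz
      push_cast at hz
      have e : (⟨lowS s, hGle hs⟩ : G₁) =
          (⟨lowS s, hGle hs⟩ * ⟨lowS s, hGle hs⟩) ^ (m + 1) := by
        refine Subtype.ext ?_
        rw [SubmonoidClass.coe_pow, Subgroup.coe_mul, ← lowS_add, ← lowS_nsmul]
        show lowS s = lowS _
        congr 1
        push_cast
        linear_combination -s * hz
      rw [e]
      exact pow_mem (hsqS _) _
  have hupS : ∀ t, upS t ∈ G → ∃ h : upS t ∈ G₁, (⟨upS t, h⟩ : G₁) ∈ S := by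
    intro t ht
    refine ⟨hGle ht, ?_⟩
    by_cases h2 : (2 : F) = 0
    · rw [htwoS h2]; exact Subgroup.mem_top _
    · have hmem : t / 2 ∈ transl G₁ := mem_of_two_mul_mem h2 (by
        rw [mul_div_cancel₀ t h2]; exact hGle ht)
      have e : (⟨upS t, hGle ht⟩ : G₁) = ⟨upS (t / 2), hmem⟩ * ⟨upS (t / 2), hmem⟩ := by
        refine Subtype.ext ?_
        haveI : NeZero (2 : F) := ⟨h2⟩
        rw [Subgroup.coe_mul, ← upS_add, add_halves]
      rw [e]
      exact hsqS _
  refine ⟨R, by rw [hR, hn, htr], fun s t hs ht => ?_⟩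
  obtain ⟨h1, hs'⟩ := hlowS s hs
  obtain ⟨h2, ht'⟩ := hupS t ht
  obtain ⟨g, hg⟩ := mul_mem hs' ht'
  have htrace : (θ g : Matrix (Fin 2) (Fin 2) F).trace ∈ R := by
    rw [hθ, Matrix.trace_mul_cycle, ← Units.val_mul, inv_mul_cancel, Units.val_one, Matrix.one_mul]
    simp only [Matrix.trace, Matrix.diag, Matrix.map_apply]
    exact sum_mem fun i _ => ((g : Matrix (Fin 2) (Fin 2) R) i i).2
  have e : θ g = lowS s * upS t := congrArg Subtype.val hg
  rw [e] at htrace
  have e2 : ((lowS s * upS t : SL₂F) : Matrix (Fin 2) (Fin 2) F).trace = 2 + s * t := by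
    simp [Matrix.trace_fin_two, lowS_coe, upS_coe, Matrix.mul_apply, Fin.sum_univ_two]
    ring
  rw [e2] at htrace
  have h2R : (2 : F) ∈ R := by
    rw [← one_add_one_eq_two]; exact add_mem (one_mem R) (one_mem R)
  simpa using sub_mem htrace h2R

/-- Three upper transvections: the invariant is in the prime field or squares to `-1`. -/
theorem mem_or_sq_eq_neg_one [Finite F] {G : Subgroup SL₂F} (h3 : (3 : F) = 0) {K : Subfield F}
    (hK : Nat.card K = 3) {lam : F} (hlam : lam ≠ 0) (hl : lowS 1 ∈ G) (hu : upS lam ∈ G)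
    (hle : Nat.card (transl G) ≤ 3) : lam ∈ K ∨ lam ^ 2 = -1 := by
  classical
  set R : Subfield F := Subfield.closure {lam} with hRdef
  have hlR : lam ∈ R := Subfield.subset_closure rfl
  let f : SL(2, R) →* SL₂F := Matrix.SpecialLinearGroup.map R.subtype
  have hfup : ∀ x : R, f (upS x) = upS (x : F) := fun x => Subtype.ext (by
    ext i j
    fin_cases i <;> fin_cases j <;> simp [f, upS_coe])
  have hflow : f (lowS 1) = lowS 1 := Subtype.ext (by
    ext i j
    fin_cases i <;> fin_cases j <;> simp [f, lowS_coe])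
  have hgen : Subfield.closure ({(⟨lam, hlR⟩ : R)} : Set R) = ⊤ := by
    rw [eq_top_iff]
    intro x _
    have hx : (x : F) ∈ (Subfield.closure ({(⟨lam, hlR⟩ : R)} : Set R)).map R.subtype := by
      refine Subfield.closure_le.2 ?_ x.2
      intro y hy
      exact ⟨⟨lam, hlR⟩, Subfield.subset_closure rfl, (Set.mem_singleton_iff.1 hy).symm⟩
    obtain ⟨y, hy, hyx⟩ := hx
    rwa [← Subtype.ext (hyx : (y : F) = x)]
  have h3' : (3 : R) = 0 := by
    apply Subtype.ext
    push_cast
    exact h3
  have h2' : (2 : R) ≠ 0 := fun h => one_ne_zero (α := R) (by linear_combination h3' - h)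
  rcases generation h2' (lam := (⟨lam, hlR⟩ : R)) (fun h => hlam (congrArg Subtype.val h)) hgen
      (G := G.comap f) (by rw [Subgroup.mem_comap, hflow]; exact hl)
      (by rw [Subgroup.mem_comap, hfup]; exact hu) with h | ⟨-, h, -⟩
  · left
    have hle' : Nat.card R ≤ 3 := by
      refine le_trans (Nat.card_le_card_of_injective
        (fun x : R => (⟨(x : F), ?_⟩ : transl G)) fun x y hxy => Subtype.ext (congrArg Subtype.val hxy :)) hle
      rw [mem_transl, ← hfup, ← Subgroup.mem_comap, h]
      exact Subgroup.mem_top _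
    have h1 : 1 < Nat.card R := Finite.one_lt_card
    have hord : addOrderOf (1 : R) = 3 := by
      haveI : Fact (Nat.Prime 3) := ⟨Nat.prime_three⟩
      exact addOrderOf_eq_prime (by rw [nsmul_eq_mul, mul_one]; exact_mod_cast h3') one_ne_zero
    have hdvd : 3 ∣ Nat.card R := hord ▸ addOrderOf_dvd_natCard (1 : R)
    have hR3 : Nat.card R = 3 := by omega
    rw [subfield_eq_of_card (hK.trans hR3.symm)]
    exact hlR
  · right
    have := congrArg Subtype.val h
    simpa using this

end CfsgLib.SLThreeResidual
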