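import Cfsg.Agent.Lib.SLThreeResidual.Basic
import Cfsg.Agent.Lib.SLThreeResidual.RootDickson
import Cfsg.Agent.Lib.Geometric.SLThree.IrredTv

/-!
# Maximal root groups

The largest transvection groups with given centre and axis of a residual group are lines over one
subfield `K`; after scaling, the invariant of two roots lies in `K` or squares to `-1`.
-/

set_option autoImplicit false
set_option linter.unusedSectionVars false

namespace CfsgLib.SLThreeResidual

open Cfsg.Geo Matrix CfsgLib.Geometric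
open CfsgLib.Geometric.SLThree.IrredTv (Mem)
open CfsgLib.ClassicalLinear (upS upS_coe)
open CfsgLib.SL2.Dickson (lowS lowS_coe transl mem_transl)
open scoped MatrixGroups

variable {F : Type*} [Field F] {P : Subgroup (GL (Fin 3) F)}

local notation "V₃" => Fin 3 → F
local notation "D₃" => (Fin 3 → F) →ₗ[F] F

lemma mem_neg {v : V₃} {φ : D₃} (h : Mem P v φ) : Mem P v (-φ) := by
  refine ⟨by simp [h.1], ?_⟩
  have := inv_mem h.2
  rwa [tv_inv] at this

lemma mem_smul_centre_iff {a : F} (ha : a ≠ 0) {v : V₃} {φ : D₃} :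
    Mem P (a • v) φ ↔ Mem P v (a • φ) := by
  constructor
  · intro h
    have hv : φ v = 0 := by simpa [ha] using h.1
    exact h.congr (by simp [hv]) fun z => by simp [smul_smul, mul_comm]
  · intro h
    have hv : φ v = 0 := by simpa [ha] using h.1
    exact h.congr (by simp [hv]) fun z => by simp [smul_smul, mul_comm]

/-- The commutator of two transvections, one centre on the other axis. -/
lemma mem_comm {v w : V₃} {φ ψ : D₃} (h1 : Mem P v φ) (h2 : Mem P w ψ) (h : φ w = 0) :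
    Mem P w (ψ v • φ) := by
  have h3 : Mem P w ((-ψ v) • φ) := ⟨_, SLThree.tv_comm_mem h1.2 h2.2 h⟩
  have e : ψ v • φ = -((-ψ v) • φ) := LinearMap.ext fun z => by simp
  rw [e]
  exact mem_neg h3

/-- The coefficients `c` with the transvection `(v, c φ)` in `P`. -/
def lamGrp (P : Subgroup (GL (Fin 3) F)) (v : V₃) (φ : D₃) : AddSubgroup F where
  carrier := {c | Mem P v (c • φ)}
  zero_mem' := by
    show Mem P v ((0 : F) • φ)
    rw [zero_smul]; exact SLThree.IrredTv.mem_zero_axis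
  add_mem' {a b} ha hb := by
    show Mem P v ((a + b) • φ)
    rw [add_smul]; exact Mem.add_axis ha hb
  neg_mem' {a} ha := by
    show Mem P v ((-a) • φ)
    have e : (-a) • φ = -(a • φ) := LinearMap.ext fun z => by simp
    rw [e]
    exact mem_neg ha

lemma mem_lamGrp {v : V₃} {φ : D₃} {c : F} : c ∈ lamGrp P v φ ↔ Mem P v (c • φ) := Iff.rfl

lemma mem_lamGrp_smul {v : V₃} {φ : D₃} {a c : F} :
    c ∈ lamGrp P v (a • φ) ↔ c * a ∈ lamGrp P v φ := by
  rw [mem_lamGrp, mem_lamGrp, smul_smul]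

lemma comp_ne_zero {g : GL (Fin 3) F} {φ : D₃} (hφ : φ ≠ 0) :
    φ.comp (apEquiv g⁻¹).toLinearMap ≠ 0 := fun e => hφ (LinearMap.ext fun z => by
  have := LinearMap.congr_fun e (ap g z)
  simpa [ap_inv_ap] using this)

lemma lamGrp_conj {g : GL (Fin 3) F} (hg : g ∈ P) (v : V₃) (φ : D₃) :
    lamGrp P (ap g v) (φ.comp (apEquiv g⁻¹).toLinearMap) = lamGrp P v φ := by
  ext c
  rw [mem_lamGrp, mem_lamGrp, ← LinearMap.smul_comp]
  refine ⟨fun h => ?_, fun h => h.conj hg⟩
  have h' := h.conj (inv_mem hg)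
  refine h'.congr ?_ fun z => ?_
  · have := h.1
    simpa [ap_inv_ap] using this
  · simp [ap_inv_ap, ap_ap_inv]

lemma Core.irreducible (hC : Core P) {W : Submodule F V₃}
    (h : ∀ g ∈ P, ∀ w ∈ W, ap g w ∈ W) : W = ⊥ ∨ W = ⊤ := by
  refine hC.absIrred.1 W ?_
  rintro _ ⟨g, hg, rfl⟩ _ ⟨w, hw, rfl⟩
  simpa [Matrix.toLin'_apply, ap_def] using h g hg w hw

/-- The centres of a conjugation-invariant non-empty set of roots span. -/
lemma span_centres (hC : Core P) {R : V₃ → D₃ → Prop} (hne : ∃ v φ, v ≠ 0 ∧ R v φ)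
    (hconj : ∀ g ∈ P, ∀ v φ, R v φ → R (ap g v) (φ.comp (apEquiv g⁻¹).toLinearMap)) :
    Submodule.span F {v | ∃ φ, R v φ} = ⊤ := by
  obtain ⟨v, φ, hv, hvφ⟩ := hne
  refine (hC.irreducible fun g hg w hw => ?_).resolve_left fun e => hv ?_
  · induction hw using Submodule.span_induction with
    | mem u hu =>
      obtain ⟨χ, hu⟩ := hu
      exact Submodule.subset_span ⟨_, hconj g hg u χ hu⟩
    | zero => rw [ap_zero]; exact zero_mem _
    | add u u' _ _ hu hu' => rw [ap_add]; exact add_mem hu hu'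
    | smul c u _ hu => rw [ap_smul]; exact Submodule.smul_mem _ c hu
  · exact (Submodule.eq_bot_iff _).1 e _ (Submodule.subset_span ⟨φ, hvφ⟩)

/-- The axes of a conjugation-invariant non-empty set of roots meet trivially. -/
lemma exists_axis (hC : Core P) {R : V₃ → D₃ → Prop} (hne : ∃ v φ, φ ≠ 0 ∧ R v φ)
    (hconj : ∀ g ∈ P, ∀ v φ, R v φ → R (ap g v) (φ.comp (apEquiv g⁻¹).toLinearMap))
    {x : V₃} (hx : x ≠ 0) : ∃ v φ, R v φ ∧ φ x ≠ 0 := by
  obtain ⟨v, φ, hφ, hvφ⟩ := hne
  by_contra hno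
  push Not at hno
  let W : Submodule F V₃ :=
    { carrier := {y | ∀ u χ, R u χ → χ y = 0}
      zero_mem' := fun u χ _ => map_zero χ
      add_mem' := fun ha hb u χ h => by rw [map_add, ha u χ h, hb u χ h, add_zero]
      smul_mem' := fun c a ha u χ h => by rw [map_smul, ha u χ h, smul_zero] }
  have hW : ∀ y, y ∈ W ↔ ∀ u χ, R u χ → χ y = 0 := fun y => Iff.rfl
  rcases hC.irreducible (W := W) (fun g hg w hw => (hW _).2 fun u χ h => by
    have := (hW w).1 hw _ _ (hconj g⁻¹ (inv_mem hg) u χ h)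
    simpa using this) with h | h
  · exact hx ((Submodule.eq_bot_iff _).1 h x ((hW x).2 hno))
  · exact hφ (LinearMap.ext fun y => (hW y).1 (h ▸ Submodule.mem_top) v φ hvφ)

/-- Two roots in general position generate a subgroup of `SL₂` on the line through their centres. -/
lemma exists_sl2 [Finite F] {v w : V₃} {φ ψ : D₃} (hv : φ v = 0) (hw : ψ w = 0) (hb : φ w ≠ 0)
    (ha : ψ v ≠ 0) :
    ∃ G : Subgroup SL(2, F), (∀ c, c ∈ lamGrp P v φ → upS (c * φ w) ∈ G) ∧
      (∀ c, c ∈ lamGrp P w ψ → lowS (c * ψ v) ∈ G) ∧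
      Nat.card (transl G) = Nat.card (lamGrp P v φ) := by
  obtain ⟨z, hz0, hzφ, hzψ⟩ : ∃ z : V₃, z ≠ 0 ∧ φ z = 0 ∧ ψ z = 0 := by
    have h := (φ.prod ψ).finrank_range_add_finrank_ker
    have hle : Module.finrank F (LinearMap.range (φ.prod ψ)) ≤ 2 := by
      refine (Submodule.finrank_le _).trans ?_
      rw [Module.finrank_prod, Module.finrank_self]
    rw [Module.finrank_pi, Fintype.card_fin] at h
    obtain ⟨u, hu, hu0⟩ := Submodule.exists_mem_ne_zero_of_ne_bot
      (p := LinearMap.ker (φ.prod ψ)) (fun e => by rw [e, finrank_bot] at h; omega)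
    rw [LinearMap.mem_ker, LinearMap.prod_apply] at hu
    exact ⟨u, hu0, congrArg Prod.fst hu, congrArg Prod.snd hu⟩
  have hli : LinearIndependent F ![v, w, z] := by
    rw [Fintype.linearIndependent_iff]
    intro g hg
    rw [Fin.sum_univ_three] at hg
    simp only [Matrix.cons_val_zero, Matrix.cons_val_one, Matrix.cons_val_two, Matrix.head_cons,
      Matrix.tail_cons] at hg
    have h1 := congrArg φ hg
    have h2 := congrArg ψ hg
    simp only [map_add, map_smul, map_zero, smul_eq_mul, hv, hw, hzφ, hzψ, mul_zero, zero_add,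
      add_zero, mul_eq_zero, hb, ha, or_false] at h1 h2
    rw [h1, h2, zero_smul, zero_smul, zero_add, zero_add, smul_eq_zero] at hg
    intro i
    fin_cases i
    · exact h2
    · exact h1
    · exact hg.resolve_right hz0
  have hspan : Submodule.span F (Set.range ![v, w, z]) = ⊤ :=
    hli.span_eq_top_of_card_eq_finrank (by simp)
  let Lift : SL(2, F) → GL (Fin 3) F → Prop := fun s h =>
    ap h z = z ∧ ap h v = s.1 0 0 • v + s.1 1 0 • w ∧ ap h w = s.1 0 1 • v + s.1 1 1 • w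
  let S : Submonoid SL(2, F) :=
    { carrier := {s | ∃ h ∈ P, Lift s h}
      one_mem' := ⟨1, one_mem P, by simp, by simp, by simp⟩
      mul_mem' := by
        rintro s t ⟨g, hg, g1, g2, g3⟩ ⟨h, hh, h1, h2, h3⟩
        refine ⟨g * h, mul_mem hg hh, by rw [ap_mul, h1, g1], ?_, ?_⟩
        · rw [ap_mul, h2, ap_add, ap_smul, ap_smul, g2, g3]
          simp only [Matrix.SpecialLinearGroup.coe_mul, Matrix.mul_apply, Fin.sum_univ_two]
          module
        · rw [ap_mul, h3, ap_add, ap_smul, ap_smul, g2, g3]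
          simp only [Matrix.SpecialLinearGroup.coe_mul, Matrix.mul_apply, Fin.sum_univ_two]
          module }
  let G : Subgroup SL(2, F) :=
    { S with
      inv_mem' := fun {s} hs => by
        have e : s⁻¹ = s ^ (orderOf s - 1) := by
          refine inv_eq_of_mul_eq_one_right ?_
          rw [← pow_succ', Nat.sub_add_cancel (orderOf_pos s), pow_orderOf_eq_one]
        show s⁻¹ ∈ S
        rw [e]
        exact S.pow_mem hs _ }
  have hup : ∀ c, c ∈ lamGrp P v φ → upS (c * φ w) ∈ G := fun c hc =>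
    ⟨_, hc.2, by simp [hzφ], by simp [hv, upS_coe], by simp [upS_coe, add_comm]⟩
  refine ⟨G, hup, fun c hc => ⟨_, hc.2, by simp [hzψ], by simp [lowS_coe], by simp [hw, lowS_coe]⟩, ?_⟩
  refine (Nat.card_eq_of_bijective (fun c : lamGrp P v φ => (⟨c * φ w, hup c c.2⟩ : transl G))
    ⟨fun c d h => Subtype.ext (mul_right_cancel₀ hb (congrArg Subtype.val h :)), fun t => ?_⟩).symm
  obtain ⟨h, hh, h1, h2, h3⟩ := (t.2 : upS (t : F) ∈ G)
  simp only [upS_coe, Matrix.of_apply, Matrix.cons_val', Matrix.cons_val_zero, Matrix.cons_val_one,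
    Matrix.cons_val_fin_one, one_smul, zero_smul, add_zero] at h2 h3
  have hv' : (((t : F) / φ w) • φ) v = 0 := by simp [hv]
  have e : h = tv v (((t : F) / φ w) • φ) hv' := by
    refine gl_ext fun x => ?_
    have := LinearMap.ext_on (f := (apEquiv h).toLinearMap)
      (g := (apEquiv (tv v (((t : F) / φ w) • φ) hv')).toLinearMap) hspan (by
        rintro _ ⟨i, rfl⟩
        fin_cases i
        · simp [h2, hv]
        · simp [h3, div_mul_cancel₀ _ hb, add_comm]
        · simp [h1, hzφ])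
    exact LinearMap.congr_fun this x
  refine ⟨⟨(t : F) / φ w, mem_lamGrp.2 ⟨hv', e ▸ hh⟩⟩, Subtype.ext ?_⟩
  exact div_mul_cancel₀ _ hb

/-! ### The field -/

/-- A root whose group has at least `n` elements. -/
structure Big (P : Subgroup (GL (Fin 3) F)) (n : ℕ) (v : V₃) (φ : D₃) : Prop where
  centre : v ≠ 0
  axis : φ ≠ 0
  inc : φ v = 0
  card : n ≤ Nat.card (lamGrp P v φ)

/-- A maximal size `n ≥ 3` of root groups. -/
structure MaxCtx (P : Subgroup (GL (Fin 3) F)) (n : ℕ) : Prop where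
  core : Core P
  three_le : 3 ≤ n
  max : ∀ (v : V₃) (φ : D₃), v ≠ 0 → φ ≠ 0 → φ v = 0 → Nat.card (lamGrp P v φ) ≤ n
  nonempty : ∃ v φ, Big P n v φ

lemma Big.conj {n : ℕ} {v : V₃} {φ : D₃} (h : Big P n v φ) {g : GL (Fin 3) F} (hg : g ∈ P) :
    Big P n (ap g v) (φ.comp (apEquiv g⁻¹).toLinearMap) :=
  ⟨ap_ne_zero g h.centre, comp_ne_zero h.axis, by simp [ap_inv_ap, h.inc],
    by rw [lamGrp_conj hg]; exact h.card⟩

/-- An additive subgroup with enough multipliers is a line over a subfield. -/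
lemma line_of_multipliers [Finite F] (A : AddSubgroup F) {x₀ : F} (hx₀ : x₀ ∈ A) (hx₀' : x₀ ≠ 0)
    (B : Set F) (hB : Nat.card A ≤ Nat.card B) (h : ∀ b ∈ B, ∀ x ∈ A, b * x ∈ A) :
    ∃ K : Subfield F, Nat.card K = Nat.card A ∧ ∀ x ∈ A, x₀⁻¹ * x ∈ K := by
  let K : Subfield F :=
    { carrier := {z | ∀ x ∈ A, z * x ∈ A}
      mul_mem' := fun {a b} ha hb x hx => by rw [mul_assoc]; exact ha _ (hb x hx)
      one_mem' := fun x hx => by rwa [one_mul]
      add_mem' := fun {a b} ha hb x hx => by rw [add_mul]; exact A.add_mem (ha x hx) (hb x hx)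
      zero_mem' := fun x _ => by rw [zero_mul]; exact A.zero_mem
      neg_mem' := fun {a} ha x hx => by rw [neg_mul]; exact A.neg_mem (ha x hx)
      inv_mem' := fun z hz x hx => by
        by_cases hz0 : z = 0
        · rw [hz0, _root_.inv_zero, zero_mul]; exact A.zero_mem
        let f : A → A := fun y => ⟨z * y, hz y y.2⟩
        obtain ⟨y, hy⟩ := Finite.injective_iff_surjective.1
          (fun y y' e => Subtype.ext (mul_left_cancel₀ hz0 (congrArg Subtype.val e :)) :
            Function.Injective f) ⟨x, hx⟩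
        have e : z * (y : F) = x := congrArg Subtype.val hy
        rw [← e, inv_mul_cancel_left₀ hz0]
        exact y.2 }
  let ev : K → A := fun z => ⟨z * x₀, z.2 x₀ hx₀⟩
  have hev : Function.Injective ev := fun z z' e =>
    Subtype.ext (mul_right_cancel₀ hx₀' (congrArg Subtype.val e :))
  have hge : Nat.card A ≤ Nat.card K := hB.trans
    (Nat.card_le_card_of_injective (fun b : B => (⟨b, fun x hx => h b b.2 x hx⟩ : K))
      fun b b' e => Subtype.ext (congrArg Subtype.val e :))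
  have hcard : Nat.card K = Nat.card A := le_antisymm (Nat.card_le_card_of_injective ev hev) hge
  refine ⟨K, hcard, fun x hx => ?_⟩
  obtain ⟨z, hz⟩ := ((Nat.bijective_iff_injective_and_card ev).2 ⟨hev, hcard⟩).2 ⟨x, hx⟩
  have e : (z : F) * x₀ = x := congrArg Subtype.val hz
  rw [← e, mul_comm, mul_assoc, mul_inv_cancel₀ hx₀', mul_one]
  exact z.2

lemma MaxCtx.field_of_big [Finite F] {n : ℕ} (C : MaxCtx P n) {v : V₃} {φ : D₃}
    (hr : Big P n v φ) :
    ∃ K : Subfield F, Nat.card K = n ∧ ∃ c : F, c ≠ 0 ∧ ∀ x, x ∈ lamGrp P v φ ↔ c * x ∈ K := by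
  have hcA : Nat.card (lamGrp P v φ) = n :=
    le_antisymm (C.max v φ hr.centre hr.axis hr.inc) hr.card
  suffices ∃ K : Subfield F, Nat.card K = n ∧ ∃ c : F, c ≠ 0 ∧
      ∀ x ∈ lamGrp P v φ, c * x ∈ K by
    obtain ⟨K, hK, c, hc, h⟩ := this
    refine ⟨K, hK, c, hc, fun x => ⟨h x, fun hx => ?_⟩⟩
    let f : lamGrp P v φ → K := fun y => ⟨c * y, h y y.2⟩
    obtain ⟨y, hy⟩ := ((Nat.bijective_iff_injective_and_card f).2
      ⟨fun y y' e => Subtype.ext (mul_left_cancel₀ hc (congrArg Subtype.val e :)),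
        hcA.trans hK.symm⟩).2 ⟨c * x, hx⟩
    rw [← mul_left_cancel₀ hc (congrArg Subtype.val hy :)]
    exact y.2
  haveI : Nontrivial (lamGrp P v φ) := Finite.one_lt_card_iff_nontrivial.1 (by
    have := C.three_le; omega)
  obtain ⟨⟨x₀, hx₀⟩, hne⟩ := exists_ne (0 : lamGrp P v φ)
  have hx₀' : x₀ ≠ 0 := fun e => hne (Subtype.ext e)
  obtain ⟨w₁, ψ₁, hs₁, hw₁⟩ := exists_axis C.core (R := Big P n)
    (by obtain ⟨u, χ, h⟩ := C.nonempty; exact ⟨u, χ, h.axis, h⟩)
    (fun g hg _ _ h => h.conj hg) hr.centre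
  have hcB : Nat.card (lamGrp P w₁ ψ₁) = n :=
    le_antisymm (C.max w₁ ψ₁ hs₁.centre hs₁.axis hs₁.inc) hs₁.card
  haveI : Nontrivial (lamGrp P w₁ ψ₁) := Finite.one_lt_card_iff_nontrivial.1 (by
    have := C.three_le; omega)
  obtain ⟨⟨y₀, hy₀⟩, hne'⟩ := exists_ne (0 : lamGrp P w₁ ψ₁)
  have hy₀' : y₀ ≠ 0 := fun e => hne' (Subtype.ext e)
  set a := ψ₁ v with ha
  by_cases hb : φ w₁ = 0
  · -- an incidence: the commutator group
    set A := lamGrp P w₁ φ with hA
    have hcomm : ∀ x ∈ lamGrp P v φ, ∀ y ∈ lamGrp P w₁ ψ₁, x * y * a ∈ A := fun x hx y hy => by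
      have h := mem_comm hx hy (by simp [hb])
      rw [LinearMap.smul_apply, smul_eq_mul, smul_smul] at h
      rw [hA, mem_lamGrp, show x * y * a = y * a * x by ring]
      exact h
    have hcC : Nat.card A = n := by
      refine le_antisymm (C.max w₁ φ hs₁.centre hr.axis hb) ?_
      rw [← hcA]
      exact Nat.card_le_card_of_injective (fun x : lamGrp P v φ => (⟨_, hcomm x x.2 y₀ hy₀⟩ : A))
        fun x x' e => Subtype.ext (mul_right_cancel₀ hy₀' (mul_right_cancel₀ hw₁ (congrArg Subtype.val e :)))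
    have heq : ∀ x, x ∈ A → ∃ x' ∈ lamGrp P v φ, x' * y₀ * a = x := fun x hx => by
      obtain ⟨x', e⟩ := ((Nat.bijective_iff_injective_and_card
        (fun x : lamGrp P v φ => (⟨_, hcomm x x.2 y₀ hy₀⟩ : A))).2
          ⟨fun x x' e => Subtype.ext (mul_right_cancel₀ hy₀' (mul_right_cancel₀ hw₁
            (congrArg Subtype.val e :))), hcA.trans hcC.symm⟩).2 ⟨x, hx⟩
      exact ⟨x', x'.2, congrArg Subtype.val e⟩
    obtain ⟨K, hK, hline⟩ := line_of_multipliers (lamGrp P v φ) hx₀ hx₀'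
      ((· / y₀) '' (lamGrp P w₁ ψ₁ : Set F)) (by
        rw [Nat.card_coe_set_eq, Set.ncard_image_of_injective _
          (fun s t e => (div_left_inj' hy₀').1 e), ← Nat.card_coe_set_eq, hcA]
        exact hcB.ge) (by
        rintro _ ⟨y, hy, rfl⟩ x hx
        obtain ⟨x', hx', e⟩ := heq _ (hcomm x hx y hy)
        have e2 : x' * y₀ = x * y := mul_right_cancel₀ hw₁ e
        rw [show y / y₀ * x = x' by
          rw [div_mul_eq_mul_div, div_eq_iff hy₀', e2, mul_comm]]
        exact hx')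
    exact ⟨K, hK.trans hcA, x₀⁻¹, inv_ne_zero hx₀', hline⟩
  rcases lt_or_ge n 4 with hn | hn
  · -- three elements: a line over the prime field
    have hn3 : n = 3 := by have := C.three_le; omega
    obtain ⟨K, hK, hline⟩ := line_of_multipliers (lamGrp P v φ) hx₀ hx₀' ({0, 1, -1} : Set F) (by
      have h3 : (3 : F) = 0 := by
        have h := card_nsmul_eq_zero' (x := (⟨x₀, hx₀⟩ : lamGrp P v φ))
        rw [hcA, hn3] at h
        have h' : (3 : F) * x₀ = 0 := by
          have := congrArg Subtype.val h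
          rwa [AddSubgroup.coe_nsmul, nsmul_eq_mul, Nat.cast_ofNat, ZeroMemClass.coe_zero] at this
        exact (mul_eq_zero.1 h').resolve_right hx₀'
      rw [hcA, hn3, Nat.card_coe_set_eq, Set.ncard_eq_three.2 ⟨0, 1, -1, zero_ne_one, ?_, ?_, rfl⟩]
      · simp
      · intro e; exact one_ne_zero (α := F) (by linear_combination h3 - e)) (by
      rintro b (rfl | rfl | rfl) x hx
      · rw [zero_mul]; exact zero_mem _
      · rwa [one_mul]
      · rw [neg_one_mul]; exact neg_mem hx)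
    exact ⟨K, hK.trans hcA, x₀⁻¹, inv_ne_zero hx₀', hline⟩
  · -- two roots in general position
    obtain ⟨G, hu, hl, hcard⟩ := exists_sl2 (P := P) hr.inc hs₁.inc hb hw₁
    rw [hcA] at hcard
    obtain ⟨R, hR, hprod⟩ := exists_subfield_of_transl (mul_ne_zero hy₀' hw₁) (hl _ hy₀)
      (by rw [hcard]; exact hn)
    refine ⟨R, hR.trans hcard, y₀ * a * φ w₁, mul_ne_zero (mul_ne_zero hy₀' hw₁) hb, fun x hx => ?_⟩
    rw [show y₀ * a * φ w₁ * x = y₀ * a * (x * φ w₁) by ring]
    exact hprod _ _ (hl _ hy₀) (hu x hx)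

/-! ### Normalised roots -/

/-- A root with group exactly the `K`-multiples. -/
structure IsRoot (P : Subgroup (GL (Fin 3) F)) (K : Subfield F) (v : V₃) (φ : D₃) : Prop where
  centre : v ≠ 0
  axis : φ ≠ 0
  inc : φ v = 0
  mem_iff : ∀ c, Mem P v (c • φ) ↔ c ∈ K

/-- The subfield of the maximal root groups. -/
structure RootCtx (P : Subgroup (GL (Fin 3) F)) (K : Subfield F) : Prop where
  core : Core P
  three_le : 3 ≤ Nat.card K
  max : ∀ (v : V₃) (φ : D₃), v ≠ 0 → φ ≠ 0 → φ v = 0 → Nat.card (lamGrp P v φ) ≤ Nat.card K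
  nonempty : ∃ v φ, IsRoot P K v φ

/-- The value of an invariant: in `K`, or the exception. -/
def InvVal (K : Subfield F) (z : F) : Prop :=
  z ∈ K ∨ ((3 : F) = 0 ∧ Nat.card K = 3 ∧ z ^ 2 = -1)

theorem exists_rootCtx [Fintype F] (hC : Core P) (hR : HasRootPair P) :
    ∃ K : Subfield F, RootCtx P K := by
  classical
  obtain ⟨v, φ, h, c, h', hv, hφ, hc0, hc1, hm, hm'⟩ := hR
  let Q : ℕ → Prop := fun m => ∃ v φ, Big P m v φ
  have h3 : Q 3 := by
    refine ⟨v, φ, hv, hφ, h, ?_⟩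
    have hsub : ({0, 1, c} : Set F) ⊆ (lamGrp P v φ : Set F) := by
      rintro x (rfl | rfl | rfl)
      · exact zero_mem _
      · exact mem_lamGrp.2 (by rw [one_smul]; exact ⟨h, hm⟩)
      · exact mem_lamGrp.2 ⟨h', hm'⟩
    have := Set.ncard_le_ncard hsub
    rw [Set.ncard_eq_three.2 ⟨0, 1, c, zero_ne_one, hc0.symm, hc1.symm, rfl⟩,
      ← Nat.card_coe_set_eq] at this
    exact this
  have hbound : ∀ m, Q m → m ≤ Nat.card F := fun m ⟨v, φ, hb⟩ =>
    hb.card.trans (Nat.card_le_card_of_injective _ Subtype.val_injective)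
  set n := Nat.findGreatest Q (Nat.card F) with hn
  have hQn : Q n := Nat.findGreatest_spec (hbound 3 h3) h3
  have C : MaxCtx P n := ⟨hC, Nat.le_findGreatest (hbound 3 h3) h3, fun u χ hu hχ hi =>
    Nat.le_findGreatest (hbound _ ⟨u, χ, hu, hχ, hi, le_rfl⟩) ⟨u, χ, hu, hχ, hi, le_rfl⟩, hQn⟩
  obtain ⟨u, χ, hb⟩ := hQn
  obtain ⟨K, hK, d, hd, hline⟩ := C.field_of_big hb
  refine ⟨K, hC, hK ▸ C.three_le, fun a b ha hb' hab => hK ▸ C.max a b ha hb' hab,
    u, d⁻¹ • χ, hb.centre, smul_ne_zero (inv_ne_zero hd) hb.axis, by simp [hb.inc], fun x => ?_⟩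
  rw [← mem_lamGrp, mem_lamGrp_smul, hline, mul_left_comm, mul_inv_cancel₀ hd, mul_one]

variable {K : Subfield F}

namespace IsRoot

lemma mem {v : V₃} {φ : D₃} (h : IsRoot P K v φ) : Mem P v φ := by
  have := (h.mem_iff 1).2 (one_mem K)
  rwa [one_smul] at this

lemma conj {v : V₃} {φ : D₃} (h : IsRoot P K v φ) {g : GL (Fin 3) F} (hg : g ∈ P) :
    IsRoot P K (ap g v) (φ.comp (apEquiv g⁻¹).toLinearMap) :=
  ⟨ap_ne_zero g h.centre, comp_ne_zero h.axis, by simp [ap_inv_ap, h.inc], fun c => by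
    rw [← h.mem_iff c, ← mem_lamGrp, ← mem_lamGrp, lamGrp_conj hg]⟩

lemma rescale {v : V₃} {φ : D₃} (h : IsRoot P K v φ) {a : F} (ha : a ≠ 0) : IsRoot P K (a⁻¹ • v) (a • φ) :=
  ⟨smul_ne_zero (inv_ne_zero ha) h.centre, smul_ne_zero ha h.axis, by simp [h.inc], fun c => by
    rw [mem_smul_centre_iff (inv_ne_zero ha), ← h.mem_iff c, smul_smul, smul_smul,
      show a⁻¹ * c * a = c by field_simp]⟩

lemma card {v : V₃} {φ : D₃} (h : IsRoot P K v φ) : Nat.card (lamGrp P v φ) = Nat.card K :=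
  Nat.card_congr (Equiv.subtypeEquivRight fun c => h.mem_iff c)

end IsRoot

namespace RootCtx

variable [Finite F] (C : RootCtx P K)
include C

/-- Roots are recognised by their `K`-multiples. -/
lemma root_of_mem {v : V₃} {φ : D₃} (hv : v ≠ 0) (hφ : φ ≠ 0) (hi : φ v = 0)
    (h : ∀ c ∈ K, Mem P v (c • φ)) : IsRoot P K v φ := by
  refine ⟨hv, hφ, hi, fun c => ⟨fun hc => ?_, h c⟩⟩
  let f : K → lamGrp P v φ := fun x => ⟨x, h x x.2⟩
  have hf : Function.Injective f := fun x y e => Subtype.ext (congrArg Subtype.val e :)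
  obtain ⟨x, hx⟩ := ((Nat.bijective_iff_injective_and_card f).2 ⟨hf,
    le_antisymm (Nat.card_le_card_of_injective f hf) (C.max v φ hv hφ hi)⟩).2 ⟨c, hc⟩
  have e : (x : F) = c := congrArg Subtype.val hx
  rw [← e]
  exact x.2

/-- An incidence gives a root with one centre and the other axis. -/
lemma incidence {v w : V₃} {φ ψ : D₃} (hr : IsRoot P K v φ) (hs : IsRoot P K w ψ)
    (hb : φ w = 0) (ha : ψ v ≠ 0) : IsRoot P K w (ψ v • φ) := by
  refine C.root_of_mem hs.centre (smul_ne_zero ha hr.axis) (by simp [hb]) fun c hc => ?_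
  have := mem_comm ((hr.mem_iff c).2 hc) hs.mem (by simp [hb])
  rwa [smul_comm] at this

lemma exists_root_axis {x : V₃} (hx : x ≠ 0) : ∃ v φ, IsRoot P K v φ ∧ φ x ≠ 0 :=
  exists_axis C.core (by obtain ⟨v, φ, h⟩ := C.nonempty; exact ⟨v, φ, h.axis, h⟩)
    (fun _ hg _ _ h => h.conj hg) hx

lemma exists_root_centre {W : Submodule F V₃} (hW : W ≠ ⊤) :
    ∃ v φ, IsRoot P K v φ ∧ v ∉ W := by
  by_contra hno
  push Not at hno
  have h := span_centres C.core (R := IsRoot P K)
    (by obtain ⟨v, φ, h⟩ := C.nonempty; exact ⟨v, φ, h.centre, h⟩) (fun _ hg _ _ h => h.conj hg)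
  exact hW (top_unique (h ▸ Submodule.span_le.2 fun v ⟨φ, hv⟩ => hno v φ hv))

/-- Dickson: the invariant of two roots. -/
lemma invVal {v w : V₃} {φ ψ : D₃} (hr : IsRoot P K v φ) (hs : IsRoot P K w ψ) :
    InvVal K (φ w * ψ v) := by
  by_cases hb : φ w = 0
  · exact Or.inl (by rw [hb, zero_mul]; exact zero_mem K)
  by_cases ha : ψ v = 0
  · exact Or.inl (by rw [ha, mul_zero]; exact zero_mem K)
  have hr' := hr.rescale ha
  have hψ : ψ ((ψ v)⁻¹ • v) = 1 := by rw [map_smul, smul_eq_mul, inv_mul_cancel₀ ha]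
  have hφ : (ψ v • φ) w = φ w * ψ v := by rw [LinearMap.smul_apply, smul_eq_mul, mul_comm]
  obtain ⟨G, hu, hl, hcard⟩ := exists_sl2 (P := P) hr'.inc hs.inc
    (by rw [hφ]; exact mul_ne_zero hb ha) (by rw [hψ]; exact one_ne_zero)
  rw [hr'.card] at hcard
  have hu1 : upS (φ w * ψ v) ∈ G := by
    have := hu 1 ((hr'.mem_iff 1).2 (one_mem K))
    rwa [one_mul, hφ] at this
  have hl1 : lowS (1 : F) ∈ G := by
    have := hl 1 ((hs.mem_iff 1).2 (one_mem K))
    rwa [one_mul, hψ] at this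
  rcases lt_or_ge (Nat.card K) 4 with hn | hn
  · have hn3 : Nat.card K = 3 := by have := C.three_le; omega
    have h3 : (3 : F) = 0 := by
      have h := card_nsmul_eq_zero' (x := (1 : K))
      rw [hn3, nsmul_eq_mul, mul_one] at h
      have h' := congrArg K.subtype h
      rwa [map_zero, map_natCast, Nat.cast_ofNat] at h'
    exact (mem_or_sq_eq_neg_one h3 hn3 (mul_ne_zero hb ha) hl1 hu1 (by rw [hcard, hn3])).imp id
      fun h => ⟨h3, hn3, h⟩
  · obtain ⟨R, hR, hprod⟩ := exists_subfield_of_transl one_ne_zero hl1 (by rw [hcard]; exact hn)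
    have h := hprod _ _ hl1 hu1
    rw [one_mul, subfield_eq_of_card (hR.trans hcard)] at h
    exact Or.inl h

/-- A `K`-linear form in two variables with values among invariants has a non-trivial zero. -/
lemma exists_comb_eq_zero {A B : F} (h : ∀ α ∈ K, ∀ β ∈ K, InvVal K (α * A + β * B)) :
    ∃ α ∈ K, ∃ β ∈ K, (α ≠ 0 ∨ β ≠ 0) ∧ α * A + β * B = 0 := by
  classical
  by_contra hno
  push Not at hno
  haveI : Fintype F := Fintype.ofFinite F
  have hinj : Function.Injective fun z : K × K => (z.1 : F) * A + (z.2 : F) * B := by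
    intro z z' e
    by_contra hne
    refine hno _ (sub_mem z.1.2 z'.1.2) _ (sub_mem z.2.2 z'.2.2) ?_ (by linear_combination e)
    by_contra h0
    push Not at h0
    exact hne (Prod.ext (Subtype.ext (sub_eq_zero.1 h0.1)) (Subtype.ext (sub_eq_zero.1 h0.2)))
  set m := if Nat.card K = 3 then 5 else Nat.card K with hm
  have h3 := C.three_le
  have hm1 : 1 < m := by rw [hm]; split_ifs <;> omega
  set S : Finset F := (Polynomial.X ^ m - Polynomial.X : Polynomial F).roots.toFinset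
  have hS : S.card ≤ m := by
    refine (Multiset.toFinset_card_le _).trans ((Polynomial.card_roots' _).trans ?_)
    rw [FiniteField.X_pow_card_sub_X_natDegree_eq F hm1]
  have hpow : ∀ z, InvVal K z → z ^ m = z := by
    intro z hz
    rcases hz with hz | ⟨-, hn, hz⟩
    · haveI : Fintype K := Fintype.ofFinite K
      have hzn : z ^ Nat.card K = z := by
        have h1 := congrArg Subtype.val (FiniteField.pow_card (⟨z, hz⟩ : K))
        rw [← Nat.card_eq_fintype_card] at h1
        simpa using h1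
      rw [hm]
      split_ifs with hn
      · rw [hn] at hzn
        linear_combination (z ^ 2 + 1) * hzn
      · exact hzn
    · rw [hm, if_pos hn]
      linear_combination z * (z ^ 2 - 1) * hz
  have hmem : ∀ z : K × K, (z.1 : F) * A + (z.2 : F) * B ∈ S := fun z => by
    simp only [S, Multiset.mem_toFinset,
      Polynomial.mem_roots (FiniteField.X_pow_card_sub_X_ne_zero F hm1), Polynomial.IsRoot.def,
      Polynomial.eval_sub, Polynomial.eval_pow, Polynomial.eval_X]
    rw [sub_eq_zero]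
    exact hpow _ (h _ z.1.2 _ z.2.2)
  have hle := Nat.card_le_card_of_injective (fun z : K × K => (⟨_, hmem z⟩ : S))
    fun z z' e => hinj (congrArg Subtype.val e :)
  rw [Nat.card_prod, Nat.card_eq_finsetCard] at hle
  have h9 : 3 * Nat.card K ≤ Nat.card K * Nat.card K := Nat.mul_le_mul_right _ h3
  have : Nat.card K * Nat.card K ≤ m := hle.trans hS
  rw [hm] at this
  split_ifs at this with hn
  · rw [hn] at this; omega
  · omega

/-- Roots with one centre. -/
lemma pencil_axis {v : V₃} {φ₁ φ₂ : D₃} (h1 : IsRoot P K v φ₁) (h2 : IsRoot P K v φ₂) {α β : F}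
    (hα : α ∈ K) (hβ : β ∈ K) (hne : α • φ₁ + β • φ₂ ≠ 0) : IsRoot P K v (α • φ₁ + β • φ₂) := by
  refine C.root_of_mem h1.centre hne (by simp [h1.inc, h2.inc]) fun c hc => ?_
  rw [smul_add, smul_smul, smul_smul]
  exact Mem.add_axis ((h1.mem_iff _).2 (mul_mem hc hα)) ((h2.mem_iff _).2 (mul_mem hc hβ))

/-- Roots with one axis. -/
lemma pencil_centre {v₁ v₂ : V₃} {φ : D₃} (h1 : IsRoot P K v₁ φ) (h2 : IsRoot P K v₂ φ) {α β : F}
    (hα : α ∈ K) (hβ : β ∈ K) (hne : α • v₁ + β • v₂ ≠ 0) : IsRoot P K (α • v₁ + β • v₂) φ := by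
  refine C.root_of_mem hne h1.axis (by simp [h1.inc, h2.inc]) fun c hc => ?_
  have key : ∀ {u : V₃} {γ : F}, γ ∈ K → IsRoot P K u φ → Mem P (γ • u) (c • φ) := by
    intro u γ hγ hu
    exact ((hu.mem_iff _).2 (mul_mem hc hγ)).congr (by simp [hu.inc])
      fun z => by simp [smul_smul]; ring_nf
  exact Mem.add_centre (key hα h1) (key hβ h2)

/-- A second axis at one centre through the other centre makes the invariant lie in `K`. -/
lemma inv_of_pencil {v x : V₃} {φ φ₂ χ : D₃} (h1 : IsRoot P K v φ) (h2 : IsRoot P K v φ₂)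
    (ht : IsRoot P K x χ) (h0 : φ₂ x = 0) : χ v * φ x ∈ K := by
  by_cases ha : χ v = 0
  · rw [ha, zero_mul]; exact zero_mem K
  by_cases hb : φ x = 0
  · rw [hb, mul_zero]; exact zero_mem K
  have hu := C.incidence h2 ht h0 ha
  have hw := C.incidence hu h1 (by simp [h2.inc]) hb
  have hm := hw.mem
  rw [smul_smul] at hm
  rw [mul_comm]
  exact (h2.mem_iff _).1 hm

/-- The invariants with a centre carrying two axes lie in `K`. -/
lemma inv_of_two_axes {v x : V₃} {φ₁ φ₂ χ : D₃} (h1 : IsRoot P K v φ₁) (h2 : IsRoot P K v φ₂)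
    (hind : ∀ α ∈ K, ∀ β ∈ K, α • φ₁ + β • φ₂ = 0 → α = 0 ∧ β = 0) (ht : IsRoot P K x χ) :
    χ v * φ₁ x ∈ K := by
  by_cases ha : χ v = 0
  · rw [ha, zero_mul]; exact zero_mem K
  have hne : ∀ α ∈ K, ∀ β ∈ K, (α ≠ 0 ∨ β ≠ 0) → α • φ₁ + β • φ₂ ≠ 0 := fun α hα β hβ h e => by
    obtain ⟨rfl, rfl⟩ := hind α hα β hβ e
    simp at h
  obtain ⟨α, hα, β, hβ, hαβ, h0⟩ := C.exists_comb_eq_zero (A := φ₁ x * χ v) (B := φ₂ x * χ v)
    fun α hα β hβ => by
      by_cases h : α ≠ 0 ∨ β ≠ 0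
      · have := C.invVal (C.pencil_axis h1 h2 hα hβ (hne α hα β hβ h)) ht
        simp only [LinearMap.add_apply, LinearMap.smul_apply, smul_eq_mul] at this
        rwa [show α * (φ₁ x * χ v) + β * (φ₂ x * χ v) = (α * φ₁ x + β * φ₂ x) * χ v by ring]
      · push Not at h
        rw [h.1, h.2, zero_mul, zero_mul, add_zero]
        exact Or.inl (zero_mem K)
  refine C.inv_of_pencil h1 (C.pencil_axis h1 h2 hα hβ (hne α hα β hβ hαβ)) ht ?_
  simp only [LinearMap.add_apply, LinearMap.smul_apply, smul_eq_mul]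
  exact (mul_eq_zero.1 (by linear_combination h0 : (α * φ₁ x + β * φ₂ x) * χ v = 0)).resolve_right ha

end RootCtx

end CfsgLib.SLThreeResidual
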