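import Cfsg.Agent.Lib.SLThreeResidual.Basic

/-!
# Sets of roots with a field of invariants
-/

set_option autoImplicit false

namespace CfsgLib.SLThreeResidual

open Cfsg.Geo Matrix CfsgLib.Geometric

variable {F : Type*} [Field F]

/-- A root: a centre and a functional vanishing on it. -/
abbrev Root (F : Type*) [Field F] : Type _ := (Fin 3 → F) × ((Fin 3 → F) →ₗ[F] F)

/-- A `P`-invariant set of roots whose root groups contain all `K`-multiples and whose pairwise
invariants lie in `K`. -/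
structure RootData (P : Subgroup (GL (Fin 3) F)) (K : Subfield F) (R : Set (Root F)) : Prop where
  nonempty : R.Nonempty
  centre_ne : ∀ r ∈ R, r.1 ≠ 0
  axis_ne : ∀ r ∈ R, r.2 ≠ 0
  isRoot : ∀ r ∈ R, r.2 r.1 = 0
  mem : ∀ r ∈ R, ∀ k ∈ K, ∀ h : (k • r.2) r.1 = 0, tv r.1 (k • r.2) h ∈ P
  inv : ∀ r ∈ R, ∀ s ∈ R, r.2 s.1 * s.2 r.1 ∈ K
  conj : ∀ g ∈ P, ∀ r ∈ R, (ap g r.1, r.2.comp (apEquiv g⁻¹).toLinearMap) ∈ R

/-- No centre of a root lies on the axis of another one, equal centres apart. -/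
def NoIncidence (R : Set (Root F)) : Prop :=
  ∀ r ∈ R, ∀ s ∈ R, r.2 s.1 = 0 → s.1 ∈ Submodule.span F {r.1}

end CfsgLib.SLThreeResidual
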