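import Cfsg.Agent.Lib.SLThreeResidual.RootBase

/-!
# No exceptional pair without incidences

If no centre lies on the axis of another root, the invariant of two roots lies in `K`: ten centres
on the line of an exceptional pair are incompatible with a centre off that line.
-/

set_option autoImplicit false
set_option linter.unusedSectionVars false

namespace CfsgLib.SLThreeResidual

open Cfsg.Geo Matrix CfsgLib.Geometric
open CfsgLib.Geometric.SLThree.IrredTv (Mem)
open CfsgLib.SL2.Dickson.Exceptional (K₉ val val_add)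

/-- Multiplication in `F₃(i)`. -/
def mulK (a b : K₉) : K₉ := (a.1 * b.1 - a.2 * b.2, a.1 * b.2 + a.2 * b.1)

/-- The fourth power in `F₃(i)`. -/
def quart (a : K₉) : K₉ := mulK (mulK a a) (mulK a a)

/-- The units `1, i, -1, -i`. -/
def unit4 (k : Fin 4) : K₉ := ![(1, 0), (0, 1), (2, 0), (0, 2)] k

/-- The value at one of four centres, for the sign `e` and `q = 1 + d e i`. -/
def fourVal (A B N : K₉) (e q : K₉) : K₉ :=
  mulK (mulK q q) B - mulK (0, 1) A - mulK (mulK e q) N

/-- All ten values are fourth roots of unity. -/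
def TenUnits (A B u : K₉) : Prop :=
  quart (A - mulK (0, 1) B - (u - A + mulK (0, 1) B)) = (1, 0) ∧
  quart (B - mulK (0, 1) A - (u - A + mulK (0, 1) B)) = (1, 0) ∧
  quart (B - mulK (0, 1) A + (u - A + mulK (0, 1) B)) = (1, 0) ∧
  quart (fourVal A B (u - A + mulK (0, 1) B) (1, 0) (1, 1)) = (1, 0) ∧
  quart (fourVal A B (u - A + mulK (0, 1) B) (1, 0) (1, 2)) = (1, 0) ∧
  quart (fourVal A B (u - A + mulK (0, 1) B) (2, 0) (1, 2)) = (1, 0) ∧
  quart (fourVal A B (u - A + mulK (0, 1) B) (2, 0) (1, 1)) = (1, 0)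

lemma not_tenUnits : ∀ a b c : Fin 4, ¬ TenUnits (unit4 a) (unit4 b) (unit4 c) := by
  unfold TenUnits
  decide +kernel

lemma quart_cases : ∀ a : K₉, quart a = (1, 0) ∨ quart a = (0, 0) ∨ quart a = (2, 0) := by
  decide +kernel

variable {F : Type*} [Field F]

section Model

variable [CharP F 3] {i : F}

lemma val_mulK (hi : i ^ 2 = -1) (a b : K₉) : val i (mulK a b) = val i a * val i b := by
  simp only [val, mulK, map_sub, map_add, map_mul]
  linear_combination -(ZMod.castHom dvd_rfl F a.2 * ZMod.castHom dvd_rfl F b.2) * hi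

lemma val_sub (a b : K₉) : val i (a - b) = val i a - val i b := by
  simp only [val, Prod.fst_sub, Prod.snd_sub, map_sub]
  ring

lemma cast_two : ZMod.castHom (dvd_refl 3) F (2 : ZMod 3) = (-1 : F) := by
  rw [show (2 : ZMod 3) = -1 from by decide, map_neg, map_one]

lemma val_one_zero : val i ((1, 0) : K₉) = 1 := by simp [val]

lemma val_zero_one : val i ((0, 1) : K₉) = i := by simp [val]

lemma val_two_zero : val i ((2, 0) : K₉) = -1 := by
  rw [val, cast_two, map_zero]; ring

lemma quart_eq_one (hi : i ^ 2 = -1) {z : F} (a : K₉) (he : val i a = z) (hz : z ^ 4 = 1) :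
    quart a = (1, 0) := by
  have h1 : val i (quart a) = 1 := by
    rw [quart, val_mulK hi, val_mulK hi, he, ← hz]; ring
  rcases quart_cases a with h | h | h
  · exact h
  · rw [h] at h1; simp [val] at h1
  · rw [h, val_two_zero] at h1
    have h3 : (3 : F) = 0 := by exact_mod_cast CharP.cast_eq_zero F 3
    exact absurd (by linear_combination h3 + h1 : (1 : F) = 0) one_ne_zero

lemma exists_unit4 (hi : i ^ 2 = -1) {z : F} (hz : z ^ 4 = 1) : ∃ k, val i (unit4 k) = z := by
  have h : (z - 1) * (z + 1) * ((z - i) * (z + i)) = 0 := by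
    linear_combination hz - (z ^ 2 - 1) * hi
  rcases mul_eq_zero.1 h with h | h <;> rcases mul_eq_zero.1 h with h | h
  · exact ⟨0, by rw [show unit4 0 = (1, 0) from rfl, val_one_zero]; linear_combination -h⟩
  · exact ⟨2, by rw [show unit4 2 = (2, 0) from rfl, val_two_zero]; linear_combination -h⟩
  · exact ⟨1, by rw [show unit4 1 = (0, 1) from rfl, val_zero_one]; linear_combination -h⟩
  · refine ⟨3, ?_⟩
    rw [show unit4 3 = (0, 2) from rfl, val, cast_two, map_zero]
    linear_combination -h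

end Model

variable {P : Subgroup (GL (Fin 3) F)} {K : Subfield F}

/-- Without incidences every invariant lies in `K`. -/
theorem RootCtx.inv_mem [Finite F] (C : RootCtx P K)
    (hN : ∀ (v w : Fin 3 → F) (φ ψ : (Fin 3 → F) →ₗ[F] F), IsRoot P K v φ → IsRoot P K w ψ →
      φ w = 0 → w ∈ Submodule.span F {v})
    {v w : Fin 3 → F} {φ ψ : (Fin 3 → F) →ₗ[F] F} (hr : IsRoot P K v φ) (hs : IsRoot P K w ψ) :
    φ w * ψ v ∈ K := by
  classical
  rcases C.invVal hr hs with h | ⟨h3, hn, hi⟩
  · exact h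
  exfalso
  haveI : CharP F 3 := (CharP.charP_iff_prime_eq_zero Nat.prime_three).2 h3
  have ha : ψ v ≠ 0 := fun e => by
    rw [e, mul_zero, zero_pow two_ne_zero] at hi
    exact one_ne_zero (α := F) (by linear_combination hi)
  have hb : φ w ≠ 0 := fun e => by
    rw [e, zero_mul, zero_pow two_ne_zero] at hi
    exact one_ne_zero (α := F) (by linear_combination hi)
  set i := φ w * ψ v with hidef
  have hA := hr.rescale ha
  set e₁ := (ψ v)⁻¹ • v with he₁
  set φ' := ψ v • φ with hφ'
  have hφw : φ' w = i := by rw [hφ', LinearMap.smul_apply, smul_eq_mul, hidef, mul_comm]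
  have hψe : ψ e₁ = 1 := by rw [he₁, map_smul, smul_eq_mul, inv_mul_cancel₀ ha]
  -- a centre off the line
  obtain ⟨x, χ, ht, hx⟩ := C.exists_root_centre (W := Submodule.span F {e₁, w}) fun e => by
    have h := finrank_span_finset_le_card (R := F) ({e₁, w} : Finset (Fin 3 → F))
    rw [Finset.coe_pair] at h
    simp only [Set.finrank] at h
    rw [e, finrank_top, Module.finrank_pi, Fintype.card_fin] at h
    have := h.trans Finset.card_le_two
    omega
  -- values at the roots on the line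
  have key : ∀ (p : Fin 3 → F) (η : (Fin 3 → F) →ₗ[F] F), IsRoot P K p η →
      p ∈ Submodule.span F {e₁, w} → (η x * χ p) ^ 4 = 1 := by
    intro p η hp hmem
    have h1 : η x ≠ 0 := fun e =>
      hx ((Submodule.span_singleton_le_iff_mem _ _).2 hmem (hN p x η χ hp ht e))
    have h2 : χ p ≠ 0 := fun e => by
      obtain ⟨c, hc⟩ := Submodule.mem_span_singleton.1 (hN x p χ η ht hp e)
      have hc0 : c ≠ 0 := fun e => hp.centre (by rw [← hc, e, zero_smul])
      refine hx ?_
      rw [show x = c⁻¹ • p by rw [← hc, smul_smul, inv_mul_cancel₀ hc0, one_smul]]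
      exact Submodule.smul_mem _ _ hmem
    rcases C.invVal hp ht with h | ⟨-, -, h⟩
    · haveI : Fintype K := Fintype.ofFinite K
      have h4 := congrArg Subtype.val (FiniteField.pow_card (⟨η x * χ p, h⟩ : K))
      rw [← Nat.card_eq_fintype_card, hn] at h4
      have h5 : (η x * χ p) ^ 3 = η x * χ p := by simpa using h4
      have h6 : (η x * χ p) ^ 2 = 1 := by
        refine mul_left_cancel₀ (mul_ne_zero h1 h2) ?_
        linear_combination h5
      linear_combination ((η x * χ p) ^ 2 + 1) * h6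
    · linear_combination ((η x * χ p) ^ 2 - 1) * h
  have he₁m : e₁ ∈ Submodule.span F {e₁, w} := Submodule.subset_span (by simp)
  have hwm : w ∈ Submodule.span F {e₁, w} := Submodule.subset_span (by simp)
  -- conjugate roots
  have hδ : ∀ δ : F, δ ∈ K → ∀ p η, IsRoot P K p η →
      IsRoot P K (p + (δ * ψ p) • w) (η - (η w * δ) • ψ) := by
    intro δ hδ p η hp
    obtain ⟨h, hm⟩ := (hs.mem_iff δ).2 hδ
    have := hp.conj hm
    have e1 : ap (tv w (δ • ψ) h) p = p + (δ * ψ p) • w := by simp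
    have e2 : η.comp (apEquiv (tv w (δ • ψ) h)⁻¹).toLinearMap = η - (η w * δ) • ψ :=
      LinearMap.ext fun y => by simp [tv_inv]; ring
    rwa [e1, e2] at this
  have hε : ∀ ε : F, ε ∈ K →
      IsRoot P K (w + (ε * i) • e₁) (ψ - ε • φ') := by
    intro ε hε
    obtain ⟨h, hm⟩ := (hA.mem_iff ε).2 hε
    have := hs.conj hm
    have e1 : ap (tv e₁ (ε • φ') h) w = w + (ε * i) • e₁ := by simp [hφw]
    have e2 : ψ.comp (apEquiv (tv e₁ (ε • φ') h)⁻¹).toLinearMap = ψ - ε • φ' :=
      LinearMap.ext fun y => by simp [tv_inv, hψe]; ring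
    rwa [e1, e2] at this
  set A := φ' x * χ e₁ with hAdef
  set B := ψ x * χ w with hBdef
  set N := χ w * φ' x - i * χ e₁ * ψ x with hNdef
  have hA4 : A ^ 4 = 1 := key _ _ hA he₁m
  have hB4 : B ^ 4 = 1 := key _ _ hs hwm
  have hu : ∀ δ : F, δ ∈ K → δ * δ = 1 → (A - i * B + δ * N) ^ 4 = 1 := by
    intro δ hδK hδ1
    have h := key _ _ (hδ δ hδK e₁ φ' hA) (add_mem he₁m (Submodule.smul_mem _ _ hwm))
    rw [hψe, hφw] at h
    simp only [LinearMap.sub_apply, LinearMap.smul_apply, smul_eq_mul, map_add, map_smul,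
      mul_one] at h
    rwa [show (φ' x - i * δ * ψ x) * (χ e₁ + δ * χ w) = A - i * B + δ * N by
      rw [hAdef, hBdef, hNdef]
      linear_combination (-i * ψ x * χ w) * hδ1] at h
  have hw' : ∀ ε : F, ε ∈ K → ε * ε = 1 → (B - i * A - ε * N) ^ 4 = 1 := by
    intro ε hεK hε1
    have h := key _ _ (hε ε hεK) (add_mem hwm (Submodule.smul_mem _ _ he₁m))
    simp only [LinearMap.sub_apply, LinearMap.smul_apply, smul_eq_mul, map_add, map_smul] at h
    rwa [show (ψ x - ε * φ' x) * (χ w + ε * i * χ e₁) = B - i * A - ε * N by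
      rw [hAdef, hBdef, hNdef]
      linear_combination (-i * φ' x * χ e₁) * hε1] at h
  have hf : ∀ ε δ : F, ε ∈ K → δ ∈ K → ε * ε = 1 →
      ((1 + δ * ε * i) * (1 + δ * ε * i) * B - i * A - ε * (1 + δ * ε * i) * N) ^ 4 = 1 := by
    intro ε δ hεK hδK hε1
    have hp := hδ δ hδK _ _ (hε ε hεK)
    have h := key _ _ hp (add_mem (add_mem hwm (Submodule.smul_mem _ _ he₁m))
      (Submodule.smul_mem _ _ hwm))
    simp only [LinearMap.sub_apply, LinearMap.smul_apply, smul_eq_mul, map_add, map_smul, hs.inc,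
      hψe, hφw, mul_one, zero_add] at h
    rwa [show (ψ x - ε * φ' x - (0 - ε * i) * δ * ψ x) *
        (χ w + ε * i * χ e₁ + δ * (ε * i) * χ w) =
        (1 + δ * ε * i) * (1 + δ * ε * i) * B - i * A - ε * (1 + δ * ε * i) * N by
      rw [hAdef, hBdef, hNdef]
      linear_combination (-i * φ' x * χ e₁) * hε1] at h
  -- the finite check
  have hm1 : (-1 : F) ∈ K := neg_mem (one_mem K)
  obtain ⟨a, ha'⟩ := exists_unit4 hi hA4
  obtain ⟨b, hb'⟩ := exists_unit4 hi hB4
  obtain ⟨c, hc'⟩ := exists_unit4 hi (hu 1 (one_mem K) (one_mul 1))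
  have hNv : val i (unit4 c - unit4 a + mulK (0, 1) (unit4 b)) = N := by
    rw [val_add, val_sub, val_mulK hi, val_zero_one, ha', hb', hc']
    ring
  have hfv : ∀ (e q : K₉) (ε δ : F), val i e = ε → val i q = 1 + δ * ε * i → ε ∈ K → δ ∈ K →
      ε * ε = 1 → quart (fourVal (unit4 a) (unit4 b)
        (unit4 c - unit4 a + mulK (0, 1) (unit4 b)) e q) = (1, 0) := by
    intro e q ε δ he hq hεK hδK hε1
    refine quart_eq_one hi _ ?_ (hf ε δ hεK hδK hε1)
    rw [fourVal, val_sub, val_sub, val_mulK hi, val_mulK hi, val_mulK hi, val_mulK hi, val_mulK hi,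
      val_zero_one, ha', hb', hNv, he, hq]
  have hq1 : val i ((1, 1) : K₉) = 1 + i := by simp [val]
  have hq2 : val i ((1, 2) : K₉) = 1 - i := by rw [val, cast_two, map_one]; ring
  refine not_tenUnits a b c ⟨?_, ?_, ?_, ?_, ?_, ?_, ?_⟩
  · refine quart_eq_one hi _ ?_ (hu (-1) hm1 (by ring))
    rw [val_sub, val_sub, val_mulK hi, val_zero_one, ha', hb', hNv]
    ring
  · refine quart_eq_one hi _ ?_ (hw' 1 (one_mem K) (one_mul 1))
    rw [val_sub, val_sub, val_mulK hi, val_zero_one, ha', hb', hNv]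
    ring
  · refine quart_eq_one hi _ ?_ (hw' (-1) hm1 (by ring))
    rw [val_add, val_sub, val_mulK hi, val_zero_one, ha', hb', hNv]
    ring
  · exact hfv _ _ 1 1 val_one_zero (by rw [hq1]; ring) (one_mem K) (one_mem K) (one_mul 1)
  · exact hfv _ _ 1 (-1) val_one_zero (by rw [hq2]; ring) (one_mem K) hm1 (one_mul 1)
  · exact hfv _ _ (-1) 1 val_two_zero (by rw [hq2]; ring) hm1 (one_mem K) (by ring)
  · exact hfv _ _ (-1) (-1) val_two_zero (by rw [hq1]; ring) hm1 hm1 (by ring)

end CfsgLib.SLThreeResidual
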