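import Cfsg.Agent.Lib.SLThreeResidual.RootBase

/-!
# Roots with an incidence

Two maximal roots, the centre of one on the axis of the other, lead to all six root groups of a
frame; every root is then rational over `K`, so `K` is the whole field and `P` contains `SL₃`.
-/

set_option autoImplicit false
set_option linter.unusedSectionVars false

namespace CfsgLib.SLThreeResidual

open Cfsg.Geo Matrix CfsgLib.Geometric
open CfsgLib.Geometric.SLThree.IrredTv (Mem)
open scoped commutatorElement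

variable {F : Type*} [Field F] {P : Subgroup (GL (Fin 3) F)} {K : Subfield F}

local notation "V₃" => Fin 3 → F
local notation "D₃" => (Fin 3 → F) →ₗ[F] F

/-- A basis with its dual basis. -/
structure Frame (e : Fin 3 → (Fin 3 → F)) (L : Fin 3 → ((Fin 3 → F) →ₗ[F] F)) : Prop where
  dual : ∀ i j, L i (e j) = if i = j then 1 else 0

namespace Frame

variable {e : Fin 3 → (Fin 3 → F)} {L : Fin 3 → ((Fin 3 → F) →ₗ[F] F)}

lemma li (h : Frame e L) : LinearIndependent F e := by
  rw [Fintype.linearIndependent_iff]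
  intro g hg i
  have := congrArg (L i) hg
  simpa [map_sum, h.dual] using this

lemma self (h : Frame e L) (i : Fin 3) : L i (e i) = 1 := by simp [h.dual]

lemma off (h : Frame e L) {i j : Fin 3} (hij : i ≠ j) : L i (e j) = 0 := by simp [h.dual, hij]

lemma expand (h : Frame e L) (x : V₃) : x = L 0 x • e 0 + L 1 x • e 1 + L 2 x • e 2 := by
  have hspan : Submodule.span F (Set.range e) = ⊤ := h.li.span_eq_top_of_card_eq_finrank (by simp)
  obtain ⟨g, hg⟩ := (Submodule.mem_span_range_iff_exists_fun F).1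
    (hspan ▸ Submodule.mem_top : x ∈ Submodule.span F (Set.range e))
  rw [Fin.sum_univ_three] at hg
  subst hg
  simp [h.dual]

lemma apply (h : Frame e L) (φ : D₃) (x : V₃) :
    φ x = φ (e 0) * L 0 x + φ (e 1) * L 1 x + φ (e 2) * L 2 x := by
  conv_lhs => rw [h.expand x]
  simp only [map_add, map_smul, smul_eq_mul]
  ring

lemma ne_zero (h : Frame e L) (i : Fin 3) : e i ≠ 0 := fun e0 => by
  have := h.self i
  rw [e0, map_zero] at this
  exact zero_ne_one this

lemma indep (h : Frame e L) {i j : Fin 3} (hij : i ≠ j) (α β : F)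
    (he : α • L i + β • L j = 0) : α = 0 ∧ β = 0 :=
  ⟨by simpa [h.self, h.off (Ne.symm hij)] using LinearMap.congr_fun he (e i),
    by simpa [h.self, h.off hij] using LinearMap.congr_fun he (e j)⟩

end Frame

lemma exists_dual {e : Fin 3 → V₃} (hli : LinearIndependent F e) :
    ∃ L : Fin 3 → D₃, Frame e L := by
  let b := basisOfLinearIndependentOfCardEqFinrank hli (by simp)
  refine ⟨fun i => b.coord i, ⟨fun i j => ?_⟩⟩
  have hb : b j = e j := by simp [b]
  rw [← hb, Module.Basis.coord_apply, Module.Basis.repr_self, Finsupp.single_apply]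
  simp [eq_comm]

lemma IsRoot.of_smul {v : V₃} {φ : D₃} {μ : F} (hμ : μ ∈ K) (hμ0 : μ ≠ 0)
    (h : IsRoot P K v (μ • φ)) : IsRoot P K v φ := by
  refine ⟨h.centre, right_ne_zero_of_smul h.axis, by simpa [hμ0] using h.inc, fun c => ?_⟩
  have e : c • φ = (c / μ) • μ • φ := by rw [smul_smul, div_mul_cancel₀ _ hμ0]
  rw [e, h.mem_iff]
  exact ⟨fun hc => by have := mul_mem hc hμ; rwa [div_mul_cancel₀ _ hμ0] at this,
    fun hc => div_mem hc hμ⟩

/-- Roots generate. -/
theorem le_closure_roots (hC : RootCtx P K) :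
    P ≤ Subgroup.closure {g | ∃ (v : V₃) (φ : D₃) (h : φ v = 0), IsRoot P K v φ ∧ g = tv v φ h} := by
  set S : Set (GL (Fin 3) F) :=
    {g | ∃ (v : V₃) (φ : D₃) (h : φ v = 0), IsRoot P K v φ ∧ g = tv v φ h}
  set N := Subgroup.closure S with hN
  have hNP : N ≤ P := by
    rw [hN, Subgroup.closure_le]
    rintro _ ⟨v, φ, h, hr, rfl⟩
    exact hr.mem.2
  set M := N.subgroupOf P with hM
  have hMn : M.Normal := by
    refine ⟨fun n hn g => ?_⟩
    show (g : GL (Fin 3) F) * (n : GL (Fin 3) F) * (g : GL (Fin 3) F)⁻¹ ∈ N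
    have hle : S ⊆ (N.comap (MulAut.conj (g : GL (Fin 3) F)).toMonoidHom : Set _) := by
      rintro _ ⟨v, φ, h, hr, rfl⟩
      refine Subgroup.subset_closure ?_
      refine ⟨_, _, (hr.conj g.2).inc, hr.conj g.2, ?_⟩
      simp [conj_tv]
    exact (Subgroup.closure_le _).2 hle hn
  let π := QuotientGroup.mk' ((scalars (Fin 3) F).subgroupOf P)
  haveI := hC.core.simple
  have hmap : (M.map π).Normal := Subgroup.Normal.map hMn π (QuotientGroup.mk'_surjective _)
  have hne : M.map π ≠ ⊥ := by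
    intro hbot
    obtain ⟨v, φ, hr⟩ := hC.nonempty
    obtain ⟨h, hm⟩ := hr.mem
    have h1 : π ⟨tv v φ h, hm⟩ ∈ M.map π :=
      Subgroup.mem_map_of_mem π (Subgroup.mem_subgroupOf.2 (Subgroup.subset_closure ⟨v, φ, h, hr, rfl⟩))
    rw [hbot, Subgroup.mem_bot] at h1
    have h2 : tv v φ h ∈ scalars (Fin 3) F :=
      Subgroup.mem_subgroupOf.1 ((QuotientGroup.eq_one_iff _).1 h1)
    obtain ⟨c, hc⟩ := (mem_scalars_iff _).1 h2
    have hx : ∀ x : V₃, x + φ x • v = (c : F) • x := fun x => by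
      rw [← ap_tv v φ h x, ap_def, hc, Matrix.smul_mulVec, Matrix.one_mulVec]
    have hc1 : (c : F) = 1 := by
      have h3 := hx v
      rw [hr.inc, zero_smul, add_zero] at h3
      by_contra hne
      have h4 : ((c : F) - 1) • v = 0 := by rw [sub_smul, one_smul, ← h3, sub_self]
      exact hr.centre ((smul_eq_zero.1 h4).resolve_left (sub_ne_zero.2 hne))
    refine hr.axis (LinearMap.ext fun x => ?_)
    have h3 := hx x
    rw [hc1, one_smul, add_eq_left, smul_eq_zero] at h3
    exact h3.resolve_right hr.centre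
  have htop : M.map π = ⊤ := (hmap.eq_bot_or_eq_top).resolve_left hne
  have hcomm : ∀ a b : GL (Fin 3) F, a ∈ P → b ∈ P → ⁅a, b⁆ ∈ N := by
    intro a b ha hb
    have hdec : ∀ x : GL (Fin 3) F, x ∈ P → ∃ n ∈ N, ∃ z ∈ scalars (Fin 3) F, x = n * z := by
      intro x hx
      obtain ⟨n, hn, he⟩ := (htop ▸ Subgroup.mem_top (π ⟨x, hx⟩) : π ⟨x, hx⟩ ∈ M.map π)
      have := QuotientGroup.eq.1 he
      exact ⟨n, hn, _, this, by simp⟩
    obtain ⟨n, hn, z, hz, rfl⟩ := hdec a ha
    obtain ⟨m, hm, y, hy, rfl⟩ := hdec b hb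
    have hcen : ∀ w ∈ scalars (Fin 3) F, ∀ g : GL (Fin 3) F, w * g = g * w := by
      intro w hw g
      obtain ⟨c, hc⟩ := (mem_scalars_iff _).1 hw
      apply Units.ext
      simp [hc]
    have e : ⁅n * z, m * y⁆ = ⁅n, m⁆ := by
      simp only [commutatorElement_def, _root_.mul_inv_rev]
      have hy' := hcen y hy
      have hz' := hcen z hz
      calc n * z * (m * y) * (z⁻¹ * n⁻¹) * (y⁻¹ * m⁻¹)
          = n * (z * (m * y)) * z⁻¹ * n⁻¹ * y⁻¹ * m⁻¹ := by group
        _ = n * m * (y * n⁻¹) * y⁻¹ * m⁻¹ := by rw [hz']; group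
        _ = n * m * n⁻¹ * m⁻¹ := by rw [hy']; group
    rw [e, commutatorElement_def]
    exact mul_mem (mul_mem (mul_mem hn hm) (inv_mem hn)) (inv_mem hm)
  exact hC.core.perfect.ge.trans (Subgroup.commutator_le.2 fun a ha b hb => hcomm a b ha hb)

namespace RootCtx

variable [Finite F] (C : RootCtx P K)
include C

/-- A centre on the axis of another root gives a proper incidence. -/
lemma exists_incidence {v w : V₃} {φ ψ : D₃} (hr : IsRoot P K v φ) (hs : IsRoot P K w ψ)
    (hb : φ w = 0) (hw : w ∉ Submodule.span F {v}) :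
    ∃ (v' w' : V₃) (φ' ψ' : D₃), IsRoot P K v' φ' ∧ IsRoot P K w' ψ' ∧ φ' w' = 0 ∧ ψ' v' ≠ 0 := by
  by_cases ha : ψ v ≠ 0
  · exact ⟨v, w, φ, ψ, hr, hs, hb, ha⟩
  push Not at ha
  obtain ⟨z, hz⟩ : ∃ z, φ z ≠ 0 := by
    by_contra h
    push Not at h
    exact hr.axis (LinearMap.ext h)
  have hli2 : LinearIndependent F ![v, w] :=
    (LinearIndependent.pair_iff' hr.centre).2 fun a e =>
      hw (Submodule.mem_span_singleton.2 ⟨a, e⟩)
  have hli : LinearIndependent F ![v, w, z] := by
    rw [Fintype.linearIndependent_iff]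
    intro g hg
    rw [Fin.sum_univ_three] at hg
    simp only [Matrix.cons_val_zero, Matrix.cons_val_one, Matrix.cons_val_two, Matrix.head_cons,
      Matrix.tail_cons] at hg
    have h1 := congrArg φ hg
    simp only [map_add, map_smul, map_zero, smul_eq_mul, hr.inc, hb, mul_zero, zero_add,
      mul_eq_zero, hz, or_false] at h1
    rw [h1, zero_smul, add_zero] at hg
    obtain ⟨h2, h3⟩ := (LinearIndependent.pair_iff.1 hli2) _ _ hg
    intro i
    fin_cases i
    · exact h2
    · exact h3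
    · exact h1
  set c := ψ z / φ z with hc
  have hψ : ψ = c • φ := by
    refine LinearMap.ext_on (hli.span_eq_top_of_card_eq_finrank (by simp)) ?_
    rintro _ ⟨i, rfl⟩
    fin_cases i
    · simp [ha, hr.inc]
    · simp [hs.inc, hb]
    · simp [hc, div_mul_cancel₀ _ hz]
  have hc0 : c ≠ 0 := fun e => hs.axis (by rw [hψ, e, zero_smul])
  have hs' : IsRoot P K (c • w) φ := by
    have h := hs.rescale (inv_ne_zero hc0)
    rwa [inv_inv, hψ, smul_smul, inv_mul_cancel₀ hc0, one_smul] at h
  obtain ⟨x, χ, ht, hx⟩ := C.exists_root_centre (W := LinearMap.ker φ)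
    (fun e => hr.axis (LinearMap.ker_eq_top.1 e))
  rw [LinearMap.mem_ker] at hx
  have hne : ∀ α β : F, (α ≠ 0 ∨ β ≠ 0) → α • v + β • c • w ≠ 0 := fun α β h e => by
    rw [smul_smul] at e
    obtain ⟨h1, h2⟩ := (LinearIndependent.pair_iff.1 hli2) _ _ e
    rcases h with h | h
    · exact h h1
    · exact h ((mul_eq_zero.1 h2).resolve_right hc0)
  obtain ⟨α, hα, β, hβ, hαβ, h0⟩ := C.exists_comb_eq_zero (A := φ x * χ v) (B := φ x * χ (c • w))
    fun α hα β hβ => by
      by_cases h : α ≠ 0 ∨ β ≠ 0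
      · have := C.invVal (C.pencil_centre hr hs' hα hβ (hne α β h)) ht
        rw [map_add, map_smul, map_smul, smul_eq_mul, smul_eq_mul] at this
        rwa [show α * (φ x * χ v) + β * (φ x * χ (c • w)) =
          φ x * (α * χ v + β * χ (c • w)) by ring]
      · push Not at h
        rw [h.1, h.2, zero_mul, zero_mul, add_zero]
        exact Or.inl (zero_mem K)
  refine ⟨x, α • v + β • c • w, χ, φ, ht, C.pencil_centre hr hs' hα hβ (hne α β hαβ), ?_, hx⟩
  rw [map_add, map_smul, map_smul χ β, smul_eq_mul, smul_eq_mul]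
  exact (mul_eq_zero.1 (by linear_combination h0 :
    φ x * (α * χ v + β * χ (c • w)) = 0)).resolve_left hx

/-- Four root groups of a frame. -/
lemma exists_four {v w : V₃} {φ ψ : D₃} (hr : IsRoot P K v φ) (hs : IsRoot P K w ψ) (hb : φ w = 0)
    (ha : ψ v ≠ 0) : ∃ (e : Fin 3 → V₃) (L : Fin 3 → D₃), Frame e L ∧ IsRoot P K (e 0) (L 1) ∧
      IsRoot P K (e 0) (L 2) ∧ IsRoot P K (e 1) (L 2) ∧ IsRoot P K (e 1) (L 0) := by
  -- the unipotent radical
  have hr' := hr.rescale ha
  set v' := (ψ v)⁻¹ • v with hv'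
  set φ' := ψ v • φ with hφ'
  have hψv : ψ v' = 1 := by rw [hv', map_smul, smul_eq_mul, inv_mul_cancel₀ ha]
  have hφw : φ' w = 0 := by simp [hφ', hb]
  have h02 : IsRoot P K w φ' := by
    have := C.incidence hr' hs hφw (by rw [hψv]; exact one_ne_zero)
    rwa [hψv, one_smul] at this
  obtain ⟨z, hz⟩ : ∃ z, φ' z = 1 := by
    obtain ⟨z, hz⟩ : ∃ z, φ' z ≠ 0 := by
      by_contra h
      push Not at h
      exact hr'.axis (LinearMap.ext h)
    exact ⟨(φ' z)⁻¹ • z, by simp [hz]⟩
  set e₂ := z - ψ z • v' with he₂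
  have h2a : φ' e₂ = 1 := by simp [he₂, hz, hr'.inc]
  have h2b : ψ e₂ = 0 := by simp [he₂, hψv]
  have hli : LinearIndependent F ![w, v', e₂] := by
    rw [Fintype.linearIndependent_iff]
    intro g hg
    rw [Fin.sum_univ_three] at hg
    simp only [Matrix.cons_val_zero, Matrix.cons_val_one, Matrix.cons_val_two, Matrix.head_cons,
      Matrix.tail_cons] at hg
    have h1 := congrArg φ' hg
    simp only [map_add, map_smul, map_zero, smul_eq_mul, hφw, hr'.inc, h2a, mul_zero, zero_add,
      mul_one] at h1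
    have h2 := congrArg ψ hg
    simp only [map_add, map_smul, map_zero, smul_eq_mul, hs.inc, hψv, h2b, mul_zero, zero_add,
      add_zero, mul_one] at h2
    rw [h1, h2, zero_smul, zero_smul, add_zero, add_zero, smul_eq_zero] at hg
    intro i
    fin_cases i
    · exact hg.resolve_right hs.centre
    · exact h2
    · exact h1
  obtain ⟨L', hL'⟩ := exists_dual hli
  set L₀ := L' 0 with hL₀
  have e00 : L₀ w = 1 := hL'.self 0
  have e01 : L₀ v' = 0 := hL'.off (show (0 : Fin 3) ≠ 1 by decide)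
  have e02 : L₀ e₂ = 0 := hL'.off (show (0 : Fin 3) ≠ 2 by decide)
  have hF : Frame ![w, v', e₂] ![L₀, ψ, φ'] := ⟨fun i j => by
    fin_cases i <;> fin_cases j <;> simp [e00, e01, e02, hs.inc, hψv, h2b, hφw, hr'.inc, h2a]⟩
  -- a root moving the first centre
  obtain ⟨x, χ, ht, hχ⟩ := C.exists_root_axis hs.centre
  obtain ⟨γ, hγ, χ', hp, hχ'⟩ : ∃ γ ∈ K, ∃ χ' : D₃, IsRoot P K (γ • w + v') χ' ∧ χ' w ≠ 0 := by
    have hne : ∀ α β : F, (α ≠ 0 ∨ β ≠ 0) → α • w + β • v' ≠ 0 := fun α β h e => by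
      have h1 := congrArg L₀ e
      have h2 := congrArg ψ e
      simp only [map_add, map_smul, map_zero, smul_eq_mul, e00, e01, hs.inc, hψv, mul_zero,
        mul_one, add_zero, zero_add] at h1 h2
      exact h.elim (fun h => h h1) fun h => h h2
    by_cases hx : φ' x = 0
    · -- centre in the common axis
      have hxe := hF.expand x
      simp only [Matrix.cons_val_zero, Matrix.cons_val_one, Matrix.cons_val_two, Matrix.head_cons,
        Matrix.tail_cons, hx, zero_smul, add_zero] at hxe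
      have hχx : L₀ x * χ w + ψ x * χ v' = 0 := by
        have h := ht.inc
        rw [hxe, map_add, map_smul, map_smul, smul_eq_mul, smul_eq_mul] at h
        exact h
      have hψx : ψ x ≠ 0 := fun e => by
        rw [e, zero_mul, add_zero] at hχx
        rw [(mul_eq_zero.1 hχx).resolve_right hχ, e, zero_smul, zero_smul, add_zero] at hxe
        exact ht.centre hxe
      have hu := C.incidence h02 ht hx hχ
      have hγ : -(χ v') / χ w ∈ K := by
        by_cases h1 : χ v' = 0
        · rw [h1, neg_zero, zero_div]; exact zero_mem K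
        · have hu' := C.incidence hr' ht hx h1
          rw [neg_div, ← inv_div (χ w) (χ v')]
          refine neg_mem (inv_mem ((hu'.mem_iff _).1 ?_))
          rw [smul_smul, div_mul_cancel₀ _ h1]
          exact hu.mem
      refine ⟨-(χ v') / χ w, hγ, ψ x • χ, ?_, ?_⟩
      · have hx' : x = ψ x • ((-(χ v') / χ w) • w + v') := by
          conv_lhs => rw [hxe]
          rw [smul_add, smul_smul (ψ x) (-(χ v') / χ w) w]
          congr 2
          rw [mul_div_assoc', eq_div_iff hχ]
          linear_combination hχx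
        have h := ht.rescale hψx
        rwa [show (ψ x)⁻¹ • x = (ψ x)⁻¹ • (ψ x • ((-(χ v') / χ w) • w + v')) from
            congrArg ((ψ x)⁻¹ • ·) hx', smul_smul, inv_mul_cancel₀ hψx, one_smul] at h
      · simp [hψx, hχ]
    · obtain ⟨α, hα, β, hβ, hαβ, h0⟩ := C.exists_comb_eq_zero (A := φ' x * χ w) (B := φ' x * χ v')
        fun α hα β hβ => by
          by_cases h : α ≠ 0 ∨ β ≠ 0
          · have := C.invVal (C.pencil_centre h02 hr' hα hβ (hne α β h)) ht
            rw [map_add, map_smul, map_smul, smul_eq_mul, smul_eq_mul] at this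
            rwa [show α * (φ' x * χ w) + β * (φ' x * χ v') = φ' x * (α * χ w + β * χ v') by ring]
          · push Not at h
            rw [h.1, h.2, zero_mul, zero_mul, add_zero]
            exact Or.inl (zero_mem K)
      have h0' : α * χ w + β * χ v' = 0 := (mul_eq_zero.1 (by linear_combination h0 :
        φ' x * (α * χ w + β * χ v') = 0)).resolve_left hx
      have hβ0 : β ≠ 0 := fun e => by
        rw [e, zero_mul, add_zero] at h0'
        rcases hαβ with h | h
        · exact h ((mul_eq_zero.1 h0').resolve_right hχ)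
        · exact h e
      refine ⟨α / β, div_mem hα hβ, φ' x • χ, ?_, by simp [hx, hχ]⟩
      have hp : IsRoot P K ((α / β) • w + (1 : F) • v') φ' :=
        C.pencil_centre h02 hr' (div_mem hα hβ) (one_mem K) (hne _ _ (Or.inr one_ne_zero))
      rw [one_smul] at hp
      refine C.incidence ht hp ?_ hx
      rw [map_add, map_smul, smul_eq_mul]
      field_simp
      linear_combination h0'
  set p := γ • w + v' with hp'
  set e₂' := e₂ - (χ' e₂ / χ' w) • w with he₂'
  refine ⟨![w, p, e₂'], ![(χ' w)⁻¹ • χ', ψ, φ'], ?_, ?_, ?_, ?_, ?_⟩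
  · refine ⟨fun i j => ?_⟩
    fin_cases i <;> fin_cases j <;>
      simp [hp', he₂', hχ', hs.inc, hψv, h2a, h2b, hφw, hr'.inc]
    · have := hp.inc
      rw [hp', map_add, map_smul, smul_eq_mul] at this
      exact this
  · exact hs
  · exact h02
  · show IsRoot P K p φ'
    have h := C.pencil_centre h02 hr' hγ (one_mem K) (by rw [one_smul]; exact hp.centre)
    rwa [one_smul] at h
  · show IsRoot P K p ((χ' w)⁻¹ • χ')
    have hpφ : IsRoot P K p φ' := by
      have h := C.pencil_centre h02 hr' hγ (one_mem K) (by rw [one_smul]; exact hp.centre)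
      rwa [one_smul] at h
    have hu := C.incidence h02 hp hpφ.inc hχ'
    have hμ : χ' w ∈ K := (hpφ.mem_iff _).1 hu.mem
    refine IsRoot.of_smul hμ hχ' ?_
    rwa [smul_smul, mul_inv_cancel₀ hχ', one_smul]

/-- The off-diagonal coordinates at a centre with two axes. -/
lemma coord_mem {e : Fin 3 → V₃} {L : Fin 3 → D₃} (hF : Frame e L) {i j k : Fin 3} (hjk : j ≠ k)
    (h1 : IsRoot P K (e i) (L j)) (h2 : IsRoot P K (e i) (L k)) {x : V₃} {χ : D₃}
    (ht : IsRoot P K x χ) : χ (e i) * L j x ∈ K :=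
  C.inv_of_two_axes h1 h2 (fun α _ β _ h => hF.indep hjk α β h) ht

/-- The differences of the diagonal coordinates. -/
lemma diag_sub_mem {e : Fin 3 → V₃} {L : Fin 3 → D₃} (hF : Frame e L) {i j k : Fin 3}
    (hij : i ≠ j) (hik : i ≠ k) (hjk : j ≠ k) (h1 : IsRoot P K (e i) (L j))
    (h2 : IsRoot P K (e i) (L k)) (h3 : IsRoot P K (e j) (L i)) (h4 : IsRoot P K (e j) (L k))
    {x : V₃} {χ : D₃} (ht : IsRoot P K x χ) : χ (e j) * L j x - χ (e i) * L i x ∈ K := by
  have a := C.coord_mem hF hjk h1 h2 ht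
  have b := C.coord_mem hF hik h3 h4 ht
  obtain ⟨h, hm⟩ := h1.mem
  have c := C.coord_mem hF hik h3 h4 (ht.conj hm)
  have e1 : ap (tv (e i) (L j) h)⁻¹ (e j) = e j - e i := by
    rw [tv_inv, ap_tv, LinearMap.neg_apply, hF.self, neg_smul, one_smul, sub_eq_add_neg]
  simp only [LinearMap.comp_apply, LinearEquiv.coe_coe, apEquiv_apply, e1, ap_tv, map_add, map_sub,
    map_smul, smul_eq_mul, hF.self, mul_one] at c
  have hh := add_mem (sub_mem c b) a
  rwa [show (χ (e j) - χ (e i)) * (L i x + L j x) - χ (e j) * L i x + χ (e i) * L j x =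
    χ (e j) * L j x - χ (e i) * L i x by ring] at hh

/-- Six root groups of a frame. -/
lemma exists_six {e : Fin 3 → V₃} {L : Fin 3 → D₃} (hF : Frame e L)
    (h01 : IsRoot P K (e 0) (L 1)) (h02 : IsRoot P K (e 0) (L 2))
    (h12 : IsRoot P K (e 1) (L 2)) (h10 : IsRoot P K (e 1) (L 0)) :
    ∃ (e' : Fin 3 → V₃) (L' : Fin 3 → D₃), Frame e' L' ∧
      ∀ i j, i ≠ j → IsRoot P K (e' i) (L' j) := by
  obtain ⟨x, χ, ht, hx⟩ := C.exists_root_centre (W := LinearMap.ker (L 2))
    (fun h => h02.axis (LinearMap.ker_eq_top.1 h))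
  rw [LinearMap.mem_ker] at hx
  have a1 := C.coord_mem hF (show (1 : Fin 3) ≠ 2 by decide) h01 h02 ht
  have a2 := C.coord_mem hF (show (2 : Fin 3) ≠ 1 by decide) h02 h01 ht
  have b0 := C.coord_mem hF (show (0 : Fin 3) ≠ 2 by decide) h10 h12 ht
  have b2 := C.coord_mem hF (show (2 : Fin 3) ≠ 0 by decide) h12 h10 ht
  have hd := C.diag_sub_mem hF (show (0 : Fin 3) ≠ 1 by decide) (show (0 : Fin 3) ≠ 2 by decide)
    (show (1 : Fin 3) ≠ 2 by decide) h01 h02 h10 h12 ht
  have hne : χ (e 0) ≠ 0 ∨ χ (e 1) ≠ 0 := by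
    by_contra h
    push Not at h
    have h2 := ht.inc
    rw [hF.apply χ x, h.1, h.2, zero_mul, zero_mul, zero_add, zero_add] at h2
    exact ht.axis (LinearMap.ext fun y => by
      rw [hF.apply χ y, h.1, h.2, (mul_eq_zero.1 h2).resolve_right hx]; simp)
  have hr0 : L 0 x / L 2 x ∈ K := by
    by_cases h : χ (e 1) = 0
    · have h0 := hne.resolve_right (not_not.2 h)
      rw [h, zero_mul, zero_sub] at hd
      have := div_mem (neg_mem hd) a2
      rwa [neg_neg, mul_div_mul_left _ _ h0] at this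
    · have := div_mem b0 b2
      rwa [mul_div_mul_left _ _ h] at this
  have hr1 : L 1 x / L 2 x ∈ K := by
    by_cases h : χ (e 0) = 0
    · have h1 := hne.resolve_left (not_not.2 h)
      rw [h, zero_mul, sub_zero] at hd
      have := div_mem hd b2
      rwa [mul_div_mul_left _ _ h1] at this
    · have := div_mem a1 a2
      rwa [mul_div_mul_left _ _ h] at this
  set e₂ := (L 2 x)⁻¹ • x with he₂
  set L₀ := L 0 - (L 0 x / L 2 x) • L 2 with hL₀
  set L₁ := L 1 - (L 1 x / L 2 x) • L 2 with hL₁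
  have hF' : Frame ![e 0, e 1, e₂] ![L₀, L₁, L 2] := ⟨fun i j => by
    fin_cases i <;> fin_cases j <;>
      simp [hL₀, hL₁, he₂, hF.self, hF.off, hx] <;> field_simp <;> ring⟩
  have key : ∀ {v : V₃} {φ₁ φ₂ : D₃} {k : F}, k ∈ K → IsRoot P K v φ₁ → IsRoot P K v φ₂ →
      φ₁ - k • φ₂ ≠ 0 → IsRoot P K v (φ₁ - k • φ₂) := by
    intro v φ₁ φ₂ k hk h1 h2 hne
    have e : φ₁ - k • φ₂ = (1 : F) • φ₁ + (-k) • φ₂ := LinearMap.ext fun z => by simp [sub_eq_add_neg]
    rw [e] at hne ⊢
    exact C.pencil_axis h1 h2 (one_mem K) (neg_mem hk) hne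
  have g01 : IsRoot P K (e 0) L₁ := key hr1 h01 h02 fun h' => by
    simpa [hF.self, hF.off] using LinearMap.congr_fun h' (e 1)
  have g10 : IsRoot P K (e 1) L₀ := key hr0 h10 h12 fun h' => by
    simpa [hF.self, hF.off] using LinearMap.congr_fun h' (e 0)
  have ht' := ht.rescale hx
  rw [← he₂] at ht'
  have hL1e : L₁ e₂ = 0 := hF'.off (show (1 : Fin 3) ≠ 2 by decide)
  have hL0e : L₀ e₂ = 0 := hF'.off (show (0 : Fin 3) ≠ 2 by decide)
  have h01' : L₁ (e 1) = 1 := hF'.self 1
  have h00' : L₀ (e 0) = 1 := hF'.self 0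
  have hk0 : (L 2 x • χ) (e 0) ∈ K := by simpa [mul_comm] using a2
  have hk1 : (L 2 x • χ) (e 1) ∈ K := by simpa [mul_comm] using b2
  have g2 : IsRoot P K e₂ L₁ ∧ IsRoot P K e₂ L₀ := by
    by_cases h : χ (e 0) = 0
    · have h1 : (L 2 x • χ) (e 1) ≠ 0 := by simp [hx, hne.resolve_left (not_not.2 h)]
      have u := IsRoot.of_smul hk1 h1 (C.incidence g10 ht' hL0e h1)
      have u' := C.incidence g01 u hL1e (by rw [h00']; exact one_ne_zero)
      rw [h00', one_smul] at u'
      exact ⟨u', u⟩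
    · have h1 : (L 2 x • χ) (e 0) ≠ 0 := by simp [hx, h]
      have u := IsRoot.of_smul hk0 h1 (C.incidence g01 ht' hL1e h1)
      have u' := C.incidence g10 u hL0e (by rw [h01']; exact one_ne_zero)
      rw [h01', one_smul] at u'
      exact ⟨u, u'⟩
  refine ⟨![e 0, e 1, e₂], ![L₀, L₁, L 2], hF', fun i j hij => ?_⟩
  fin_cases i <;> fin_cases j
  · exact absurd rfl hij
  · exact g01
  · exact h02
  · exact g10
  · exact absurd rfl hij
  · exact h12
  · exact g2.2
  · exact g2.1
  · exact absurd rfl hij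

/-- With six root groups of a frame every root is rational over `K`. -/
lemma coord_mem_all {e : Fin 3 → V₃} {L : Fin 3 → D₃} (hF : Frame e L)
    (h6 : ∀ i j, i ≠ j → IsRoot P K (e i) (L j)) {x : V₃} {χ : D₃} (ht : IsRoot P K x χ)
    (i j : Fin 3) : χ (e i) * L j x ∈ K := by
  have hoff : ∀ i j : Fin 3, i ≠ j → χ (e i) * L j x ∈ K := fun i j hij => by
    obtain ⟨k, hki, hkj⟩ : ∃ k : Fin 3, k ≠ i ∧ k ≠ j := by
      fin_cases i <;> fin_cases j <;> decide
    exact C.coord_mem hF (Ne.symm hkj) (h6 i j hij) (h6 i k (Ne.symm hki)) ht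
  by_cases hij : i = j
  swap
  · exact hoff i j hij
  subst hij
  obtain ⟨j, k, hij, hik, hjk, hsum⟩ : ∃ j k : Fin 3, i ≠ j ∧ i ≠ k ∧ j ≠ k ∧
      χ (e i) * L i x + χ (e j) * L j x + χ (e k) * L k x = 0 := by
    have h := ht.inc
    rw [hF.apply χ x] at h
    obtain rfl | rfl | rfl : i = 0 ∨ i = 1 ∨ i = 2 := by fin_cases i <;> simp
    · exact ⟨1, 2, by decide, by decide, by decide, by linear_combination h⟩
    · exact ⟨0, 2, by decide, by decide, by decide, by linear_combination h⟩
    · exact ⟨0, 1, by decide, by decide, by decide, by linear_combination h⟩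
  set d := χ (e i) * L i x with hd
  set d' := χ (e j) * L j x with hd'
  set d'' := χ (e k) * L k x with hd''
  by_cases hd0 : d = 0
  · rw [hd0]; exact zero_mem K
  have hp1 : d * d' ∈ K := by
    rw [hd, hd', show χ (e i) * L i x * (χ (e j) * L j x) =
      χ (e i) * L j x * (χ (e j) * L i x) by ring]
    exact mul_mem (hoff i j hij) (hoff j i (Ne.symm hij))
  have hp2 : d * d'' ∈ K := by
    rw [hd, hd'', show χ (e i) * L i x * (χ (e k) * L k x) =
      χ (e i) * L k x * (χ (e k) * L i x) by ring]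
    exact mul_mem (hoff i k hik) (hoff k i (Ne.symm hik))
  have hsq : d * d ∈ K := by
    have := neg_mem (add_mem hp1 hp2)
    rwa [show -(d * d' + d * d'') = d * d by linear_combination -d * hsum] at this
  have hs1 : d' - d ∈ K := C.diag_sub_mem hF hij hik hjk (h6 i j hij) (h6 i k hik)
    (h6 j i (Ne.symm hij)) (h6 j k hjk) ht
  have hs2 : d'' - d ∈ K := C.diag_sub_mem hF hik hij (Ne.symm hjk) (h6 i k hik) (h6 i j hij)
    (h6 k i (Ne.symm hik)) (h6 k j (Ne.symm hjk)) ht
  have main : ∀ y, d * y ∈ K → y - d ∈ K → y ≠ d → d ∈ K := fun y hy hy' hne => by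
    have hk := sub_mem (div_mem hy hsq) (one_mem K)
    have hne' : d * y / (d * d) - 1 ≠ 0 := by
      rw [mul_div_mul_left _ _ hd0, sub_ne_zero]
      exact fun h => hne ((div_eq_one_iff_eq hd0).1 h)
    have := div_mem hy' hk
    rw [mul_div_mul_left _ _ hd0] at this hne'
    rwa [show (y - d) / (y / d - 1) = d by
      rw [div_eq_iff hne']; field_simp] at this
  by_cases h1 : d' = d
  swap
  · exact main d' hp1 hs1 h1
  by_cases h2 : d'' = d
  swap
  · exact main d'' hp2 hs2 h2
  have hcube : d * d' * d'' ∈ K := by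
    rw [hd, hd', hd'', show χ (e i) * L i x * (χ (e j) * L j x) * (χ (e k) * L k x) =
      χ (e i) * L j x * (χ (e j) * L k x) * (χ (e k) * L i x) by ring]
    exact mul_mem (mul_mem (hoff i j hij) (hoff j k hjk)) (hoff k i (Ne.symm hik))
  rw [h1, h2] at hcube
  have := div_mem hcube hsq
  rwa [mul_div_cancel_left₀ _ (mul_ne_zero hd0 hd0)] at this

end RootCtx

/-- **Case L**: an incidence among the roots gives the special linear group. -/
theorem specialLinear_le_of_incidence [Finite F] (C : RootCtx P K) (hK : NoSub P) {v w : V₃}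
    {φ ψ : D₃} (hr : IsRoot P K v φ) (hs : IsRoot P K w ψ) (hb : φ w = 0)
    (hw : w ∉ Submodule.span F {v}) : specialLinear (Fin 3) F ≤ P := by
  classical
  obtain ⟨v', w', φ', ψ', hr', hs', hb', ha'⟩ := C.exists_incidence hr hs hb hw
  obtain ⟨e₁, L₁, hF₁, a, b, c, d⟩ := C.exists_four hr' hs' hb' ha'
  obtain ⟨e, L, hF, h6⟩ := C.exists_six hF₁ a b c d
  -- every element has coordinates in `K`
  let S : Submonoid (GL (Fin 3) F) :=
    { carrier := {g | ∀ i j, L i (ap g (e j)) ∈ K}
      one_mem' := fun i j => by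
        rw [ap_one, hF.dual]
        split_ifs
        · exact one_mem K
        · exact zero_mem K
      mul_mem' := fun {g h} hg hh i j => by
        rw [ap_mul, hF.expand (ap h (e j)), ap_add, ap_add, ap_smul, ap_smul, ap_smul, map_add,
          map_add, map_smul, map_smul, map_smul, smul_eq_mul, smul_eq_mul, smul_eq_mul]
        exact add_mem (add_mem (mul_mem (hh 0 j) (hg i 0)) (mul_mem (hh 1 j) (hg i 1)))
          (mul_mem (hh 2 j) (hg i 2)) }
  have hPS : ∀ g ∈ P, g ∈ S := by
    let G : Subgroup (GL (Fin 3) F) :=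
      { S with
        inv_mem' := fun {s} hs => by
          have e : s⁻¹ = s ^ (orderOf s - 1) := by
            refine inv_eq_of_mul_eq_one_right ?_
            rw [← pow_succ', Nat.sub_add_cancel (orderOf_pos s), pow_orderOf_eq_one]
          show s⁻¹ ∈ S
          rw [e]
          exact S.pow_mem hs _ }
    refine fun g hg => ((Subgroup.closure_le G).2 ?_) (le_closure_roots C hg)
    rintro _ ⟨x, χ, h, ht, rfl⟩ i j
    show L i (ap (tv x χ h) (e j)) ∈ K
    rw [ap_tv, map_add, map_smul, smul_eq_mul, hF.dual]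
    refine add_mem ?_ (C.coord_mem_all hF h6 ht j i)
    split_ifs
    · exact one_mem K
    · exact zero_mem K
  have hreal : RealisableOver K (matrixSet P) := by
    let E₀ : Matrix (Fin 3) (Fin 3) F := Matrix.of fun k j => e j k
    let L₀ : Matrix (Fin 3) (Fin 3) F := Matrix.of fun i k => L i (Pi.single k 1)
    have hL : ∀ (y : V₃) (i : Fin 3), (L₀ *ᵥ y) i = L i y := fun y i => by
      conv_rhs => rw [pi_eq_sum_univ' y]
      simp only [map_sum, map_smul, smul_eq_mul, Matrix.mulVec, dotProduct, L₀, Matrix.of_apply]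
      exact Finset.sum_congr rfl fun k _ => mul_comm _ _
    have hmul : ∀ (g : Matrix (Fin 3) (Fin 3) F) (i j : Fin 3),
        (L₀ * g * E₀) i j = L i (g *ᵥ e j) := fun g i j => by
      rw [← hL, Matrix.mul_assoc]
      rfl
    have hinv : L₀ * E₀ = 1 := by
      ext i j
      have := hmul 1 i j
      rw [Matrix.mul_one, Matrix.one_mulVec, hF.dual] at this
      rw [this, Matrix.one_apply]
    refine ⟨⟨L₀, E₀, hinv, mul_eq_one_comm.1 hinv⟩, ?_⟩
    rintro _ ⟨g, hg, rfl⟩ i j
    show (L₀ * (g : Matrix (Fin 3) (Fin 3) F) * E₀) i j ∈ K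
    rw [hmul]
    exact hPS g hg i j
  have htop : K = ⊤ := by_contra fun h => hK K h hreal
  have hfull : ∀ i j, i ≠ j → ∀ c : F, Mem P (e i) (c • L j) := fun i j hij c =>
    ((h6 i j hij).mem_iff c).2 (htop ▸ Subfield.mem_top c)
  refine specialLinear_le_of_fullCentre (S := Set.range e)
    (hF.li.span_eq_top_of_card_eq_finrank (by simp)) ?_
  rintro _ ⟨i, rfl⟩ χ hχ
  obtain ⟨j, k, hij, hik, hjk, hχe⟩ : ∃ j k : Fin 3, i ≠ j ∧ i ≠ k ∧ j ≠ k ∧
      χ = χ (e j) • L j + χ (e k) • L k := by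
    obtain rfl | rfl | rfl : i = 0 ∨ i = 1 ∨ i = 2 := by fin_cases i <;> simp
    · exact ⟨1, 2, by decide, by decide, by decide,
        LinearMap.ext fun y => by rw [hF.apply χ y]; simp [hχ]⟩
    · exact ⟨0, 2, by decide, by decide, by decide,
        LinearMap.ext fun y => by rw [hF.apply χ y]; simp [hχ]⟩
    · exact ⟨0, 1, by decide, by decide, by decide,
        LinearMap.ext fun y => by rw [hF.apply χ y]; simp [hχ]⟩
  obtain ⟨_, hm⟩ := Mem.add_axis (hfull i j hij (χ (e j))) (hfull i k hik (χ (e k)))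
  convert hm using 2

end CfsgLib.SLThreeResidual
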