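import Cfsg.Agent.Lib.SLThreeResidual.RootIncidence
import Cfsg.Agent.Lib.SLThreeResidual.RootException
import Cfsg.Agent.Lib.SLThreeResidual.Hermitian

/-!
# Residual groups with a root pair are big

Two transvections with the same centre and axis force `SL₃ ≤ P`, or a unitary form fixed by `P`
all of whose transvections lie in `P`.
-/

set_option autoImplicit false

namespace CfsgLib.SLThreeResidual

open Cfsg.Geo Matrix CfsgLib.Geometric
open CfsgLib.Geometric.SLThree.IrredTv (Mem)

variable {F : Type*} [Field F] [Fintype F] {P : Subgroup (GL (Fin 3) F)}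

/-- **Root pairs.** -/
theorem rootPair_big (hC : Core P) (hK : NoSub P) (hR : HasRootPair P) :
    specialLinear (Fin 3) F ≤ P ∨ ∃ (σ : F ≃+* F) (f : (Fin 3 → F) → (Fin 3 → F) → F),
      IsUnitaryForm σ f ∧ FixesForm (matrixSet P) f ∧ AllFormTv P f := by
  obtain ⟨K, C⟩ := exists_rootCtx hC hR
  set R : Set (Root F) := {r | IsRoot P K r.1 r.2} with hRdef
  by_cases hN : NoIncidence R
  · have hN' : ∀ (v w : Fin 3 → F) (φ ψ : (Fin 3 → F) →ₗ[F] F), IsRoot P K v φ → IsRoot P K w ψ →
        φ w = 0 → w ∈ Submodule.span F {v} := fun v w φ ψ hr hs h => hN (v, φ) hr (w, ψ) hs h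
    have D : RootData P K R :=
      { nonempty := by obtain ⟨v, φ, h⟩ := C.nonempty; exact ⟨(v, φ), h⟩
        centre_ne := fun r hr => hr.centre
        axis_ne := fun r hr => hr.axis
        isRoot := fun r hr => hr.inc
        mem := fun r hr k hk _ => ((hr.mem_iff k).2 hk).2
        inv := fun r hr s hs => C.inv_mem hN' hr hs
        conj := fun g hg r hr => hr.conj hg }
    exact Or.inr (unitary_of_noIncidence hC hK D hN)
  · left
    rw [NoIncidence] at hN
    push Not at hN
    obtain ⟨r, hr, s, hs, h0, hne⟩ := hN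
    exact specialLinear_le_of_incidence C hK hr hs h0 hne

end CfsgLib.SLThreeResidual
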