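import Cfsg.Agent.Lib.SLThreeResidual.SevenFiveTable
import Cfsg.Agent.Lib.SLThreeResidual.L32Table
import Cfsg.Agent.Lib.SmallDim.UnitaryThreeModels

/-!
# A representation of `SL₃(2)` in the stabiliser of the lines of the `3.A₇` model in `SU(3,5)`
-/

set_option autoImplicit false
set_option linter.unusedSectionVars false
set_option maxRecDepth 4000

namespace CfsgLib.SLThreeResidual.SevenFive

open CfsgLib.SmallDim.UThree CfsgLib.SmallDim
open scoped MatrixGroups

/-- `SL₃(2)`. -/
abbrev S7 : Type := Matrix.SpecialLinearGroup (Fin 3) (ZMod 2)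

/-- The entries of an element. -/
def arr (g : S7) : M2 := fun i j => (g : Matrix (Fin 3) (Fin 3) (ZMod 2)) i j

/-- The identity array. -/
def one2 : M2 := fun i j => if i = j then 1 else 0

/-- The trace of an array. -/
def tr2 (e : M2) : ZMod 2 := e 0 0 + e 1 1 + e 2 2

lemma arr_injective : Function.Injective arr :=
  fun g h e => Subtype.ext (Matrix.ext fun i j => congrFun (congrFun e i) j)

lemma arr_one : arr 1 = one2 := by
  funext i j
  simp [arr, one2, Matrix.one_apply]

lemma arr_mul (g h : S7) : arr (g * h) = mul2 (arr g) (arr h) := by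
  funext i j
  simp [arr, mul2, Matrix.mul_apply, Fin.sum_univ_three]

lemma trace_eq (g : S7) : Matrix.trace (g : Matrix (Fin 3) (Fin 3) (ZMod 2)) = tr2 (arr g) :=
  Matrix.trace_fin_three _

lemma arr_pos (g : S7) : pos (arr g) < 168 ∧ elt (pos (arr g)) = arr g := by
  have he : arr g = ![![arr g 0 0, arr g 0 1, arr g 0 2], ![arr g 1 0, arr g 1 1, arr g 1 2],
      ![arr g 2 0, arr g 2 1, arr g 2 2]] := by
    funext i j
    fin_cases i <;> fin_cases j <;> rfl
  rw [he]
  apply elt_pos_entries
  have h := g.2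
  rw [Matrix.det_fin_three] at h
  simp only [arr]
  linear_combination h

/-- The position of an element. -/
def idx (g : S7) : Fin 168 := ⟨pos (arr g), (arr_pos g).1⟩

lemma elt_idx (g : S7) : elt (idx g) = arr g := (arr_pos g).2

lemma det_gen2 : ∀ b, (Matrix.of (gen2 b) : Matrix (Fin 3) (Fin 3) (ZMod 2)).det = 1 := by
  intro b
  rw [Matrix.det_fin_three]
  revert b
  decide +kernel

/-- The generators. -/
def gS (b : Bool) : S7 := ⟨Matrix.of (gen2 b), det_gen2 b⟩

lemma det_elt (k : Fin 168) : (Matrix.of (elt k) : Matrix (Fin 3) (Fin 3) (ZMod 2)).det = 1 := by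
  rw [Matrix.det_fin_three]
  revert k
  decide +kernel

/-- The element in a position. -/
def eS (k : Fin 168) : S7 := ⟨Matrix.of (elt k), det_elt k⟩

lemma eS_idx (g : S7) : eS (idx g) = g := arr_injective (elt_idx g)

lemma idx_mul_gen (g : S7) (b : Bool) : (idx (g * gS b) : ℕ) = step b (idx g) := by
  have h : arr (g * gS b) = elt (step b (idx g)) := by
    rw [arr_mul, ← elt_idx g]
    funext i j
    exact (elt_step b (idx g) i j).symm
  show pos (arr (g * gS b)) = _
  rw [h]
  exact pos_elt ⟨step b (idx g), step_lt b _⟩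

/-- Induction along words in the generators. -/
lemma induction {p : S7 → Prop} (h1 : p 1) (hm : ∀ g b, p g → p (g * gS b)) (g : S7) : p g := by
  suffices h : ∀ k : Fin 168, p (eS k) from eS_idx g ▸ h (idx g)
  intro k
  induction' hk : (k : ℕ) using Nat.strong_induction_on with n ih generalizing k
  subst hk
  by_cases h0 : (k : ℕ) = 0
  · obtain rfl : k = (0 : Fin 168) := Fin.ext h0
    have : eS 0 = 1 := arr_injective (by rw [arr_one]; decide +kernel)
    rw [this]; exact h1
  · obtain ⟨hlt, hstep⟩ := par_lt k h0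
    set j : Fin 168 := ⟨par k, lt_trans hlt k.2⟩
    have : eS k = eS j * gS (last k) := arr_injective (by
      rw [arr_mul]
      funext i l
      show elt k i l = mul2 (elt j) (gen2 (last k)) i l
      rw [← elt_step (last k) j i l, show step (last k) (j : ℕ) = k from hstep])
    rw [this]
    exact hm _ _ (ih _ hlt j rfl)

/-- The class value in coded form. -/
def trCode (e : M2) : Q2 5 :=
  if ∀ i j, e i j = one2 i j then (3, 0)
  else if ∀ i j, mul2 e e i j = one2 i j then (4, 0)
  else if ∀ i j, mul2 (mul2 e e) (mul2 e e) i j = one2 i j then (1, 0)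
  else if ∀ i j, mul2 (mul2 e e) e i j = one2 i j then (0, 0)
  else if tr2 e = 0 then (2, 4) else (2, 1)

lemma img_trace : ∀ k : Fin 168, img k 0 0 + img k 1 1 + img k 2 2 = trCode (elt k) := by
  decide +kernel

lemma img_zero : ∀ i j, img 0 i j = idm i j := by decide +kernel

lemma gen5_false : ∀ i j, gen5 false i j = a7DR i j := by decide +kernel

lemma gen5_true : ∀ i j, gen5 true i j = mm5 (mm5 a7A a7D2) a7T i j := by decide +kernel

section Rep

variable {F : Type*} [Field F] [Fintype F] [CharP F 5] {s : F}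

lemma decM_mm5 (hs : s ^ 2 = 2) (A B : M3 5) : decM s (mm5 A B) = decM s A * decM s B := by
  ext i j
  simp [decM, mm5, Matrix.mul_apply, Fin.sum_univ_three, decQ_add, decQ_mul hs]

lemma decM_idm : decM s (idm : M3 5) = 1 := by
  ext i j
  by_cases h : i = j <;> simp [decM, idm, h, Matrix.one_apply, decQ_one, decQ_zero]

lemma idx_one : (idx (1 : S7) : ℕ) = 0 := by
  show pos (arr 1) = 0
  rw [arr_one]
  decide +kernel

/-- The representation, as matrices. -/
def repM (hs : s ^ 2 = 2) : S7 →* Matrix (Fin 3) (Fin 3) F where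
  toFun g := decM s (img (idx g))
  map_one' := by
    rw [idx_one, show img 0 = idm from funext fun i => funext (img_zero i), decM_idm]
  map_mul' g h := by
    have hstep : ∀ (g : S7) (b : Bool),
        decM s (img (idx (g * gS b))) = decM s (img (idx g)) * decM s (gen5 b) := fun g b => by
      rw [idx_mul_gen, ← decM_mm5 hs]
      exact congrArg _ (funext fun i => funext (img_step b (idx g) i))
    revert g
    refine induction (p := fun h => ∀ g, decM s (img (idx (g * h))) =
      decM s (img (idx g)) * decM s (img (idx h))) ?_ (fun h b ih g => ?_) h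
    · intro g
      rw [mul_one, idx_one, show img 0 = idm from funext fun i => funext (img_zero i), decM_idm, mul_one]
    · rw [← mul_assoc, hstep, ih, hstep, mul_assoc]

/-- The representation. -/
def rep (hs : s ^ 2 = 2) : S7 →* GL (Fin 3) F := (repM hs).toHomUnits

lemma rep_val (hs : s ^ 2 = 2) (g : S7) :
    ((rep hs g : GL (Fin 3) F) : Matrix (Fin 3) (Fin 3) F) = decM s (img (idx g)) := rfl

lemma decQ_alpha (hs : s ^ 2 = 2) :
    decQ s ((2, 4) : Q2 5) ^ 2 + decQ s ((2, 4) : Q2 5) + 2 = 0 := by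
  have h5 : (5 : F) = 0 := by exact_mod_cast CharP.cast_eq_zero F 5
  have e1 : decQ s ((2, 4) : Q2 5) = 2 + 4 * s := by
    simp only [decQ]
    rw [map_ofNat, show ((4 : ZMod 5)) = ((4 : ℕ) : ZMod 5) by norm_num, map_natCast]
    norm_num
  rw [e1]
  linear_combination 16 * hs + (4 * s + 8) * h5

/-- The traces of the representation. -/
lemma rep_trace (hs : s ^ 2 = 2) (g : S7) :
    Matrix.trace ((rep hs g : GL (Fin 3) F) : Matrix (Fin 3) (Fin 3) F) =
      l32Tr (decQ s ((2, 4) : Q2 5)) g := by
  have h5 : (5 : F) = 0 := by exact_mod_cast CharP.cast_eq_zero F 5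
  rw [rep_val, Matrix.trace_fin_three]
  simp only [decM, Matrix.of_apply, ← decQ_add]
  rw [img_trace, elt_idx]
  have hiff : ∀ (x : S7) (e : M2), arr x = e → ((∀ i j, e i j = one2 i j) ↔ x = 1) := by
    rintro x _ rfl
    rw [← arr_injective.eq_iff, arr_one]
    exact ⟨fun h => funext fun i => funext (h i), fun h i j => by rw [h]⟩
  have h2 := hiff (g * g) _ (arr_mul g g)
  have h4 := hiff (g ^ 4) (mul2 (mul2 (arr g) (arr g)) (mul2 (arr g) (arr g))) (by
    rw [show g ^ 4 = g * g * (g * g) by simp [pow_succ, mul_assoc], arr_mul, arr_mul])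
  have h3 := hiff (g ^ 3) (mul2 (mul2 (arr g) (arr g)) (arr g)) (by
    rw [show g ^ 3 = g * g * g by simp [pow_succ], arr_mul, arr_mul])
  unfold l32Tr trCode
  rw [trace_eq]
  simp only [hiff g _ rfl, h2, h4, h3]
  have hc : ∀ a b : ℕ, decQ s (((a : ZMod 5), (b : ZMod 5)) : Q2 5) = (a : F) + (b : F) * s := fun a b => by
    simp only [decQ, map_natCast]
  have e30 : decQ s ((3, 0) : Q2 5) = 3 := by simpa using hc 3 0
  have e40 : decQ s ((4, 0) : Q2 5) = -1 := by
    have := hc 4 0
    simp only [Nat.cast_ofNat, Nat.cast_zero, zero_mul, add_zero] at this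
    rw [this]; linear_combination h5
  have e10 : decQ s ((1, 0) : Q2 5) = 1 := by simpa using hc 1 0
  have e00 : decQ s ((0, 0) : Q2 5) = 0 := by simpa using hc 0 0
  have e21 : decQ s ((2, 1) : Q2 5) = -1 - decQ s ((2, 4) : Q2 5) := by
    have h1 := hc 2 1
    have h4' := hc 2 4
    simp only [Nat.cast_ofNat, Nat.cast_one, one_mul] at h1 h4'
    rw [h1, h4']; linear_combination (s + 1) * h5
  split_ifs
  exacts [e30, e40, e10, e00, rfl, e21]

/-- The representation lies in the special unitary group and fixes the lines of the model. -/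
lemma rep_mem (hs : s ^ 2 = 2) {σ : F ≃+* F} (hu : UnitarySetup 3 5 σ) (g : S7) :
    rep hs g ∈ (Cfsg.GU 3 F 5 ⊓ Cfsg.Geo.specialLinear (Fin 3) F) ⊓ a7Stab s := by
  obtain ⟨R, hR, hRU, hRM, -, hRS⟩ := cert_a7DR.exists_gl hs hu (by norm_num) (by decide)
  obtain ⟨A, hA, hAU, hAM, -, hAS⟩ := cert_a7A.exists_gl hs hu (by norm_num) (by decide)
  obtain ⟨D, hD, hDU, hDM, -, hDS⟩ := cert_a7D2.exists_gl hs hu (by norm_num) (by decide)
  obtain ⟨T, hT, hTU, hTM, -, hTS⟩ := cert_a7T.exists_gl hs hu (by norm_num) (by decide)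
  have hgen : ∀ b, decM s (gen5 b) = ((rep hs (gS b) : GL (Fin 3) F) : Matrix (Fin 3) (Fin 3) F) := fun b => by
    have := idx_mul_gen 1 b
    rw [one_mul, idx_one] at this
    rw [rep_val, this, show (0 : ℕ) = ((0 : Fin 168) : ℕ) from rfl,
      show img (step b (0 : Fin 168)) = mm5 (img (0 : Fin 168)) (gen5 b) from
        funext fun i => funext (img_step b 0 i), decM_mm5 hs,
      show img (0 : Fin 168) = idm from funext fun i => funext (img_zero i), decM_idm, one_mul]
  refine induction (p := fun g => rep hs g ∈ (Cfsg.GU 3 F 5 ⊓ Cfsg.Geo.specialLinear (Fin 3) F) ⊓ a7Stab s)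
    (by rw [map_one]; exact one_mem _) (fun g b ih => ?_) g
  rw [map_mul]
  refine mul_mem ih ?_
  cases b
  · rw [show rep hs (gS false) = R from Units.ext (by
      rw [← hgen, hR]; exact congrArg _ (funext fun i => funext (gen5_false i)))]
    exact ⟨⟨hRU, hRS det_a7DR⟩, hRM⟩
  · rw [show rep hs (gS true) = A * D * T from Units.ext (by
      rw [← hgen, Units.val_mul, Units.val_mul, hA, hD, hT, ← decM_mm5 hs, ← decM_mm5 hs]
      exact congrArg _ (funext fun i => funext (gen5_true i)))]
    exact mul_mem (mul_mem ⟨⟨hAU, hAS det_a7A⟩, hAM⟩ ⟨⟨hDU, hDS det_a7D2⟩, hDM⟩)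
      ⟨⟨hTU, hTS det_a7T⟩, hTM⟩

end Rep

end CfsgLib.SLThreeResidual.SevenFive
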