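import Cfsg.Agent.Lib.SLThreeResidual.SevenFive

/-!
# Finite checks on the tables of `SL₃(2)`
-/

set_option autoImplicit false
set_option maxRecDepth 4000

namespace CfsgLib.SLThreeResidual.SevenFive

open CfsgLib.SmallDim.UThree

/-- Every involution is conjugate to the first generator. -/
lemma conj_first : ∀ x : Fin 168, (∀ i j, mul2 (elt x) (elt x) i j = one2 i j) →
    ¬ (∀ i j, elt x i j = one2 i j) →
    ∃ k : Fin 168, ∀ i j, mul2 (elt k) (gen2 false) i j = mul2 (elt x) (elt k) i j := by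
  decide +kernel

/-- The partners of the first generator. -/
lemma conj_second : ∀ y : Fin 168, ¬ (∀ i j, elt y i j = one2 i j) →
    (∀ i j, mul2 (mul2 (elt y) (elt y)) (elt y) i j = one2 i j) →
    (let u := mul2 (gen2 false) (elt y)
     ∀ i j, mul2 (mul2 (mul2 (mul2 u u) (mul2 u u)) (mul2 u u)) u i j = one2 i j) →
    (let c := mul2 (mul2 (gen2 false) (elt y)) (mul2 (gen2 false) (mul2 (elt y) (elt y)))
     ∀ i j, mul2 (mul2 c c) (mul2 c c) i j = one2 i j) →
    tr2 (mul2 (gen2 false) (elt y)) = tr2 (mul2 (gen2 false) (gen2 true)) →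
    ∃ k : Fin 168, (∀ i j, mul2 (elt k) (gen2 false) i j = mul2 (gen2 false) (elt k) i j) ∧
      ∀ i j, mul2 (elt k) (gen2 true) i j = mul2 (elt y) (elt k) i j := by
  decide +kernel

lemma gen_rels :
    (∀ i j, mul2 (gen2 false) (gen2 false) i j = one2 i j) ∧
    ¬ (∀ i j, gen2 false i j = one2 i j) ∧ ¬ (∀ i j, gen2 true i j = one2 i j) ∧
    (∀ i j, mul2 (mul2 (gen2 true) (gen2 true)) (gen2 true) i j = one2 i j) ∧
    (let u := mul2 (gen2 false) (gen2 true)
     (∀ i j, mul2 (mul2 (mul2 (mul2 u u) (mul2 u u)) (mul2 u u)) u i j = one2 i j) ∧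
     ¬ (∀ i j, mul2 u u i j = one2 i j) ∧
     ¬ (∀ i j, mul2 (mul2 u u) (mul2 u u) i j = one2 i j) ∧
     ¬ (∀ i j, mul2 (mul2 u u) u i j = one2 i j)) ∧
    (let c := mul2 (mul2 (gen2 false) (gen2 true)) (mul2 (gen2 false) (mul2 (gen2 true) (gen2 true)))
     ∀ i j, mul2 (mul2 c c) (mul2 c c) i j = one2 i j) := by
  decide +kernel

/-- Outside the elements of order at most four, exactly one of `g`, `g⁻¹` has trace zero. -/
lemma trace_swap : ∀ k l : Fin 168, (∀ i j, mul2 (elt k) (elt l) i j = one2 i j) →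
    ¬ (∀ i j, mul2 (mul2 (elt k) (elt k)) (mul2 (elt k) (elt k)) i j = one2 i j) →
    ¬ (∀ i j, mul2 (mul2 (elt k) (elt k)) (elt k) i j = one2 i j) →
    (tr2 (elt k) = 0 ↔ ¬ tr2 (elt l) = 0) := by
  decide +kernel

/-- An element of the model outside the scalar multiples of the representation. -/
lemma extra_not_rep : ∀ (k : Fin 168) (z : ZMod 5 × ZMod 5),
    ¬ ∀ i j, a7D1 i j = qm z (img k i j) := by
  decide +kernel

end CfsgLib.SLThreeResidual.SevenFive
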